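import Mathlib
import Cfsg.Agent.Lib.helper12.DkEven

set_option autoImplicit false

namespace Cfsg.Agent.Lib.helper12

open scoped MatrixGroups

section solarith

theorem sol_dvd_two (q d : ℕ) (hq : 1 ≤ q) (h1 : d ∣ q + 1) (h2 : d ∣ q * (q - 1)) : d ∣ 2 := by
  have h1' : (d : ℤ) ∣ (q : ℤ) + 1 := by exact_mod_cast h1
  have h2' : (d : ℤ) ∣ (q : ℤ) * ((q : ℤ) - 1) := by
    have := Int.natCast_dvd_natCast.2 h2
    rwa [Nat.cast_mul, Nat.cast_sub hq, Nat.cast_one] at this
  have h3 : (d : ℤ) ∣ 2 := by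
    have e : (2 : ℤ) = (q : ℤ) * ((q : ℤ) - 1) - ((q : ℤ) + 1) * ((q : ℤ) - 2) := by ring
    rw [e]
    exact dvd_sub h2' (Dvd.dvd.mul_right h1' _)
  exact_mod_cast h3

theorem sol_dvd_two' (q d : ℕ) (hq : 1 ≤ q) (h1 : d ∣ q + 1) (h2 : d ∣ q - 1) : d ∣ 2 := by
  have := Nat.dvd_sub h1 h2
  have e : q + 1 - (q - 1) = 2 := by omega
  rwa [e] at this

theorem sol_eq_one (m d : ℕ) (hm : m % 2 = 1) (h1 : d ∣ m) (h2 : d ∣ 2) : d = 1 := by
  rcases (Nat.dvd_prime Nat.prime_two).1 h2 with h | h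
  · exact h
  · exfalso
    rw [h] at h1
    omega

theorem sol_coprime_two (m : ℕ) (hm : m % 2 = 1) : Nat.Coprime m 2 :=
  Nat.coprime_comm.1 ((Nat.Prime.coprime_iff_not_dvd Nat.prime_two).2 (by omega))

theorem sol_sq_ne_one {G : Type*} [Group G] (x : G) (hx : x ≠ 1) (m : ℕ) (hm : m % 2 = 1)
    (ho : orderOf x ∣ m) : x * x ≠ 1 := by
  intro h
  have h3 : orderOf x ∣ 2 := orderOf_dvd_of_pow_eq_one (by rw [pow_two]; exact h)
  exact hx (orderOf_eq_one_iff.1 (sol_eq_one m _ hm ho h3))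

end solarith

section sol

variable {F : Type*} [Field F] [Fintype F]

/-- The subfield case gives an isomorphism with `PSL₂` of a subfield (characteristic 2). -/
theorem dks_iso_char_two (h2 : (2 : F) = 0) (M : Subgroup PSL(2, F))
    (h : DkS (M.comap (QuotientGroup.mk' (Subgroup.center SL(2, F))))) :
    ∃ (K' : Type) (_ : Field K') (_ : Fintype K') (m : ℕ),
      Fintype.card K' ^ m = Fintype.card F ∧ (2 : K') = 0 ∧ Nonempty (M ≃* PSL(2, K')) := by
  classical
  obtain ⟨K, e, he, h1, h2'⟩ := h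
  obtain ⟨Hh, hHh⟩ : ∃ Hh : Subgroup SL(2, F),
      Hh = M.comap (QuotientGroup.mk' (Subgroup.center SL(2, F))) := ⟨_, rfl⟩
  rw [← hHh] at h1 h2'
  have hmap : Hh.map (QuotientGroup.mk' (Subgroup.center SL(2, F))) = M := by
    rw [hHh]
    exact Subgroup.map_comap_eq_self_of_surjective (QuotientGroup.mk'_surjective _) M
  obtain ⟨K', iK, iF, ι, m, hm, hK'⟩ := exists_galois_model K
  have h2K' : (2 : K') = 0 := by
    apply ι.injective
    rw [map_ofNat, map_zero]
    exact h2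
  refine ⟨K', iK, iF, m, hm, h2K', ?_⟩
  have hI1 : ∀ N : SL(2, K'), Matrix.SpecialLinearGroup.map ι N ∈ Hh.map e.toMonoidHom :=
    fun N => h1 _ (fun i j => (hK' _).2 ⟨(N : Matrix (Fin 2) (Fin 2) K') i j, rfl⟩)
  have hI2 : ∀ ν ∈ Hh.map e.toMonoidHom, ∃ (Mx : GL (Fin 2) K') (u : Fˣ), ∀ i j,
      (ν : Matrix (Fin 2) (Fin 2) F) i j * (u : F) = ι (Mx i j) := by
    intro ν hν
    obtain ⟨γ, hγ, h⟩ := h2' ν hν
    exact exists_GL_entries ι ν γ hγ (fun i j => (hK' _).1 (h i j))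
  obtain ⟨e₀⟩ := map_mk_equiv e Hh
  rw [hmap] at e₀
  rcases pgl_dichotomy ι (Hh.map e.toMonoidHom) hI1 hI2 with ⟨⟨f⟩⟩ | ⟨⟨f⟩⟩
  · exact ⟨e₀.trans f⟩
  · obtain ⟨g⟩ := pgl_equiv_psl_char_two K' h2K'
    exact ⟨e₀.trans (f.trans g)⟩

/-- Proper subgroups of `PSL₂(2^p)`, `p` prime, lie in a torus normaliser or a Borel subgroup. -/
theorem even_proper (p : ℕ) (hp : p.Prime) (hF : Fintype.card F = 2 ^ p) (h2 : (2 : F) = 0)
    (H : Subgroup PSL(2, F)) (hH : H ≠ ⊤) :
    H = ⊥ ∨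
    (∃ x : PSL(2, F), x ≠ 1 ∧ trSq x ≠ 4 ∧
      H ≤ Subgroup.normalizer ((Mq x : Subgroup PSL(2, F)) : Set PSL(2, F))) ∨
    (∃ x : PSL(2, F), x ≠ 1 ∧ trSq x = 4 ∧
      H ≤ Subgroup.normalizer ((Mq x : Subgroup PSL(2, F)) : Set PSL(2, F))) := by
  classical
  haveI : CharP F 2 := CharTwo.of_one_ne_zero_of_two_eq_zero one_ne_zero h2
  haveI : Fact (Nat.Prime 2) := ⟨Nat.prime_two⟩
  have key : DkS (H.comap (QuotientGroup.mk' (Subgroup.center SL(2, F)))) →
      ∃ x : PSL(2, F), x ≠ 1 ∧ trSq x ≠ 4 ∧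
        H ≤ Subgroup.normalizer ((Mq x : Subgroup PSL(2, F)) : Set PSL(2, F)) := by
    intro h
    obtain ⟨K', iK, iF, m, hm, h2K', ⟨f⟩⟩ := dks_iso_char_two h2 H h
    haveI : CharP K' 2 := CharTwo.of_one_ne_zero_of_two_eq_zero one_ne_zero h2K'
    obtain ⟨n, hprime, hcard⟩ := FiniteField.card K' 2
    have hpow : 2 ^ ((n : ℕ) * m) = 2 ^ p := by rw [pow_mul, ← hcard, hm, hF]
    have hnm : (n : ℕ) * m = p := Nat.pow_right_injective (le_refl 2) hpow
    have hn1 : (n : ℕ) = 1 ∨ m = 1 := by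
      rcases (Nat.dvd_prime hp).1 (Dvd.intro _ hnm) with h | h
      · left; exact h
      · right
        rw [h] at hnm
        have hp0 := hp.pos
        exact Nat.eq_of_mul_eq_mul_left hp0 (by rw [hnm, mul_one])
    rcases hn1 with h | h
    · have hK2 : Fintype.card K' = 2 := by rw [hcard, h, pow_one]
      have hc6 : Nat.card H = 6 := by
        rw [Nat.card_congr f.toEquiv, (even_facts h2K').2, hK2]
        norm_num
      exact even_six h2 H hc6
    · exfalso
      apply hH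
      have hKF : Fintype.card K' = Fintype.card F := by rw [← hm, h, pow_one]
      apply Subgroup.eq_top_of_card_eq
      rw [Nat.card_congr f.toEquiv, (even_facts h2K').2, (even_facts h2).2, hKF]
  rcases dk_finalS 2 H with h | ⟨x, hx, hs, hle⟩ | ⟨x, hx, ht, hle⟩ | ⟨⟨f⟩⟩ | ⟨⟨f⟩⟩ | ⟨⟨f⟩⟩ | h
  · exact Or.inl h
  · exact Or.inr (Or.inl ⟨x, hx, hs, hle⟩)
  · exact Or.inr (Or.inr ⟨x, hx, ht, hle⟩)
  · exact Or.inr (Or.inr (even_a4 h2 H f))
  · exact (even_s4 h2 H f).elim
  · exact Or.inr (Or.inl (key (even_a5 h2 H f)))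
  · exact Or.inr (Or.inl (key h))

/-- Pairs lying in a common torus normaliser or Borel subgroup. -/
def SolP (x y : PSL(2, F)) : Prop :=
  (∃ z : PSL(2, F), z ≠ 1 ∧ trSq z ≠ 4 ∧
    x ∈ Subgroup.normalizer ((Mq z : Subgroup PSL(2, F)) : Set PSL(2, F)) ∧
    y ∈ Subgroup.normalizer ((Mq z : Subgroup PSL(2, F)) : Set PSL(2, F))) ∨
  (∃ z : PSL(2, F), z ≠ 1 ∧ trSq z = 4 ∧
    x ∈ Subgroup.normalizer ((Mq z : Subgroup PSL(2, F)) : Set PSL(2, F)) ∧
    y ∈ Subgroup.normalizer ((Mq z : Subgroup PSL(2, F)) : Set PSL(2, F)))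

theorem sol_iff_SolP (p : ℕ) (hp : p.Prime) (hF : Fintype.card F = 2 ^ p) (h2 : (2 : F) = 0)
    (x y : PSL(2, F)) (hx : x ≠ 1) :
    Group.IsSolvable ↥(Subgroup.closure ({x, y} : Set PSL(2, F))) ↔ SolP x y := by
  classical
  haveI : CharP F 2 := CharTwo.of_one_ne_zero_of_two_eq_zero one_ne_zero h2
  haveI : Fact (Nat.Prime 2) := ⟨Nat.prime_two⟩
  have h4 : 4 ≤ Fintype.card F := by
    rw [hF]
    calc 4 = 2 ^ 2 := by norm_num
      _ ≤ 2 ^ p := Nat.pow_le_pow_right (by norm_num) hp.two_le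
  have hxm : x ∈ Subgroup.closure ({x, y} : Set PSL(2, F)) :=
    Subgroup.subset_closure (by simp)
  have hym : y ∈ Subgroup.closure ({x, y} : Set PSL(2, F)) :=
    Subgroup.subset_closure (by simp)
  constructor
  · intro hsolv
    have hH : Subgroup.closure ({x, y} : Set PSL(2, F)) ≠ ⊤ := by
      intro htop
      rw [htop] at hsolv
      exact PSL2_not_solvable h4 (solv_of_iso Subgroup.topEquiv.symm hsolv)
    rcases even_proper p hp hF h2 _ hH with h | ⟨z, hz, hs, hle⟩ | ⟨z, hz, ht, hle⟩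
    · exfalso
      rw [h] at hxm
      exact hx (Subgroup.mem_bot.1 hxm)
    · exact Or.inl ⟨z, hz, hs, hle hxm, hle hym⟩
    · exact Or.inr ⟨z, hz, ht, hle hxm, hle hym⟩
  · rintro (⟨z, hz, hs, hxz, hyz⟩ | ⟨z, hz, ht, hxz, hyz⟩)
    · have hle : Subgroup.closure ({x, y} : Set PSL(2, F)) ≤
          Subgroup.normalizer ((Mq z : Subgroup PSL(2, F)) : Set PSL(2, F)) := by
        rw [Subgroup.closure_le]
        rintro w (rfl | rfl)
        · exact hxz
        · exact hyz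
      obtain ⟨⟨f⟩, -⟩ := normalizer_Mq_semi_dihedral z hz hs
      haveI := solv_of_iso f (solv_dihedral _)
      exact Group.isSolvable_of_isSolvable_injective (Subgroup.inclusion_injective hle)
    · have hle : Subgroup.closure ({x, y} : Set PSL(2, F)) ≤
          Subgroup.normalizer ((Mq z : Subgroup PSL(2, F)) : Set PSL(2, F)) := by
        rw [Subgroup.closure_le]
        rintro w (rfl | rfl)
        · exact hxz
        · exact hyz
      haveI : Group.IsSolvable (Subgroup.normalizer ((Mq z : Subgroup PSL(2, F)) :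
          Set PSL(2, F))) := solv_borel 2 (sylowMq 2 z hz ht)
      exact Group.isSolvable_of_isSolvable_injective (Subgroup.inclusion_injective hle)

theorem sol_conj_card {G : Type*} [Group G] (κ x₀ : G) :
    Nat.card {y : G // Group.IsSolvable ↥(Subgroup.closure ({κ * x₀ * κ⁻¹, y} : Set G))} =
    Nat.card {y : G // Group.IsSolvable ↥(Subgroup.closure ({x₀, y} : Set G))} := by
  apply Nat.card_congr
  refine Equiv.subtypeEquiv (MulAut.conj κ).symm.toEquiv (fun y => ?_)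
  have e : (Subgroup.closure ({x₀, (MulAut.conj κ).symm y} : Set G)).map
      (MulAut.conj κ).toMonoidHom = Subgroup.closure ({κ * x₀ * κ⁻¹, y} : Set G) := by
    rw [MonoidHom.map_closure, Set.image_pair]
    simp only [MulEquiv.coe_toMonoidHom, MulAut.conj_apply, MulAut.conj_symm_apply]
    have : κ * (κ⁻¹ * y * κ) * κ⁻¹ = y := by group
    rw [this]
  have f := (Subgroup.closure ({x₀, (MulAut.conj κ).symm y} : Set G)).equivMapOfInjective
    (MulAut.conj κ).toMonoidHom (MulAut.conj κ).injective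
  rw [e] at f
  exact ⟨fun h => solv_of_iso f h, fun h => solv_of_iso f.symm h⟩

theorem sol_card_plus (p : ℕ) (hp : p.Prime) (hF : Fintype.card F = 2 ^ p) (h2 : (2 : F) = 0)
    (x : PSL(2, F)) (hx : x ≠ 1) (ho : orderOf x ∣ Fintype.card F + 1) :
    Nat.card {y : PSL(2, F) // Group.IsSolvable ↥(Subgroup.closure ({x, y} : Set PSL(2, F)))} =
      2 * (Fintype.card F + 1) := by
  classical
  haveI : CharP F 2 := CharTwo.of_one_ne_zero_of_two_eq_zero one_ne_zero h2
  haveI : Fact (Nat.Prime 2) := ⟨Nat.prime_two⟩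
  obtain ⟨hg, hG⟩ := even_facts h2
  have hq2 : Fintype.card F % 2 = 0 := by
    rcases card_parity_cases (F := F) with ⟨h, -, -⟩ | ⟨-, h, -⟩
    · exact absurd h2 h
    · exact h
  have hq1 : 1 ≤ Fintype.card F := Fintype.card_pos
  have hodd : (Fintype.card F + 1) % 2 = 1 := by omega
  have ho1 : orderOf x ≠ 1 := by rwa [Ne, orderOf_eq_one_iff]
  have hpow : x ^ (Fintype.card F + 1) = 1 := orderOf_dvd_iff_pow_eq_one.1 ho
  have hs : trSq x ≠ 4 := trSq_ne_four_of_coprime 2 x hx _ hpow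
    (sol_coprime_two _ hodd)
  have hMq := Mq_semi_card x hs
  rw [hg, mul_one] at hMq
  have hxm : x ∈ Mq x := tiPart_Mq.mem x hx
  have hod : orderOf x ∣ Nat.card (Mq x) := by
    have := orderOf_dvd_natCard (⟨x, hxm⟩ : Mq x)
    rwa [Subgroup.orderOf_mk] at this
  have hcard : Nat.card (Mq x) = Fintype.card F + 1 := by
    rcases hMq with h | h
    · exfalso
      rw [h] at hod
      exact ho1 (sol_eq_one _ _ hodd ho (sol_dvd_two' _ _ hq1 ho hod))
    · exact h
  have hiff : ∀ y, Group.IsSolvable ↥(Subgroup.closure ({x, y} : Set PSL(2, F))) ↔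
      y ∈ Subgroup.normalizer ((Mq x : Subgroup PSL(2, F)) : Set PSL(2, F)) := by
    intro y
    rw [sol_iff_SolP p hp hF h2 x y hx]
    constructor
    · rintro (⟨z, hz, hsz, hxz, hyz⟩ | ⟨z, hz, htz, hxz, hyz⟩)
      · have hxin : x ∈ Mq z := by
          by_contra hnot
          have hconj : x * z * x⁻¹ ∈ Mq z :=
            (Subgroup.mem_normalizer_iff.1 hxz z).1 (tiPart_Mq.mem z hz)
          obtain ⟨hxx, -⟩ := Mq_semi_normalizer z x hz hsz hconj hnot
          exact sol_sq_ne_one x hx _ hodd ho hxx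
        rw [tiPart_Mq.eq_of_mem z x hz hx hxin]
        exact hyz
      · exfalso
        have hN := card_normalizer_Mq_unip z hz htz
        rw [hg, one_mul] at hN
        have hod2 : orderOf x ∣ Fintype.card F * (Fintype.card F - 1) := by
          rw [← hN]
          have := orderOf_dvd_natCard (⟨x, hxz⟩ :
            Subgroup.normalizer ((Mq z : Subgroup PSL(2, F)) : Set PSL(2, F)))
          rwa [Subgroup.orderOf_mk] at this
        exact ho1 (sol_eq_one _ _ hodd ho (sol_dvd_two _ _ hq1 ho hod2))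
    · intro hy
      left
      exact ⟨x, hx, hs, Subgroup.le_normalizer hxm, hy⟩
  rw [Nat.card_congr (Equiv.subtypeEquivRight hiff)]
  have := (normalizer_Mq_semi_dihedral x hx hs).2
  rw [hcard] at this
  exact this

end sol

section solalg

variable {F : Type*} [Field F]

theorem dS_00 (a : Fˣ) : ((diagSL a : SL(2, F)) : Matrix (Fin 2) (Fin 2) F) 0 0 = (a : F) := rfl
theorem dS_01 (a : Fˣ) : ((diagSL a : SL(2, F)) : Matrix (Fin 2) (Fin 2) F) 0 1 = 0 := rfl
theorem dS_10 (a : Fˣ) : ((diagSL a : SL(2, F)) : Matrix (Fin 2) (Fin 2) F) 1 0 = 0 := rfl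
theorem dS_11 (a : Fˣ) : ((diagSL a : SL(2, F)) : Matrix (Fin 2) (Fin 2) F) 1 1 = (a : F)⁻¹ := by
  rw [← Units.val_inv_eq_inv_val]
  rfl

theorem wS_00 : ((weylSL : SL(2, F)) : Matrix (Fin 2) (Fin 2) F) 0 0 = 0 := rfl
theorem wS_01 : ((weylSL : SL(2, F)) : Matrix (Fin 2) (Fin 2) F) 0 1 = 1 := rfl
theorem wS_10 : ((weylSL : SL(2, F)) : Matrix (Fin 2) (Fin 2) F) 1 0 = -1 := rfl
theorem wS_11 : ((weylSL : SL(2, F)) : Matrix (Fin 2) (Fin 2) F) 1 1 = 0 := rfl

theorem mk_lS_ne_one : (QuotientGroup.mk (lS (1 : F)) : PSL(2, F)) ≠ 1 := by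
  rw [PSL2_mk_ne_one_iff, SL2_not_scalar_iff]
  right; left
  rw [lS_10]
  exact one_ne_zero

theorem trSq_mk_lS : trSq (QuotientGroup.mk (lS (1 : F)) : PSL(2, F)) = 4 := by
  rw [trSq_mk, Matrix.trace_fin_two, lS_00, lS_11]
  norm_num

theorem mk_mem_normalizer_lS_iff (ν : SL(2, F)) :
    (QuotientGroup.mk ν : PSL(2, F)) ∈
        Subgroup.normalizer ((Mq (QuotientGroup.mk (lS (1 : F)) : PSL(2, F))) : Set PSL(2, F)) ↔
      (ν : Matrix (Fin 2) (Fin 2) F) 0 1 = 0 := by
  have hw : (weylSL : SL(2, F)) * uS (-1) * weylSL⁻¹ = lS (1 : F) := by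
    rw [conj_uS_eq_lS weylSL wS_00, wS_10]
    congr 1
    ring
  have hm1 : (-1 : F) ≠ 0 := neg_ne_zero.2 one_ne_zero
  have hne : (QuotientGroup.mk (uS (-1 : F)) : PSL(2, F)) ≠ 1 := mk_uS_ne_one hm1
  have e : (QuotientGroup.mk (lS (1 : F)) : PSL(2, F)) = QuotientGroup.mk weylSL *
      QuotientGroup.mk (uS (-1 : F)) * (QuotientGroup.mk weylSL)⁻¹ := by
    rw [← hw]; rfl
  rw [e, tiPart_Mq.conj _ _ hne, mem_normalizer_map_conj]
  have e2 : (QuotientGroup.mk weylSL : PSL(2, F))⁻¹ * QuotientGroup.mk ν * QuotientGroup.mk weylSL =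
      QuotientGroup.mk (weylSL⁻¹ * ν * weylSL) := rfl
  rw [e2, mk_mem_normalizer_uS_iff hm1]
  simp only [SL2_mul_10, SL2_mul_11, SL2_inv_10, SL2_inv_11, wS_00, wS_01, wS_10, wS_11]
  constructor
  · intro h
    linear_combination -h
  · intro h
    rw [h]
    ring

theorem dS_sub_ne (a : Fˣ) (ha : (a : F) ^ 2 ≠ 1) : (a : F)⁻¹ - (a : F) ≠ 0 := by
  have ha0 : (a : F) ≠ 0 := a.ne_zero
  intro h
  apply ha
  field_simp at h
  linear_combination -h

theorem mk_dS_ne_one (a : Fˣ) (ha : (a : F) ^ 2 ≠ 1) :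
    (QuotientGroup.mk (diagSL a) : PSL(2, F)) ≠ 1 := by
  rw [PSL2_mk_ne_one_iff, SL2_not_scalar_iff]
  right; right
  rw [dS_00, dS_11]
  intro h
  exact dS_sub_ne a ha (by rw [← h, sub_self])

theorem trSq_mk_dS (a : Fˣ) (ha : (a : F) ^ 2 ≠ 1) :
    trSq (QuotientGroup.mk (diagSL a) : PSL(2, F)) ≠ 4 := by
  have ha0 : (a : F) ≠ 0 := a.ne_zero
  rw [trSq_mk, diagSL_trace]
  intro h
  have h1 : ((a : F)⁻¹ - (a : F)) ^ 2 = 0 := by
    have : (a : F) * (a : F)⁻¹ = 1 := mul_inv_cancel₀ ha0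
    linear_combination h - 4 * this
  exact dS_sub_ne a ha (pow_eq_zero_iff (n := 2) (by norm_num) |>.1 h1)

theorem mk_mem_Mq_dS_iff (a : Fˣ) (ha : (a : F) ^ 2 ≠ 1) (ν : SL(2, F)) :
    (QuotientGroup.mk ν : PSL(2, F)) ∈ Mq (QuotientGroup.mk (diagSL a) : PSL(2, F)) ↔
      (ν : Matrix (Fin 2) (Fin 2) F) 0 1 = 0 ∧ (ν : Matrix (Fin 2) (Fin 2) F) 1 0 = 0 := by
  rw [mk_mem_Mq_iff]
  constructor
  · exact SL2_diag_of_comm_diagSL a ha ν
  · rintro ⟨h01, h10⟩
    obtain ⟨b, rfl⟩ := SL2_eq_diagSL_of_diag ν h01 h10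
    rw [← diagSL_mul, ← diagSL_mul, mul_comm]

theorem normalizer_dS_antidiag (a : Fˣ) (ha : (a : F) ^ 2 ≠ 1) (ν : SL(2, F))
    (hn : (QuotientGroup.mk ν : PSL(2, F)) ∈ Subgroup.normalizer
      ((Mq (QuotientGroup.mk (diagSL a) : PSL(2, F))) : Set PSL(2, F)))
    (hnot : (QuotientGroup.mk ν : PSL(2, F)) ∉ Mq (QuotientGroup.mk (diagSL a) : PSL(2, F))) :
    (ν : Matrix (Fin 2) (Fin 2) F) 0 0 = 0 ∧ (ν : Matrix (Fin 2) (Fin 2) F) 1 1 = 0 := by
  have hx₀ := mk_dS_ne_one a ha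
  have hs₀ := trSq_mk_dS a ha
  have hd := dS_sub_ne a ha
  have hn' : (QuotientGroup.mk (ν * diagSL a * ν⁻¹) : PSL(2, F)) ∈
      Mq (QuotientGroup.mk (diagSL a) : PSL(2, F)) :=
    (Subgroup.mem_normalizer_iff.1 hn _).1 (tiPart_Mq.mem _ hx₀)
  rw [PSL2_mk_ne_one_iff] at hx₀
  rw [trSq_mk] at hs₀
  have h1 := Mq_semi_inv (diagSL a) ν hx₀ hs₀ hn' hnot
  have h2 : ν * diagSL a = (diagSL a)⁻¹ * ν := by rw [← h1]; group
  have e00 := congrArg (fun m : SL(2, F) => (m : Matrix (Fin 2) (Fin 2) F) 0 0) h2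
  have e11 := congrArg (fun m : SL(2, F) => (m : Matrix (Fin 2) (Fin 2) F) 1 1) h2
  simp only [SL2_mul_00, SL2_mul_11, SL2_inv_00, SL2_inv_01, SL2_inv_10, SL2_inv_11, dS_00, dS_01,
    dS_10, dS_11] at e00 e11
  constructor
  · have : (ν : Matrix (Fin 2) (Fin 2) F) 0 0 * ((a : F)⁻¹ - (a : F)) = 0 := by
      linear_combination -e00
    exact (mul_eq_zero.1 this).resolve_right hd
  · have : (ν : Matrix (Fin 2) (Fin 2) F) 1 1 * ((a : F)⁻¹ - (a : F)) = 0 := by
      linear_combination e11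
    exact (mul_eq_zero.1 this).resolve_right hd

theorem SolP_dS_iff (a : Fˣ) (ha : (a : F) ^ 2 ≠ 1)
    (hsq : (QuotientGroup.mk (diagSL a) : PSL(2, F)) * QuotientGroup.mk (diagSL a) ≠ 1)
    (y : PSL(2, F)) :
    SolP (QuotientGroup.mk (diagSL a)) y ↔
      y ∈ Subgroup.normalizer ((Mq (QuotientGroup.mk (diagSL a) : PSL(2, F))) : Set PSL(2, F)) ∨
      y ∈ Subgroup.normalizer ((Mq (QuotientGroup.mk (uS (1 : F)) : PSL(2, F))) : Set PSL(2, F)) ∨
      y ∈ Subgroup.normalizer ((Mq (QuotientGroup.mk (lS (1 : F)) : PSL(2, F))) : Set PSL(2, F)) := by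
  have hx₀ := mk_dS_ne_one a ha
  have hs₀ := trSq_mk_dS a ha
  have hd := dS_sub_ne a ha
  constructor
  · rintro (⟨z, hz, hsz, hxz, hyz⟩ | ⟨z, hz, htz, hxz, hyz⟩)
    · left
      have hxin : (QuotientGroup.mk (diagSL a) : PSL(2, F)) ∈ Mq z := by
        by_contra hnot
        have hconj : (QuotientGroup.mk (diagSL a) : PSL(2, F)) * z * (QuotientGroup.mk (diagSL a))⁻¹ ∈
            Mq z := (Subgroup.mem_normalizer_iff.1 hxz z).1 (tiPart_Mq.mem z hz)
        obtain ⟨hxx, -⟩ := Mq_semi_normalizer z _ hz hsz hconj hnot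
        exact hsq hxx
      rw [tiPart_Mq.eq_of_mem z _ hz hx₀ hxin]
      exact hyz
    · right
      obtain ⟨g, rfl⟩ := QuotientGroup.mk_surjective z
      rw [trSq_mk] at htz
      rw [PSL2_mk_ne_one_iff] at hz
      obtain ⟨k, a', ha', -, e⟩ := Mq_unip_conj g hz htz
      rw [e, mem_normalizer_map_conj] at hxz hyz
      obtain ⟨ν, rfl⟩ := QuotientGroup.mk_surjective y
      have e1 : (QuotientGroup.mk k : PSL(2, F))⁻¹ * QuotientGroup.mk (diagSL a) * QuotientGroup.mk k =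
          QuotientGroup.mk (k⁻¹ * diagSL a * k) := rfl
      have e2 : (QuotientGroup.mk k : PSL(2, F))⁻¹ * QuotientGroup.mk ν * QuotientGroup.mk k =
          QuotientGroup.mk (k⁻¹ * ν * k) := rfl
      rw [e1, mk_mem_normalizer_uS_iff ha'] at hxz
      rw [e2, mk_mem_normalizer_uS_iff ha'] at hyz
      simp only [SL2_mul_10, SL2_mul_11, SL2_mul_00, SL2_mul_01, SL2_inv_10, SL2_inv_11, dS_00,
        dS_01, dS_10, dS_11] at hxz hyz
      have hdet := SL2_det_eq k
      have hk : (k : Matrix (Fin 2) (Fin 2) F) 0 0 * (k : Matrix (Fin 2) (Fin 2) F) 1 0 = 0 := by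
        have : (k : Matrix (Fin 2) (Fin 2) F) 0 0 * (k : Matrix (Fin 2) (Fin 2) F) 1 0 *
            ((a : F)⁻¹ - (a : F)) = 0 := by linear_combination hxz
        exact (mul_eq_zero.1 this).resolve_right hd
      rcases mul_eq_zero.1 hk with h00 | h10
      · right
        rw [mk_mem_normalizer_lS_iff]
        rw [h00] at hyz hdet
        have hk10 : (k : Matrix (Fin 2) (Fin 2) F) 1 0 ≠ 0 := by
          intro h
          rw [h] at hdet
          simp at hdet
        have : (k : Matrix (Fin 2) (Fin 2) F) 1 0 * (k : Matrix (Fin 2) (Fin 2) F) 1 0 *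
            (ν : Matrix (Fin 2) (Fin 2) F) 0 1 = 0 := by linear_combination -hyz
        exact (mul_eq_zero.1 this).resolve_left (mul_ne_zero hk10 hk10)
      · left
        rw [mk_mem_normalizer_uS_iff one_ne_zero]
        rw [h10] at hyz hdet
        have hk00 : (k : Matrix (Fin 2) (Fin 2) F) 0 0 ≠ 0 := by
          intro h
          rw [h] at hdet
          simp at hdet
        have : (k : Matrix (Fin 2) (Fin 2) F) 0 0 * (k : Matrix (Fin 2) (Fin 2) F) 0 0 *
            (ν : Matrix (Fin 2) (Fin 2) F) 1 0 = 0 := by linear_combination hyz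
        exact (mul_eq_zero.1 this).resolve_left (mul_ne_zero hk00 hk00)
  · rintro (h | h | h)
    · left
      exact ⟨_, hx₀, hs₀, Subgroup.le_normalizer (tiPart_Mq.mem _ hx₀), h⟩
    · right
      refine ⟨_, mk_uS_ne_one one_ne_zero, trSq_mk_uS 1, ?_, h⟩
      rw [mk_mem_normalizer_uS_iff one_ne_zero]
      exact dS_10 a
    · right
      refine ⟨_, mk_lS_ne_one, trSq_mk_lS, ?_, h⟩
      rw [mk_mem_normalizer_lS_iff]
      exact dS_01 a

end solalg

section solcount

variable {F : Type*} [Field F] [Fintype F]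

theorem sol_ncard_subgroup {G : Type*} [Group G] (K : Subgroup G) :
    ((K : Set G)).ncard = Nat.card K := by
  rw [← Nat.card_coe_set_eq]
  rfl

theorem sol_card_dS (h2 : (2 : F) = 0) (a : Fˣ) (ha : (a : F) ^ 2 ≠ 1)
    (hsq : (QuotientGroup.mk (diagSL a) : PSL(2, F)) * QuotientGroup.mk (diagSL a) ≠ 1) :
    ({y : PSL(2, F) | SolP (QuotientGroup.mk (diagSL a)) y}).ncard =
      2 * Fintype.card F * (Fintype.card F - 1) := by
  classical
  obtain ⟨hg, hG⟩ := even_facts h2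
  have hx₀ := mk_dS_ne_one a ha
  have hs₀ := trSq_mk_dS a ha
  obtain ⟨T, hT⟩ : ∃ T : Subgroup PSL(2, F), T = Mq (QuotientGroup.mk (diagSL a)) := ⟨_, rfl⟩
  obtain ⟨N, hN⟩ : ∃ N : Subgroup PSL(2, F), N = Subgroup.normalizer
      ((Mq (QuotientGroup.mk (diagSL a) : PSL(2, F))) : Set PSL(2, F)) := ⟨_, rfl⟩
  obtain ⟨U, hU⟩ : ∃ U : Subgroup PSL(2, F), U = Subgroup.normalizer
      ((Mq (QuotientGroup.mk (uS (1 : F)) : PSL(2, F))) : Set PSL(2, F)) := ⟨_, rfl⟩
  obtain ⟨L, hL⟩ : ∃ L : Subgroup PSL(2, F), L = Subgroup.normalizer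
      ((Mq (QuotientGroup.mk (lS (1 : F)) : PSL(2, F))) : Set PSL(2, F)) := ⟨_, rfl⟩
  have hTN : T ≤ N := by
    rw [hT, hN]
    exact Subgroup.le_normalizer
  have hTU : T ≤ U := by
    intro y hy
    obtain ⟨ν, rfl⟩ := QuotientGroup.mk_surjective y
    rw [hT, mk_mem_Mq_dS_iff a ha] at hy
    rw [hU, mk_mem_normalizer_uS_iff one_ne_zero]
    exact hy.2
  have hTL : T ≤ L := by
    intro y hy
    obtain ⟨ν, rfl⟩ := QuotientGroup.mk_surjective y
    rw [hT, mk_mem_Mq_dS_iff a ha] at hy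
    rw [hL, mk_mem_normalizer_lS_iff]
    exact hy.1
  have hUL : (U : Set PSL(2, F)) ∩ L = T := by
    ext y
    constructor
    · rintro ⟨hyU, hyL⟩
      obtain ⟨ν, rfl⟩ := QuotientGroup.mk_surjective y
      rw [SetLike.mem_coe, hU, mk_mem_normalizer_uS_iff one_ne_zero] at hyU
      rw [SetLike.mem_coe, hL, mk_mem_normalizer_lS_iff] at hyL
      rw [SetLike.mem_coe, hT, mk_mem_Mq_dS_iff a ha]
      exact ⟨hyL, hyU⟩
    · intro hy
      exact ⟨hTU hy, hTL hy⟩
  have hdisj : Disjoint ((U : Set PSL(2, F)) ∪ L) ((N : Set PSL(2, F)) \ T) := by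
    rw [Set.disjoint_left]
    rintro y hy ⟨hyN, hyT⟩
    obtain ⟨ν, rfl⟩ := QuotientGroup.mk_surjective y
    rw [SetLike.mem_coe, hN] at hyN
    rw [SetLike.mem_coe, hT] at hyT
    obtain ⟨h00, h11⟩ := normalizer_dS_antidiag a ha ν hyN hyT
    have hdet := SL2_det_eq ν
    rw [h00, h11] at hdet
    rcases hy with hy | hy
    · rw [SetLike.mem_coe, hU, mk_mem_normalizer_uS_iff one_ne_zero] at hy
      rw [hy] at hdet
      simp at hdet
    · rw [SetLike.mem_coe, hL, mk_mem_normalizer_lS_iff] at hy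
      rw [hy] at hdet
      simp at hdet
  have hset : {y : PSL(2, F) | SolP (QuotientGroup.mk (diagSL a)) y} =
      ((U : Set PSL(2, F)) ∪ L) ∪ ((N : Set PSL(2, F)) \ T) := by
    ext y
    rw [Set.mem_ofPred_eq, SolP_dS_iff a ha hsq y, ← hN, ← hU, ← hL]
    constructor
    · rintro (h | h | h)
      · by_cases hyT : y ∈ T
        · exact Or.inl (Or.inl (hTU hyT))
        · exact Or.inr ⟨h, hyT⟩
      · exact Or.inl (Or.inl h)
      · exact Or.inl (Or.inr h)
    · rintro ((h | h) | ⟨h, -⟩)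
      · exact Or.inr (Or.inl h)
      · exact Or.inr (Or.inr h)
      · exact Or.inl h
  have hcU : Nat.card U = Fintype.card F * (Fintype.card F - 1) := by
    have := card_normalizer_Mq_unip _ (mk_uS_ne_one (F := F) one_ne_zero) (trSq_mk_uS 1)
    rwa [hg, one_mul, ← hU] at this
  have hcL : Nat.card L = Fintype.card F * (Fintype.card F - 1) := by
    have := card_normalizer_Mq_unip _ (mk_lS_ne_one (F := F)) trSq_mk_lS
    rwa [hg, one_mul, ← hL] at this
  have hcT : Nat.card T = Fintype.card F - 1 := by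
    rw [hT, Mq_mk, Subgroup.card_map_of_injective (PSL2_mk_injective_char_two h2)]
    exact card_centralizer_of_split (diagSL a) a ha (diagSL_trace a)
  have hcN : Nat.card N = 2 * (Fintype.card F - 1) := by
    have := (normalizer_Mq_semi_dihedral _ hx₀ hs₀).2
    rw [← hN, ← hT, hcT] at this
    exact this
  rw [hset, Set.ncard_union_eq hdisj, Set.ncard_diff (SetLike.coe_subset_coe.2 hTN)]
  have h3 := Set.ncard_union_add_ncard_inter (U : Set PSL(2, F)) (L : Set PSL(2, F))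
  rw [hUL] at h3
  simp only [sol_ncard_subgroup] at h3 ⊢
  rw [hcU, hcL, hcT] at h3
  rw [hcN, hcT]
  have hq1 : 1 ≤ Fintype.card F := Fintype.card_pos
  obtain ⟨m, hm⟩ : ∃ m, m = Fintype.card F * (Fintype.card F - 1) := ⟨_, rfl⟩
  have hle : Fintype.card F - 1 ≤ m := by
    rw [hm]
    exact Nat.le_mul_of_pos_left _ hq1
  have e : 2 * Fintype.card F * (Fintype.card F - 1) = 2 * m := by rw [hm]; ring
  rw [e]
  rw [← hm] at h3
  omega

theorem sol_card_minus (p : ℕ) (hp : p.Prime) (hF : Fintype.card F = 2 ^ p) (h2 : (2 : F) = 0)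
    (x : PSL(2, F)) (hx : x ≠ 1) (ho : orderOf x ∣ Fintype.card F - 1) :
    Nat.card {y : PSL(2, F) // Group.IsSolvable ↥(Subgroup.closure ({x, y} : Set PSL(2, F)))} =
      2 * Fintype.card F * (Fintype.card F - 1) := by
  classical
  haveI : CharP F 2 := CharTwo.of_one_ne_zero_of_two_eq_zero one_ne_zero h2
  haveI : Fact (Nat.Prime 2) := ⟨Nat.prime_two⟩
  have hq2 : Fintype.card F % 2 = 0 := by
    rcases card_parity_cases (F := F) with ⟨h, -, -⟩ | ⟨-, h, -⟩
    · exact absurd h2 h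
    · exact h
  have hq1 : 2 ≤ Fintype.card F := Fintype.one_lt_card
  have hodd : (Fintype.card F - 1) % 2 = 1 := by omega
  have ho1 : orderOf x ≠ 1 := by rwa [Ne, orderOf_eq_one_iff]
  have hsq : x * x ≠ 1 := sol_sq_ne_one x hx _ hodd ho
  have hpow : x ^ (Fintype.card F - 1) = 1 := orderOf_dvd_iff_pow_eq_one.1 ho
  have hs : trSq x ≠ 4 := trSq_ne_four_of_coprime 2 x hx _ hpow (sol_coprime_two _ hodd)
  obtain ⟨g, rfl⟩ := QuotientGroup.mk_surjective x
  rw [trSq_mk] at hs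
  rcases SL2_trichotomy g with h | ⟨a, ha, htr⟩ | h
  · exact absurd h hs
  · obtain ⟨c, hc⟩ := isConj_iff.1 (SL2_isConj_diagSL g a ha htr)
    have e : (QuotientGroup.mk g : PSL(2, F)) = QuotientGroup.mk c * QuotientGroup.mk (diagSL a) *
        (QuotientGroup.mk c)⁻¹ := by
      rw [← hc]; rfl
    have hsq₀ : (QuotientGroup.mk (diagSL a) : PSL(2, F)) * QuotientGroup.mk (diagSL a) ≠ 1 := by
      intro h0
      apply hsq
      rw [e]
      calc (QuotientGroup.mk c : PSL(2, F)) * QuotientGroup.mk (diagSL a) * (QuotientGroup.mk c)⁻¹ *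
            (QuotientGroup.mk c * QuotientGroup.mk (diagSL a) * (QuotientGroup.mk c)⁻¹)
          = QuotientGroup.mk c * (QuotientGroup.mk (diagSL a) * QuotientGroup.mk (diagSL a)) *
            (QuotientGroup.mk c)⁻¹ := by group
        _ = 1 := by rw [h0]; group
    rw [e, sol_conj_card,
      Nat.card_congr (Equiv.subtypeEquivRight
        (fun y => sol_iff_SolP p hp hF h2 _ y (mk_dS_ne_one a ha))),
      ← sol_card_dS h2 a ha hsq₀, ← Nat.card_coe_set_eq]
    rfl
  · exfalso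
    have hcard : Nat.card (Mq (QuotientGroup.mk g : PSL(2, F))) = Fintype.card F + 1 := by
      rw [Mq_mk, Subgroup.card_map_of_injective (PSL2_mk_injective_char_two h2)]
      exact card_centralizer_of_elliptic g h
    have hod : orderOf (QuotientGroup.mk g : PSL(2, F)) ∣ Fintype.card F + 1 := by
      rw [← hcard]
      have := orderOf_dvd_natCard (⟨_, tiPart_Mq.mem _ hx⟩ : Mq (QuotientGroup.mk g : PSL(2, F)))
      rwa [Subgroup.orderOf_mk] at this
    exact ho1 (sol_eq_one _ _ hodd ho (sol_dvd_two' _ _ (by omega) hod ho))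

end solcount

section solinv

variable {F : Type*} [Field F] [Fintype F]

/-- Two non-commuting involutions lie in a common torus normaliser (characteristic 2). -/
theorem sol_inv_pair (h2 : (2 : F) = 0) (x w : PSL(2, F)) (hx : x ≠ 1) (ht : trSq x = 4)
    (hxx : x * x = 1) (hww : w * w = 1) (hw : w ∉ Mq x) :
    ∃ z : PSL(2, F), z ≠ 1 ∧ trSq z ≠ 4 ∧
      x ∈ Subgroup.normalizer ((Mq z : Subgroup PSL(2, F)) : Set PSL(2, F)) ∧
      w ∈ Subgroup.normalizer ((Mq z : Subgroup PSL(2, F)) : Set PSL(2, F)) := by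
  haveI : CharP F 2 := CharTwo.of_one_ne_zero_of_two_eq_zero one_ne_zero h2
  haveI : Fact (Nat.Prime 2) := ⟨Nat.prime_two⟩
  have hxi : x⁻¹ = x := inv_eq_of_mul_eq_one_left hxx
  have hwi : w⁻¹ = w := inv_eq_of_mul_eq_one_left hww
  have hz : x * w ≠ 1 := by
    intro h
    apply hw
    have : w = x⁻¹ := (inv_eq_of_mul_eq_one_right h).symm
    rw [this]
    exact inv_mem (tiPart_Mq.mem x hx)
  have hzi : (x * w)⁻¹ = w * x := by rw [mul_inv_rev, hxi, hwi]
  have hs : trSq (x * w) ≠ 4 := by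
    intro htz
    have hp := Mq_unip_pow 2 (x * w) (x * w) hz htz (tiPart_Mq.mem _ hz)
    rw [pow_two] at hp
    have : (x * w)⁻¹ = x * w := inv_eq_of_mul_eq_one_left hp
    rw [hzi] at this
    exact hw (Mq_unip_comm x w ht this)
  refine ⟨x * w, hz, hs, ?_, ?_⟩
  · apply tiPart_Mq.mem_normalizer_of_conj_mem hz (tiPart_Mq.mem _ hz) hz
    have : x * (x * w) * x⁻¹ = (x * w)⁻¹ := by
      rw [hzi, hxi, ← mul_assoc, hxx, one_mul]
    rw [this]
    exact inv_mem (tiPart_Mq.mem _ hz)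
  · apply tiPart_Mq.mem_normalizer_of_conj_mem hz (tiPart_Mq.mem _ hz) hz
    have : w * (x * w) * w⁻¹ = (x * w)⁻¹ := by
      rw [hzi, hwi, mul_assoc, mul_assoc, hww, mul_one]
    rw [this]
    exact inv_mem (tiPart_Mq.mem _ hz)

/-- The number of elements of square one outside a Sylow 2-subgroup. -/
theorem sol_card_W (h2 : (2 : F) = 0) (x : PSL(2, F)) (hx : x ≠ 1) (ht : trSq x = 4) :
    ({w : PSL(2, F) | w * w = 1 ∧ w ∉ Mq x}).ncard =
      (Fintype.card F + 1) * (Fintype.card F - 1) + 1 - Fintype.card F := by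
  classical
  haveI : CharP F 2 := CharTwo.of_one_ne_zero_of_two_eq_zero one_ne_zero h2
  haveI : Fact (Nat.Prime 2) := ⟨Nat.prime_two⟩
  obtain ⟨hg, hG⟩ := even_facts h2
  have hq1 : 1 ≤ Fintype.card F := Fintype.card_pos
  have hI : {w : PSL(2, F) | w * w = 1} = insert 1 (blk Mq x) := by
    ext w
    rw [Set.mem_ofPred_eq, Set.mem_insert_iff]
    constructor
    · intro hww
      by_cases hw1 : w = 1
      · exact Or.inl hw1
      · right
        have htw : trSq w = 4 := trSq_of_sq_char_two h2 w (by rw [pow_two]; exact hww)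
        obtain ⟨g, hg⟩ := sylow_exists_conj (sylowMq 2 x hx ht) (sylowMq 2 w hw1 htw)
        exact ⟨hw1, g, (hg w).1 (tiPart_Mq.mem w hw1)⟩
    · rintro (rfl | ⟨hw1, h, hh⟩)
      · exact mul_one 1
      · have hp := Mq_unip_pow 2 x _ hx ht hh
        rw [pow_two] at hp
        have : w * w = h * (h⁻¹ * w * h * (h⁻¹ * w * h)) * h⁻¹ := by group
        rw [this, hp]
        group
  have hsub : ((Mq x : Subgroup PSL(2, F)) : Set PSL(2, F)) ⊆ {w : PSL(2, F) | w * w = 1} := by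
    intro c hc
    have hp := Mq_unip_pow 2 x c hx ht hc
    rw [pow_two] at hp
    exact hp
  have hW : {w : PSL(2, F) | w * w = 1 ∧ w ∉ Mq x} =
      {w : PSL(2, F) | w * w = 1} \ ((Mq x : Subgroup PSL(2, F)) : Set PSL(2, F)) := by
    ext w
    rfl
  have hblk := blk_ncard tiPart_Mq x hx
  have hcB := card_normalizer_Mq_unip x hx ht
  rw [hg, one_mul] at hcB
  have hidx : (Subgroup.normalizer ((Mq x : Subgroup PSL(2, F)) : Set PSL(2, F))).index =
      Fintype.card F + 1 := by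
    have h1 := Subgroup.card_mul_index
      (Subgroup.normalizer ((Mq x : Subgroup PSL(2, F)) : Set PSL(2, F)))
    rw [hcB, hG, red_sq_fac _ hq1] at h1
    have hpos : 0 < Fintype.card F * (Fintype.card F - 1) := by
      have : 2 ≤ Fintype.card F := Fintype.one_lt_card
      exact Nat.mul_pos (by omega) (by omega)
    apply Nat.eq_of_mul_eq_mul_left hpos
    rw [h1]
    ring
  rw [hidx, card_Mq_unip x hx ht] at hblk
  rw [hW, Set.ncard_diff hsub, hI, Set.ncard_insert_of_notMem (fun h => h.1 rfl), hblk,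
    sol_ncard_subgroup, card_Mq_unip x hx ht]

theorem sol_card_inv (p : ℕ) (hp : p.Prime) (hF : Fintype.card F = 2 ^ p) (h2 : (2 : F) = 0)
    (x : PSL(2, F)) (ho : orderOf x = 2) :
    Nat.card {y : PSL(2, F) // Group.IsSolvable ↥(Subgroup.closure ({x, y} : Set PSL(2, F)))} =
      3 * Fintype.card F * (Fintype.card F - 1) := by
  classical
  haveI : CharP F 2 := CharTwo.of_one_ne_zero_of_two_eq_zero one_ne_zero h2
  haveI : Fact (Nat.Prime 2) := ⟨Nat.prime_two⟩
  obtain ⟨hg, hG⟩ := even_facts h2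
  have hx : x ≠ 1 := by
    rintro rfl
    rw [orderOf_one] at ho
    omega
  have hx2 : x ^ 2 = 1 := by
    have := pow_orderOf_eq_one x
    rwa [ho] at this
  have hxx : x * x = 1 := by rw [← pow_two]; exact hx2
  have hxi : x⁻¹ = x := inv_eq_of_mul_eq_one_left hxx
  have ht : trSq x = 4 := trSq_of_sq_char_two h2 x hx2
  have hxm : x ∈ Mq x := tiPart_Mq.mem x hx
  obtain ⟨B, hB⟩ : ∃ B : Subgroup PSL(2, F), B = Subgroup.normalizer
      ((Mq x : Subgroup PSL(2, F)) : Set PSL(2, F)) := ⟨_, rfl⟩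
  have hxB : x ∈ B := by rw [hB]; exact Subgroup.le_normalizer hxm
  obtain ⟨W, hW⟩ : ∃ W : Set PSL(2, F), W = {w | w * w = 1 ∧ w ∉ Mq x} := ⟨_, rfl⟩
  have hBsq : ∀ w ∈ B, w * w = 1 → w ∈ Mq x := by
    intro w hw hww
    rw [hB] at hw
    exact mem_sylow_of_mem_normalizer (sylowMq 2 x hx ht) w hw (by rw [pow_two]; exact hww)
  have hcomm : ∀ y : PSL(2, F), y * y = 1 → (x * y) * (x * y) = 1 → y ∈ Mq x := by
    intro y hyy hxy
    have hyi : y⁻¹ = y := inv_eq_of_mul_eq_one_left hyy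
    have h1 : (x * y)⁻¹ = x * y := inv_eq_of_mul_eq_one_left hxy
    rw [mul_inv_rev, hxi, hyi] at h1
    exact Mq_unip_comm x y ht h1
  have hiff : ∀ y, Group.IsSolvable ↥(Subgroup.closure ({x, y} : Set PSL(2, F))) ↔
      y ∈ (B : Set PSL(2, F)) ∪ W ∪ (fun w => x * w) '' W := by
    intro y
    rw [sol_iff_SolP p hp hF h2 x y hx]
    constructor
    · rintro (⟨z, hz, hsz, hxz, hyz⟩ | ⟨z, hz, htz, hxz, hyz⟩)
      · have hxnot : x ∉ Mq z := by
          intro hxin
          have e := tiPart_Mq.eq_of_mem z x hz hx hxin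
          have hzx : z ∈ Mq x := by rw [e]; exact tiPart_Mq.mem z hz
          exact hsz (trSq_of_mem_Mq hx hzx ht)
        have hnorm : ∀ w, w ∈ Subgroup.normalizer ((Mq z : Subgroup PSL(2, F)) : Set PSL(2, F)) →
            w ∉ Mq z → w * w = 1 := by
          intro w hw hwnot
          have hconj : w * z * w⁻¹ ∈ Mq z :=
            (Subgroup.mem_normalizer_iff.1 hw z).1 (tiPart_Mq.mem z hz)
          exact (Mq_semi_normalizer z w hz hsz hconj hwnot).1
        by_cases hy : y ∈ Mq z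
        · have hwnot : x * y ∉ Mq z := by
            intro h
            apply hxnot
            have : x = (x * y) * y⁻¹ := by group
            rw [this]
            exact mul_mem h (inv_mem hy)
          have hww := hnorm (x * y) (mul_mem hxz hyz) hwnot
          by_cases hw : x * y ∈ Mq x
          · left; left
            rw [SetLike.mem_coe, hB]
            apply Subgroup.le_normalizer
            have : y = x⁻¹ * (x * y) := by group
            rw [this]
            exact mul_mem (inv_mem hxm) hw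
          · right
            refine ⟨x * y, ?_, ?_⟩
            · rw [hW]; exact ⟨hww, hw⟩
            · show x * (x * y) = y
              rw [← mul_assoc, hxx, one_mul]
        · have hyy := hnorm y hyz hy
          by_cases hy' : y ∈ Mq x
          · left; left
            rw [SetLike.mem_coe, hB]
            exact Subgroup.le_normalizer hy'
          · left; right
            rw [hW]; exact ⟨hyy, hy'⟩
      · left; left
        have hxin : x ∈ Mq z := mem_sylow_of_mem_normalizer (sylowMq 2 z hz htz) x hxz hx2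
        rw [SetLike.mem_coe, hB, tiPart_Mq.eq_of_mem z x hz hx hxin]
        exact hyz
    · rintro ((h | h) | ⟨w, h, rfl⟩)
      · right
        rw [SetLike.mem_coe, hB] at h
        exact ⟨x, hx, ht, Subgroup.le_normalizer hxm, h⟩
      · left
        rw [hW] at h
        obtain ⟨z, hz, hs, h1, h2'⟩ := sol_inv_pair h2 x y hx ht hxx h.1 h.2
        exact ⟨z, hz, hs, h1, h2'⟩
      · left
        rw [hW] at h
        obtain ⟨z, hz, hs, h1, h2'⟩ := sol_inv_pair h2 x w hx ht hxx h.1 h.2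
        exact ⟨z, hz, hs, h1, mul_mem h1 h2'⟩
  rw [Nat.card_congr (Equiv.subtypeEquivRight hiff)]
  have hnc : Nat.card {y : PSL(2, F) // y ∈ (B : Set PSL(2, F)) ∪ W ∪ (fun w => x * w) '' W} =
      ((B : Set PSL(2, F)) ∪ W ∪ (fun w => x * w) '' W).ncard := Nat.card_coe_set_eq _
  rw [hnc]
  have hd1 : Disjoint (B : Set PSL(2, F)) W := by
    rw [Set.disjoint_left]
    intro w hwB hwW
    rw [hW] at hwW
    exact hwW.2 (hBsq w hwB hwW.1)
  have hd2 : Disjoint ((B : Set PSL(2, F)) ∪ W) ((fun w => x * w) '' W) := by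
    rw [Set.disjoint_left]
    rintro y hy ⟨w, hwW, rfl⟩
    rw [hW] at hwW
    rcases hy with hy | hy
    · have hwB : w ∈ B := by
        have : w = x⁻¹ * (x * w) := by group
        rw [this]
        exact mul_mem (inv_mem hxB) hy
      exact hwW.2 (hBsq w hwB hwW.1)
    · rw [hW] at hy
      exact hwW.2 (hcomm w hwW.1 hy.1)
  have hcB : Nat.card B = Fintype.card F * (Fintype.card F - 1) := by
    have := card_normalizer_Mq_unip x hx ht
    rwa [hg, one_mul, ← hB] at this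
  have hcW := sol_card_W h2 x hx ht
  rw [← hW] at hcW
  rw [Set.ncard_union_eq hd2, Set.ncard_union_eq hd1,
    Set.ncard_image_of_injective _ (mul_right_injective x), sol_ncard_subgroup, hcB, hcW]
  obtain ⟨r, hr⟩ : ∃ r, Fintype.card F = r + 1 := ⟨Fintype.card F - 1, by
    have : 1 ≤ Fintype.card F := Fintype.card_pos
    omega⟩
  rw [hr]
  have e1 : (r + 1 + 1) * (r + 1 - 1) + 1 - (r + 1) = r * r + r := by
    have : (r + 1 + 1) * (r + 1 - 1) + 1 = r * r + r + (r + 1) := by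
      rw [Nat.add_sub_cancel]
      ring
    omega
  rw [e1, Nat.add_sub_cancel]
  ring

end solinv

end Cfsg.Agent.Lib.helper12
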