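import Mathlib
import Cfsg.Agent.Lib.helper12.DkSol
import Cfsg.Agent.Lib.helper12.PSL2Fus
import Cfsg.Agent.Lib.helper12.PSL2Klein

set_option autoImplicit false

namespace Cfsg.Agent.Lib.helper12

open scoped MatrixGroups

section s3arith

theorem nine_pow_mod (k : ℕ) : 9 ^ k % 80 = 1 ∨ 9 ^ k % 80 = 9 := by
  induction k with
  | zero => left; norm_num
  | succ n ih =>
    rw [pow_succ, Nat.mul_mod]
    rcases ih with h | h <;> rw [h] <;> norm_num

theorem three_pow_odd_mod (p : ℕ) (hodd : Odd p) : 3 ^ p % 80 = 3 ∨ 3 ^ p % 80 = 27 := by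
  obtain ⟨k, rfl⟩ := hodd
  rw [pow_succ, pow_mul, Nat.mul_mod]
  have : (3 : ℕ) ^ 2 = 9 := by norm_num
  rw [this]
  rcases nine_pow_mod k with h | h <;> rw [h] <;> norm_num

theorem q3_mod16 (q : ℕ) (h : q % 16 = 3 ∨ q % 16 = 11) : (q * (q ^ 2 - 1)) % 16 = 8 := by
  have hq : 1 ≤ q := by omega
  rw [red_sq_fac q hq, Nat.mul_mod, Nat.mul_mod (q - 1)]
  rcases h with h | h
  · have h1 : (q - 1) % 16 = 2 := by omega
    have h2 : (q + 1) % 16 = 4 := by omega
    rw [h, h1, h2]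
  · have h1 : (q - 1) % 16 = 10 := by omega
    have h2 : (q + 1) % 16 = 12 := by omega
    rw [h, h1, h2]

theorem q3_mod5 (q : ℕ) (h : q % 5 = 2 ∨ q % 5 = 3) : (q * (q ^ 2 - 1)) % 5 ≠ 0 := by
  have hq : 1 ≤ q := by omega
  rw [red_sq_fac q hq, Nat.mul_mod, Nat.mul_mod (q - 1)]
  rcases h with h | h
  · have h1 : (q - 1) % 5 = 1 := by omega
    have h2 : (q + 1) % 5 = 3 := by omega
    rw [h, h1, h2]
    norm_num
  · have h1 : (q - 1) % 5 = 2 := by omega
    have h2 : (q + 1) % 5 = 4 := by omega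
    rw [h, h1, h2]
    norm_num

theorem q3_mod4 (q : ℕ) (h : q % 4 = 3) : (q * (q - 1)) % 4 = 2 := by
  have h1 : (q - 1) % 4 = 2 := by omega
  rw [Nat.mul_mod, h, h1]

end s3arith

section s3

variable {F : Type*} [Field F] [Fintype F]

/-- The field has `3^p` elements with `p` an odd prime. -/
def Q3 (F : Type*) [Field F] [Fintype F] : Prop :=
  ∃ p : ℕ, p.Prime ∧ Odd p ∧ Fintype.card F = 3 ^ p

theorem Q3.facts (h : Q3 F) : (2 : F) ≠ 0 ∧ CharP F 3 ∧ 27 ≤ Fintype.card F ∧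
    (Fintype.card F % 80 = 3 ∨ Fintype.card F % 80 = 27) ∧ Fintype.card F % 3 = 0 ∧
    2 * Nat.card PSL(2, F) = Fintype.card F * (Fintype.card F ^ 2 - 1) ∧
    Nat.gcd 2 (Fintype.card F - 1) = 2 := by
  obtain ⟨p, hp, hodd, hF⟩ := h
  have h80 := three_pow_odd_mod p hodd
  rw [← hF] at h80
  have hp3 : 3 ≤ p := by
    have := hp.two_le
    obtain ⟨k, hk⟩ := hodd
    omega
  have h27 : 27 ≤ Fintype.card F := by
    rw [hF]
    calc 27 = 3 ^ 3 := by norm_num
      _ ≤ 3 ^ p := Nat.pow_le_pow_right (by norm_num) hp3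
  have h3 : Fintype.card F % 3 = 0 := by
    rw [hF]
    obtain ⟨k, hk⟩ : ∃ k, p = k + 1 := ⟨p - 1, by omega⟩
    rw [hk, pow_succ]
    omega
  have hpar : (2 : F) ≠ 0 ∧ Nat.gcd 2 (Fintype.card F - 1) = 2 := by
    rcases card_parity_cases (F := F) with ⟨h, -, hg⟩ | ⟨-, h, -⟩
    · exact ⟨h, hg⟩
    · exfalso
      omega
  have hchar : CharP F 3 := by
    obtain ⟨ℓ, hℓ⟩ := CharP.exists F
    haveI := hℓ
    obtain ⟨n, hprime, hcard⟩ := FiniteField.card F ℓ
    rw [hF] at hcard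
    have h1 : ℓ ∣ 3 ^ p := by
      rw [hcard]
      exact dvd_pow_self _ n.ne_zero
    have h2 : ℓ = 3 := (Nat.prime_dvd_prime_iff_eq hprime Nat.prime_three).1
      (hprime.dvd_of_dvd_pow h1)
    rw [← h2]
    exact hℓ
  refine ⟨hpar.1, hchar, h27, h80, h3, ?_, hpar.2⟩
  have := card_PSL2_gen (F := F)
  rw [hpar.2] at this
  exact this

/-- The subfield case gives an isomorphism with `PSL₂` or `PGL₂` of a subfield. -/
theorem dks_iso_gen (p : ℕ) [Fact p.Prime] [CharP F p] (M : Subgroup PSL(2, F))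
    (h : DkS (M.comap (QuotientGroup.mk' (Subgroup.center SL(2, F))))) :
    ∃ (K' : Type) (_ : Field K') (_ : Fintype K') (m : ℕ),
      Fintype.card K' ^ m = Fintype.card F ∧ CharP K' p ∧
      (Nonempty (M ≃* PSL(2, K')) ∨ Nonempty (M ≃* PGL(2, K'))) := by
  classical
  obtain ⟨K, e, he, h1, h2'⟩ := h
  obtain ⟨Hh, hHh⟩ : ∃ Hh : Subgroup SL(2, F),
      Hh = M.comap (QuotientGroup.mk' (Subgroup.center SL(2, F))) := ⟨_, rfl⟩
  rw [← hHh] at h1 h2'
  have hmap : Hh.map (QuotientGroup.mk' (Subgroup.center SL(2, F))) = M := by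
    rw [hHh]
    exact Subgroup.map_comap_eq_self_of_surjective (QuotientGroup.mk'_surjective _) M
  obtain ⟨K', iK, iF, ι, m, hm, hK'⟩ := exists_galois_model K
  refine ⟨K', iK, iF, m, hm, RingHom.charP ι ι.injective p, ?_⟩
  have hI1 : ∀ N : SL(2, K'), Matrix.SpecialLinearGroup.map ι N ∈ Hh.map e.toMonoidHom :=
    fun N => h1 _ (fun i j => (hK' _).2 ⟨(N : Matrix (Fin 2) (Fin 2) K') i j, rfl⟩)
  have hI2 : ∀ ν ∈ Hh.map e.toMonoidHom, ∃ (Mx : GL (Fin 2) K') (u : Fˣ), ∀ i j,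
      (ν : Matrix (Fin 2) (Fin 2) F) i j * (u : F) = ι (Mx i j) := by
    intro ν hν
    obtain ⟨γ, hγ, h⟩ := h2' ν hν
    exact exists_GL_entries ι ν γ hγ (fun i j => (hK' _).1 (h i j))
  obtain ⟨e₀⟩ := map_mk_equiv e Hh
  rw [hmap] at e₀
  rcases pgl_dichotomy ι (Hh.map e.toMonoidHom) hI1 hI2 with ⟨⟨f⟩⟩ | ⟨⟨f⟩⟩
  · exact Or.inl ⟨e₀.trans f⟩
  · exact Or.inr ⟨e₀.trans f⟩

/-- Proper subgroups of `PSL₂(3^p)`, `p` an odd prime. -/
theorem odd3_proper (h : Q3 F) (H : Subgroup PSL(2, F)) (hH : H ≠ ⊤) :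
    H = ⊥ ∨
    (∃ x : PSL(2, F), x ≠ 1 ∧ trSq x ≠ 4 ∧
      H ≤ Subgroup.normalizer ((Mq x : Subgroup PSL(2, F)) : Set PSL(2, F))) ∨
    (∃ x : PSL(2, F), x ≠ 1 ∧ trSq x = 4 ∧
      H ≤ Subgroup.normalizer ((Mq x : Subgroup PSL(2, F)) : Set PSL(2, F))) ∨
    Nat.card H = 12 := by
  classical
  obtain ⟨h2, hchar, h27, h80, h3, hG, hg⟩ := h.facts
  haveI := hchar
  haveI : Fact (Nat.Prime 3) := ⟨Nat.prime_three⟩
  have h16 := q3_mod16 (Fintype.card F) (by omega)
  have h5 := q3_mod5 (Fintype.card F) (by omega)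
  have hdvd : Nat.card H ∣ Nat.card PSL(2, F) := Subgroup.card_subgroup_dvd_card H
  have hno24 : Nat.card H ≠ 24 := by
    intro hc
    rw [hc] at hdvd
    obtain ⟨k, hk⟩ := hdvd
    omega
  have hno60 : Nat.card H ≠ 60 := by
    intro hc
    rw [hc] at hdvd
    obtain ⟨k, hk⟩ := hdvd
    omega
  rcases dk_finalS 3 H with h' | ⟨x, hx, hs, hle⟩ | ⟨x, hx, ht, hle⟩ | ⟨⟨f⟩⟩ | ⟨⟨f⟩⟩ | ⟨⟨f⟩⟩ | h'
  · exact Or.inl h'
  · exact Or.inr (Or.inl ⟨x, hx, hs, hle⟩)
  · exact Or.inr (Or.inr (Or.inl ⟨x, hx, ht, hle⟩))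
  · right; right; right
    rw [Nat.card_congr f.toEquiv, card_alt4]
  · exfalso
    apply hno24
    rw [Nat.card_congr f.toEquiv, card_perm4]
  · exfalso
    apply hno60
    rw [Nat.card_congr f.toEquiv, card_alt5]
  · obtain ⟨K', iK, iF, m, hm, hcK, hiso⟩ := dks_iso_gen 3 H h'
    haveI := hcK
    obtain ⟨p, hp, hodd, hF⟩ := h
    obtain ⟨n, hprime, hcard⟩ := FiniteField.card K' 3
    have hpow : 3 ^ ((n : ℕ) * m) = 3 ^ p := by rw [pow_mul, ← hcard, hm, hF]
    have hnm : (n : ℕ) * m = p := Nat.pow_right_injective (by norm_num : 2 ≤ 3) hpow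
    have hn1 : (n : ℕ) = 1 ∨ m = 1 := by
      rcases (Nat.dvd_prime hp).1 (Dvd.intro _ hnm) with h | h
      · left; exact h
      · right
        rw [h] at hnm
        have hp0 := hp.pos
        exact Nat.eq_of_mul_eq_mul_left hp0 (by rw [hnm, mul_one])
    have hPSL := card_PSL2_gen (F := K')
    have hPGL := card_PGL2 K'
    rcases hn1 with h | h
    · have hK3 : Fintype.card K' = 3 := by rw [hcard, h, pow_one]
      rw [hK3] at hPSL hPGL
      have e1 : Nat.gcd 2 (3 - 1) = 2 := by norm_num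
      have e2 : 3 * (3 ^ 2 - 1) = 24 := by norm_num
      rw [e1, e2] at hPSL
      rw [e2] at hPGL
      rcases hiso with ⟨⟨f⟩⟩ | ⟨⟨f⟩⟩
      · right; right; right
        rw [Nat.card_congr f.toEquiv]
        omega
      · exfalso
        apply hno24
        rw [Nat.card_congr f.toEquiv]
        exact hPGL
    · exfalso
      have hKF : Fintype.card K' = Fintype.card F := by rw [← hm, h, pow_one]
      rw [hKF] at hPSL hPGL
      rw [hg] at hPSL
      rcases hiso with ⟨⟨f⟩⟩ | ⟨⟨f⟩⟩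
      · apply hH
        apply Subgroup.eq_top_of_card_eq
        rw [Nat.card_congr f.toEquiv]
        omega
      · have hle := Subgroup.card_le_card_group H
        rw [Nat.card_congr f.toEquiv, hPGL] at hle
        have hpos : 0 < Nat.card PSL(2, F) := Nat.card_pos
        omega

end s3

section cl18

theorem closure_le_18 {G : Type*} [Group G] (x y : G) (hx : x * x = 1) (hy : y ^ 3 = 1)
    (hxy : (x * y) ^ 3 = 1) : Nat.card (Subgroup.closure ({x, y} : Set G)) ≤ 18 := by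
  classical
  have hx2 : x ^ 2 = 1 := by rw [pow_two]; exact hx
  have hxi : x⁻¹ = x := inv_eq_of_mul_eq_one_left hx
  have hyyy : y * (y * y) = 1 := by rw [← hy]; simp [pow_succ, mul_assoc]
  have hyi : y⁻¹ = y * y := inv_eq_of_mul_eq_one_right hyyy
  have xx : ∀ t : G, x * (x * t) = t := fun t => by rw [← mul_assoc, hx, one_mul]
  have yyy : ∀ t : G, y * (y * (y * t)) = t := fun t => by
    rw [← mul_assoc, ← mul_assoc, mul_assoc y y y, hyyy, one_mul]
  have h6 : x * (y * (x * (y * (x * y)))) = 1 := by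
    rw [← hxy]; simp [pow_succ, mul_assoc]
  have e : x * (y * x) = y * (y * (x * (y * y))) := by
    have h7 : x * (y * x) * (y * (x * y)) = 1 := by rw [← h6]; simp [mul_assoc]
    have h8 := eq_inv_of_mul_eq_one_left h7
    rw [h8, mul_inv_rev, mul_inv_rev, hxi, hyi]
    simp [mul_assoc]
  have A1 : ∀ t : G, x * (y * (x * t)) = y * (y * (x * (y * (y * t)))) := by
    intro t
    calc x * (y * (x * t)) = x * (y * x) * t := by simp [mul_assoc]
      _ = y * (y * (x * (y * y))) * t := by rw [e]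
      _ = y * (y * (x * (y * (y * t)))) := by simp [mul_assoc]
  have e2 : x * (y * (y * x)) = y * (x * y) := by
    have i1 : x * (y * (y * x)) * (x * (y * x)) = 1 := by
      calc x * (y * (y * x)) * (x * (y * x)) = x * (y * (y * (x * (x * (y * x))))) := by
            simp [mul_assoc]
        _ = 1 := by rw [xx, yyy, hx]
    have i2 : y * (x * y) * (y * (y * (x * (y * y)))) = 1 := by
      calc y * (x * y) * (y * (y * (x * (y * y)))) = y * (x * (y * (y * (y * (x * (y * y)))))) := by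
            simp [mul_assoc]
        _ = 1 := by rw [yyy, xx, hyyy]
    rw [eq_inv_of_mul_eq_one_left i1, eq_inv_of_mul_eq_one_left i2, e]
  have A2 : ∀ t : G, x * (y * (y * (x * t))) = y * (x * (y * t)) := by
    intro t
    calc x * (y * (y * (x * t))) = x * (y * (y * x)) * t := by simp [mul_assoc]
      _ = y * (x * y) * t := by rw [e2]
      _ = y * (x * (y * t)) := by simp [mul_assoc]
  obtain ⟨N, hN⟩ : ∃ N : Set G, N = {w | ∃ i e j : ℕ, w = y ^ i * x ^ e * y ^ j} := ⟨_, rfl⟩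
  have hNy : ∀ w ∈ N, y * w ∈ N := by
    intro w hw
    rw [hN] at hw ⊢
    obtain ⟨i, e, j, rfl⟩ := hw
    exact ⟨i + 1, e, j, by rw [pow_succ']; simp [mul_assoc]⟩
  have hNx : ∀ w ∈ N, x * w ∈ N := by
    intro w hw
    rw [hN] at hw ⊢
    obtain ⟨i, e, j, rfl⟩ := hw
    rw [pow_eq_pow_mod i hy, pow_eq_pow_mod e hx2]
    have hi : i % 3 < 3 := Nat.mod_lt _ (by norm_num)
    have he : e % 2 < 2 := Nat.mod_lt _ (by norm_num)
    obtain ⟨i', hi'⟩ : ∃ i', i' = i % 3 := ⟨_, rfl⟩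
    obtain ⟨e', he'⟩ : ∃ e', e' = e % 2 := ⟨_, rfl⟩
    rw [← hi'] at hi ⊢
    rw [← he'] at he ⊢
    interval_cases i' <;> interval_cases e'
    · exact ⟨0, 1, j, by simp⟩
    · refine ⟨0, 0, j, ?_⟩
      simp only [pow_zero, pow_one, one_mul, mul_assoc]
      rw [xx]
    · refine ⟨0, 1, j + 1, ?_⟩
      simp only [pow_zero, pow_one, one_mul, mul_one, pow_succ', mul_assoc]
    · refine ⟨2, 1, j + 2, ?_⟩
      simp only [pow_zero, pow_one, pow_two, one_mul, mul_one, pow_succ', mul_assoc]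
      rw [A1]
    · refine ⟨0, 1, j + 2, ?_⟩
      simp only [pow_zero, pow_one, pow_two, one_mul, mul_one, pow_succ', mul_assoc]
    · refine ⟨1, 1, j + 1, ?_⟩
      simp only [pow_zero, pow_one, pow_two, one_mul, mul_one, pow_succ', mul_assoc]
      rw [A2]
  have key : ∀ g ∈ Subgroup.closure ({x, y} : Set G),
      (∀ w ∈ N, g * w ∈ N) ∧ (∀ w ∈ N, g⁻¹ * w ∈ N) := by
    intro g hg
    induction hg using Subgroup.closure_induction with
    | mem g hg =>
      rcases hg with rfl | rfl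
      · rw [hxi]
        exact ⟨hNx, hNx⟩
      · refine ⟨hNy, fun w hw => ?_⟩
        rw [hyi, mul_assoc]
        exact hNy _ (hNy w hw)
    | one => exact ⟨fun w hw => by rwa [one_mul], fun w hw => by rwa [inv_one, one_mul]⟩
    | mul a b _ _ ha hb =>
      refine ⟨fun w hw => ?_, fun w hw => ?_⟩
      · rw [mul_assoc]
        exact ha.1 _ (hb.1 w hw)
      · rw [mul_inv_rev, mul_assoc]
        exact hb.2 _ (ha.2 w hw)
    | inv a _ ha =>
      refine ⟨ha.2, fun w hw => ?_⟩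
      rw [inv_inv]
      exact ha.1 w hw
  have h1N : (1 : G) ∈ N := by
    rw [hN]
    exact ⟨0, 0, 0, by simp⟩
  have hsub : ((Subgroup.closure ({x, y} : Set G) : Subgroup G) : Set G) ⊆
      Set.range (fun t : Fin 3 × Fin 2 × Fin 3 =>
        y ^ (t.1 : ℕ) * x ^ (t.2.1 : ℕ) * y ^ (t.2.2 : ℕ)) := by
    intro g hg
    have h2 := (key g hg).1 1 h1N
    rw [mul_one, hN] at h2
    obtain ⟨i, e, j, rfl⟩ := h2
    refine ⟨(⟨i % 3, Nat.mod_lt _ (by norm_num)⟩, ⟨e % 2, Nat.mod_lt _ (by norm_num)⟩,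
      ⟨j % 3, Nat.mod_lt _ (by norm_num)⟩), ?_⟩
    show y ^ (i % 3) * x ^ (e % 2) * y ^ (j % 3) = _
    rw [← pow_eq_pow_mod i hy, ← pow_eq_pow_mod e hx2, ← pow_eq_pow_mod j hy]
  have h3 := Set.ncard_le_ncard hsub (Set.finite_range _)
  have h4 : (Set.range (fun t : Fin 3 × Fin 2 × Fin 3 =>
        y ^ (t.1 : ℕ) * x ^ (t.2.1 : ℕ) * y ^ (t.2.2 : ℕ))).ncard ≤ 18 := by
    rw [← Nat.card_coe_set_eq]
    refine le_trans (Finite.card_range_le _) ?_
    simp
  rw [sol_ncard_subgroup] at h3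
  omega

end cl18

section s3b

variable {F : Type*} [Field F] [Fintype F]

theorem normalizer_Mq_ne_top (h4 : 4 ≤ Fintype.card F) (z : PSL(2, F)) (hz : z ≠ 1) :
    Subgroup.normalizer ((Mq z : Subgroup PSL(2, F)) : Set PSL(2, F)) ≠ ⊤ := by
  intro htop
  haveI := Matrix.ProjectiveSpecialLinearGroup.rank_two_simple (F := F)
    (by rw [Nat.card_eq_fintype_card]; exact h4)
  have hn : (Mq z).Normal := Subgroup.normalizer_eq_top_iff.1 htop
  rcases hn.eq_bot_or_eq_top with h | h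
  · have := tiPart_Mq.mem z hz
    rw [h] at this
    exact hz (Subgroup.mem_bot.1 this)
  · apply PSL2_not_comm (F := F)
    intro a b
    exact Mq_comm z hz (by rw [h]; trivial) (by rw [h]; trivial)

theorem sol3_iff (h : Q3 F) (x y : PSL(2, F)) :
    Group.IsSolvable ↥(Subgroup.closure ({x, y} : Set PSL(2, F))) ↔
      Subgroup.closure ({x, y} : Set PSL(2, F)) ≠ ⊤ := by
  classical
  obtain ⟨h2, hchar, h27, h80, h3, hG, hg⟩ := h.facts
  haveI := hchar
  haveI : Fact (Nat.Prime 3) := ⟨Nat.prime_three⟩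
  constructor
  · intro hsolv htop
    rw [htop] at hsolv
    exact PSL2_not_solvable (by omega) (solv_of_iso Subgroup.topEquiv.symm hsolv)
  · intro hne
    rcases odd3_proper h _ hne with hb | ⟨z, hz, hs, hle⟩ | ⟨z, hz, ht, hle⟩ | h12
    · rw [hb]
      exact Group.isSolvable_of_comm (fun a b => Subsingleton.elim _ _)
    · obtain ⟨⟨f⟩, -⟩ := normalizer_Mq_semi_dihedral z hz hs
      haveI := solv_of_iso f (solv_dihedral _)
      exact Group.isSolvable_of_isSolvable_injective (Subgroup.inclusion_injective hle)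
    · haveI : Group.IsSolvable (Subgroup.normalizer ((Mq z : Subgroup PSL(2, F)) :
          Set PSL(2, F))) := solv_borel 3 (sylowMq 3 z hz ht)
      exact Group.isSolvable_of_isSolvable_injective (Subgroup.inclusion_injective hle)
    · exact solv_of_card (Or.inr (Or.inl h12))

theorem q3_card_Mq (h : Q3 F) (g : PSL(2, F)) (ht : trSq g ≠ 4) :
    Nat.card (Mq g) * 2 = Fintype.card F - 1 ∨ Nat.card (Mq g) * 2 = Fintype.card F + 1 := by
  obtain ⟨h2, hchar, h27, h80, h3, hG, hg⟩ := h.facts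
  have := Mq_semi_card g ht
  rwa [hg] at this

theorem q3_pow12 (h : Q3 F) (g : PSL(2, F)) (hg12 : g ^ 12 = 1) : g * g = 1 ∨ g ^ 3 = 1 := by
  obtain ⟨h2, hchar, h27, h80, h3, hG, hg⟩ := h.facts
  haveI := hchar
  haveI : Fact (Nat.Prime 3) := ⟨Nat.prime_three⟩
  by_cases hg1 : g = 1
  · left
    rw [hg1, one_mul]
  by_cases ht : trSq g = 4
  · right
    exact Mq_unip_pow 3 g g hg1 ht (tiPart_Mq.mem g hg1)
  · left
    have hc := q3_card_Mq h g ht
    have hdc : orderOf g ∣ Nat.card (Mq g) := by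
      have := orderOf_dvd_natCard (⟨g, tiPart_Mq.mem g hg1⟩ : Mq g)
      rwa [Subgroup.orderOf_mk] at this
    have hd12 : orderOf g ∣ 12 := orderOf_dvd_of_pow_eq_one hg12
    have hd1 : orderOf g ≠ 1 := by rwa [Ne, orderOf_eq_one_iff]
    obtain ⟨d, hd⟩ : ∃ d, d = orderOf g := ⟨_, rfl⟩
    rw [← hd] at hdc hd12 hd1
    have hle : d ≤ 12 := Nat.le_of_dvd (by norm_num) hd12
    have hd2 : d = 2 := by
      interval_cases d <;> first | rfl | (exfalso; rcases hc with hc | hc <;> omega)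
    have h5 : orderOf g = 2 := by rw [← hd]; exact hd2
    have h6 := pow_orderOf_eq_one g
    rw [h5, pow_two] at h6
    exact h6

theorem q3_no_invol_borel (h : Q3 F) (u : PSL(2, F)) (hu : u ≠ 1) (ht : trSq u = 4)
    (x : PSL(2, F))
    (hx : x ∈ Subgroup.normalizer ((Mq u : Subgroup PSL(2, F)) : Set PSL(2, F)))
    (hxx : x * x = 1) : x = 1 := by
  obtain ⟨h2, hchar, h27, h80, h3, hG, hg⟩ := h.facts
  have hN := card_normalizer_Mq_unip u hu ht
  rw [hg] at hN
  have h4 := q3_mod4 (Fintype.card F) (by omega)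
  have hd : orderOf x ∣ Nat.card (Subgroup.normalizer ((Mq u : Subgroup PSL(2, F)) :
      Set PSL(2, F))) := by
    have := orderOf_dvd_natCard (⟨x, hx⟩ :
      Subgroup.normalizer ((Mq u : Subgroup PSL(2, F)) : Set PSL(2, F)))
    rwa [Subgroup.orderOf_mk] at this
  have hd2 : orderOf x ∣ 2 := orderOf_dvd_of_pow_eq_one (by rw [pow_two]; exact hxx)
  rcases (Nat.dvd_prime Nat.prime_two).1 hd2 with h1 | h1
  · exact orderOf_eq_one_iff.1 h1
  · exfalso
    rw [h1] at hd
    obtain ⟨k, hk⟩ := hd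
    omega

theorem q3_no_three_torus (h : Q3 F) (z : PSL(2, F)) (hz : z ≠ 1) (hs : trSq z ≠ 4)
    (x : PSL(2, F))
    (hx : x ∈ Subgroup.normalizer ((Mq z : Subgroup PSL(2, F)) : Set PSL(2, F)))
    (hx3 : x ^ 3 = 1) : x = 1 := by
  obtain ⟨h2, hchar, h27, h80, h3, hG, hg⟩ := h.facts
  have hN := (normalizer_Mq_semi_dihedral z hz hs).2
  have hc := q3_card_Mq h z hs
  have hd : orderOf x ∣ Nat.card (Subgroup.normalizer ((Mq z : Subgroup PSL(2, F)) :
      Set PSL(2, F))) := by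
    have := orderOf_dvd_natCard (⟨x, hx⟩ :
      Subgroup.normalizer ((Mq z : Subgroup PSL(2, F)) : Set PSL(2, F)))
    rwa [Subgroup.orderOf_mk] at this
  have hd3 : orderOf x ∣ 3 := orderOf_dvd_of_pow_eq_one hx3
  rcases (Nat.dvd_prime Nat.prime_three).1 hd3 with h1 | h1
  · exact orderOf_eq_one_iff.1 h1
  · exfalso
    rw [h1, hN] at hd
    obtain ⟨k, hk⟩ := hd
    rcases hc with hc | hc <;> omega

end s3b

section s3c

variable {F : Type*} [Field F] [Fintype F]

theorem q3_card_gt (h : Q3 F) : 18 < Nat.card PSL(2, F) := by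
  obtain ⟨h2, hchar, h27, h80, h3, hG, hg⟩ := h.facts
  have h1 : 27 * (27 ^ 2 - 1) ≤ Fintype.card F * (Fintype.card F ^ 2 - 1) :=
    Nat.mul_le_mul h27 (Nat.sub_le_sub_right (Nat.pow_le_pow_left h27 2) 1)
  have h2' : 27 * (27 ^ 2 - 1) = 19656 := by norm_num
  omega

theorem sol3_cases (h : Q3 F) (x y : PSL(2, F)) (hx : x ≠ 1)
    (hne : Subgroup.closure ({x, y} : Set PSL(2, F)) ≠ ⊤) :
    SolP x y ∨ (x ^ 12 = 1 ∧ y ^ 12 = 1 ∧ (x * y) ^ 12 = 1) := by
  have hxm : x ∈ Subgroup.closure ({x, y} : Set PSL(2, F)) := Subgroup.subset_closure (by simp)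
  have hym : y ∈ Subgroup.closure ({x, y} : Set PSL(2, F)) := Subgroup.subset_closure (by simp)
  rcases odd3_proper h _ hne with hb | ⟨z, hz, hs, hle⟩ | ⟨z, hz, ht, hle⟩ | h12
  · exfalso
    rw [hb] at hxm
    exact hx (Subgroup.mem_bot.1 hxm)
  · exact Or.inl (Or.inl ⟨z, hz, hs, hle hxm, hle hym⟩)
  · exact Or.inl (Or.inr ⟨z, hz, ht, hle hxm, hle hym⟩)
  · right
    have key : ∀ g ∈ Subgroup.closure ({x, y} : Set PSL(2, F)), g ^ 12 = 1 := by
      intro g hg
      have h5 := pow_card_eq_one' (G := ↥(Subgroup.closure ({x, y} : Set PSL(2, F))))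
        (x := ⟨g, hg⟩)
      rw [h12] at h5
      have h6 := congrArg (fun q : ↥(Subgroup.closure ({x, y} : Set PSL(2, F))) =>
        (q : PSL(2, F))) h5
      simpa using h6
    exact ⟨key x hxm, key y hym, key _ (mul_mem hxm hym)⟩

theorem sol3_of_le (h : Q3 F) (x y z : PSL(2, F)) (hz : z ≠ 1)
    (hxz : x ∈ Subgroup.normalizer ((Mq z : Subgroup PSL(2, F)) : Set PSL(2, F)))
    (hyz : y ∈ Subgroup.normalizer ((Mq z : Subgroup PSL(2, F)) : Set PSL(2, F))) :
    Group.IsSolvable ↥(Subgroup.closure ({x, y} : Set PSL(2, F))) := by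
  rw [sol3_iff h]
  intro htop
  have hle : Subgroup.closure ({x, y} : Set PSL(2, F)) ≤
      Subgroup.normalizer ((Mq z : Subgroup PSL(2, F)) : Set PSL(2, F)) := by
    rw [Subgroup.closure_le]
    rintro w (rfl | rfl)
    · exact hxz
    · exact hyz
  rw [htop] at hle
  exact normalizer_Mq_ne_top ((by have := h.facts.2.2.1; omega)) z hz (top_le_iff.1 hle)

theorem sol3_of_SolP (h : Q3 F) (x y : PSL(2, F)) (hs : SolP x y) :
    Group.IsSolvable ↥(Subgroup.closure ({x, y} : Set PSL(2, F))) := by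
  rcases hs with ⟨z, hz, -, hxz, hyz⟩ | ⟨z, hz, -, hxz, hyz⟩
  · exact sol3_of_le h x y z hz hxz hyz
  · exact sol3_of_le h x y z hz hxz hyz

theorem sol3_iff_SolP (h : Q3 F) (x y : PSL(2, F)) (hx : x ≠ 1) (hxx : x * x ≠ 1)
    (hx3 : x ^ 3 ≠ 1) :
    Group.IsSolvable ↥(Subgroup.closure ({x, y} : Set PSL(2, F))) ↔ SolP x y := by
  constructor
  · intro hsolv
    rcases sol3_cases h x y hx ((sol3_iff h x y).1 hsolv) with h1 | ⟨h1, -, -⟩
    · exact h1
    · exfalso
      rcases q3_pow12 h x h1 with h2 | h2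
      · exact hxx h2
      · exact hx3 h2
  · exact sol3_of_SolP h x y

theorem q3_semi_pow3 (h : Q3 F) (x : PSL(2, F)) (hx : x ≠ 1) (hs : trSq x ≠ 4) : x ^ 3 ≠ 1 := by
  obtain ⟨h2, hchar, h27, h80, h3, hG, hg⟩ := h.facts
  intro hx3
  have hc := q3_card_Mq h x hs
  have hdc : orderOf x ∣ Nat.card (Mq x) := by
    have := orderOf_dvd_natCard (⟨x, tiPart_Mq.mem x hx⟩ : Mq x)
    rwa [Subgroup.orderOf_mk] at this
  have hd3 : orderOf x ∣ 3 := orderOf_dvd_of_pow_eq_one hx3
  rcases (Nat.dvd_prime Nat.prime_three).1 hd3 with h1 | h1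
  · exact hx (orderOf_eq_one_iff.1 h1)
  · rw [h1] at hdc
    obtain ⟨k, hk⟩ := hdc
    rcases hc with hc | hc <;> omega

theorem q3_order_dvd_normalizer (x z : PSL(2, F))
    (hxz : x ∈ Subgroup.normalizer ((Mq z : Subgroup PSL(2, F)) : Set PSL(2, F))) :
    orderOf x ∣ Nat.card (Subgroup.normalizer ((Mq z : Subgroup PSL(2, F)) : Set PSL(2, F))) := by
  have := orderOf_dvd_natCard (⟨x, hxz⟩ :
    Subgroup.normalizer ((Mq z : Subgroup PSL(2, F)) : Set PSL(2, F)))
  rwa [Subgroup.orderOf_mk] at this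

theorem q3_order_dvd_Mq (x : PSL(2, F)) (hx : x ≠ 1) : orderOf x ∣ Nat.card (Mq x) := by
  have := orderOf_dvd_natCard (⟨x, tiPart_Mq.mem x hx⟩ : Mq x)
  rwa [Subgroup.orderOf_mk] at this

/-- Part (iv): elements of order dividing `q + 1`. -/
theorem sol3_card_plus (h : Q3 F) (x : PSL(2, F)) (hx : x ≠ 1) (ho2 : orderOf x ≠ 2)
    (ho : orderOf x ∣ Fintype.card F + 1) :
    Nat.card {y : PSL(2, F) // Group.IsSolvable ↥(Subgroup.closure ({x, y} : Set PSL(2, F)))} =
      Fintype.card F + 1 := by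
  classical
  obtain ⟨h2, hchar, h27, h80, h3, hG, hg⟩ := h.facts
  haveI := hchar
  haveI : Fact (Nat.Prime 3) := ⟨Nat.prime_three⟩
  have hq1 : 1 ≤ Fintype.card F := Fintype.card_pos
  have ho1 : orderOf x ≠ 1 := by rwa [Ne, orderOf_eq_one_iff]
  have hnd2 : ¬ orderOf x ∣ 2 := by
    intro hd
    rcases (Nat.dvd_prime Nat.prime_two).1 hd with h1 | h1
    · exact ho1 h1
    · exact ho2 h1
  have hpow : x ^ (Fintype.card F + 1) = 1 := orderOf_dvd_iff_pow_eq_one.1 ho
  have hcop : Nat.Coprime (Fintype.card F + 1) 3 :=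
    ((Nat.Prime.coprime_iff_not_dvd Nat.prime_three).2 (by omega)).symm
  have hs : trSq x ≠ 4 := trSq_ne_four_of_coprime 3 x hx _ hpow hcop
  have hxx : x * x ≠ 1 := by
    intro hxx
    exact hnd2 (orderOf_dvd_of_pow_eq_one (by rw [pow_two]; exact hxx))
  have hx3 : x ^ 3 ≠ 1 := q3_semi_pow3 h x hx hs
  have hod := q3_order_dvd_Mq x hx
  have hxm : x ∈ Mq x := tiPart_Mq.mem x hx
  have hcard : Nat.card (Mq x) * 2 = Fintype.card F + 1 := by
    rcases q3_card_Mq h x hs with h' | h'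
    · exfalso
      have : orderOf x ∣ Fintype.card F - 1 := by
        rw [← h']
        exact Dvd.dvd.mul_right hod 2
      exact hnd2 (sol_dvd_two' _ _ hq1 ho this)
    · exact h'
  have hiff : ∀ y, Group.IsSolvable ↥(Subgroup.closure ({x, y} : Set PSL(2, F))) ↔
      y ∈ Subgroup.normalizer ((Mq x : Subgroup PSL(2, F)) : Set PSL(2, F)) := by
    intro y
    rw [sol3_iff_SolP h x y hx hxx hx3]
    constructor
    · rintro (⟨z, hz, hsz, hxz, hyz⟩ | ⟨z, hz, htz, hxz, hyz⟩)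
      · have hxin : x ∈ Mq z := by
          by_contra hnot
          have hconj : x * z * x⁻¹ ∈ Mq z :=
            (Subgroup.mem_normalizer_iff.1 hxz z).1 (tiPart_Mq.mem z hz)
          obtain ⟨hxx', -⟩ := Mq_semi_normalizer z x hz hsz hconj hnot
          exact hxx hxx'
        rw [tiPart_Mq.eq_of_mem z x hz hx hxin]
        exact hyz
      · exfalso
        have hN := card_normalizer_Mq_unip z hz htz
        have hod2 : orderOf x ∣ Fintype.card F * (Fintype.card F - 1) := by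
          rw [← hN]
          exact Dvd.dvd.mul_left (q3_order_dvd_normalizer x z hxz) _
        exact hnd2 (sol_dvd_two _ _ hq1 ho hod2)
    · intro hy
      left
      exact ⟨x, hx, hs, Subgroup.le_normalizer hxm, hy⟩
  rw [Nat.card_congr (Equiv.subtypeEquivRight hiff)]
  have := (normalizer_Mq_semi_dihedral x hx hs).2
  rw [this]
  omega

theorem sol3_card_dS (h : Q3 F) (a : Fˣ) (ha : (a : F) ^ 2 ≠ 1)
    (hsq : (QuotientGroup.mk (diagSL a) : PSL(2, F)) * QuotientGroup.mk (diagSL a) ≠ 1) :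
    ({y : PSL(2, F) | SolP (QuotientGroup.mk (diagSL a)) y}).ncard =
      Fintype.card F * (Fintype.card F - 1) := by
  classical
  obtain ⟨h2, hchar, h27, h80, h3, hG, hg⟩ := h.facts
  have hx₀ := mk_dS_ne_one a ha
  have hs₀ := trSq_mk_dS a ha
  obtain ⟨T, hT⟩ : ∃ T : Subgroup PSL(2, F), T = Mq (QuotientGroup.mk (diagSL a)) := ⟨_, rfl⟩
  obtain ⟨N, hN⟩ : ∃ N : Subgroup PSL(2, F), N = Subgroup.normalizer
      ((Mq (QuotientGroup.mk (diagSL a) : PSL(2, F))) : Set PSL(2, F)) := ⟨_, rfl⟩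
  obtain ⟨U, hU⟩ : ∃ U : Subgroup PSL(2, F), U = Subgroup.normalizer
      ((Mq (QuotientGroup.mk (uS (1 : F)) : PSL(2, F))) : Set PSL(2, F)) := ⟨_, rfl⟩
  obtain ⟨L, hL⟩ : ∃ L : Subgroup PSL(2, F), L = Subgroup.normalizer
      ((Mq (QuotientGroup.mk (lS (1 : F)) : PSL(2, F))) : Set PSL(2, F)) := ⟨_, rfl⟩
  have hTN : T ≤ N := by
    rw [hT, hN]
    exact Subgroup.le_normalizer
  have hTU : T ≤ U := by
    intro y hy
    obtain ⟨ν, rfl⟩ := QuotientGroup.mk_surjective y
    rw [hT, mk_mem_Mq_dS_iff a ha] at hy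
    rw [hU, mk_mem_normalizer_uS_iff one_ne_zero]
    exact hy.2
  have hTL : T ≤ L := by
    intro y hy
    obtain ⟨ν, rfl⟩ := QuotientGroup.mk_surjective y
    rw [hT, mk_mem_Mq_dS_iff a ha] at hy
    rw [hL, mk_mem_normalizer_lS_iff]
    exact hy.1
  have hUL : (U : Set PSL(2, F)) ∩ L = T := by
    ext y
    constructor
    · rintro ⟨hyU, hyL⟩
      obtain ⟨ν, rfl⟩ := QuotientGroup.mk_surjective y
      rw [SetLike.mem_coe, hU, mk_mem_normalizer_uS_iff one_ne_zero] at hyU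
      rw [SetLike.mem_coe, hL, mk_mem_normalizer_lS_iff] at hyL
      rw [SetLike.mem_coe, hT, mk_mem_Mq_dS_iff a ha]
      exact ⟨hyL, hyU⟩
    · intro hy
      exact ⟨hTU hy, hTL hy⟩
  have hdisj : Disjoint ((U : Set PSL(2, F)) ∪ L) ((N : Set PSL(2, F)) \ T) := by
    rw [Set.disjoint_left]
    rintro y hy ⟨hyN, hyT⟩
    obtain ⟨ν, rfl⟩ := QuotientGroup.mk_surjective y
    rw [SetLike.mem_coe, hN] at hyN
    rw [SetLike.mem_coe, hT] at hyT
    obtain ⟨h00, h11⟩ := normalizer_dS_antidiag a ha ν hyN hyT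
    have hdet := SL2_det_eq ν
    rw [h00, h11] at hdet
    rcases hy with hy | hy
    · rw [SetLike.mem_coe, hU, mk_mem_normalizer_uS_iff one_ne_zero] at hy
      rw [hy] at hdet
      simp at hdet
    · rw [SetLike.mem_coe, hL, mk_mem_normalizer_lS_iff] at hy
      rw [hy] at hdet
      simp at hdet
  have hset : {y : PSL(2, F) | SolP (QuotientGroup.mk (diagSL a)) y} =
      ((U : Set PSL(2, F)) ∪ L) ∪ ((N : Set PSL(2, F)) \ T) := by
    ext y
    rw [Set.mem_ofPred_eq, SolP_dS_iff a ha hsq y, ← hN, ← hU, ← hL]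
    constructor
    · rintro (h | h | h)
      · by_cases hyT : y ∈ T
        · exact Or.inl (Or.inl (hTU hyT))
        · exact Or.inr ⟨h, hyT⟩
      · exact Or.inl (Or.inl h)
      · exact Or.inl (Or.inr h)
    · rintro ((h | h) | ⟨h, -⟩)
      · exact Or.inr (Or.inl h)
      · exact Or.inr (Or.inr h)
      · exact Or.inl h
  have hcU : 2 * Nat.card U = Fintype.card F * (Fintype.card F - 1) := by
    have := card_normalizer_Mq_unip _ (mk_uS_ne_one (F := F) one_ne_zero) (trSq_mk_uS 1)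
    rwa [hg, ← hU] at this
  have hcL : 2 * Nat.card L = Fintype.card F * (Fintype.card F - 1) := by
    have := card_normalizer_Mq_unip _ (mk_lS_ne_one (F := F)) trSq_mk_lS
    rwa [hg, ← hL] at this
  have hcT : 2 * Nat.card T = Fintype.card F - 1 := by
    rw [hT, Mq_mk, PSL2_card_map_centralizer h2]
    exact card_centralizer_of_split (diagSL a) a ha (diagSL_trace a)
  have hcN : Nat.card N = 2 * Nat.card T := by
    have := (normalizer_Mq_semi_dihedral _ hx₀ hs₀).2
    rw [← hN, ← hT] at this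
    exact this
  rw [hset, Set.ncard_union_eq hdisj, Set.ncard_diff (SetLike.coe_subset_coe.2 hTN)]
  have h3' := Set.ncard_union_add_ncard_inter (U : Set PSL(2, F)) (L : Set PSL(2, F))
  rw [hUL] at h3'
  simp only [sol_ncard_subgroup] at h3' ⊢
  have hq1 : 1 ≤ Fintype.card F := Fintype.card_pos
  obtain ⟨m, hm⟩ : ∃ m, m = Fintype.card F * (Fintype.card F - 1) := ⟨_, rfl⟩
  have hle : Fintype.card F - 1 ≤ m := by
    rw [hm]
    exact Nat.le_mul_of_pos_left _ hq1
  rw [← hm] at hcU hcL ⊢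
  omega

/-- Part (iii): elements of order dividing `q - 1`. -/
theorem sol3_card_minus (h : Q3 F) (x : PSL(2, F)) (hx : x ≠ 1) (ho2 : orderOf x ≠ 2)
    (ho : orderOf x ∣ Fintype.card F - 1) :
    Nat.card {y : PSL(2, F) // Group.IsSolvable ↥(Subgroup.closure ({x, y} : Set PSL(2, F)))} =
      Fintype.card F * (Fintype.card F - 1) := by
  classical
  obtain ⟨h2, hchar, h27, h80, h3, hG, hg⟩ := h.facts
  haveI := hchar
  haveI : Fact (Nat.Prime 3) := ⟨Nat.prime_three⟩
  have hq1 : 1 ≤ Fintype.card F := Fintype.card_pos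
  have ho1 : orderOf x ≠ 1 := by rwa [Ne, orderOf_eq_one_iff]
  have hnd2 : ¬ orderOf x ∣ 2 := by
    intro hd
    rcases (Nat.dvd_prime Nat.prime_two).1 hd with h1 | h1
    · exact ho1 h1
    · exact ho2 h1
  have hpow : x ^ (Fintype.card F - 1) = 1 := orderOf_dvd_iff_pow_eq_one.1 ho
  have hcop : Nat.Coprime (Fintype.card F - 1) 3 :=
    ((Nat.Prime.coprime_iff_not_dvd Nat.prime_three).2 (by omega)).symm
  have hs : trSq x ≠ 4 := trSq_ne_four_of_coprime 3 x hx _ hpow hcop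
  have hsq : x * x ≠ 1 := by
    intro hxx
    exact hnd2 (orderOf_dvd_of_pow_eq_one (by rw [pow_two]; exact hxx))
  obtain ⟨g, rfl⟩ := QuotientGroup.mk_surjective x
  rw [trSq_mk] at hs
  rcases SL2_trichotomy g with h' | ⟨a, ha, htr⟩ | h'
  · exact absurd h' hs
  · obtain ⟨c, hc⟩ := isConj_iff.1 (SL2_isConj_diagSL g a ha htr)
    have e : (QuotientGroup.mk g : PSL(2, F)) = QuotientGroup.mk c * QuotientGroup.mk (diagSL a) *
        (QuotientGroup.mk c)⁻¹ := by
      rw [← hc]; rfl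
    have hsq₀ : (QuotientGroup.mk (diagSL a) : PSL(2, F)) * QuotientGroup.mk (diagSL a) ≠ 1 := by
      intro h0
      apply hsq
      rw [e]
      calc (QuotientGroup.mk c : PSL(2, F)) * QuotientGroup.mk (diagSL a) * (QuotientGroup.mk c)⁻¹ *
            (QuotientGroup.mk c * QuotientGroup.mk (diagSL a) * (QuotientGroup.mk c)⁻¹)
          = QuotientGroup.mk c * (QuotientGroup.mk (diagSL a) * QuotientGroup.mk (diagSL a)) *
            (QuotientGroup.mk c)⁻¹ := by group
        _ = 1 := by rw [h0]; group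
    rw [e, sol_conj_card,
      Nat.card_congr (Equiv.subtypeEquivRight
        (fun y => sol3_iff_SolP h _ y (mk_dS_ne_one a ha) hsq₀
          (q3_semi_pow3 h _ (mk_dS_ne_one a ha) (trSq_mk_dS a ha)))),
      ← sol3_card_dS h a ha hsq₀, ← Nat.card_coe_set_eq]
    rfl
  · exfalso
    have hcard : 2 * Nat.card (Mq (QuotientGroup.mk g : PSL(2, F))) = Fintype.card F + 1 := by
      rw [Mq_mk, PSL2_card_map_centralizer h2]
      exact card_centralizer_of_elliptic g h'
    have hod : orderOf (QuotientGroup.mk g : PSL(2, F)) ∣ Fintype.card F + 1 := by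
      rw [← hcard]
      exact Dvd.dvd.mul_left (q3_order_dvd_Mq _ hx) _
    exact hnd2 (sol_dvd_two' _ _ hq1 hod ho)

end s3c

section s3d

variable {F : Type*} [Field F] [Fintype F]

theorem card_isConj_mul {G : Type*} [Group G] [Finite G] (x : G) :
    Nat.card {y : G // IsConj x y} * Nat.card (Subgroup.centralizer ({x} : Set G)) =
      Nat.card G := by
  classical
  obtain ⟨C, hC⟩ : ∃ C : Subgroup G, C = Subgroup.centralizer ({x} : Set G) := ⟨_, rfl⟩
  rw [← hC]
  have hmem : ∀ g : G, g ∈ C ↔ g * x = x * g := by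
    intro g
    rw [hC, Subgroup.mem_centralizer_singleton_iff]
  let f : G ⧸ C → {y : G // IsConj x y} := Quotient.lift
    (fun g : G => (⟨g * x * g⁻¹, isConj_iff.2 ⟨g, rfl⟩⟩ : {y : G // IsConj x y})) (by
      intro a b hab
      have hab' : a⁻¹ * b ∈ C := QuotientGroup.leftRel_apply.1 hab
      rw [hmem] at hab'
      apply Subtype.ext
      show a * x * a⁻¹ = b * x * b⁻¹
      have e : b * x * b⁻¹ = a * (a⁻¹ * b * x) * b⁻¹ := by group
      rw [e, hab']
      group)
  have hf : Function.Bijective f := by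
    constructor
    · intro a b
      induction a using QuotientGroup.induction_on with | H a => ?_
      induction b using QuotientGroup.induction_on with | H b => ?_
      intro hab
      have h1 : a * x * a⁻¹ = b * x * b⁻¹ := congrArg Subtype.val hab
      apply QuotientGroup.eq.2
      rw [hmem]
      have e : a⁻¹ * b * x = a⁻¹ * (b * x * b⁻¹) * b := by group
      rw [e, ← h1]
      group
    · rintro ⟨y, hy⟩
      obtain ⟨g, hg⟩ := isConj_iff.1 hy
      exact ⟨QuotientGroup.mk g, Subtype.ext hg⟩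
  rw [← Nat.card_congr (Equiv.ofBijective f hf)]
  exact (Subgroup.card_eq_card_quotient_mul_card_subgroup C).symm

theorem q3_neg_one_nonsq (h : Q3 F) : ∀ r : F, r ^ 2 ≠ -1 := by
  obtain ⟨h2, hchar, h27, h80, h3, hG, hg⟩ := h.facts
  intro r hr
  have h1 : IsSquare (-1 : F) := ⟨r, by rw [← hr, pow_two]⟩
  rw [FiniteField.isSquare_neg_one_iff] at h1
  omega

theorem q3_invol_semi (h : Q3 F) (x : PSL(2, F)) (hx : x ≠ 1) (hxx : x * x = 1) :
    trSq x ≠ 4 := by
  obtain ⟨h2, hchar, h27, h80, h3, hG, hg⟩ := h.facts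
  haveI := hchar
  haveI : Fact (Nat.Prime 3) := ⟨Nat.prime_three⟩
  exact trSq_ne_four_of_coprime 3 x hx 2 (by rw [pow_two]; exact hxx) (by norm_num)

theorem q3_card_centralizer_invol (h : Q3 F) (x : PSL(2, F)) (hx : x ≠ 1) (hxx : x * x = 1) :
    Nat.card (Subgroup.centralizer ({x} : Set PSL(2, F))) = Fintype.card F + 1 := by
  obtain ⟨h2, hchar, h27, h80, h3, hG, hg⟩ := h.facts
  obtain ⟨g, rfl, hggz⟩ := PSL2_involution_lift h2 x hx hxx
  rw [PSL2_card_centralizer_involution h2 g hggz]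
  apply card_centralizer_of_elliptic
  intro r hr
  rw [SL2_trace_zero_of_sq g hggz, zero_mul, add_zero] at hr
  exact q3_neg_one_nonsq h r hr

theorem weyl_invol (h2 : (2 : F) ≠ 0) :
    (QuotientGroup.mk (weylSL : SL(2, F)) : PSL(2, F)) ≠ 1 ∧
    (QuotientGroup.mk (weylSL : SL(2, F)) : PSL(2, F)) * QuotientGroup.mk weylSL = 1 := by
  have htr : ((weylSL : SL(2, F)) : Matrix (Fin 2) (Fin 2) F).trace = 0 := by
    rw [Matrix.trace_fin_two, wS_00, wS_11, add_zero]
  have hsq := SL2_sq_of_trace_zero _ htr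
  constructor
  · rw [Ne, PSL2_mk_eq_one_iff]
    intro hs
    have := SL2_mul_self_eq_one_of_scalar _ hs
    rw [hsq] at this
    exact signSL_false_ne_one h2 this
  · rw [← QuotientGroup.mk_mul, hsq, QuotientGroup.eq_one_iff]
    exact (SL2_center_iff _).mpr (Or.inr rfl)

theorem q3_card_sq_one (h : Q3 F) :
    2 * ({y : PSL(2, F) | y * y = 1}).ncard = Fintype.card F * (Fintype.card F - 1) + 2 := by
  obtain ⟨h2, hchar, h27, h80, h3, hG, hg⟩ := h.facts
  obtain ⟨hx, hxx⟩ := weyl_invol (F := F) h2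
  obtain ⟨x, hx0⟩ : ∃ x : PSL(2, F), x = QuotientGroup.mk (weylSL : SL(2, F)) := ⟨_, rfl⟩
  rw [← hx0] at hx hxx
  have hcls := card_isConj_mul x
  rw [q3_card_centralizer_invol h x hx hxx] at hcls
  have hset : {y : PSL(2, F) | y * y = 1} = insert 1 {y : PSL(2, F) | IsConj x y} := by
    ext y
    simp only [Set.mem_setOf_eq, Set.mem_insert_iff]
    constructor
    · intro hyy
      by_cases hy : y = 1
      · exact Or.inl hy
      · exact Or.inr (PSL2_involutions_isConj h2 x y hx hxx hy hyy)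
    · rintro (rfl | hc)
      · exact one_mul 1
      · obtain ⟨c, rfl⟩ := isConj_iff.1 hc
        calc c * x * c⁻¹ * (c * x * c⁻¹) = c * (x * x) * c⁻¹ := by group
          _ = 1 := by rw [hxx]; group
  have hnot : (1 : PSL(2, F)) ∉ {y : PSL(2, F) | IsConj x y} := by
    intro hc
    obtain ⟨c, hc⟩ := isConj_iff.1 hc
    exact conj_ne_one' hx hc
  have e1 : Nat.card {y : PSL(2, F) // IsConj x y} = ({y : PSL(2, F) | IsConj x y}).ncard :=
    Nat.card_coe_set_eq _
  rw [hset, Set.ncard_insert_of_notMem hnot, ← e1]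
  have hq1 : 1 ≤ Fintype.card F := Fintype.card_pos
  rw [red_sq_fac _ hq1, ← hcls, ← mul_assoc, ← mul_assoc] at hG
  have h5 : 2 * Nat.card {y : PSL(2, F) // IsConj x y} =
      Fintype.card F * (Fintype.card F - 1) :=
    Nat.eq_of_mul_eq_mul_right (by omega : 0 < Fintype.card F + 1) hG
  omega

theorem q3_invol_card_Mq (h : Q3 F) (x : PSL(2, F)) (hx : x ≠ 1) (hxx : x * x = 1) :
    Nat.card (Mq x) * 2 = Fintype.card F + 1 := by
  obtain ⟨h2, hchar, h27, h80, h3, hG, hg⟩ := h.facts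
  have hs := q3_invol_semi h x hx hxx
  have hod := q3_order_dvd_Mq x hx
  have hd2 : orderOf x ∣ 2 := orderOf_dvd_of_pow_eq_one (by rw [pow_two]; exact hxx)
  have ho2 : orderOf x = 2 := by
    rcases (Nat.dvd_prime Nat.prime_two).1 hd2 with h1 | h1
    · exact absurd (orderOf_eq_one_iff.1 h1) hx
    · exact h1
  rw [ho2] at hod
  obtain ⟨k, hk⟩ := hod
  rcases q3_card_Mq h x hs with h' | h'
  · exfalso
    omega
  · exact h'

theorem q3_Mq_sq_one (h : Q3 F) (x : PSL(2, F)) (hx : x ≠ 1) (hxx : x * x = 1) (y : PSL(2, F))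
    (hy : y ∈ Mq x) (hyy : y * y = 1) : y = 1 ∨ y = x := by
  obtain ⟨h2, hchar, h27, h80, h3, hG, hg⟩ := h.facts
  by_contra hcon
  push Not at hcon
  have hcomm : x * y = y * x := Mq_comm x hx (tiPart_Mq.mem x hx) hy
  obtain ⟨g, rfl, hggz⟩ := PSL2_involution_lift h2 x hx hxx
  have := (PSL2_commuting_involutions_iff h2 g hggz y).1 ⟨hcon.1, hyy, fun e => hcon.2 e.symm, hcomm⟩
  rw [Mq_mk] at hy
  exact this.2 hy

theorem q3_card_Bx (h : Q3 F) (x : PSL(2, F)) (hx : x ≠ 1) (hxx : x * x = 1) :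
    2 * ({y : PSL(2, F) | y ∈ Mq x ∧ y * y ≠ 1}).ncard + 4 = Fintype.card F + 1 := by
  obtain ⟨h2, hchar, h27, h80, h3, hG, hg⟩ := h.facts
  have hset : {y : PSL(2, F) | y ∈ Mq x ∧ y * y ≠ 1} =
      ((Mq x : Subgroup PSL(2, F)) : Set PSL(2, F)) \ {1, x} := by
    ext y
    simp only [Set.mem_setOf_eq, Set.mem_diff, SetLike.mem_coe, Set.mem_insert_iff,
      Set.mem_singleton_iff]
    constructor
    · rintro ⟨hy, hyy⟩
      refine ⟨hy, ?_⟩
      rintro (rfl | rfl)
      · exact hyy (one_mul 1)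
      · exact hyy hxx
    · rintro ⟨hy, hne⟩
      exact ⟨hy, fun hyy => hne (q3_Mq_sq_one h x hx hxx y hy hyy)⟩
  have hsub : ({1, x} : Set PSL(2, F)) ⊆ ((Mq x : Subgroup PSL(2, F)) : Set PSL(2, F)) := by
    rintro y (rfl | rfl)
    · exact one_mem _
    · exact tiPart_Mq.mem _ hx
  rw [hset, Set.ncard_diff hsub, Set.ncard_pair (Ne.symm hx), sol_ncard_subgroup]
  have := q3_invol_card_Mq h x hx hxx
  omega

theorem q3_card_inverted (x : PSL(2, F)) (hxx : x * x = 1) :
    ({y : PSL(2, F) | x * y * x⁻¹ = y⁻¹}).ncard = ({y : PSL(2, F) | y * y = 1}).ncard := by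
  have hxi : x⁻¹ = x := inv_eq_of_mul_eq_one_left hxx
  rw [← Nat.card_coe_set_eq, ← Nat.card_coe_set_eq]
  apply Nat.card_congr
  refine Equiv.subtypeEquiv (Equiv.mulLeft x) (fun y => ?_)
  show x * y * x⁻¹ = y⁻¹ ↔ x * y * (x * y) = 1
  rw [hxi, ← mul_assoc, mul_eq_one_iff_eq_inv]

theorem q3_card_AI (h : Q3 F) (x : PSL(2, F)) (hx : x ≠ 1) (hxx : x * x = 1) :
    2 * ({y : PSL(2, F) | y * y = 1} ∩ {y : PSL(2, F) | x * y * x⁻¹ = y⁻¹}).ncard =
      Fintype.card F + 1 + 4 := by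
  obtain ⟨h2, hchar, h27, h80, h3, hG, hg⟩ := h.facts
  have hxi : x⁻¹ = x := inv_eq_of_mul_eq_one_left hxx
  have hset : {y : PSL(2, F) | y * y = 1} ∩ {y : PSL(2, F) | x * y * x⁻¹ = y⁻¹} =
      {1, x} ∪ {b : PSL(2, F) | b ≠ 1 ∧ b * b = 1 ∧ x ≠ b ∧ x * b = b * x} := by
    ext y
    simp only [Set.mem_inter_iff, Set.mem_setOf_eq, Set.mem_union, Set.mem_insert_iff,
      Set.mem_singleton_iff]
    constructor
    · rintro ⟨hyy, hinv⟩
      have hyi : y⁻¹ = y := inv_eq_of_mul_eq_one_left hyy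
      rw [hyi, mul_inv_eq_iff_eq_mul] at hinv
      by_cases hy1 : y = 1
      · exact Or.inl (Or.inl hy1)
      by_cases hyx : y = x
      · exact Or.inl (Or.inr hyx)
      · exact Or.inr ⟨hy1, hyy, fun e => hyx e.symm, hinv⟩
    · rintro ((rfl | rfl) | ⟨hy1, hyy, hne, hc⟩)
      · exact ⟨one_mul 1, by simp⟩
      · exact ⟨hxx, by rw [mul_inv_cancel_right, hxi]⟩
      · have hyi : y⁻¹ = y := inv_eq_of_mul_eq_one_left hyy
        exact ⟨hyy, by rw [hyi, mul_inv_eq_iff_eq_mul]; exact hc⟩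
  have hdisj : Disjoint ({1, x} : Set PSL(2, F))
      {b : PSL(2, F) | b ≠ 1 ∧ b * b = 1 ∧ x ≠ b ∧ x * b = b * x} := by
    rw [Set.disjoint_left]
    rintro y (rfl | rfl) ⟨hy1, -, hne, -⟩
    · exact hy1 rfl
    · exact hne rfl
  have hk := PSL2_card_commuting_involutions h2 x hx hxx
  rw [q3_card_centralizer_invol h x hx hxx] at hk
  have e1 : Nat.card {b : PSL(2, F) // b ≠ 1 ∧ b * b = 1 ∧ x ≠ b ∧ x * b = b * x} =
      ({b : PSL(2, F) | b ≠ 1 ∧ b * b = 1 ∧ x ≠ b ∧ x * b = b * x}).ncard :=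
    Nat.card_coe_set_eq _
  rw [hset, Set.ncard_union_eq hdisj, Set.ncard_pair (Ne.symm hx), ← e1]
  omega

end s3d

section s3e

variable {F : Type*} [Field F] [Fintype F]

theorem q3_unip_of_pow3 (h : Q3 F) (y : PSL(2, F)) (hy : y ≠ 1) (hy3 : y ^ 3 = 1) :
    trSq y = 4 := by
  by_contra hs
  exact q3_semi_pow3 h y hy hs hy3

theorem q3_pow3_of_unip (h : Q3 F) (y : PSL(2, F)) (hy : y ≠ 1) (ht : trSq y = 4) :
    y ^ 3 = 1 := by
  obtain ⟨h2, hchar, h27, h80, h3, hG, hg⟩ := h.facts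
  haveI := hchar
  haveI : Fact (Nat.Prime 3) := ⟨Nat.prime_three⟩
  exact Mq_unip_pow 3 y y hy ht (tiPart_Mq.mem y hy)

/-- Membership in the solubilizer of an involution. -/
theorem sol3_invol_iff (h : Q3 F) (x : PSL(2, F)) (hx : x ≠ 1) (hxx : x * x = 1)
    (y : PSL(2, F)) :
    Group.IsSolvable ↥(Subgroup.closure ({x, y} : Set PSL(2, F))) ↔
      (y * y = 1 ∨ x * y * x⁻¹ = y⁻¹) ∨ (y ∈ Mq x ∧ y * y ≠ 1) ∨
        (trSq y = 4 ∧ trSq (x * y) = 4) := by
  obtain ⟨h2, hchar, h27, h80, h3, hG, hg⟩ := h.facts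
  have hxi : x⁻¹ = x := inv_eq_of_mul_eq_one_left hxx
  have hsx := q3_invol_semi h x hx hxx
  have hxm : x ∈ Mq x := tiPart_Mq.mem x hx
  constructor
  · intro hsolv
    by_cases hyy : y * y = 1
    · exact Or.inl (Or.inl hyy)
    have hy : y ≠ 1 := by
      rintro rfl
      exact hyy (one_mul 1)
    rcases sol3_cases h x y hx ((sol3_iff h x y).1 hsolv) with
      (⟨z, hz, hsz, hxz, hyz⟩ | ⟨z, hz, htz, hxz, hyz⟩) | ⟨-, hy12, hxy12⟩
    · have hyin : y ∈ Mq z := by
        by_contra hnot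
        have hconj : y * z * y⁻¹ ∈ Mq z :=
          (Subgroup.mem_normalizer_iff.1 hyz z).1 (tiPart_Mq.mem z hz)
        exact hyy (Mq_semi_normalizer z y hz hsz hconj hnot).1
      by_cases hxin : x ∈ Mq z
      · right; left
        have e1 := tiPart_Mq.eq_of_mem z x hz hx hxin
        rw [e1]
        exact ⟨hyin, hyy⟩
      · left; right
        have hconj : x * z * x⁻¹ ∈ Mq z :=
          (Subgroup.mem_normalizer_iff.1 hxz z).1 (tiPart_Mq.mem z hz)
        exact (Mq_semi_normalizer z x hz hsz hconj hxin).2 y hyin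
    · exact absurd (q3_no_invol_borel h z hz htz x hxz hxx) hx
    · rcases q3_pow12 h y hy12 with h1 | hy3
      · exact absurd h1 hyy
      have hty := q3_unip_of_pow3 h y hy hy3
      rcases q3_pow12 h (x * y) hxy12 with h1 | hxy3
      · left; right
        rw [hxi]
        rw [← mul_assoc, mul_eq_one_iff_eq_inv] at h1
        exact h1
      · right; right
        have hxy : x * y ≠ 1 := by
          intro h1
          apply hyy
          have e : y = x⁻¹ := (inv_eq_of_mul_eq_one_right h1).symm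
          rw [e, hxi]
          exact hxx
        exact ⟨hty, q3_unip_of_pow3 h _ hxy hxy3⟩
  · rintro ((hyy | hinv) | ⟨hyin, hyy⟩ | ⟨hty, htxy⟩)
    · have hyi : y⁻¹ = y := inv_eq_of_mul_eq_one_left hyy
      by_cases hz : x * y = 1
      · have hyx : y = x := by
          have e : y = x⁻¹ := (inv_eq_of_mul_eq_one_right hz).symm
          rw [e, hxi]
        rw [hyx]
        exact sol3_of_le h x x x hx (Subgroup.le_normalizer hxm) (Subgroup.le_normalizer hxm)
      · have hzi : (x * y)⁻¹ = y * x := by rw [mul_inv_rev, hxi, hyi]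
        apply sol3_of_le h x y (x * y) hz
        · apply tiPart_Mq.mem_normalizer_of_conj_mem hz (tiPart_Mq.mem _ hz) hz
          have e : x * (x * y) * x⁻¹ = (x * y)⁻¹ := by
            rw [hzi, hxi, ← mul_assoc, hxx, one_mul]
          rw [e]
          exact inv_mem (tiPart_Mq.mem _ hz)
        · apply tiPart_Mq.mem_normalizer_of_conj_mem hz (tiPart_Mq.mem _ hz) hz
          have e : y * (x * y) * y⁻¹ = (x * y)⁻¹ := by
            rw [hzi, hyi, mul_assoc, mul_assoc, hyy, mul_one]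
          rw [e]
          exact inv_mem (tiPart_Mq.mem _ hz)
    · by_cases hy : y = 1
      · rw [hy]
        exact sol3_of_le h x 1 x hx (Subgroup.le_normalizer hxm) (one_mem _)
      · apply sol3_of_le h x y y hy
        · apply tiPart_Mq.mem_normalizer_of_conj_mem hy (tiPart_Mq.mem _ hy) hy
          rw [hinv]
          exact inv_mem (tiPart_Mq.mem _ hy)
        · exact Subgroup.le_normalizer (tiPart_Mq.mem _ hy)
    · exact sol3_of_le h x y x hx (Subgroup.le_normalizer hxm) (Subgroup.le_normalizer hyin)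
    · have hy : y ≠ 1 := by
        rintro rfl
        rw [mul_one] at htxy
        exact hsx htxy
      have hxy : x * y ≠ 1 := by
        intro h1
        have e : y = x := by
          have e' : y = x⁻¹ := (inv_eq_of_mul_eq_one_right h1).symm
          rw [e', hxi]
        rw [e] at hty
        exact hsx hty
      rw [sol3_iff h]
      intro htop
      have hle := closure_le_18 x y hxx (q3_pow3_of_unip h y hy hty)
        (q3_pow3_of_unip h _ hxy htxy)
      rw [htop, Subgroup.card_top] at hle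
      have hgt := q3_card_gt h
      omega

theorem sol3_card_invol_aux (h : Q3 F) (x : PSL(2, F)) (hx : x ≠ 1) (hxx : x * x = 1)
    (hD : ({y : PSL(2, F) | trSq y = 4 ∧ trSq (x * y) = 4}).ncard =
      2 * (Fintype.card F + 1)) :
    Nat.card {y : PSL(2, F) // Group.IsSolvable ↥(Subgroup.closure ({x, y} : Set PSL(2, F)))} =
      Fintype.card F * (Fintype.card F + 1) := by
  classical
  obtain ⟨h2, hchar, h27, h80, h3, hG, hg⟩ := h.facts
  have hxi : x⁻¹ = x := inv_eq_of_mul_eq_one_left hxx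
  have hsx := q3_invol_semi h x hx hxx
  obtain ⟨A, hA⟩ : ∃ A : Set PSL(2, F), A = {y | y * y = 1} := ⟨_, rfl⟩
  obtain ⟨I, hI⟩ : ∃ I : Set PSL(2, F), I = {y | x * y * x⁻¹ = y⁻¹} := ⟨_, rfl⟩
  obtain ⟨B, hB⟩ : ∃ B : Set PSL(2, F), B = {y | y ∈ Mq x ∧ y * y ≠ 1} := ⟨_, rfl⟩
  obtain ⟨D, hD'⟩ : ∃ D : Set PSL(2, F), D = {y | trSq y = 4 ∧ trSq (x * y) = 4} := ⟨_, rfl⟩
  have hset : {y : PSL(2, F) | Group.IsSolvable ↥(Subgroup.closure ({x, y} : Set PSL(2, F)))} =
      ((A ∪ I) ∪ B) ∪ D := by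
    ext y
    rw [Set.mem_ofPred_eq, sol3_invol_iff h x hx hxx y, hA, hI, hB, hD']
    simp only [Set.mem_union, Set.mem_setOf_eq]
    tauto
  have hd1 : Disjoint (A ∪ I) B := by
    rw [Set.disjoint_left]
    rintro y hy hyB
    rw [hB] at hyB
    obtain ⟨hyin, hyy⟩ := hyB
    rcases hy with hy | hy
    · rw [hA] at hy
      exact hyy hy
    · rw [hI] at hy
      have hc : x * y = y * x := Mq_comm x hx (tiPart_Mq.mem x hx) hyin
      have hy' : x * y * x⁻¹ = y⁻¹ := hy
      rw [hc, mul_inv_cancel_right] at hy'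
      exact hyy (by rw [mul_eq_one_iff_eq_inv]; exact hy')
  have hd2 : Disjoint ((A ∪ I) ∪ B) D := by
    rw [Set.disjoint_left]
    rintro y hy hyD
    rw [hD'] at hyD
    obtain ⟨hty, htxy⟩ := hyD
    have hy1 : y ≠ 1 := by
      rintro rfl
      rw [mul_one] at htxy
      exact hsx htxy
    have hy3 := q3_pow3_of_unip h y hy1 hty
    rcases hy with (hy | hy) | hy
    · rw [hA] at hy
      apply hy1
      have e : y ^ 3 = y * y * y := by rw [pow_succ, pow_two]
      have hy' : y * y = 1 := hy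
      rw [e, hy', one_mul] at hy3
      exact hy3
    · rw [hI] at hy
      have hy' : x * y * x⁻¹ = y⁻¹ := hy
      have hxn : x ∈ Subgroup.normalizer ((Mq y : Subgroup PSL(2, F)) : Set PSL(2, F)) := by
        apply tiPart_Mq.mem_normalizer_of_conj_mem hy1 (tiPart_Mq.mem _ hy1) hy1
        rw [hy']
        exact inv_mem (tiPart_Mq.mem _ hy1)
      exact hx (q3_no_invol_borel h y hy1 hty x hxn hxx)
    · rw [hB] at hy
      obtain ⟨hyin, -⟩ := hy
      have e1 := tiPart_Mq.eq_of_mem x y hx hy1 hyin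
      have hxin : x ∈ Mq y := by rw [e1]; exact tiPart_Mq.mem x hx
      exact hsx (trSq_of_mem_Mq hy1 hxin hty)
  have hAI := Set.ncard_union_add_ncard_inter A I
  have hcA := q3_card_sq_one h
  have hcI := q3_card_inverted x hxx
  have hcAI := q3_card_AI h x hx hxx
  have hcB := q3_card_Bx h x hx hxx
  rw [← hA] at hcA hcI hcAI
  rw [← hI] at hcI hcAI
  rw [← hB] at hcB
  rw [← hD'] at hD
  have e0 : Nat.card {y : PSL(2, F) //
      Group.IsSolvable ↥(Subgroup.closure ({x, y} : Set PSL(2, F)))} =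
      ({y : PSL(2, F) |
        Group.IsSolvable ↥(Subgroup.closure ({x, y} : Set PSL(2, F)))}).ncard :=
    Nat.card_coe_set_eq _
  rw [e0, hset, Set.ncard_union_eq hd2, Set.ncard_union_eq hd1, hD]
  have hq1 : 1 ≤ Fintype.card F := Fintype.card_pos
  obtain ⟨m, hm⟩ : ∃ m, m = Fintype.card F * (Fintype.card F - 1) := ⟨_, rfl⟩
  have e : Fintype.card F * (Fintype.card F + 1) = m + 2 * Fintype.card F := by
    rw [hm]
    obtain ⟨k, hk⟩ : ∃ k, Fintype.card F = k + 1 := ⟨Fintype.card F - 1, by omega⟩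
    rw [hk]
    simp
    ring
  rw [e]
  rw [← hm] at hcA
  omega

/-- The lift with trace `2` of an element of order `3` whose product with the Weyl involution
has order `3`. -/
def dMat (u v : F) (s : Bool) (hc : u ^ 2 + u * v * 0 + v ^ 2 = 1) : SL(2, F) :=
  mkSL (u + 1) (v - sgnB s) (v + sgnB s) (1 - u)
    (by linear_combination (-1 : F) * hc + sgnB_mul_self (F := F) s)

theorem q3_card_Dx (h : Q3 F) :
    ({y : PSL(2, F) | trSq y = 4 ∧
        trSq ((QuotientGroup.mk (weylSL : SL(2, F)) : PSL(2, F)) * y) = 4}).ncard =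
      2 * (Fintype.card F + 1) := by
  classical
  obtain ⟨h2, hchar, h27, h80, h3, hG, hg⟩ := h.facts
  let φ : {p : F × F // p.1 ^ 2 + p.1 * p.2 * 0 + p.2 ^ 2 = 1} × Bool → PSL(2, F) :=
    fun t => QuotientGroup.mk (dMat t.1.1.1 t.1.1.2 t.2 t.1.2)
  have hinj : Function.Injective φ := by
    rintro ⟨⟨⟨u, v⟩, hc⟩, s⟩ ⟨⟨⟨u', v'⟩, hc'⟩, s'⟩ heq
    have heq' : (QuotientGroup.mk (dMat u v s hc) : PSL(2, F)) =
        QuotientGroup.mk (dMat u' v' s' hc') := heq
    rw [PSL2_mk_eq_mk_iff] at heq'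
    obtain ⟨ε, hε, hmat⟩ := heq'
    have e00 := congrFun (congrFun hmat 0) 0
    have e01 := congrFun (congrFun hmat 0) 1
    have e10 := congrFun (congrFun hmat 1) 0
    have e11 := congrFun (congrFun hmat 1) 1
    simp only [dMat, mkSL_00, mkSL_01, mkSL_10, mkSL_11, Matrix.smul_apply, smul_eq_mul]
      at e00 e01 e10 e11
    have hε1 : ε = 1 := by
      have h5 : (2 : F) * (ε - 1) = 0 := by linear_combination -e00 - e11
      rcases mul_eq_zero.1 h5 with h6 | h6
      · exact absurd h6 h2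
      · linear_combination h6
    rw [hε1, one_mul] at e00 e01 e10 e11
    have hu : u' = u := by linear_combination e00
    have hv : v' = v := by
      have h5 : (2 : F) * (v' - v) = 0 := by linear_combination e01 + e10
      rcases mul_eq_zero.1 h5 with h6 | h6
      · exact absurd h6 h2
      · linear_combination h6
    have hs : (sgnB s' : F) = sgnB s := by
      have h5 : (2 : F) * (sgnB s' - sgnB s) = 0 := by linear_combination e10 - e01
      rcases mul_eq_zero.1 h5 with h6 | h6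
      · exact absurd h6 h2
      · linear_combination h6
    have hss : s' = s := sgnB_injective h2 hs
    subst hu hv hss
    rfl
  have hrange : {y : PSL(2, F) | trSq y = 4 ∧
        trSq ((QuotientGroup.mk (weylSL : SL(2, F)) : PSL(2, F)) * y) = 4} = Set.range φ := by
    ext y
    constructor
    · rintro ⟨hty, htxy⟩
      obtain ⟨B, rfl⟩ := QuotientGroup.mk_surjective y
      have key : ∀ B : SL(2, F), (B : Matrix (Fin 2) (Fin 2) F).trace = 2 →
          trSq ((QuotientGroup.mk (weylSL : SL(2, F)) : PSL(2, F)) * QuotientGroup.mk B) = 4 →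
          (QuotientGroup.mk B : PSL(2, F)) ∈ Set.range φ := by
        intro B htr htxy
        have e : (QuotientGroup.mk (weylSL : SL(2, F)) : PSL(2, F)) * QuotientGroup.mk B =
            QuotientGroup.mk (weylSL * B) := rfl
        rw [e, trSq_mk, Matrix.trace_fin_two, SL2_mul_00, SL2_mul_11, wS_00, wS_01, wS_10,
          wS_11] at htxy
        rw [Matrix.trace_fin_two] at htr
        have hdet := SL2_det_eq B
        have hcb : ((B : Matrix (Fin 2) (Fin 2) F) 1 0 - (B : Matrix (Fin 2) (Fin 2) F) 0 1 - 2) *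
            ((B : Matrix (Fin 2) (Fin 2) F) 1 0 - (B : Matrix (Fin 2) (Fin 2) F) 0 1 + 2) = 0 := by
          linear_combination htxy
        have hex : ∃ s : Bool, (B : Matrix (Fin 2) (Fin 2) F) 1 0 -
            (B : Matrix (Fin 2) (Fin 2) F) 0 1 = 2 * sgnB s := by
          rcases mul_eq_zero.1 hcb with h5 | h5
          · exact ⟨true, by rw [show (sgnB true : F) = 1 from rfl]; linear_combination h5⟩
          · exact ⟨false, by rw [show (sgnB false : F) = -1 from rfl]; linear_combination h5⟩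
        obtain ⟨s, hs⟩ := hex
        have hδ := sgnB_mul_self (F := F) s
        have hconic : ((B : Matrix (Fin 2) (Fin 2) F) 0 0 - 1) ^ 2 +
            ((B : Matrix (Fin 2) (Fin 2) F) 0 0 - 1) *
              ((B : Matrix (Fin 2) (Fin 2) F) 0 1 + sgnB s) * 0 +
            ((B : Matrix (Fin 2) (Fin 2) F) 0 1 + sgnB s) ^ 2 = 1 := by
          linear_combination (-1 : F) * hdet + (B : Matrix (Fin 2) (Fin 2) F) 0 0 * htr -
            (B : Matrix (Fin 2) (Fin 2) F) 0 1 * hs + hδ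
        refine ⟨(⟨((B : Matrix (Fin 2) (Fin 2) F) 0 0 - 1,
          (B : Matrix (Fin 2) (Fin 2) F) 0 1 + sgnB s), hconic⟩, s), ?_⟩
        show (QuotientGroup.mk (dMat _ _ s hconic) : PSL(2, F)) = QuotientGroup.mk B
        congr 1
        apply SL2_ext
        · simp only [dMat, mkSL_00]; ring
        · simp only [dMat, mkSL_01]; ring
        · simp only [dMat, mkSL_10]; linear_combination -hs
        · simp only [dMat, mkSL_11]; linear_combination -htr
      rw [trSq_mk] at hty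
      have hcases : ((B : Matrix (Fin 2) (Fin 2) F).trace - 2) *
          ((B : Matrix (Fin 2) (Fin 2) F).trace + 2) = 0 := by
        linear_combination hty
      rcases mul_eq_zero.1 hcases with h5 | h5
      · exact key B (by linear_combination h5) htxy
      · have hdet := SL2_det_eq B
        obtain ⟨B', hB'⟩ : ∃ B' : SL(2, F), B' = mkSL (-((B : Matrix (Fin 2) (Fin 2) F) 0 0))
            (-((B : Matrix (Fin 2) (Fin 2) F) 0 1)) (-((B : Matrix (Fin 2) (Fin 2) F) 1 0))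
            (-((B : Matrix (Fin 2) (Fin 2) F) 1 1)) (by linear_combination hdet) := ⟨_, rfl⟩
        have hmk : (QuotientGroup.mk B' : PSL(2, F)) = QuotientGroup.mk B := by
          rw [PSL2_mk_eq_mk_iff]
          refine ⟨-1, by ring, ?_⟩
          ext i j
          fin_cases i <;> fin_cases j <;> simp [hB', mkSL_val]
        rw [← hmk] at htxy ⊢
        apply key B' _ htxy
        rw [Matrix.trace_fin_two, hB', mkSL_00, mkSL_11]
        rw [Matrix.trace_fin_two] at h5
        linear_combination -h5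
    · rintro ⟨⟨⟨⟨u, v⟩, hc⟩, s⟩, rfl⟩
      have hδ := sgnB_mul_self (F := F) s
      constructor
      · show trSq (QuotientGroup.mk (dMat u v s hc) : PSL(2, F)) = 4
        rw [trSq_mk, Matrix.trace_fin_two]
        simp only [dMat, mkSL_00, mkSL_11]
        ring
      · show trSq ((QuotientGroup.mk (weylSL : SL(2, F)) : PSL(2, F)) *
          QuotientGroup.mk (dMat u v s hc)) = 4
        have e : (QuotientGroup.mk (weylSL : SL(2, F)) : PSL(2, F)) *
            QuotientGroup.mk (dMat u v s hc) = QuotientGroup.mk (weylSL * dMat u v s hc) := rfl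
        rw [e, trSq_mk, Matrix.trace_fin_two, SL2_mul_00, SL2_mul_11, wS_00, wS_01, wS_10, wS_11]
        simp only [dMat, mkSL_01, mkSL_10]
        linear_combination 4 * hδ
  rw [hrange, ← Set.image_univ, Set.ncard_image_of_injective _ hinj, Set.ncard_univ,
    Nat.card_prod, card_normSol_elliptic 0 (fun r hr => q3_neg_one_nonsq h r (by rw [hr]; ring)),
    Nat.card_eq_fintype_card, Fintype.card_bool]
  ring

/-- Part (i): the solubilizer of an involution. -/
theorem sol3_card_invol (h : Q3 F) (x : PSL(2, F)) (hx : x ≠ 1) (hxx : x * x = 1) :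
    Nat.card {y : PSL(2, F) // Group.IsSolvable ↥(Subgroup.closure ({x, y} : Set PSL(2, F)))} =
      Fintype.card F * (Fintype.card F + 1) := by
  obtain ⟨h2, hchar, h27, h80, h3, hG, hg⟩ := h.facts
  obtain ⟨hw, hww⟩ := weyl_invol (F := F) h2
  obtain ⟨c, hc⟩ := isConj_iff.1 (PSL2_involutions_isConj h2 _ x hw hww hx hxx)
  rw [← hc, sol_conj_card]
  exact sol3_card_invol_aux h _ hw hww (q3_card_Dx h)

end s3e

section s3f

variable {F : Type*} [Field F] [Fintype F]

theorem sol3_cases' (h : Q3 F) (x y : PSL(2, F)) (hx : x ≠ 1)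
    (hne : Subgroup.closure ({x, y} : Set PSL(2, F)) ≠ ⊤) :
    SolP x y ∨ ∀ g ∈ Subgroup.closure ({x, y} : Set PSL(2, F)), g ^ 12 = 1 := by
  have hxm : x ∈ Subgroup.closure ({x, y} : Set PSL(2, F)) := Subgroup.subset_closure (by simp)
  have hym : y ∈ Subgroup.closure ({x, y} : Set PSL(2, F)) := Subgroup.subset_closure (by simp)
  rcases odd3_proper h _ hne with hb | ⟨z, hz, hs, hle⟩ | ⟨z, hz, ht, hle⟩ | h12
  · exfalso
    rw [hb] at hxm
    exact hx (Subgroup.mem_bot.1 hxm)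
  · exact Or.inl (Or.inl ⟨z, hz, hs, hle hxm, hle hym⟩)
  · exact Or.inl (Or.inr ⟨z, hz, ht, hle hxm, hle hym⟩)
  · right
    intro g hg
    have h5 := pow_card_eq_one' (G := ↥(Subgroup.closure ({x, y} : Set PSL(2, F))))
      (x := ⟨g, hg⟩)
    rw [h12] at h5
    have h6 := congrArg (fun q : ↥(Subgroup.closure ({x, y} : Set PSL(2, F))) =>
      (q : PSL(2, F))) h5
    simpa using h6

theorem q3_unip_mem_of_normalizer (h : Q3 F) (u : PSL(2, F)) (hu : u ≠ 1) (ht : trSq u = 4)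
    (x : PSL(2, F))
    (hx : x ∈ Subgroup.normalizer ((Mq u : Subgroup PSL(2, F)) : Set PSL(2, F)))
    (hx3 : x ^ 3 = 1) : x ∈ Mq u := by
  obtain ⟨h2, hchar, h27, h80, h3, hG, hg⟩ := h.facts
  haveI := hchar
  haveI : Fact (Nat.Prime 3) := ⟨Nat.prime_three⟩
  have hZ : IsPGroup 3 (Subgroup.zpowers x) := by
    rintro ⟨g, hg⟩
    obtain ⟨n, rfl⟩ := Subgroup.mem_zpowers_iff.1 hg
    refine ⟨1, Subtype.ext ?_⟩
    rw [Subgroup.coe_pow, Subgroup.coe_one]
    show (x ^ n) ^ (3 ^ 1) = 1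
    rw [pow_one, ← zpow_natCast, ← zpow_mul, mul_comm, zpow_mul, zpow_natCast, hx3, one_zpow]
  have hP : IsPGroup 3 (Mq u) := (sylowMq 3 u hu ht).isPGroup'
  have hle : Subgroup.zpowers x ≤
      Subgroup.normalizer ((Mq u : Subgroup PSL(2, F)) : Set PSL(2, F)) := by
    rw [Subgroup.zpowers_le]
    exact hx
  have hQ := IsPGroup.to_sup_of_normal_right' hZ hP hle
  have hmax := Mq_unip_max 3 u hu ht _ hQ le_sup_right
  exact hmax ((le_sup_left : Subgroup.zpowers x ≤ Subgroup.zpowers x ⊔ Mq u)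
    (Subgroup.mem_zpowers x))

theorem uS_mul_trace (a : F) (Y : SL(2, F)) :
    ((uS a * Y : SL(2, F)) : Matrix (Fin 2) (Fin 2) F).trace =
      (Y : Matrix (Fin 2) (Fin 2) F).trace + a * (Y : Matrix (Fin 2) (Fin 2) F) 1 0 := by
  rw [Matrix.trace_fin_two, Matrix.trace_fin_two, SL2_mul_00, SL2_mul_11, uS_00, uS_01, uS_10,
    uS_11]
  ring

theorem uS_mul_inv_trace (a : F) (Y : SL(2, F)) :
    ((uS a * Y⁻¹ : SL(2, F)) : Matrix (Fin 2) (Fin 2) F).trace =
      (Y : Matrix (Fin 2) (Fin 2) F).trace - a * (Y : Matrix (Fin 2) (Fin 2) F) 1 0 := by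
  rw [Matrix.trace_fin_two, Matrix.trace_fin_two, SL2_mul_00, SL2_mul_11, uS_00, uS_01, uS_10,
    uS_11, SL2_inv_00, SL2_inv_10, SL2_inv_11]
  ring

theorem q3_U1 (h2 : (2 : F) ≠ 0) (a : F) (ha : a ≠ 0) (y : PSL(2, F)) (hty : trSq y = 4)
    (h1 : trSq ((QuotientGroup.mk (uS a) : PSL(2, F)) * y) = 4)
    (h2' : trSq ((QuotientGroup.mk (uS a) : PSL(2, F)) * y⁻¹) = 4) :
    y ∈ Subgroup.normalizer ((Mq (QuotientGroup.mk (uS a) : PSL(2, F))) : Set PSL(2, F)) := by
  obtain ⟨Y, rfl⟩ := QuotientGroup.mk_surjective y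
  have e1 : (QuotientGroup.mk (uS a) : PSL(2, F)) * QuotientGroup.mk Y =
      QuotientGroup.mk (uS a * Y) := rfl
  have e2 : (QuotientGroup.mk (uS a) : PSL(2, F)) * (QuotientGroup.mk Y)⁻¹ =
      QuotientGroup.mk (uS a * Y⁻¹) := rfl
  rw [e1, trSq_mk, uS_mul_trace] at h1
  rw [e2, trSq_mk, uS_mul_inv_trace] at h2'
  rw [trSq_mk] at hty
  rw [mk_mem_normalizer_uS_iff ha]
  have h4 : (4 : F) ≠ 0 := by
    have e : (4 : F) = 2 * 2 := by norm_num
    rw [e]
    exact mul_ne_zero h2 h2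
  have h5 : (4 : F) * (Y : Matrix (Fin 2) (Fin 2) F).trace * a *
      (Y : Matrix (Fin 2) (Fin 2) F) 1 0 = 0 := by
    linear_combination h1 - h2'
  have hτ : (Y : Matrix (Fin 2) (Fin 2) F).trace ≠ 0 := by
    intro h0
    rw [h0] at hty
    apply h4
    rw [← hty]
    ring
  rcases mul_eq_zero.1 h5 with h6 | h6
  · rcases mul_eq_zero.1 h6 with h7 | h7
    · rcases mul_eq_zero.1 h7 with h8 | h8
      · exact absurd h8 h4
      · exact absurd h8 hτ
    · exact absurd h7 ha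
  · exact h6

theorem q3_U2 (h2 : (2 : F) ≠ 0) (a : F) (y : PSL(2, F))
    (h1 : trSq ((QuotientGroup.mk (uS a) : PSL(2, F)) * y) = 0)
    (h2' : trSq ((QuotientGroup.mk (uS a) : PSL(2, F)) * y⁻¹) = 0) : trSq y = 0 := by
  obtain ⟨Y, rfl⟩ := QuotientGroup.mk_surjective y
  have e1 : (QuotientGroup.mk (uS a) : PSL(2, F)) * QuotientGroup.mk Y =
      QuotientGroup.mk (uS a * Y) := rfl
  have e2 : (QuotientGroup.mk (uS a) : PSL(2, F)) * (QuotientGroup.mk Y)⁻¹ =
      QuotientGroup.mk (uS a * Y⁻¹) := rfl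
  rw [e1, trSq_mk, uS_mul_trace] at h1
  rw [e2, trSq_mk, uS_mul_inv_trace] at h2'
  rw [trSq_mk]
  have h5 := (pow_eq_zero_iff two_ne_zero).1 h1
  have h6 := (pow_eq_zero_iff two_ne_zero).1 h2'
  have h7 : (2 : F) * (Y : Matrix (Fin 2) (Fin 2) F).trace = 0 := by
    linear_combination h5 + h6
  rcases mul_eq_zero.1 h7 with h8 | h8
  · exact absurd h8 h2
  · rw [h8]
    ring

theorem q3_invol_iff_trSq (h : Q3 F) (y : PSL(2, F)) : (y ≠ 1 ∧ y * y = 1) ↔ trSq y = 0 := by
  obtain ⟨h2, hchar, h27, h80, h3, hG, hg⟩ := h.facts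
  constructor
  · rintro ⟨hy, hyy⟩
    rcases trSq_of_pow_two y (by rw [pow_two]; exact hyy) with h0 | h4
    · exact h0
    · exact absurd h4 (q3_invol_semi h y hy hyy)
  · intro h0
    obtain ⟨Y, rfl⟩ := QuotientGroup.mk_surjective y
    rw [trSq_mk] at h0
    have htr := (pow_eq_zero_iff two_ne_zero).1 h0
    have hsq := SL2_sq_of_trace_zero _ htr
    constructor
    · rw [Ne, PSL2_mk_eq_one_iff]
      intro hs
      have := SL2_mul_self_eq_one_of_scalar _ hs
      rw [hsq] at this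
      exact signSL_false_ne_one h2 this
    · rw [← QuotientGroup.mk_mul, hsq, QuotientGroup.eq_one_iff]
      exact (SL2_center_iff _).mpr (Or.inr rfl)

theorem q3_A_iff (h : Q3 F) (x y : PSL(2, F)) (hx : x ≠ 1) (hx3 : x ^ 3 = 1) :
    (y ≠ 1 ∧ y * y = 1 ∧ (x * y) ^ 3 = 1) ↔ (trSq y = 0 ∧ trSq (x * y) = 4) := by
  constructor
  · rintro ⟨hy, hyy, h3⟩
    refine ⟨(q3_invol_iff_trSq h y).1 ⟨hy, hyy⟩, ?_⟩
    have hxy : x * y ≠ 1 := by
      intro e
      have e' : y = x⁻¹ := (inv_eq_of_mul_eq_one_right e).symm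
      rw [e'] at hyy
      apply hx
      have h5 : x * x = 1 := by
        have h6 : (x * x)⁻¹ = 1 := by rw [mul_inv_rev]; exact hyy
        exact inv_eq_one.1 h6
      have e3 : x ^ 3 = x * x * x := by rw [pow_succ, pow_two]
      rw [e3, h5, one_mul] at hx3
      exact hx3
    exact q3_unip_of_pow3 h _ hxy h3
  · rintro ⟨h0, h4⟩
    obtain ⟨hy, hyy⟩ := (q3_invol_iff_trSq h y).2 h0
    refine ⟨hy, hyy, ?_⟩
    by_cases hxy : x * y = 1
    · rw [hxy, one_pow]
    · exact q3_pow3_of_unip h _ hxy h4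

theorem SL2_exists_neg (B : SL(2, F)) : ∃ B' : SL(2, F),
    (QuotientGroup.mk B' : PSL(2, F)) = QuotientGroup.mk B ∧
    (B' : Matrix (Fin 2) (Fin 2) F) 0 0 = -(B : Matrix (Fin 2) (Fin 2) F) 0 0 ∧
    (B' : Matrix (Fin 2) (Fin 2) F) 0 1 = -(B : Matrix (Fin 2) (Fin 2) F) 0 1 ∧
    (B' : Matrix (Fin 2) (Fin 2) F) 1 0 = -(B : Matrix (Fin 2) (Fin 2) F) 1 0 ∧
    (B' : Matrix (Fin 2) (Fin 2) F) 1 1 = -(B : Matrix (Fin 2) (Fin 2) F) 1 1 := by
  have hdet := SL2_det_eq B
  obtain ⟨B', hB'⟩ : ∃ B' : SL(2, F), B' = mkSL (-((B : Matrix (Fin 2) (Fin 2) F) 0 0))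
      (-((B : Matrix (Fin 2) (Fin 2) F) 0 1)) (-((B : Matrix (Fin 2) (Fin 2) F) 1 0))
      (-((B : Matrix (Fin 2) (Fin 2) F) 1 1)) (by linear_combination hdet) := ⟨_, rfl⟩
  refine ⟨B', ?_, by rw [hB', mkSL_00], by rw [hB', mkSL_01], by rw [hB', mkSL_10],
    by rw [hB', mkSL_11]⟩
  rw [PSL2_mk_eq_mk_iff]
  refine ⟨-1, by ring, ?_⟩
  ext i j
  fin_cases i <;> fin_cases j <;> simp [hB', mkSL_val]

/-- An involution whose product with the standard unipotent element has order `3`. -/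
def aMat (a : F) (ha : a ≠ 0) (h2 : (2 : F) ≠ 0) (α : F) : SL(2, F) :=
  mkSL α (-(1 + α ^ 2) * a * 2⁻¹) (2 * a⁻¹) (-α) (by
    have e1 : a * a⁻¹ = 1 := mul_inv_cancel₀ ha
    have e2 : (2 : F) * 2⁻¹ = 1 := mul_inv_cancel₀ h2
    linear_combination (1 + α ^ 2) * (2 * 2⁻¹) * e1 + (1 + α ^ 2) * e2)

theorem q3_card_A (h : Q3 F) (a : F) (ha : a ≠ 0) :
    ({y : PSL(2, F) | trSq y = 0 ∧
        trSq ((QuotientGroup.mk (uS a) : PSL(2, F)) * y) = 4}).ncard = Fintype.card F := by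
  classical
  obtain ⟨h2, hchar, h27, h80, h3, hG, hg⟩ := h.facts
  have e1 : a * a⁻¹ = 1 := mul_inv_cancel₀ ha
  have e2 : (2 : F) * 2⁻¹ = 1 := mul_inv_cancel₀ h2
  let ψ : F → PSL(2, F) := fun α => QuotientGroup.mk (aMat a ha h2 α)
  have hinj : Function.Injective ψ := by
    intro α α' heq
    have heq' : (QuotientGroup.mk (aMat a ha h2 α) : PSL(2, F)) =
        QuotientGroup.mk (aMat a ha h2 α') := heq
    rw [PSL2_mk_eq_mk_iff] at heq'
    obtain ⟨ε, hε, hmat⟩ := heq'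
    have e00 := congrFun (congrFun hmat 0) 0
    have e10 := congrFun (congrFun hmat 1) 0
    simp only [aMat, mkSL_00, mkSL_10, Matrix.smul_apply, smul_eq_mul] at e00 e10
    have hne : (2 : F) * a⁻¹ ≠ 0 := mul_ne_zero h2 (inv_ne_zero ha)
    have hε1 : ε = 1 := by
      have h5 : (ε - 1) * (2 * a⁻¹) = 0 := by linear_combination -e10
      rcases mul_eq_zero.1 h5 with h6 | h6
      · linear_combination h6
      · exact absurd h6 hne
    rw [hε1, one_mul] at e00
    exact e00.symm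
  have hrange : {y : PSL(2, F) | trSq y = 0 ∧
        trSq ((QuotientGroup.mk (uS a) : PSL(2, F)) * y) = 4} = Set.range ψ := by
    ext y
    constructor
    · rintro ⟨hty, htxy⟩
      obtain ⟨Y, rfl⟩ := QuotientGroup.mk_surjective y
      have key : ∀ Y : SL(2, F), (Y : Matrix (Fin 2) (Fin 2) F).trace = 0 →
          a * (Y : Matrix (Fin 2) (Fin 2) F) 1 0 = 2 →
          (QuotientGroup.mk Y : PSL(2, F)) ∈ Set.range ψ := by
        intro Y htr h10
        have hdet := SL2_det_eq Y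
        rw [Matrix.trace_fin_two] at htr
        refine ⟨(Y : Matrix (Fin 2) (Fin 2) F) 0 0, ?_⟩
        show (QuotientGroup.mk (aMat a ha h2 _) : PSL(2, F)) = QuotientGroup.mk Y
        congr 1
        apply SL2_ext
        · simp only [aMat, mkSL_00]
        · simp only [aMat, mkSL_01]
          linear_combination (a * 2⁻¹) * hdet -
            (Y : Matrix (Fin 2) (Fin 2) F) 0 0 * a * 2⁻¹ * htr +
            (Y : Matrix (Fin 2) (Fin 2) F) 0 1 * 2⁻¹ * h10 +
            (Y : Matrix (Fin 2) (Fin 2) F) 0 1 * e2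
        · simp only [aMat, mkSL_10]
          linear_combination (-a⁻¹) * h10 + (Y : Matrix (Fin 2) (Fin 2) F) 1 0 * e1
        · simp only [aMat, mkSL_11]
          linear_combination -htr
      have e : (QuotientGroup.mk (uS a) : PSL(2, F)) * QuotientGroup.mk Y =
          QuotientGroup.mk (uS a * Y) := rfl
      rw [e, trSq_mk, uS_mul_trace] at htxy
      rw [trSq_mk] at hty
      have htr : (Y : Matrix (Fin 2) (Fin 2) F).trace = 0 :=
        (pow_eq_zero_iff two_ne_zero).1 hty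
      rw [htr, zero_add] at htxy
      have hcases : (a * (Y : Matrix (Fin 2) (Fin 2) F) 1 0 - 2) *
          (a * (Y : Matrix (Fin 2) (Fin 2) F) 1 0 + 2) = 0 := by
        linear_combination htxy
      rcases mul_eq_zero.1 hcases with h5 | h5
      · exact key Y htr (by linear_combination h5)
      · obtain ⟨Y', hmk, h00, h01, h10, h11⟩ := SL2_exists_neg Y
        rw [← hmk]
        apply key Y'
        · rw [Matrix.trace_fin_two, h00, h11]
          rw [Matrix.trace_fin_two] at htr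
          linear_combination -htr
        · rw [h10]
          linear_combination -h5
    · rintro ⟨α, rfl⟩
      constructor
      · show trSq (QuotientGroup.mk (aMat a ha h2 α) : PSL(2, F)) = 0
        rw [trSq_mk, Matrix.trace_fin_two]
        simp only [aMat, mkSL_00, mkSL_11]
        ring
      · show trSq ((QuotientGroup.mk (uS a) : PSL(2, F)) *
          QuotientGroup.mk (aMat a ha h2 α)) = 4
        have e : (QuotientGroup.mk (uS a) : PSL(2, F)) * QuotientGroup.mk (aMat a ha h2 α) =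
            QuotientGroup.mk (uS a * aMat a ha h2 α) := rfl
        rw [e, trSq_mk, uS_mul_trace, Matrix.trace_fin_two]
        simp only [aMat, mkSL_00, mkSL_11, mkSL_10]
        linear_combination (4 * (a * a⁻¹) + 4) * e1
  rw [hrange, ← Set.image_univ, Set.ncard_image_of_injective _ hinj, Set.ncard_univ,
    Nat.card_eq_fintype_card]

theorem sol3_of_A4 (h : Q3 F) (x y : PSL(2, F)) (hx3 : x ^ 3 = 1) (hy3 : y ^ 3 = 1)
    (hw : x * y * (x * y) = 1) :
    Group.IsSolvable ↥(Subgroup.closure ({x, y} : Set PSL(2, F))) := by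
  rw [sol3_iff h]
  intro htop
  have h1 : (x⁻¹) ^ 3 = 1 := by rw [inv_pow, hx3, inv_one]
  have h2 : (x * y * x⁻¹) ^ 3 = 1 := by
    rw [conj_pow, hy3, mul_one, mul_inv_cancel]
  have hle := closure_le_18 (x * y) x⁻¹ hw h1 h2
  have hm1 : x * y ∈ Subgroup.closure ({x * y, x⁻¹} : Set PSL(2, F)) :=
    Subgroup.subset_closure (by simp)
  have hm2 : x⁻¹ ∈ Subgroup.closure ({x * y, x⁻¹} : Set PSL(2, F)) :=
    Subgroup.subset_closure (by simp)
  have hsub : Subgroup.closure ({x, y} : Set PSL(2, F)) ≤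
      Subgroup.closure ({x * y, x⁻¹} : Set PSL(2, F)) := by
    rw [Subgroup.closure_le]
    intro g hg
    rcases hg with hg | hg
    · rw [hg]
      have := inv_mem hm2
      rwa [inv_inv] at this
    · have hg' : g = y := hg
      rw [hg']
      have := mul_mem hm2 hm1
      rwa [inv_mul_cancel_left] at this
  have hc := Subgroup.card_le_of_le hsub
  rw [htop, Subgroup.card_top] at hc
  have := q3_card_gt h
  omega

theorem closure_pair_inv {G : Type*} [Group G] (x y : G) :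
    Subgroup.closure ({x, y⁻¹} : Set G) = Subgroup.closure ({x, y} : Set G) := by
  apply le_antisymm
  · rw [Subgroup.closure_le]
    intro g hg
    rcases hg with hg | hg
    · rw [hg]
      exact Subgroup.subset_closure (by simp)
    · have hg' : g = y⁻¹ := hg
      rw [hg']
      exact inv_mem (Subgroup.subset_closure (by simp))
  · rw [Subgroup.closure_le]
    intro g hg
    rcases hg with hg | hg
    · rw [hg]
      exact Subgroup.subset_closure (by simp)
    · have hg' : g = y := hg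
      rw [hg']
      have : y⁻¹ ∈ Subgroup.closure ({x, y⁻¹} : Set G) := Subgroup.subset_closure (by simp)
      have h2 := inv_mem this
      rwa [inv_inv] at h2

end s3f

section s3g

variable {F : Type*} [Field F] [Fintype F]

/-- Membership in the solubilizer of an element of order `3`. -/
theorem sol3_unip_iff (h : Q3 F) (x : PSL(2, F)) (hx : x ≠ 1) (hx3 : x ^ 3 = 1)
    (hU1 : ∀ y : PSL(2, F), trSq y = 4 → trSq (x * y) = 4 → trSq (x * y⁻¹) = 4 →
      y ∈ Subgroup.normalizer ((Mq x : Subgroup PSL(2, F)) : Set PSL(2, F)))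
    (y : PSL(2, F)) :
    Group.IsSolvable ↥(Subgroup.closure ({x, y} : Set PSL(2, F))) ↔
      ((y ∈ Subgroup.normalizer ((Mq x : Subgroup PSL(2, F)) : Set PSL(2, F)) ∨
      (y ≠ 1 ∧ y * y = 1 ∧ (x * y) ^ 3 = 1)) ∨
      (y ∉ Subgroup.normalizer ((Mq x : Subgroup PSL(2, F)) : Set PSL(2, F)) ∧ y ^ 3 = 1 ∧
        x * y * (x * y) = 1)) ∨
      (y ∉ Subgroup.normalizer ((Mq x : Subgroup PSL(2, F)) : Set PSL(2, F)) ∧ y ^ 3 = 1 ∧
        x * y⁻¹ * (x * y⁻¹) = 1) := by
  obtain ⟨h2, hchar, h27, h80, h3, hG, hg⟩ := h.facts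
  have htx := q3_unip_of_pow3 h x hx hx3
  have hxm : x ∈ Mq x := tiPart_Mq.mem x hx
  have hxN : x ∈ Subgroup.normalizer ((Mq x : Subgroup PSL(2, F)) : Set PSL(2, F)) :=
    Subgroup.le_normalizer hxm
  have hxc : x ∈ Subgroup.closure ({x, y} : Set PSL(2, F)) := Subgroup.subset_closure (by simp)
  have hyc : y ∈ Subgroup.closure ({x, y} : Set PSL(2, F)) := Subgroup.subset_closure (by simp)
  constructor
  · intro hsolv
    by_cases hyN : y ∈ Subgroup.normalizer ((Mq x : Subgroup PSL(2, F)) : Set PSL(2, F))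
    · exact Or.inl (Or.inl (Or.inl hyN))
    have hy1 : y ≠ 1 := by
      rintro rfl
      exact hyN (one_mem _)
    rcases sol3_cases' h x y hx ((sol3_iff h x y).1 hsolv) with
      (⟨z, hz, hsz, hxz, hyz⟩ | ⟨z, hz, htz, hxz, hyz⟩) | key12
    · exact absurd (q3_no_three_torus h z hz hsz x hxz hx3) hx
    · exfalso
      have hxin := q3_unip_mem_of_normalizer h z hz htz x hxz hx3
      have e := tiPart_Mq.eq_of_mem z x hz hx hxin
      rw [← e] at hyz
      exact hyN hyz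
    · rcases q3_pow12 h y (key12 y hyc) with hyy | hy3
      · left; left; right
        refine ⟨hy1, hyy, ?_⟩
        rcases q3_pow12 h (x * y) (key12 _ (mul_mem hxc hyc)) with hw | hw
        · exfalso
          apply hyN
          apply tiPart_Mq.mem_normalizer_of_conj_mem hx hxm hx
          have hyi : y⁻¹ = y := inv_eq_of_mul_eq_one_left hyy
          have e : y * x * y⁻¹ = x⁻¹ := by
            rw [hyi]
            have e' : x * (y * x * y) = 1 := by
              rw [← hw]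
              group
            exact (inv_eq_of_mul_eq_one_right e').symm
          rw [e]
          exact inv_mem hxm
        · exact hw
      · have hty := q3_unip_of_pow3 h y hy1 hy3
        rcases q3_pow12 h (x * y) (key12 _ (mul_mem hxc hyc)) with hw | hw
        · left; right
          exact ⟨hyN, hy3, hw⟩
        rcases q3_pow12 h (x * y⁻¹) (key12 _ (mul_mem hxc (inv_mem hyc))) with hw' | hw'
        · right
          exact ⟨hyN, hy3, hw'⟩
        · exfalso
          have hxy : x * y ≠ 1 := by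
            intro e
            apply hyN
            have e' : y = x⁻¹ := (inv_eq_of_mul_eq_one_right e).symm
            rw [e']
            exact inv_mem hxN
          have hxy' : x * y⁻¹ ≠ 1 := by
            intro e
            apply hyN
            have e' : y⁻¹ = x⁻¹ := (inv_eq_of_mul_eq_one_right e).symm
            have e'' : y = x := inv_injective e'
            rw [e'']
            exact hxN
          exact hyN (hU1 y hty (q3_unip_of_pow3 h _ hxy hw) (q3_unip_of_pow3 h _ hxy' hw'))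
  · rintro (((hyN | ⟨hy1, hyy, hw⟩) | ⟨hyN, hy3, hw⟩) | ⟨hyN, hy3, hw⟩)
    · exact sol3_of_le h x y x hx hxN hyN
    · rw [sol3_iff h]
      intro htop
      have hw' : (y * x) ^ 3 = 1 := by
        have e : y * x = x⁻¹ * (x * y) * x⁻¹⁻¹ := by group
        rw [e, conj_pow, hw, mul_one, mul_inv_cancel]
      have hle := closure_le_18 y x hyy hx3 hw'
      rw [Set.pair_comm y x, htop, Subgroup.card_top] at hle
      have := q3_card_gt h
      omega
    · exact sol3_of_A4 h x y hx3 hy3 hw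
    · have hy3' : (y⁻¹) ^ 3 = 1 := by rw [inv_pow, hy3, inv_one]
      have := sol3_of_A4 h x y⁻¹ hx3 hy3' hw
      rw [closure_pair_inv] at this
      exact this

theorem q3_card_Yp (h : Q3 F) (x : PSL(2, F)) (hx : x ≠ 1) (hx3 : x ^ 3 = 1) :
    ({y : PSL(2, F) | y ∉ Subgroup.normalizer ((Mq x : Subgroup PSL(2, F)) : Set PSL(2, F)) ∧
        y ^ 3 = 1 ∧ x * y * (x * y) = 1}).ncard =
    ({w : PSL(2, F) | w ≠ 1 ∧ w * w = 1 ∧ (x⁻¹ * w) ^ 3 = 1}).ncard := by
  have htx := q3_unip_of_pow3 h x hx hx3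
  have hxN : x ∈ Subgroup.normalizer ((Mq x : Subgroup PSL(2, F)) : Set PSL(2, F)) :=
    Subgroup.le_normalizer (tiPart_Mq.mem x hx)
  rw [← Nat.card_coe_set_eq, ← Nat.card_coe_set_eq]
  apply Nat.card_congr
  refine Equiv.subtypeEquiv (Equiv.mulLeft x) (fun y => ?_)
  show (y ∉ Subgroup.normalizer ((Mq x : Subgroup PSL(2, F)) : Set PSL(2, F)) ∧ y ^ 3 = 1 ∧
      x * y * (x * y) = 1) ↔ (x * y ≠ 1 ∧ x * y * (x * y) = 1 ∧ (x⁻¹ * (x * y)) ^ 3 = 1)
  rw [inv_mul_cancel_left]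
  constructor
  · rintro ⟨hyN, hy3, hw⟩
    refine ⟨?_, hw, hy3⟩
    intro e
    apply hyN
    have e' : y = x⁻¹ := (inv_eq_of_mul_eq_one_right e).symm
    rw [e']
    exact inv_mem hxN
  · rintro ⟨hw1, hw, hy3⟩
    refine ⟨?_, hy3, hw⟩
    intro hyN
    exact hw1 (q3_no_invol_borel h x hx htx (x * y) (mul_mem hxN hyN) hw)

theorem q3_card_Ym (x : PSL(2, F)) :
    ({y : PSL(2, F) | y ∉ Subgroup.normalizer ((Mq x : Subgroup PSL(2, F)) : Set PSL(2, F)) ∧
        y ^ 3 = 1 ∧ x * y⁻¹ * (x * y⁻¹) = 1}).ncard =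
    ({y : PSL(2, F) | y ∉ Subgroup.normalizer ((Mq x : Subgroup PSL(2, F)) : Set PSL(2, F)) ∧
        y ^ 3 = 1 ∧ x * y * (x * y) = 1}).ncard := by
  rw [← Nat.card_coe_set_eq, ← Nat.card_coe_set_eq]
  apply Nat.card_congr
  refine Equiv.subtypeEquiv (Equiv.inv PSL(2, F)) (fun y => ?_)
  show (y ∉ Subgroup.normalizer ((Mq x : Subgroup PSL(2, F)) : Set PSL(2, F)) ∧ y ^ 3 = 1 ∧
      x * y⁻¹ * (x * y⁻¹) = 1) ↔
    (y⁻¹ ∉ Subgroup.normalizer ((Mq x : Subgroup PSL(2, F)) : Set PSL(2, F)) ∧ (y⁻¹) ^ 3 = 1 ∧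
      x * y⁻¹ * (x * y⁻¹) = 1)
  rw [inv_mem_iff, inv_pow, inv_eq_one]

theorem sol3_card_unip_aux (h : Q3 F) (x : PSL(2, F)) (hx : x ≠ 1) (hx3 : x ^ 3 = 1)
    (hU1 : ∀ y : PSL(2, F), trSq y = 4 → trSq (x * y) = 4 → trSq (x * y⁻¹) = 4 →
      y ∈ Subgroup.normalizer ((Mq x : Subgroup PSL(2, F)) : Set PSL(2, F)))
    (hU2 : ∀ y : PSL(2, F), trSq (x * y) = 0 → trSq (x * y⁻¹) = 0 → trSq y = 0)
    (hA : ({y : PSL(2, F) | trSq y = 0 ∧ trSq (x * y) = 4}).ncard = Fintype.card F)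
    (hA' : ({y : PSL(2, F) | trSq y = 0 ∧ trSq (x⁻¹ * y) = 4}).ncard = Fintype.card F) :
    2 * Nat.card {y : PSL(2, F) //
        Group.IsSolvable ↥(Subgroup.closure ({x, y} : Set PSL(2, F)))} =
      Fintype.card F * (Fintype.card F + 5) := by
  classical
  obtain ⟨h2, hchar, h27, h80, h3, hG, hg⟩ := h.facts
  have htx := q3_unip_of_pow3 h x hx hx3
  have hxN : x ∈ Subgroup.normalizer ((Mq x : Subgroup PSL(2, F)) : Set PSL(2, F)) :=
    Subgroup.le_normalizer (tiPart_Mq.mem x hx)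
  have h4 : (4 : F) ≠ 0 := by
    have e : (4 : F) = 2 * 2 := by norm_num
    rw [e]
    exact mul_ne_zero h2 h2
  have hxi1 : x⁻¹ ≠ 1 := by rwa [Ne, inv_eq_one]
  have hxi3 : (x⁻¹) ^ 3 = 1 := by rw [inv_pow, hx3, inv_one]
  obtain ⟨N, hN⟩ : ∃ N : Subgroup PSL(2, F), N = Subgroup.normalizer
      ((Mq x : Subgroup PSL(2, F)) : Set PSL(2, F)) := ⟨_, rfl⟩
  rw [← hN] at hxN
  obtain ⟨A1, hA1⟩ : ∃ A1 : Set PSL(2, F), A1 = {y | y ≠ 1 ∧ y * y = 1 ∧ (x * y) ^ 3 = 1} :=
    ⟨_, rfl⟩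
  obtain ⟨Yp, hYp⟩ : ∃ Yp : Set PSL(2, F), Yp = {y | y ∉ N ∧ y ^ 3 = 1 ∧
      x * y * (x * y) = 1} := ⟨_, rfl⟩
  obtain ⟨Ym, hYm⟩ : ∃ Ym : Set PSL(2, F), Ym = {y | y ∉ N ∧ y ^ 3 = 1 ∧
      x * y⁻¹ * (x * y⁻¹) = 1} := ⟨_, rfl⟩
  have hset : {y : PSL(2, F) | Group.IsSolvable ↥(Subgroup.closure ({x, y} : Set PSL(2, F)))} =
      (((N : Set PSL(2, F)) ∪ A1) ∪ Yp) ∪ Ym := by
    ext y
    rw [Set.mem_ofPred_eq, sol3_unip_iff h x hx hx3 hU1 y, hA1, hYp, hYm, hN]
    rfl
  have hd1 : Disjoint (N : Set PSL(2, F)) A1 := by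
    rw [Set.disjoint_left]
    intro y hyN hyA
    rw [hA1] at hyA
    obtain ⟨hy1, hyy, -⟩ := hyA
    rw [SetLike.mem_coe, hN] at hyN
    exact hy1 (q3_no_invol_borel h x hx htx y hyN hyy)
  have hsq3 : ∀ y : PSL(2, F), y * y = 1 → y ^ 3 = 1 → y = 1 := by
    intro y hyy hy3
    have e : y ^ 3 = y * y * y := by rw [pow_succ, pow_two]
    rw [e, hyy, one_mul] at hy3
    exact hy3
  have hd2 : Disjoint ((N : Set PSL(2, F)) ∪ A1) Yp := by
    rw [Set.disjoint_left]
    intro y hy hyY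
    rw [hYp] at hyY
    obtain ⟨hyN, hy3, -⟩ := hyY
    rcases hy with hy | hy
    · exact hyN hy
    · rw [hA1] at hy
      obtain ⟨hy1, hyy, -⟩ := hy
      exact hy1 (hsq3 y hyy hy3)
  have hd3 : Disjoint (((N : Set PSL(2, F)) ∪ A1) ∪ Yp) Ym := by
    rw [Set.disjoint_left]
    intro y hy hyY
    rw [hYm] at hyY
    obtain ⟨hyN, hy3, hw'⟩ := hyY
    rcases hy with (hy | hy) | hy
    · exact hyN hy
    · rw [hA1] at hy
      obtain ⟨hy1, hyy, -⟩ := hy
      exact hy1 (hsq3 y hyy hy3)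
    · rw [hYp] at hy
      obtain ⟨-, -, hw⟩ := hy
      have hy1 : y ≠ 1 := by
        rintro rfl
        exact hyN (one_mem _)
      have hxy : x * y ≠ 1 := by
        intro e
        apply hyN
        have e' : y = x⁻¹ := (inv_eq_of_mul_eq_one_right e).symm
        rw [e']
        exact inv_mem hxN
      have hxy' : x * y⁻¹ ≠ 1 := by
        intro e
        apply hyN
        have e' : y⁻¹ = x⁻¹ := (inv_eq_of_mul_eq_one_right e).symm
        have e'' : y = x := inv_injective e'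
        rw [e'']
        exact hxN
      have t1 := (q3_invol_iff_trSq h (x * y)).1 ⟨hxy, hw⟩
      have t2 := (q3_invol_iff_trSq h (x * y⁻¹)).1 ⟨hxy', hw'⟩
      have t3 := hU2 y t1 t2
      rw [q3_unip_of_pow3 h y hy1 hy3] at t3
      exact h4 t3
  have hcN : 2 * Nat.card N = Fintype.card F * (Fintype.card F - 1) := by
    have := card_normalizer_Mq_unip x hx htx
    rwa [hg, ← hN] at this
  have hcA1 : A1.ncard = Fintype.card F := by
    rw [← hA, hA1]
    congr 1
    ext y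
    exact q3_A_iff h x y hx hx3
  have hcYp : Yp.ncard = Fintype.card F := by
    rw [hYp, hN, q3_card_Yp h x hx hx3, ← hA']
    congr 1
    ext y
    exact q3_A_iff h x⁻¹ y hxi1 hxi3
  have hcYm : Ym.ncard = Fintype.card F := by
    rw [← hcYp, hYm, hYp, hN]
    exact q3_card_Ym x
  have e0 : Nat.card {y : PSL(2, F) //
      Group.IsSolvable ↥(Subgroup.closure ({x, y} : Set PSL(2, F)))} =
      ({y : PSL(2, F) |
        Group.IsSolvable ↥(Subgroup.closure ({x, y} : Set PSL(2, F)))}).ncard :=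
    Nat.card_coe_set_eq _
  rw [e0, hset, Set.ncard_union_eq hd3, Set.ncard_union_eq hd2, Set.ncard_union_eq hd1,
    hcA1, hcYp, hcYm, sol_ncard_subgroup]
  have hq1 : 1 ≤ Fintype.card F := Fintype.card_pos
  obtain ⟨m, hm⟩ : ∃ m, m = Fintype.card F * (Fintype.card F - 1) := ⟨_, rfl⟩
  have e : Fintype.card F * (Fintype.card F + 5) = m + 6 * Fintype.card F := by
    rw [hm]
    obtain ⟨k, hk⟩ : ∃ k, Fintype.card F = k + 1 := ⟨Fintype.card F - 1, by omega⟩
    rw [hk]
    simp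
    ring
  rw [e]
  rw [← hm] at hcN
  omega

/-- Part (ii): the solubilizer of an element of order `3`. -/
theorem sol3_card_unip (h : Q3 F) (x : PSL(2, F)) (hx : x ≠ 1) (hx3 : x ^ 3 = 1) :
    2 * Nat.card {y : PSL(2, F) //
        Group.IsSolvable ↥(Subgroup.closure ({x, y} : Set PSL(2, F)))} =
      Fintype.card F * (Fintype.card F + 5) := by
  obtain ⟨h2, hchar, h27, h80, h3, hG, hg⟩ := h.facts
  have htx := q3_unip_of_pow3 h x hx hx3
  obtain ⟨g, rfl⟩ := QuotientGroup.mk_surjective x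
  rw [trSq_mk] at htx
  rw [PSL2_mk_ne_one_iff] at hx
  obtain ⟨k, a, ha, e, -⟩ := Mq_unip_conj g hx htx
  have e' : (QuotientGroup.mk g : PSL(2, F)) =
      QuotientGroup.mk k * QuotientGroup.mk (uS a) * (QuotientGroup.mk k)⁻¹ := by
    rw [e]
    rfl
  rw [e', sol_conj_card]
  have hx₀ := mk_uS_ne_one (F := F) ha
  have hx₀3 : (QuotientGroup.mk (uS a) : PSL(2, F)) ^ 3 = 1 :=
    q3_pow3_of_unip h _ hx₀ (trSq_mk_uS a)
  have hinv : (QuotientGroup.mk (uS a) : PSL(2, F))⁻¹ = QuotientGroup.mk (uS (-a)) := by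
    rw [uS_neg_eq_inv]
    rfl
  apply sol3_card_unip_aux h _ hx₀ hx₀3 (fun y t1 t2 t3 => q3_U1 h2 a ha y t1 t2 t3)
    (fun y t1 t2 => q3_U2 h2 a y t1 t2) (q3_card_A h a ha)
  rw [hinv]
  exact q3_card_A h (-a) (neg_ne_zero.2 ha)

end s3g

end Cfsg.Agent.Lib.helper12
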