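import Mathlib
import Cfsg.Agent.Lib.helper12.DkPart
import Cfsg.Agent.Lib.helper12.PSL2Fus
import Cfsg.Agent.Lib.helper12.PSL2Spec
import Cfsg.Agent.Lib.helper12.PSL2Aut2

/-!
# The odd-product graph on involutions of `PSL₂(q)` (library, seat helper12)
-/

set_option autoImplicit false

namespace Cfsg.Agent.Lib.helper12

open Matrix
open scoped MatrixGroups

/-- A graph in which any two distinct non-adjacent vertices have a common neighbour, and which
is not complete, is connected of diameter two. -/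
theorem graph_diam_two {V : Type*} (G : SimpleGraph V)
    (h1 : ∀ x y, x ≠ y → ¬ G.Adj x y → ∃ z, G.Adj x z ∧ G.Adj z y)
    (h2 : ∃ x y, x ≠ y ∧ ¬ G.Adj x y) : G.Connected ∧ G.diam = 2 := by
  obtain ⟨x₀, y₀, hne, hna⟩ := h2
  have hreach : ∀ x y, ∃ p : G.Walk x y, p.length ≤ 2 := by
    intro x y
    by_cases hxy : x = y
    · subst hxy
      exact ⟨SimpleGraph.Walk.nil, by simp⟩
    · by_cases ha : G.Adj x y
      · exact ⟨SimpleGraph.Walk.cons ha SimpleGraph.Walk.nil, by simp⟩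
      · obtain ⟨z, hz1, hz2⟩ := h1 x y hxy ha
        exact ⟨SimpleGraph.Walk.cons hz1 (SimpleGraph.Walk.cons hz2 SimpleGraph.Walk.nil), by simp⟩
  have hconn : G.Connected := by
    haveI : Nonempty V := ⟨x₀⟩
    exact ⟨fun x y => (hreach x y).choose.reachable⟩
  refine ⟨hconn, ?_⟩
  have hle : G.ediam ≤ 2 := by
    apply SimpleGraph.ediam_le_of_edist_le
    intro u v
    obtain ⟨p, hp⟩ := hreach u v
    refine (SimpleGraph.edist_le p).trans ?_
    exact_mod_cast hp
  have hge : (2 : ℕ∞) ≤ G.ediam := by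
    have h3 : G.edist x₀ y₀ ≤ G.ediam := SimpleGraph.edist_le_ediam
    have h4 : (2 : ℕ∞) ≤ G.edist x₀ y₀ := by
      by_contra hlt
      rw [not_le] at hlt
      have h5 : G.edist x₀ y₀ ≤ 1 := by
        have h6 : G.edist x₀ y₀ < 1 + 1 := by
          rw [one_add_one_eq_two]; exact hlt
        exact Order.le_of_lt_add_one h6
      rcases SimpleGraph.edist_le_one_iff_adj_or_eq.1 h5 with h | h
      · exact hna h
      · exact hne h
    exact h4.trans h3
  have h7 : G.ediam = 2 := le_antisymm hle hge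
  rw [SimpleGraph.diam, h7]
  rfl

section fld

variable {F : Type*} [Field F] [Fintype F]

theorem exists_ne_three (hq : 4 ≤ Fintype.card F) : ∃ s : F, s ≠ 0 ∧ s ≠ 1 ∧ s ≠ -1 := by
  classical
  by_contra hcon
  push Not at hcon
  have hsub : (Finset.univ : Finset F) ⊆ {0, 1, -1} := by
    intro s _
    simp only [Finset.mem_insert, Finset.mem_singleton]
    by_cases h0 : s = 0
    · exact Or.inl h0
    · by_cases h1 : s = 1
      · exact Or.inr (Or.inl h1)
      · exact Or.inr (Or.inr (hcon s h0 h1))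
  have h3 := Finset.card_le_card hsub
  have h4 : ({0, 1, -1} : Finset F).card ≤ 3 := Finset.card_le_three
  rw [Finset.card_univ] at h3
  omega

/-- If `-1` is a non-square then some `z² + 1` is a non-square. -/
theorem exists_sq_add_one_not_isSquare (hm1 : ¬ IsSquare (-1 : F)) :
    ∃ z : F, ¬ IsSquare (z ^ 2 + 1) := by
  by_contra hcon
  push Not at hcon
  have h : ∀ n : ℕ, IsSquare ((n : F)) := by
    intro n
    induction n with
    | zero => exact ⟨0, by simp⟩
    | succ n ih =>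
      obtain ⟨z, hz⟩ := ih
      have h1 := hcon z
      rw [pow_two, ← hz] at h1
      simpa using h1
  apply hm1
  have h1 := h (Fintype.card F - 1)
  have h2 : ((Fintype.card F - 1 : ℕ) : F) = -1 := by
    rw [Nat.cast_sub Fintype.card_pos, FiniteField.cast_card_eq_zero, Nat.cast_one, zero_sub]
  rwa [h2] at h1

/-- The key existence statement for `q ≡ 3 (mod 4)`. -/
theorem exists_split_pair (hm1 : ¬ IsSquare (-1 : F)) (hq : 4 ≤ Fintype.card F) (τ : F)
    (hτ : ¬ IsSquare (τ ^ 2 - 4)) :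
    ∃ a b : F, a ≠ 0 ∧ b ≠ 0 ∧ a ^ 2 ≠ 1 ∧ b ^ 2 ≠ 1 ∧
      IsSquare (-((τ + a * b + (a * b)⁻¹) * (τ + a / b + (a / b)⁻¹))) := by
  classical
  by_contra hcon
  push Not at hcon
  have h2 : (2 : F) ≠ 0 := by
    intro h
    apply hm1
    exact ⟨1, by linear_combination -h⟩
  have hχm1 : quadraticChar F (-1) = -1 := quadraticChar_neg_one_iff_not_isSquare.2 hm1
  have hχΔ : quadraticChar F (τ ^ 2 - 4) = -1 := quadraticChar_neg_one_iff_not_isSquare.2 hτ
  have hf : ∀ c : F, c ^ 2 + τ * c + 1 ≠ 0 := by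
    intro c hc
    apply hτ
    exact ⟨2 * c + τ, by linear_combination (-4) * hc⟩
  have hψf : ∀ c : F, c ≠ 0 → c * (τ + c + c⁻¹) = c ^ 2 + τ * c + 1 := by
    intro c hc
    field_simp
    ring
  have hψ0 : ∀ c : F, c ≠ 0 → τ + c + c⁻¹ ≠ 0 := by
    intro c hc h
    apply hf c
    rw [← hψf c hc, h, mul_zero]
  have key1 : ∀ a b : F, a ≠ 0 → b ≠ 0 → a ^ 2 ≠ 1 → b ^ 2 ≠ 1 →
      quadraticChar F (τ + a * b + (a * b)⁻¹) = quadraticChar F (τ + a / b + (a / b)⁻¹) := by
    intro a b ha hb ha1 hb1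
    have h := hcon a b ha hb ha1 hb1
    rw [← quadraticChar_neg_one_iff_not_isSquare, neg_eq_neg_one_mul, map_mul, map_mul, hχm1] at h
    rcases quadraticChar_dichotomy (hψ0 (a * b) (mul_ne_zero ha hb)) with h1 | h1 <;>
    rcases quadraticChar_dichotomy (hψ0 (a / b) (div_ne_zero ha hb)) with h3 | h3 <;>
    rw [h1, h3] at h ⊢ <;> omega
  have key2 : ∀ c e : F, c ≠ 0 → e ≠ 0 →
      quadraticChar F (τ + c * e ^ 2 + (c * e ^ 2)⁻¹) = quadraticChar F (τ + c + c⁻¹) := by
    intro c e hc he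
    by_cases he1 : e ^ 2 = 1
    · rw [he1, mul_one]
    · by_cases hce : (c * e) ^ 2 = 1
      · have h1 : c * e ^ 2 = c⁻¹ := by
          field_simp
          linear_combination hce
        rw [h1, inv_inv]
        congr 1
        ring
      · have h1 := key1 (c * e) e (mul_ne_zero hc he) he hce he1
        have e1 : c * e * e = c * e ^ 2 := by ring
        have e2 : c * e / e = c := by field_simp
        rw [e1, e2] at h1
        exact h1
  have key3 : ∀ c : F, c ≠ 0 → quadraticChar F (c ^ 2 + τ * c + 1) =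
      quadraticChar F c * quadraticChar F (τ + c + c⁻¹) := by
    intro c hc
    rw [← map_mul, hψf c hc]
  have hp2 : τ + 2 ≠ 0 := by
    intro h
    apply hτ
    exact ⟨0, by linear_combination (τ - 2) * h⟩
  have hm2 : τ - 2 ≠ 0 := by
    intro h
    apply hτ
    exact ⟨0, by linear_combination (τ + 2) * h⟩
  have hε : quadraticChar F (τ - 2) = - quadraticChar F (τ + 2) := by
    have h1 : quadraticChar F ((τ - 2) * (τ + 2)) = -1 := by
      rw [show (τ - 2) * (τ + 2) = τ ^ 2 - 4 by ring]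
      exact hχΔ
    rw [map_mul] at h1
    rcases quadraticChar_dichotomy hp2 with h3 | h3 <;>
    rcases quadraticChar_dichotomy hm2 with h4 | h4 <;>
    rw [h3, h4] at h1 ⊢ <;> omega
  have key4 : ∀ c : F, c ≠ 0 → quadraticChar F (c ^ 2 + τ * c + 1) = quadraticChar F (τ + 2) := by
    intro c hc
    rw [key3 c hc]
    by_cases hsq : IsSquare c
    · obtain ⟨e, he⟩ := hsq
      have he0 : e ≠ 0 := by
        rintro rfl
        rw [mul_zero] at he
        exact hc he
      have h1 : quadraticChar F c = 1 := (quadraticChar_one_iff_isSquare hc).2 ⟨e, he⟩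
      have h3 := key2 1 e one_ne_zero he0
      rw [one_mul, pow_two, ← he] at h3
      rw [h1, h3, one_mul]
      congr 1
      norm_num
      ring
    · have h1 : quadraticChar F c = -1 := quadraticChar_neg_one_iff_not_isSquare.2 hsq
      have h3 : quadraticChar F (-c) = 1 := by
        rw [neg_eq_neg_one_mul, map_mul, hχm1, h1]
        norm_num
      obtain ⟨e, he⟩ := (quadraticChar_one_iff_isSquare (neg_ne_zero.2 hc)).1 h3
      have he0 : e ≠ 0 := by
        rintro rfl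
        rw [mul_zero] at he
        exact hc (neg_eq_zero.1 he)
      have h4 := key2 (-1) e (neg_ne_zero.2 one_ne_zero) he0
      have h5 : (-1 : F) * e ^ 2 = c := by
        rw [pow_two, ← he]
        ring
      rw [h5] at h4
      have h6 : τ + (-1 : F) + (-1 : F)⁻¹ = τ - 2 := by
        rw [inv_neg_one]
        ring
      rw [h6] at h4
      rw [h1, h4, hε]
      ring
  have key5 : quadraticChar F (τ + 2) = 1 := by
    by_cases hτ0 : τ = 0
    · obtain ⟨s, hs0, hs1, hs2⟩ := exists_ne_three (F := F) hq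
      have hss : s ^ 2 ≠ 1 := by
        intro h
        have h' : (s - 1) * (s + 1) = 0 := by linear_combination h
        rcases mul_eq_zero.1 h' with h'' | h''
        · exact hs1 (sub_eq_zero.1 h'')
        · exact hs2 (eq_neg_of_add_eq_zero_left h'')
      have hc0 : (s⁻¹ - s) / 2 ≠ 0 := by
        intro h
        apply hss
        have h' : s⁻¹ - s = 0 := by
          rcases div_eq_zero_iff.1 h with h'' | h''
          · exact h''
          · exact absurd h'' h2
        field_simp at h'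
        linear_combination -h'
      have h3 := key4 ((s⁻¹ - s) / 2) hc0
      rw [← h3]
      have h4 : ((s⁻¹ - s) / 2) ^ 2 + τ * ((s⁻¹ - s) / 2) + 1 = ((s⁻¹ + s) / 2) ^ 2 := by
        rw [hτ0]
        field_simp
        ring
      have h5 : (s⁻¹ + s) / 2 ≠ 0 := by
        intro h
        apply hf ((s⁻¹ - s) / 2)
        rw [h4, h]
        ring
      rw [h4]
      exact quadraticChar_sq_one' h5
    · have h3 := key4 (-τ) (neg_ne_zero.2 hτ0)
      rw [← h3]
      have h4 : (-τ) ^ 2 + τ * (-τ) + 1 = 1 := by ring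
      rw [h4]
      exact map_one _
  have key6 : ∀ c : F, IsSquare (c ^ 2 + τ * c + 1) := by
    intro c
    by_cases hc : c = 0
    · subst hc
      exact ⟨1, by ring⟩
    · exact (quadraticChar_one_iff_isSquare (hf c)).1 ((key4 c hc).trans key5)
  obtain ⟨ν, hν0, hν⟩ : ∃ ν : F, ν ≠ 0 ∧ ν * ν = 4 - τ ^ 2 := by
    have h1 : quadraticChar F (4 - τ ^ 2) = 1 := by
      rw [show (4 : F) - τ ^ 2 = (-1) * (τ ^ 2 - 4) by ring, map_mul, hχm1, hχΔ]
      norm_num
    have hne : (4 : F) - τ ^ 2 ≠ 0 := by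
      intro h
      apply hτ
      exact ⟨0, by linear_combination -h⟩
    obtain ⟨ν, hν⟩ := (quadraticChar_one_iff_isSquare hne).1 h1
    refine ⟨ν, ?_, hν.symm⟩
    rintro rfl
    rw [mul_zero] at hν
    exact hne hν
  have key8 : ∀ z : F, IsSquare (z ^ 2 + 1) := by
    intro z
    obtain ⟨r, hr⟩ := key6 ((ν * z - τ) / 2)
    refine ⟨2 * r / ν, ?_⟩
    field_simp
    field_simp at hr
    linear_combination hr + hν
  obtain ⟨z, hz⟩ := exists_sq_add_one_not_isSquare hm1
  exact hz (key8 z)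

end fld

section ord

variable {F : Type*} [Field F] [Fintype F]

omit [Fintype F] in
theorem PSL2_invol_trace_zero (g : SL(2, F)) (h1 : (QuotientGroup.mk g : PSL(2, F)) ≠ 1)
    (hh : (QuotientGroup.mk g : PSL(2, F)) * QuotientGroup.mk g = 1) :
    (g : Matrix (Fin 2) (Fin 2) F).trace = 0 := by
  rw [← QuotientGroup.mk_mul, PSL2_mk_eq_one_iff] at hh
  obtain ⟨a, ha⟩ := hh
  rw [Matrix.SpecialLinearGroup.coe_mul, SL2_sq_eq] at ha
  by_contra ht
  rw [PSL2_mk_ne_one_iff] at h1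
  apply h1
  refine ⟨(g : Matrix (Fin 2) (Fin 2) F).trace⁻¹ * (a + 1), ?_⟩
  have h5 : (g : Matrix (Fin 2) (Fin 2) F).trace • (g : Matrix (Fin 2) (Fin 2) F) =
      (a + 1) • (1 : Matrix (Fin 2) (Fin 2) F) := by
    rw [add_smul, one_smul, ← ha]
    abel
  rw [mul_smul, ← h5, smul_smul, inv_mul_cancel₀ ht, one_smul]

omit [Fintype F] in
theorem PSL2_mk_mul_self_of_trace_zero (g : SL(2, F))
    (htr : (g : Matrix (Fin 2) (Fin 2) F).trace = 0) :
    (QuotientGroup.mk g : PSL(2, F)) * QuotientGroup.mk g = 1 := by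
  rw [← QuotientGroup.mk_mul, SL2_sq_of_trace_zero g htr, PSL2_mk_eq_one_iff]
  exact ⟨sgnB false, signSL_val false⟩

theorem PSL2_odd_order_of_unip (h2 : (2 : F) ≠ 0) (g : SL(2, F))
    (htr : (g : Matrix (Fin 2) (Fin 2) F).trace ^ 2 = 4) :
    Odd (orderOf (QuotientGroup.mk g : PSL(2, F))) := by
  obtain ⟨p, hp⟩ := CharP.exists F
  haveI : CharP F p := hp
  haveI : Fact p.Prime := ⟨CharP.char_is_prime F p⟩
  have hdvd : orderOf (QuotientGroup.mk g : PSL(2, F)) ∣ p := by
    apply orderOf_dvd_of_pow_eq_one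
    rw [PSL2_mk_pow_eq_one_iff]
    exact SL2_pow_char_scalar p g htr
  have hp2 : p ≠ 2 := by
    rintro rfl
    apply h2
    exact_mod_cast CharP.cast_eq_zero F 2
  have hodd : Odd p := (Fact.out : p.Prime).odd_of_ne_two hp2
  exact Odd.of_dvd_nat hodd hdvd

theorem PSL2_odd_order_of_split (hq : Fintype.card F % 4 = 3) (g : SL(2, F)) (a : F) (ha0 : a ≠ 0)
    (ha : a ^ 2 ≠ 1) (htr : (g : Matrix (Fin 2) (Fin 2) F).trace = a + a⁻¹) :
    Odd (orderOf (QuotientGroup.mk g : PSL(2, F))) := by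
  classical
  have hdvd : orderOf (QuotientGroup.mk g : PSL(2, F)) ∣ (Fintype.card F - 1) / 2 := by
    apply orderOf_dvd_of_pow_eq_one
    rw [PSL2_mk_pow_eq_one_iff]
    obtain ⟨c, hc⟩ := isConj_iff.mp (SL2_isConj_diagSL g (Units.mk0 a ha0) ha htr)
    have hak : (Units.mk0 a ha0) ^ ((Fintype.card F - 1) / 2) *
        (Units.mk0 a ha0) ^ ((Fintype.card F - 1) / 2) = 1 := by
      rw [← pow_add, ← two_mul, Nat.mul_div_cancel' (by omega : 2 ∣ Fintype.card F - 1),
        ← Fintype.card_units]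
      exact pow_card_eq_one
    obtain ⟨u, hu⟩ := (diagSL_scalar_iff ((Units.mk0 a ha0) ^ ((Fintype.card F - 1) / 2))).mpr hak
    refine ⟨u, ?_⟩
    rw [← hc, conj_pow, diagSL_pow, Matrix.SpecialLinearGroup.coe_mul,
      Matrix.SpecialLinearGroup.coe_mul, hu, Matrix.mul_smul, Matrix.mul_one, Matrix.smul_mul,
      ← Matrix.SpecialLinearGroup.coe_mul, mul_inv_cancel, Matrix.SpecialLinearGroup.coe_one]
  have hodd : Odd ((Fintype.card F - 1) / 2) := by
    rw [Nat.odd_iff]
    omega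
  exact Odd.of_dvd_nat hodd hdvd

theorem PSL2_odd_order_char_two (h2 : (2 : F) = 0) (g : SL(2, F))
    (htr : (g : Matrix (Fin 2) (Fin 2) F).trace ≠ 0) :
    Odd (orderOf (QuotientGroup.mk g : PSL(2, F))) := by
  haveI : CharP F 2 := CharTwo.of_one_ne_zero_of_two_eq_zero one_ne_zero h2
  haveI : Fact (Nat.Prime 2) := ⟨Nat.prime_two⟩
  rcases card_parity_cases (F := F) with ⟨h2', -, -⟩ | ⟨-, hpar, hgcd⟩
  · exact absurd h2 h2'
  have hq : 2 ≤ Fintype.card F := Fintype.one_lt_card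
  rcases PSL2_orderOf_dvd 2 (QuotientGroup.mk g : PSL(2, F)) with h | h | h
  · exfalso
    have h1 : (QuotientGroup.mk g : PSL(2, F)) ^ 2 = 1 := orderOf_dvd_iff_pow_eq_one.1 h
    rw [PSL2_mk_pow_eq_one_iff] at h1
    obtain ⟨a, ha⟩ := h1
    rw [pow_two, Matrix.SpecialLinearGroup.coe_mul, SL2_sq_eq] at ha
    have h5 : (g : Matrix (Fin 2) (Fin 2) F).trace • (g : Matrix (Fin 2) (Fin 2) F) =
        (a + 1) • (1 : Matrix (Fin 2) (Fin 2) F) := by
      rw [add_smul, one_smul, ← ha]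
      abel
    have h6 : (g : Matrix (Fin 2) (Fin 2) F) =
        ((g : Matrix (Fin 2) (Fin 2) F).trace⁻¹ * (a + 1)) • (1 : Matrix (Fin 2) (Fin 2) F) := by
      rw [mul_smul, ← h5, smul_smul, inv_mul_cancel₀ htr, one_smul]
    apply htr
    have h7 := congrArg Matrix.trace h6
    rw [Matrix.trace_smul, Matrix.trace_one, Fintype.card_fin, smul_eq_mul] at h7
    rw [h7]
    push_cast
    rw [h2, mul_zero]
  · rw [hgcd, Nat.div_one] at h
    exact Odd.of_dvd_nat (by rw [Nat.odd_iff]; omega) h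
  · rw [hgcd, Nat.div_one] at h
    exact Odd.of_dvd_nat (by rw [Nat.odd_iff]; omega) h

end ord

section oddq

variable {F : Type*} [Field F]

/-- The standard element of order four of `SL₂`. -/
def w0S : SL(2, F) := mkSL 0 1 (-1) 0 (by ring)

theorem w0S_val : ((w0S : SL(2, F)) : Matrix (Fin 2) (Fin 2) F) = !![0, 1; -1, 0] := rfl

theorem w0S_trace : ((w0S : SL(2, F)) : Matrix (Fin 2) (Fin 2) F).trace = 0 := by
  rw [w0S_val, Matrix.trace_fin_two]
  simp

theorem w0S_mul_trace (h : SL(2, F)) :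
    ((w0S * h : SL(2, F)) : Matrix (Fin 2) (Fin 2) F).trace =
      (h : Matrix (Fin 2) (Fin 2) F) 1 0 - (h : Matrix (Fin 2) (Fin 2) F) 0 1 := by
  rw [Matrix.trace_fin_two, SL2_mul_00, SL2_mul_11, w0S_val]
  simp
  ring

/-- Given traces `τ₁, τ₂` for which the Gram determinant is a square, there is a third
trace-zero element with prescribed traces against `w₀` and `h`. -/
theorem exists_third_invol (h : SL(2, F))
    (htr : (h : Matrix (Fin 2) (Fin 2) F).trace = 0) (τ τ₁ τ₂ r : F)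
    (hτ : τ = (h : Matrix (Fin 2) (Fin 2) F) 1 0 - (h : Matrix (Fin 2) (Fin 2) F) 0 1)
    (h2 : (2 : F) ≠ 0)
    (hr : r ^ 2 = 4 - τ ^ 2 - τ₁ ^ 2 - τ₂ ^ 2 - τ * τ₁ * τ₂)
    (hτ4 : τ ^ 2 ≠ 4) (h1 : τ₁ ^ 2 ≠ τ ^ 2) (h2' : τ₂ ^ 2 ≠ τ ^ 2) :
    ∃ k : SL(2, F), (k : Matrix (Fin 2) (Fin 2) F).trace = 0 ∧
      ((w0S * k : SL(2, F)) : Matrix (Fin 2) (Fin 2) F).trace = τ₁ ∧
      ((k * h : SL(2, F)) : Matrix (Fin 2) (Fin 2) F).trace = τ₂ ∧
      (QuotientGroup.mk k : PSL(2, F)) ≠ QuotientGroup.mk w0S ∧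
      (QuotientGroup.mk k : PSL(2, F)) ≠ QuotientGroup.mk h := by
  obtain ⟨a, ha⟩ : ∃ a, (h : Matrix (Fin 2) (Fin 2) F) 0 0 = a := ⟨_, rfl⟩
  obtain ⟨b, hb⟩ : ∃ b, (h : Matrix (Fin 2) (Fin 2) F) 0 1 = b := ⟨_, rfl⟩
  obtain ⟨c, hc⟩ : ∃ c, (h : Matrix (Fin 2) (Fin 2) F) 1 0 = c := ⟨_, rfl⟩
  have hd : (h : Matrix (Fin 2) (Fin 2) F) 1 1 = -a := by
    rw [Matrix.trace_fin_two, ha] at htr
    linear_combination htr
  have hdet := SL2_det_eq h
  rw [ha, hb, hc, hd] at hdet
  rw [hb, hc] at hτ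
  have hΔ : τ ^ 2 - 4 ≠ 0 := sub_ne_zero.2 hτ4
  obtain ⟨t, ht⟩ : ∃ t, τ₁ = 2 * t := ⟨τ₁ / 2, by field_simp⟩
  obtain ⟨ρ, hρ⟩ : ∃ ρ, ρ = τ₂ + τ * t := ⟨_, rfl⟩
  obtain ⟨u, hu⟩ : ∃ u, u = (2 * a * ρ - (b + c) * r) / (τ ^ 2 - 4) := ⟨_, rfl⟩
  obtain ⟨m, hm⟩ : ∃ m, m = ((b + c) * ρ + 2 * a * r) / (τ ^ 2 - 4) := ⟨_, rfl⟩
  have hn : 4 * a ^ 2 + (b + c) ^ 2 = τ ^ 2 - 4 := by
    rw [hτ]
    linear_combination (-4) * hdet
  have hρr : ρ ^ 2 + r ^ 2 = (τ ^ 2 - 4) * (t ^ 2 - 1) := by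
    rw [hr, hρ, ht]
    ring
  have hum : u ^ 2 + m ^ 2 = t ^ 2 - 1 := by
    have h3 : u ^ 2 + m ^ 2 = (ρ ^ 2 + r ^ 2) / (τ ^ 2 - 4) := by
      rw [hu, hm]
      field_simp
      linear_combination (ρ ^ 2 + r ^ 2) * hn
    rw [h3, hρr]
    field_simp
  have hlin : 2 * a * u + (b + c) * m = ρ := by
    rw [hu, hm]
    field_simp
    linear_combination ρ * hn
  have hk : u * (-u) - (m - t) * (m + t) = 1 := by
    linear_combination (-1) * hum
  refine ⟨mkSL u (m - t) (m + t) (-u) hk, ?_, ?_, ?_, ?_, ?_⟩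
  · rw [mkSL_val, Matrix.trace_fin_two]
    simp
  · rw [w0S_mul_trace, mkSL_val, ht]
    simp
    ring
  · rw [Matrix.trace_fin_two, SL2_mul_00, SL2_mul_11, ha, hb, hc, hd, mkSL_val]
    simp
    rw [hρ] at hlin
    linear_combination hlin + t * hτ
  · intro heq
    rw [PSL2_mk_eq_mk_iff] at heq
    obtain ⟨ε, hε, hmat⟩ := heq
    have e00 := congrFun (congrFun hmat 0) 0
    have e01 := congrFun (congrFun hmat 0) 1
    have e10 := congrFun (congrFun hmat 1) 0
    rw [w0S_val, mkSL_val] at e00 e01 e10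
    simp at e00 e01 e10
    apply h2'
    have hu0 : u = 0 := by
      rcases e00 with e00 | e00
      · exfalso
        rw [e00, zero_mul] at hε
        exact zero_ne_one hε
      · exact e00
    have h5 : ε * τ₂ = τ := by
      rw [hρ, hu0] at hlin
      apply mul_left_cancel₀ h2
      linear_combination (-2 * ε) * hlin - (b + c) * (e01 + e10) - τ * (e01 - e10)
    rw [← h5]
    linear_combination (-τ₂ ^ 2) * hε
  · intro heq
    rw [PSL2_mk_eq_mk_iff] at heq
    obtain ⟨ε, hε, hmat⟩ := heq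
    have e01 := congrFun (congrFun hmat 0) 1
    have e10 := congrFun (congrFun hmat 1) 0
    rw [mkSL_val] at e01 e10
    simp at e01 e10
    rw [hb] at e01
    rw [hc] at e10
    apply h1
    have h5 : ε * τ₁ = τ := by
      linear_combination ε * ht + e01 - e10 - hτ
    rw [← h5]
    linear_combination (-τ₁ ^ 2) * hε

end oddq

section oddmain

variable {F : Type*} [Field F] [Fintype F]

omit [Fintype F] in
theorem SL2_not_scalar_of_trace_zero (h2 : (2 : F) ≠ 0) (k : SL(2, F))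
    (hk : (k : Matrix (Fin 2) (Fin 2) F).trace = 0) :
    (QuotientGroup.mk k : PSL(2, F)) ≠ 1 := by
  rw [PSL2_mk_ne_one_iff]
  rintro ⟨l, hl⟩
  have hdet := SL2_det_eq k
  rw [hl] at hk hdet
  rw [Matrix.trace_smul, Matrix.trace_one, Fintype.card_fin, smul_eq_mul] at hk
  push_cast at hk
  have hl0 : l = 0 := by
    rcases mul_eq_zero.1 hk with h | h
    · exact h
    · exact absurd h h2
  rw [hl0] at hdet
  simp at hdet

theorem inv_graph_odd_norm (h2 : (2 : F) ≠ 0) (hq : 4 ≤ Fintype.card F) (y : PSL(2, F))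
    (hy1 : y ≠ 1) (hyy : y * y = 1)
    (hnadj : ¬ Odd (orderOf ((QuotientGroup.mk w0S : PSL(2, F)) * y))) :
    ∃ z : PSL(2, F), z ≠ 1 ∧ z * z = 1 ∧ z ≠ QuotientGroup.mk w0S ∧ z ≠ y ∧
      Odd (orderOf ((QuotientGroup.mk w0S : PSL(2, F)) * z)) ∧ Odd (orderOf (z * y)) := by
  obtain ⟨h, rfl⟩ := QuotientGroup.mk_surjective y
  have htr := PSL2_invol_trace_zero h hy1 hyy
  rw [← QuotientGroup.mk_mul] at hnadj
  obtain ⟨τ, hτ⟩ : ∃ τ, τ = (h : Matrix (Fin 2) (Fin 2) F) 1 0 - (h : Matrix (Fin 2) (Fin 2) F) 0 1 :=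
    ⟨_, rfl⟩
  have htrw : ((w0S * h : SL(2, F)) : Matrix (Fin 2) (Fin 2) F).trace = τ := by
    rw [w0S_mul_trace, hτ]
  have hτ4 : τ ^ 2 ≠ 4 := by
    intro h4
    apply hnadj
    exact PSL2_odd_order_of_unip h2 _ (by rw [htrw]; exact h4)
  have fin : ∀ (τ₁ τ₂ r : F), r ^ 2 = 4 - τ ^ 2 - τ₁ ^ 2 - τ₂ ^ 2 - τ * τ₁ * τ₂ → τ₁ ^ 2 ≠ τ ^ 2 →
      τ₂ ^ 2 ≠ τ ^ 2 →
      (∀ g : SL(2, F), (g : Matrix (Fin 2) (Fin 2) F).trace = τ₁ →
        Odd (orderOf (QuotientGroup.mk g : PSL(2, F)))) →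
      (∀ g : SL(2, F), (g : Matrix (Fin 2) (Fin 2) F).trace = τ₂ →
        Odd (orderOf (QuotientGroup.mk g : PSL(2, F)))) →
      ∃ z : PSL(2, F), z ≠ 1 ∧ z * z = 1 ∧ z ≠ QuotientGroup.mk w0S ∧ z ≠ QuotientGroup.mk h ∧
        Odd (orderOf ((QuotientGroup.mk w0S : PSL(2, F)) * z)) ∧
        Odd (orderOf (z * QuotientGroup.mk h)) := by
    intro τ₁ τ₂ r hr h1 h2' ho1 ho2
    obtain ⟨k, hk0, hk1, hk2, hk3, hk4⟩ := exists_third_invol h htr τ τ₁ τ₂ r hτ h2 hr hτ4 h1 h2'
    refine ⟨QuotientGroup.mk k, SL2_not_scalar_of_trace_zero h2 k hk0,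
      PSL2_mk_mul_self_of_trace_zero k hk0, hk3, hk4, ?_, ?_⟩
    · rw [← QuotientGroup.mk_mul]
      exact ho1 _ hk1
    · rw [← QuotientGroup.mk_mul]
      exact ho2 _ hk2
  by_cases hi : IsSquare (-1 : F)
  · obtain ⟨i, hi⟩ := hi
    apply fin 2 2 (i * (τ + 2))
    · linear_combination (-(τ + 2) ^ 2) * hi
    · intro h
      apply hτ4
      linear_combination -h
    · intro h
      apply hτ4
      linear_combination -h
    · intro g hg
      exact PSL2_odd_order_of_unip h2 g (by rw [hg]; norm_num)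
    · intro g hg
      exact PSL2_odd_order_of_unip h2 g (by rw [hg]; norm_num)
  · have hcard : Fintype.card F % 4 = 3 := by
      by_contra hne
      exact hi (FiniteField.isSquare_neg_one_iff.2 hne)
    have hτsq : ¬ IsSquare (τ ^ 2 - 4) := by
      rintro ⟨δ, hδ⟩
      apply hnadj
      have hδ0 : δ ≠ 0 := by
        rintro rfl
        apply hτ4
        linear_combination hδ
      have hprod : (τ + δ) / 2 * ((τ - δ) / 2) = 1 := by
        field_simp
        linear_combination hδ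
      have hl0 : (τ + δ) / 2 ≠ 0 := left_ne_zero_of_mul_eq_one hprod
      have hinv : ((τ + δ) / 2)⁻¹ = (τ - δ) / 2 := inv_eq_of_mul_eq_one_right hprod
      refine PSL2_odd_order_of_split hcard _ ((τ + δ) / 2) hl0 ?_ ?_
      · intro h1
        apply hδ0
        have h3 : (τ + δ) / 2 * ((τ + δ) / 2) = (τ + δ) / 2 * ((τ - δ) / 2) := by
          rw [hprod, ← pow_two, h1]
        have h4 := mul_left_cancel₀ hl0 h3
        field_simp at h4
        have h5 : 2 * δ = 0 := by linear_combination h4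
        rcases mul_eq_zero.1 h5 with h6 | h6
        · exact absurd h6 h2
        · exact h6
      · rw [htrw, hinv]
        field_simp
        ring
    obtain ⟨a₁, b₁, ha0, hb0, ha1, hb1, ⟨r, hr⟩⟩ := exists_split_pair hi hq τ hτsq
    apply fin (a₁ + a₁⁻¹) (b₁ + b₁⁻¹) r
    · rw [pow_two, ← hr]
      field_simp
      ring
    · intro h
      apply hτsq
      refine ⟨a₁ - a₁⁻¹, ?_⟩
      rw [← h]
      field_simp
      ring
    · intro h
      apply hτsq
      refine ⟨b₁ - b₁⁻¹, ?_⟩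
      rw [← h]
      field_simp
      ring
    · intro g hg
      exact PSL2_odd_order_of_split hcard g a₁ ha0 ha1 hg
    · intro g hg
      exact PSL2_odd_order_of_split hcard g b₁ hb0 hb1 hg

end oddmain

section final

variable {F : Type*} [Field F] [Fintype F]

theorem inv_graph_odd (h2 : (2 : F) ≠ 0) (hq : 4 ≤ Fintype.card F) (x y : PSL(2, F))
    (hx1 : x ≠ 1) (hxx : x * x = 1) (hy1 : y ≠ 1) (hyy : y * y = 1)
    (hnadj : ¬ Odd (orderOf (x * y))) :
    ∃ z : PSL(2, F), z ≠ 1 ∧ z * z = 1 ∧ z ≠ x ∧ z ≠ y ∧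
      Odd (orderOf (x * z)) ∧ Odd (orderOf (z * y)) := by
  have hw1 : (QuotientGroup.mk w0S : PSL(2, F)) ≠ 1 :=
    SL2_not_scalar_of_trace_zero h2 w0S w0S_trace
  have hww : (QuotientGroup.mk w0S : PSL(2, F)) * QuotientGroup.mk w0S = 1 :=
    PSL2_mk_mul_self_of_trace_zero w0S w0S_trace
  obtain ⟨c, hc⟩ := isConj_iff.1 (PSL2_involutions_isConj h2 _ x hw1 hww hx1 hxx)
  have hord : ∀ u : PSL(2, F), orderOf (c * u * c⁻¹) = orderOf u := fun u => by
    have h := MulEquiv.orderOf_eq (MulAut.conj c) u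
    rwa [MulAut.conj_apply] at h
  obtain ⟨y', hy'⟩ : ∃ y', y' = c⁻¹ * y * c := ⟨_, rfl⟩
  have hy : y = c * y' * c⁻¹ := by
    rw [hy']
    group
  have hy'1 : y' ≠ 1 := by
    rintro rfl
    apply hy1
    rw [hy]
    group
  have hy'y' : y' * y' = 1 := by
    have h1 : y' * y' = c⁻¹ * (y * y) * c := by
      rw [hy']
      group
    rw [h1, hyy]
    group
  have hn' : ¬ Odd (orderOf ((QuotientGroup.mk w0S : PSL(2, F)) * y')) := by
    intro h
    apply hnadj
    have h1 : x * y = c * ((QuotientGroup.mk w0S : PSL(2, F)) * y') * c⁻¹ := by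
      rw [← hc, hy]
      group
    rw [h1, hord]
    exact h
  obtain ⟨z', hz1, hzz, hzw, hzy, ho1, ho2⟩ := inv_graph_odd_norm h2 hq y' hy'1 hy'y' hn'
  refine ⟨c * z' * c⁻¹, ?_, ?_, ?_, ?_, ?_, ?_⟩
  · intro h
    exact hz1 (conj_eq_one_iff.1 h)
  · have h1 : c * z' * c⁻¹ * (c * z' * c⁻¹) = c * (z' * z') * c⁻¹ := by group
    rw [h1, hzz]
    group
  · intro h
    apply hzw
    rw [← hc] at h
    exact mul_left_cancel (mul_right_cancel h)
  · intro h
    apply hzy
    rw [hy] at h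
    exact mul_left_cancel (mul_right_cancel h)
  · have h1 : x * (c * z' * c⁻¹) = c * ((QuotientGroup.mk w0S : PSL(2, F)) * z') * c⁻¹ := by
      rw [← hc]
      group
    rw [h1, hord]
    exact ho1
  · have h1 : c * z' * c⁻¹ * y = c * (z' * y') * c⁻¹ := by
      rw [hy]
      group
    rw [h1, hord]
    exact ho2

theorem inv_graph_even (h2 : (2 : F) = 0) (x y : PSL(2, F))
    (hx1 : x ≠ 1) (hxx : x * x = 1) (hy1 : y ≠ 1) (hyy : y * y = 1) :
    ∃ z : PSL(2, F), z ≠ 1 ∧ z * z = 1 ∧ z ≠ x ∧ z ≠ y ∧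
      Odd (orderOf (x * z)) ∧ Odd (orderOf (z * y)) := by
  obtain ⟨g, rfl⟩ := QuotientGroup.mk_surjective x
  obtain ⟨h, rfl⟩ := QuotientGroup.mk_surjective y
  have htg := PSL2_invol_trace_zero g hx1 hxx
  have hth := PSL2_invol_trace_zero h hy1 hyy
  have fin : ∀ k : SL(2, F), (k : Matrix (Fin 2) (Fin 2) F).trace = 0 →
      ((g * k : SL(2, F)) : Matrix (Fin 2) (Fin 2) F).trace ≠ 0 →
      ((k * h : SL(2, F)) : Matrix (Fin 2) (Fin 2) F).trace ≠ 0 →
      ∃ z : PSL(2, F), z ≠ 1 ∧ z * z = 1 ∧ z ≠ QuotientGroup.mk g ∧ z ≠ QuotientGroup.mk h ∧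
        Odd (orderOf ((QuotientGroup.mk g : PSL(2, F)) * z)) ∧
        Odd (orderOf (z * (QuotientGroup.mk h : PSL(2, F)))) := by
    intro k hk0 hk1 hk2
    have hkk : (k : Matrix (Fin 2) (Fin 2) F) * (k : Matrix (Fin 2) (Fin 2) F) = -1 := by
      rw [SL2_sq_eq, hk0, zero_smul, zero_sub]
    have htr1 : (-1 : Matrix (Fin 2) (Fin 2) F).trace = 0 := by
      rw [Matrix.trace_neg, Matrix.trace_one, Fintype.card_fin]
      push_cast
      rw [h2, neg_zero]
    refine ⟨QuotientGroup.mk k, ?_, PSL2_mk_mul_self_of_trace_zero k hk0, ?_, ?_, ?_, ?_⟩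
    · rw [PSL2_mk_ne_one_iff]
      rintro ⟨l, hl⟩
      apply hk1
      rw [Matrix.SpecialLinearGroup.coe_mul, hl, Matrix.mul_smul, Matrix.mul_one, Matrix.trace_smul,
        htg, smul_zero]
    · intro heq
      rw [PSL2_mk_eq_mk_iff] at heq
      obtain ⟨ε, hε, hmat⟩ := heq
      apply hk1
      rw [Matrix.SpecialLinearGroup.coe_mul, hmat, Matrix.smul_mul, Matrix.trace_smul, hkk, htr1,
        smul_zero]
    · intro heq
      rw [PSL2_mk_eq_mk_iff] at heq
      obtain ⟨ε, hε, hmat⟩ := heq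
      apply hk2
      rw [Matrix.SpecialLinearGroup.coe_mul, hmat, Matrix.mul_smul, Matrix.trace_smul, hkk, htr1,
        smul_zero]
    · rw [← QuotientGroup.mk_mul]
      exact PSL2_odd_order_char_two h2 _ hk1
    · rw [← QuotientGroup.mk_mul]
      exact PSL2_odd_order_char_two h2 _ hk2
  have htg' : (g : Matrix (Fin 2) (Fin 2) F) 0 0 + (g : Matrix (Fin 2) (Fin 2) F) 1 1 = 0 := by
    rw [← Matrix.trace_fin_two]
    exact htg
  have hth' : (h : Matrix (Fin 2) (Fin 2) F) 0 0 + (h : Matrix (Fin 2) (Fin 2) F) 1 1 = 0 := by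
    rw [← Matrix.trace_fin_two]
    exact hth
  have hg' : (g : Matrix (Fin 2) (Fin 2) F) 0 1 ≠ 0 ∨ (g : Matrix (Fin 2) (Fin 2) F) 1 0 ≠ 0 := by
    have hns := (PSL2_mk_ne_one_iff g).1 hx1
    rw [SL2_not_scalar_iff] at hns
    rcases hns with h' | h' | h'
    · exact Or.inl h'
    · exact Or.inr h'
    · exfalso
      apply h'
      linear_combination htg' - (g : Matrix (Fin 2) (Fin 2) F) 1 1 * h2
  have hh' : (h : Matrix (Fin 2) (Fin 2) F) 0 1 ≠ 0 ∨ (h : Matrix (Fin 2) (Fin 2) F) 1 0 ≠ 0 := by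
    have hns := (PSL2_mk_ne_one_iff h).1 hy1
    rw [SL2_not_scalar_iff] at hns
    rcases hns with h' | h' | h'
    · exact Or.inl h'
    · exact Or.inr h'
    · exfalso
      apply h'
      linear_combination hth' - (h : Matrix (Fin 2) (Fin 2) F) 1 1 * h2
  have hdet3 : (0 : F) * 0 - 1 * 1 = 1 := by linear_combination -h2
  by_cases c1 : (g : Matrix (Fin 2) (Fin 2) F) 1 0 ≠ 0 ∧ (h : Matrix (Fin 2) (Fin 2) F) 1 0 ≠ 0
  · apply fin (uS 1)
    · rw [Matrix.trace_fin_two, uS_00, uS_11]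
      linear_combination h2
    · have e : ((g * uS 1 : SL(2, F)) : Matrix (Fin 2) (Fin 2) F).trace =
          (g : Matrix (Fin 2) (Fin 2) F) 1 0 := by
        rw [Matrix.trace_fin_two, SL2_mul_00, SL2_mul_11, uS_00, uS_01, uS_10, uS_11]
        linear_combination htg'
      rw [e]
      exact c1.1
    · have e : ((uS 1 * h : SL(2, F)) : Matrix (Fin 2) (Fin 2) F).trace =
          (h : Matrix (Fin 2) (Fin 2) F) 1 0 := by
        rw [Matrix.trace_fin_two, SL2_mul_00, SL2_mul_11, uS_00, uS_01, uS_10, uS_11]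
        linear_combination hth'
      rw [e]
      exact c1.2
  · by_cases c2 : (g : Matrix (Fin 2) (Fin 2) F) 0 1 ≠ 0 ∧ (h : Matrix (Fin 2) (Fin 2) F) 0 1 ≠ 0
    · apply fin (lS 1)
      · rw [Matrix.trace_fin_two, lS_00, lS_11]
        linear_combination h2
      · have e : ((g * lS 1 : SL(2, F)) : Matrix (Fin 2) (Fin 2) F).trace =
            (g : Matrix (Fin 2) (Fin 2) F) 0 1 := by
          rw [Matrix.trace_fin_two, SL2_mul_00, SL2_mul_11, lS_00, lS_01, lS_10, lS_11]
          linear_combination htg'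
        rw [e]
        exact c2.1
      · have e : ((lS 1 * h : SL(2, F)) : Matrix (Fin 2) (Fin 2) F).trace =
            (h : Matrix (Fin 2) (Fin 2) F) 0 1 := by
          rw [Matrix.trace_fin_two, SL2_mul_00, SL2_mul_11, lS_00, lS_01, lS_10, lS_11]
          linear_combination hth'
        rw [e]
        exact c2.2
    · have c1' : (g : Matrix (Fin 2) (Fin 2) F) 1 0 ≠ 0 → (h : Matrix (Fin 2) (Fin 2) F) 1 0 = 0 :=
        fun h' => by_contra fun h'' => c1 ⟨h', h''⟩
      have c2' : (g : Matrix (Fin 2) (Fin 2) F) 0 1 ≠ 0 → (h : Matrix (Fin 2) (Fin 2) F) 0 1 = 0 :=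
        fun h' => by_contra fun h'' => c2 ⟨h', h''⟩
      apply fin (mkSL 0 1 1 0 hdet3)
      · rw [mkSL_val, Matrix.trace_fin_two]
        simp
      · have e : ((g * mkSL 0 1 1 0 hdet3 : SL(2, F)) : Matrix (Fin 2) (Fin 2) F).trace =
            (g : Matrix (Fin 2) (Fin 2) F) 0 1 + (g : Matrix (Fin 2) (Fin 2) F) 1 0 := by
          rw [Matrix.trace_fin_two, SL2_mul_00, SL2_mul_11, mkSL_val]
          simp
        rw [e]
        intro hsum
        rcases hg' with h' | h'
        · have h3 := c2' h'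
          have h4 : (g : Matrix (Fin 2) (Fin 2) F) 1 0 ≠ 0 := by
            intro h5
            apply h'
            rw [h5, add_zero] at hsum
            exact hsum
          have h6 := c1' h4
          rcases hh' with h7 | h7
          · exact h7 h3
          · exact h7 h6
        · have h3 := c1' h'
          have h4 : (g : Matrix (Fin 2) (Fin 2) F) 0 1 ≠ 0 := by
            intro h5
            apply h'
            rw [h5, zero_add] at hsum
            exact hsum
          have h6 := c2' h4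
          rcases hh' with h7 | h7
          · exact h7 h6
          · exact h7 h3
      · have e : ((mkSL 0 1 1 0 hdet3 * h : SL(2, F)) : Matrix (Fin 2) (Fin 2) F).trace =
            (h : Matrix (Fin 2) (Fin 2) F) 1 0 + (h : Matrix (Fin 2) (Fin 2) F) 0 1 := by
          rw [Matrix.trace_fin_two, SL2_mul_00, SL2_mul_11, mkSL_val]
          simp
        rw [e]
        intro hsum
        rcases hh' with h' | h'
        · have h4 : (h : Matrix (Fin 2) (Fin 2) F) 1 0 ≠ 0 := by
            intro h5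
            apply h'
            rw [h5, zero_add] at hsum
            exact hsum
          have h6 : (g : Matrix (Fin 2) (Fin 2) F) 1 0 = 0 := by
            by_contra h8
            exact h4 (c1' h8)
          have h9 : (g : Matrix (Fin 2) (Fin 2) F) 0 1 = 0 := by
            by_contra h8
            exact h' (c2' h8)
          rcases hg' with h7 | h7
          · exact h7 h9
          · exact h7 h6
        · have h4 : (h : Matrix (Fin 2) (Fin 2) F) 0 1 ≠ 0 := by
            intro h5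
            apply h'
            rw [h5, add_zero] at hsum
            exact hsum
          have h6 : (g : Matrix (Fin 2) (Fin 2) F) 1 0 = 0 := by
            by_contra h8
            exact h' (c1' h8)
          have h9 : (g : Matrix (Fin 2) (Fin 2) F) 0 1 = 0 := by
            by_contra h8
            exact h4 (c2' h8)
          rcases hg' with h7 | h7
          · exact h7 h9
          · exact h7 h6

theorem PSL2_involutions_isConj_char_two (h2 : (2 : F) = 0) (x y : PSL(2, F))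
    (hx : x ≠ 1) (hxx : x * x = 1) (hy : y ≠ 1) (hyy : y * y = 1) : IsConj x y := by
  haveI : CharP F 2 := CharTwo.of_one_ne_zero_of_two_eq_zero one_ne_zero h2
  have hrc : ringChar F = 2 := ringChar.eq F 2
  have key : ∀ z : PSL(2, F), z ≠ 1 → z * z = 1 →
      IsConj (QuotientGroup.mk (uS 1) : PSL(2, F)) z := by
    intro z hz1 hzz
    obtain ⟨g, rfl⟩ := QuotientGroup.mk_surjective z
    have htg := PSL2_invol_trace_zero g hz1 hzz
    have hns := (PSL2_mk_ne_one_iff g).1 hz1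
    obtain ⟨w', hw'⟩ := exists_Qf_ne_zero _ hns
    obtain ⟨σ, hσ⟩ := FiniteField.isSquare_of_char_two hrc (Qf (g : Matrix (Fin 2) (Fin 2) F) w')
    have e : Qf ((uS 1 : SL(2, F)) : Matrix (Fin 2) (Fin 2) F) ![0, σ] =
        Qf (g : Matrix (Fin 2) (Fin 2) F) w' := by
      rw [hσ, uS_val]
      simp [Qf]
      linear_combination (-σ * σ) * h2
    have hconj : IsConj (uS 1 : SL(2, F)) g := by
      refine SL2_isConj_of_Qf (uS 1) g ?_ ![0, σ] w' e ?_
      · rw [htg, Matrix.trace_fin_two, uS_00, uS_11]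
        linear_combination h2
      · rw [e]
        exact hw'
    obtain ⟨c, hc⟩ := isConj_iff.1 hconj
    exact isConj_iff.2 ⟨QuotientGroup.mk c, by rw [← hc]; rfl⟩
  exact (key x hx hxx).symm.trans (key y hy hyy)

theorem exists_comm_invol_pair (hq : 4 ≤ Fintype.card F) :
    ∃ x y : PSL(2, F), x ≠ 1 ∧ x * x = 1 ∧ y ≠ 1 ∧ y * y = 1 ∧ x ≠ y ∧
      orderOf (x * y) = 2 ∧ orderOf (y * x) = 2 := by
  haveI : Fact (Nat.Prime 2) := ⟨Nat.prime_two⟩
  by_cases h2 : (2 : F) = 0
  · obtain ⟨a, ha0, ha1, ha2⟩ := exists_ne_three (F := F) hq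
    have htr : ∀ b : F, ((uS b : SL(2, F)) : Matrix (Fin 2) (Fin 2) F).trace = 0 := by
      intro b
      rw [Matrix.trace_fin_two, uS_00, uS_11]
      linear_combination h2
    have ha3 : (1 : F) + a ≠ 0 := by
      intro h
      apply ha2
      linear_combination h
    have ha4 : a + 1 ≠ 0 := by
      intro h
      apply ha2
      linear_combination h
    refine ⟨QuotientGroup.mk (uS 1), QuotientGroup.mk (uS a), mk_uS_ne_one one_ne_zero,
      PSL2_mk_mul_self_of_trace_zero _ (htr 1), mk_uS_ne_one ha0,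
      PSL2_mk_mul_self_of_trace_zero _ (htr a), ?_, ?_, ?_⟩
    · intro h
      rw [mk_uS_eq_iff] at h
      exact ha1 h.symm
    · rw [← QuotientGroup.mk_mul, ← uS_add]
      apply orderOf_eq_prime
      · rw [pow_two]
        exact PSL2_mk_mul_self_of_trace_zero _ (htr _)
      · exact mk_uS_ne_one ha3
    · rw [← QuotientGroup.mk_mul, ← uS_add]
      apply orderOf_eq_prime
      · rw [pow_two]
        exact PSL2_mk_mul_self_of_trace_zero _ (htr _)
      · exact mk_uS_ne_one ha4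
  · obtain ⟨p, hp⟩ := CharP.exists F
    haveI : CharP F p := hp
    haveI : Fact p.Prime := ⟨CharP.char_is_prime F p⟩
    haveI : NeZero p := ⟨(Fact.out : p.Prime).ne_zero⟩
    obtain ⟨a', b', hab⟩ := CharP.sq_add_sq F p (-1)
    obtain ⟨a, ha⟩ : ∃ a : F, a = (a' : F) := ⟨_, rfl⟩
    obtain ⟨b, hb⟩ : ∃ b : F, b = (b' : F) := ⟨_, rfl⟩
    rw [← ha, ← hb] at hab
    push_cast at hab
    have hdet : a * (-a) - b * b = 1 := by linear_combination -hab
    have htr0 : ((mkSL a b b (-a) hdet : SL(2, F)) : Matrix (Fin 2) (Fin 2) F).trace = 0 := by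
      rw [mkSL_val, Matrix.trace_fin_two]
      simp
    have htr1 : ((w0S * mkSL a b b (-a) hdet : SL(2, F)) : Matrix (Fin 2) (Fin 2) F).trace = 0 := by
      rw [w0S_mul_trace, mkSL_val]
      simp
    have htr2 : ((mkSL a b b (-a) hdet * w0S : SL(2, F)) : Matrix (Fin 2) (Fin 2) F).trace = 0 := by
      rw [Matrix.trace_fin_two, SL2_mul_00, SL2_mul_11, mkSL_val, w0S_val]
      simp
    refine ⟨QuotientGroup.mk w0S, QuotientGroup.mk (mkSL a b b (-a) hdet),
      SL2_not_scalar_of_trace_zero h2 w0S w0S_trace, PSL2_mk_mul_self_of_trace_zero w0S w0S_trace,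
      SL2_not_scalar_of_trace_zero h2 _ htr0, PSL2_mk_mul_self_of_trace_zero _ htr0, ?_, ?_, ?_⟩
    · intro heq
      rw [PSL2_mk_eq_mk_iff] at heq
      obtain ⟨ε, hε, hmat⟩ := heq
      have e01 := congrFun (congrFun hmat 0) 1
      have e10 := congrFun (congrFun hmat 1) 0
      rw [mkSL_val, w0S_val] at e01 e10
      simp at e01 e10
      have h3 : (2 : F) * ε = 0 := by linear_combination e10 - e01
      rcases mul_eq_zero.1 h3 with h4 | h4
      · exact h2 h4
      · rw [h4, mul_zero] at hε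
        exact zero_ne_one hε
    · rw [← QuotientGroup.mk_mul]
      apply orderOf_eq_prime
      · rw [pow_two]
        exact PSL2_mk_mul_self_of_trace_zero _ htr1
      · exact SL2_not_scalar_of_trace_zero h2 _ htr1
    · rw [← QuotientGroup.mk_mul]
      apply orderOf_eq_prime
      · rw [pow_two]
        exact PSL2_mk_mul_self_of_trace_zero _ htr2
      · exact SL2_not_scalar_of_trace_zero h2 _ htr2

/-- **The odd-product graph on the involutions of `PSL₂(q)`, `q ≥ 4`, is connected of diameter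
two.** -/
theorem inv_graph_main (hF : 4 ≤ Fintype.card F) (t : PSL(2, F)) (ht : orderOf t = 2) :
    (SimpleGraph.fromRel fun x y : {x : PSL(2, F) // IsConj t x} =>
        Odd (orderOf (x.1 * y.1))).Connected ∧
      (SimpleGraph.fromRel fun x y : {x : PSL(2, F) // IsConj t x} =>
        Odd (orderOf (x.1 * y.1))).diam = 2 := by
  have ht1 : t ≠ 1 := by
    rintro rfl
    rw [orderOf_one] at ht
    omega
  have htt : t * t = 1 := by
    have h := pow_orderOf_eq_one t
    rw [ht, pow_two] at h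
    exact h
  have hconj : ∀ z : PSL(2, F), z ≠ 1 → z * z = 1 → IsConj t z := by
    intro z hz hzz
    by_cases h2 : (2 : F) = 0
    · exact PSL2_involutions_isConj_char_two h2 t z ht1 htt hz hzz
    · exact PSL2_involutions_isConj h2 t z ht1 htt hz hzz
  have hinv : ∀ z : PSL(2, F), IsConj t z → z ≠ 1 ∧ z * z = 1 := by
    intro z hz
    obtain ⟨c, hc⟩ := isConj_iff.1 hz
    subst hc
    constructor
    · intro h
      exact ht1 (conj_eq_one_iff.1 h)
    · have h1 : c * t * c⁻¹ * (c * t * c⁻¹) = c * (t * t) * c⁻¹ := by group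
      rw [h1, htt]
      group
  have hthird : ∀ x y : PSL(2, F), x ≠ 1 → x * x = 1 → y ≠ 1 → y * y = 1 →
      ¬ Odd (orderOf (x * y)) → ∃ z : PSL(2, F), z ≠ 1 ∧ z * z = 1 ∧ z ≠ x ∧ z ≠ y ∧
        Odd (orderOf (x * z)) ∧ Odd (orderOf (z * y)) := by
    intro x y hx hxx hy hyy hn
    by_cases h2 : (2 : F) = 0
    · exact inv_graph_even h2 x y hx hxx hy hyy
    · exact inv_graph_odd h2 hF x y hx hxx hy hyy hn
  apply graph_diam_two
  · intro x y hxy hnadj
    rw [SimpleGraph.fromRel_adj] at hnadj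
    have hn1 : ¬ Odd (orderOf (x.1 * y.1)) := fun h => hnadj ⟨hxy, Or.inl h⟩
    obtain ⟨hx1, hxx⟩ := hinv x.1 x.2
    obtain ⟨hy1, hyy⟩ := hinv y.1 y.2
    obtain ⟨z, hz1, hzz, hzx, hzy, ho1, ho2⟩ := hthird x.1 y.1 hx1 hxx hy1 hyy hn1
    refine ⟨⟨z, hconj z hz1 hzz⟩, ?_, ?_⟩
    · rw [SimpleGraph.fromRel_adj]
      exact ⟨fun h => hzx (congrArg Subtype.val h).symm, Or.inl ho1⟩
    · rw [SimpleGraph.fromRel_adj]
      exact ⟨fun h => hzy (congrArg Subtype.val h), Or.inl ho2⟩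
  · obtain ⟨x, y, hx1, hxx, hy1, hyy, hxy, h1, h2⟩ := exists_comm_invol_pair (F := F) hF
    refine ⟨⟨x, hconj x hx1 hxx⟩, ⟨y, hconj y hy1 hyy⟩, fun h => hxy (congrArg Subtype.val h), ?_⟩
    rw [SimpleGraph.fromRel_adj]
    rintro ⟨-, h | h⟩
    · rw [h1] at h
      exact absurd h (by decide)
    · rw [h2] at h
      exact absurd h (by decide)

end final

end Cfsg.Agent.Lib.helper12
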