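import Mathlib
import Cfsg.Agent.Lib.helper12.DkMax
import Cfsg.Agent.Lib.helper12.PSL2Fus

set_option autoImplicit false

namespace Cfsg.Agent.Lib.helper12

open scoped MatrixGroups

section gen213

variable {G : Type*} [Group G]

/-- A subgroup whose order is the full `p`-part is a Sylow subgroup. -/
theorem exists_sylow_eq_of_card [Finite G] (p : ℕ) [Fact p.Prime] (H : Subgroup G) (a : ℕ)
    (hH : Nat.card H = p ^ a) (hG : ¬ p ^ (a + 1) ∣ Nat.card G) :
    ∃ P : Sylow p G, (P : Subgroup G) = H := by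
  have hp : IsPGroup p H := IsPGroup.of_card hH
  obtain ⟨Q, hQ⟩ := hp.exists_le_sylow
  obtain ⟨b, hb⟩ := IsPGroup.iff_card.1 Q.2
  refine ⟨Q, ?_⟩
  symm
  apply Subgroup.eq_of_le_of_card_ge hQ
  have hb' : Nat.card (Q : Subgroup G) = p ^ b := hb
  rw [hH, hb']
  apply Nat.pow_le_pow_right (Fact.out : p.Prime).pos
  by_contra hlt
  push_neg at hlt
  apply hG
  have h1 : p ^ (a + 1) ∣ p ^ b := pow_dvd_pow p hlt
  have h2 : p ^ b ∣ Nat.card G := by
    rw [← hb']
    exact Subgroup.card_subgroup_dvd_card _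
  exact dvd_trans h1 h2

/-- Burnside's transfer theorem excludes `N(P) ≤ C(P)` for a proper nontrivial Sylow subgroup
of a simple group. -/
theorem simple_burnside [Finite G] [IsSimpleGroup G] (p : ℕ) [Fact p.Prime] (P : Sylow p G)
    (hP : Subgroup.normalizer ((P : Subgroup G) : Set G) ≤
      Subgroup.centralizer ((P : Subgroup G) : Set G))
    (h1 : Nat.card (P : Subgroup G) ≠ 1) (h2 : Nat.card (P : Subgroup G) ≠ Nat.card G) :
    False := by
  have hc := MonoidHom.ker_transferSylow_isComplement' P hP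
  have hcard := hc.card_mul_card
  have hn : (MonoidHom.transferSylow P hP).ker.Normal := MonoidHom.normal_ker _
  rcases hn.eq_bot_or_eq_top with h | h
  · rw [h, Subgroup.card_bot, one_mul] at hcard
    exact h2 hcard
  · rw [h, Subgroup.card_top] at hcard
    have hpos : 0 < Nat.card G := Nat.card_pos
    apply h1
    have h3 : Nat.card G * Nat.card (P : Subgroup G) = Nat.card G * 1 := by rw [hcard, mul_one]
    exact Nat.eq_of_mul_eq_mul_left hpos h3

/-- Uniqueness of subgroups of Sylow order when the Sylow count is forced to be one. -/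
theorem unique_sub_of_card [Finite G] (p : ℕ) [Fact p.Prime] (H A B : Subgroup G) (hA : A ≤ H)
    (hB : B ≤ H) (a n : ℕ) (hcA : Nat.card A = p ^ a) (hcB : Nat.card B = p ^ a)
    (hn : Nat.card H = p ^ a * n) (hpn : ¬ p ∣ n)
    (hn1 : ∀ m, m ∣ n → m % p = 1 → m = 1) : A = B := by
  have hpp : p.Prime := Fact.out
  have hA' : Nat.card (A.subgroupOf H) = p ^ a := by
    rw [← hcA]
    exact Nat.card_congr (Subgroup.subgroupOfEquivOfLe hA).toEquiv
  have hB' : Nat.card (B.subgroupOf H) = p ^ a := by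
    rw [← hcB]
    exact Nat.card_congr (Subgroup.subgroupOfEquivOfLe hB).toEquiv
  have hnd : ¬ p ^ (a + 1) ∣ Nat.card H := by
    rw [hn, pow_succ]
    intro h
    exact hpn ((Nat.mul_dvd_mul_iff_left (pow_pos hpp.pos a)).1 h)
  obtain ⟨PA, hPA⟩ := exists_sylow_eq_of_card p (A.subgroupOf H) a hA' hnd
  obtain ⟨PB, hPB⟩ := exists_sylow_eq_of_card p (B.subgroupOf H) a hB' hnd
  have hidx : (A.subgroupOf H).index = n := by
    have h1 := Subgroup.index_mul_card (A.subgroupOf H)
    rw [hA', hn, mul_comm] at h1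
    exact Nat.eq_of_mul_eq_mul_left (pow_pos hpp.pos a) h1
  have hdvd := Sylow.card_dvd_index PA
  rw [hPA, hidx] at hdvd
  have hmod := card_sylow_modEq_one p H
  have hone : Nat.card (Sylow p H) = 1 := by
    apply hn1 _ hdvd
    have h5 : Nat.card (Sylow p H) % p = 1 % p := hmod
    rw [h5, Nat.mod_eq_of_lt hpp.one_lt]
  haveI : Subsingleton (Sylow p H) := (Nat.card_eq_one_iff_unique.1 hone).1
  have heq : PA = PB := Subsingleton.elim _ _
  have h3 : A.subgroupOf H = B.subgroupOf H := by rw [← hPA, ← hPB, heq]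
  have h4 := Subgroup.subgroupOf_inj.1 h3
  rw [inf_of_le_left hA, inf_of_le_left hB] at h4
  exact h4

/-- The normalizer of `H` normalizes a subgroup of `H` that is unique of its order. -/
theorem normalizer_le_of_unique [Finite G] (H Q : Subgroup G) (hQ : Q ≤ H)
    (huniq : ∀ Q' : Subgroup G, Q' ≤ H → Nat.card Q' = Nat.card Q → Q' = Q) :
    Subgroup.normalizer (H : Set G) ≤ Subgroup.normalizer (Q : Set G) := by
  intro g hg
  obtain ⟨Q', hQ'⟩ : ∃ Q' : Subgroup G, Q' = Q.map (MulAut.conj g).toMonoidHom := ⟨_, rfl⟩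
  have h1 : Q' ≤ H := by
    rw [hQ']
    rintro _ ⟨q, hq, rfl⟩
    exact (Subgroup.mem_normalizer_iff.1 hg q).1 (hQ hq)
  have h2 : Nat.card Q' = Nat.card Q := by
    rw [hQ']
    exact Subgroup.card_map_of_injective (MulAut.conj g).injective
  have h3 := huniq Q' h1 h2
  haveI : Finite ↥(Q : Set G) := inferInstanceAs (Finite Q)
  apply Subgroup.mem_normalizer_fintype
  intro q hq
  have h4 : g * q * g⁻¹ ∈ Q' := by
    rw [hQ']
    exact ⟨q, hq, rfl⟩
  rw [h3] at h4
  exact h4

end gen213

section psl213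

variable {F : Type*} [Field F] [Fintype F] [Fact (Nat.Prime 13)] [CharP F 13]

theorem p13_card (hF : Fintype.card F = 13) : Nat.card PSL(2, F) = 1092 := by
  have h := card_PSL2_gen (F := F)
  rw [hF] at h
  norm_num at h
  omega

omit [Fact (Nat.Prime 13)] [CharP F 13] in
theorem p13_simple (hF : Fintype.card F = 13) : IsSimpleGroup PSL(2, F) :=
  Matrix.ProjectiveSpecialLinearGroup.rank_two_simple
    (by rw [Nat.card_eq_fintype_card, hF]; norm_num)

omit [Fintype F] [Fact (Nat.Prime 13)] in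
theorem p13_two : (2 : F) ≠ 0 := by
  intro h
  have h' : ((2 : ℕ) : F) = 0 := by exact_mod_cast h
  rw [CharP.cast_eq_zero_iff F 13] at h'
  omega

/-- Orders of proper subgroups of `PSL₂(13)`. -/
theorem p13_proper (hF : Fintype.card F = 13) (H : Subgroup PSL(2, F)) (hH : H ≠ ⊤) :
    (Nat.card H ∣ 14 ∨ Nat.card H ∣ 12) ∨
      (Nat.card H ∣ 78 ∧ ∀ a b : H, (a * b * a⁻¹ * b⁻¹) ^ 13 = 1) := by
  have hG := p13_card hF
  have hlag : Nat.card H ∣ 1092 := by
    rw [← hG]
    exact Subgroup.card_subgroup_dvd_card H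
  have e1 : Nat.gcd 2 (13 - 1) = 2 := by norm_num
  rcases dk_cases 13 H hH with ⟨k, hk, h⟩ | ⟨hb, hcomm⟩ | ⟨h, -⟩ | ⟨h, -⟩ | ⟨h, -⟩ |
    ⟨K, iK, iF, m, hm, hKm, -⟩
  · left
    rw [hF, e1] at hk
    have hk' : 2 * k ∣ 14 ∨ 2 * k ∣ 12 := hk
    rcases h with ⟨-, hc⟩ | ⟨⟨f⟩⟩
    · rw [hc]
      rcases hk' with h' | h'
      · left
        exact dvd_trans (Dvd.intro_left 2 rfl) h'
      · right
        exact dvd_trans (Dvd.intro_left 2 rfl) h'
    · have hc : Nat.card H = 2 * k := by
        rw [Nat.card_congr f.toEquiv, DihedralGroup.nat_card]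
      rw [hc]
      exact hk'
  · right
    rw [hF, e1] at hb
    refine ⟨?_, hcomm⟩
    have hb' : 2 * Nat.card H ∣ 2 * 78 := hb
    exact (Nat.mul_dvd_mul_iff_left (by norm_num)).1 hb'
  · left
    right
    rw [h]
  · exfalso
    rw [h] at hlag
    revert hlag
    decide
  · exfalso
    rw [h] at hlag
    revert hlag
    decide
  · exfalso
    rw [hF] at hKm
    have hc1 : Fintype.card K ∣ 13 := by
      rw [← hKm]
      exact dvd_pow_self _ (by omega)
    have hp13 : Nat.Prime 13 := Fact.out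
    rcases (Nat.dvd_prime hp13).1 hc1 with h1 | h1
    · rw [h1, one_pow] at hKm
      omega
    · rw [h1] at hKm
      have h13 : 13 ^ m = 13 ^ 1 := by rw [hKm, pow_one]
      have hm1 : m = 1 := Nat.pow_right_injective (le_refl 2 |>.trans (by norm_num)) h13
      omega

/-- Subgroups of order 78, 14 or 12 are maximal. -/
theorem p13_coatom (hF : Fintype.card F = 13) (M : Subgroup PSL(2, F))
    (hM : Nat.card M = 78 ∨ Nat.card M = 14 ∨ Nat.card M = 12) : IsCoatom M := by
  have hG := p13_card hF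
  refine ⟨?_, ?_⟩
  · intro h
    rw [h, Subgroup.card_top, hG] at hM
    omega
  · intro L hL
    by_contra hLt
    have h2 : Nat.card M ∣ Nat.card L := Subgroup.card_dvd_of_le hL.le
    have h3 : Nat.card M ≠ Nat.card L := by
      intro h
      have h4 := Subgroup.eq_of_le_of_card_ge hL.le (le_of_eq h.symm)
      exact hL.ne h4
    obtain ⟨d, hd⟩ : ∃ d, d = Nat.card L := ⟨_, rfl⟩
    obtain ⟨c, hc⟩ : ∃ c, c = Nat.card M := ⟨_, rfl⟩
    have h1 : (d ∣ 14 ∨ d ∣ 12) ∨ d ∣ 78 := by
      rw [hd]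
      rcases p13_proper hF L hLt with h | ⟨h, -⟩
      · exact Or.inl h
      · exact Or.inr h
    rw [← hd, ← hc] at h2 h3
    rw [← hc] at hM
    have hd78 : d ≤ 78 := by
      rcases h1 with (h | h) | h
      · have h5 := Nat.le_of_dvd (by norm_num) h
        omega
      · have h5 := Nat.le_of_dvd (by norm_num) h
        omega
      · exact Nat.le_of_dvd (by norm_num) h
    have hdpos : 0 < d := by
      rw [hd]
      exact Nat.card_pos
    rcases hM with rfl | rfl | rfl <;> interval_cases d <;> omega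

/-- The normalizer of a proper nontrivial subgroup is proper. -/
theorem p13_norm_proper (hF : Fintype.card F = 13) (H : Subgroup PSL(2, F)) (hH1 : H ≠ ⊥)
    (hHt : H ≠ ⊤) :
    (Nat.card (Subgroup.normalizer (H : Set PSL(2, F))) ∣ 14 ∨
      Nat.card (Subgroup.normalizer (H : Set PSL(2, F))) ∣ 12) ∨
      Nat.card (Subgroup.normalizer (H : Set PSL(2, F))) ∣ 78 := by
  haveI := p13_simple (F := F) hF
  have hNt : Subgroup.normalizer (H : Set PSL(2, F)) ≠ ⊤ := by
    intro h
    rw [Subgroup.normalizer_eq_top_iff] at h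
    rcases h.eq_bot_or_eq_top with h' | h'
    · exact hH1 h'
    · exact hHt h'
  rcases p13_proper hF _ hNt with h | ⟨h, -⟩
  · exact Or.inl h
  · exact Or.inr h

theorem p13_norm13 (hF : Fintype.card F = 13) (H : Subgroup PSL(2, F)) (hH : H ≠ ⊤)
    (h13 : 13 ∣ Nat.card H) :
    Nat.card (Subgroup.normalizer (H : Set PSL(2, F))) = 78 := by
  have hG := p13_card hF
  have hd : Nat.card H ∣ 78 := by
    rcases p13_proper hF H hH with (h | h) | ⟨h, -⟩
    · exfalso
      have h5 := dvd_trans h13 h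
      revert h5
      decide
    · exfalso
      have h5 := dvd_trans h13 h
      revert h5
      decide
    · exact h
  obtain ⟨xs, hxs⟩ := exists_prime_orderOf_dvd_card' (G := H) 13 h13
  obtain ⟨x, hx⟩ : ∃ x : PSL(2, F), x = (xs : PSL(2, F)) := ⟨_, rfl⟩
  have hxH : x ∈ H := by
    rw [hx]
    exact xs.2
  have hord : orderOf x = 13 := by
    rw [hx, Subgroup.orderOf_coe]
    exact hxs
  obtain ⟨Q, hQ⟩ : ∃ Q : Subgroup PSL(2, F), Q = Subgroup.zpowers x := ⟨_, rfl⟩
  have hQc : Nat.card Q = 13 := by rw [hQ, Nat.card_zpowers, hord]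
  have hQH : Q ≤ H := by
    rw [hQ]
    exact Subgroup.zpowers_le.2 hxH
  obtain ⟨P, hP⟩ := exists_sylow_eq_of_card 13 Q 1 (by rw [hQc, pow_one])
    (by rw [hG]; decide)
  have hNQ : Nat.card (Subgroup.normalizer (Q : Set PSL(2, F))) = 78 := by
    have h := card_normalizer_sylow 13 P
    rw [hP, hF] at h
    norm_num at h
    omega
  have huniq : ∀ (B : Subgroup PSL(2, F)), Nat.card B ∣ 78 →
      ∀ A₁ A₂ : Subgroup PSL(2, F), A₁ ≤ B → A₂ ≤ B → Nat.card A₁ = 13 → Nat.card A₂ = 13 →
        A₁ = A₂ := by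
    intro B hB A₁ A₂ h1 h2 hc1 hc2
    have h13B : 13 ∣ Nat.card B := by
      rw [← hc1]
      exact Subgroup.card_dvd_of_le h1
    obtain ⟨n, hn⟩ := h13B
    have hn6 : n ∣ 6 := by
      rw [hn] at hB
      have hB' : 13 * n ∣ 13 * 6 := hB
      exact (Nat.mul_dvd_mul_iff_left (by norm_num)).1 hB'
    apply unique_sub_of_card 13 B A₁ A₂ h1 h2 1 n (by rw [hc1, pow_one]) (by rw [hc2, pow_one])
      (by rw [hn, pow_one])
    · intro h13n
      have h5 := dvd_trans h13n hn6
      revert h5
      decide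
    · intro m hm hm1
      have hm6 := dvd_trans hm hn6
      have hle := Nat.le_of_dvd (by norm_num) hm6
      interval_cases m <;> omega
  have hN1 : Subgroup.normalizer (H : Set PSL(2, F)) ≤
      Subgroup.normalizer (Q : Set PSL(2, F)) := by
    apply normalizer_le_of_unique H Q hQH
    intro Q' hQ' hc
    exact huniq H hd Q' Q hQ' hQH (by rw [hc, hQc]) hQc
  have hN2 : Subgroup.normalizer (Q : Set PSL(2, F)) ≤
      Subgroup.normalizer (H : Set PSL(2, F)) := by
    obtain ⟨B, hB⟩ : ∃ B : Subgroup PSL(2, F), B = Subgroup.normalizer (Q : Set PSL(2, F)) :=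
      ⟨_, rfl⟩
    rw [← hB] at hNQ hN1 ⊢
    have hBt : B ≠ ⊤ := by
      intro h
      rw [h, Subgroup.card_top, hG] at hNQ
      omega
    have hcomm : ∀ a b : B, (a * b * a⁻¹ * b⁻¹) ^ 13 = 1 := by
      rcases p13_proper hF B hBt with (h | h) | ⟨-, h⟩
      · rw [hNQ] at h
        exact absurd h (by decide)
      · rw [hNQ] at h
        exact absurd h (by decide)
      · exact h
    have hQB : Q ≤ B := by
      rw [hB]
      exact Subgroup.le_normalizer
    have hHB : H ≤ B := le_trans Subgroup.le_normalizer hN1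
    intro n hn
    haveI : Finite ↥(H : Set PSL(2, F)) := inferInstanceAs (Finite H)
    apply Subgroup.mem_normalizer_fintype
    intro h hh
    have hc := hcomm ⟨n, hn⟩ ⟨h, hHB hh⟩
    have hc' : (n * h * n⁻¹ * h⁻¹) ^ 13 = 1 :=
      congrArg (fun q : B => (q : PSL(2, F))) hc
    obtain ⟨c, hcdef⟩ : ∃ c : PSL(2, F), c = n * h * n⁻¹ * h⁻¹ := ⟨_, rfl⟩
    rw [← hcdef] at hc'
    have hcB : c ∈ B := by
      rw [hcdef]
      exact B.mul_mem (B.mul_mem (B.mul_mem hn (hHB hh)) (B.inv_mem hn)) (B.inv_mem (hHB hh))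
    have hcQ : c ∈ Q := by
      by_cases hc1 : c = 1
      · rw [hc1]
        exact Q.one_mem
      · have hoc : orderOf c = 13 := orderOf_eq_prime hc' hc1
        have hz : Subgroup.zpowers c = Q := by
          apply huniq B (by rw [hNQ]) _ _ (Subgroup.zpowers_le.2 hcB) hQB _ hQc
          rw [Nat.card_zpowers, hoc]
        rw [← hz]
        exact Subgroup.mem_zpowers c
    have e : n * h * n⁻¹ = c * h := by
      rw [hcdef, inv_mul_cancel_right]
    rw [e]
    exact H.mul_mem (hQH hcQ) hh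
  have heq := le_antisymm hN1 hN2
  rw [heq]
  exact hNQ

end psl213

section psl213b

variable {F : Type*} [Field F] [Fintype F] [Fact (Nat.Prime 13)] [CharP F 13]

theorem p13_norm7 (hF : Fintype.card F = 13) (H : Subgroup PSL(2, F)) (hH : H ≠ ⊤)
    (h7 : 7 ∣ Nat.card H) :
    Nat.card (Subgroup.normalizer (H : Set PSL(2, F))) = 14 := by
  haveI : Fact (Nat.Prime 7) := ⟨by norm_num⟩
  have hG := p13_card hF
  have hH1 : H ≠ ⊥ := by
    rintro rfl
    rw [Subgroup.card_bot] at h7
    revert h7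
    decide
  have hNp := p13_norm_proper hF H hH1 hH
  obtain ⟨N, hN⟩ : ∃ N : Subgroup PSL(2, F), N = Subgroup.normalizer (H : Set PSL(2, F)) :=
    ⟨_, rfl⟩
  rw [← hN] at hNp ⊢
  have hHN : H ≤ N := by
    rw [hN]
    exact Subgroup.le_normalizer
  have hd : Nat.card H ∣ 14 := by
    rcases p13_proper hF H hH with (h | h) | ⟨h, -⟩
    · exact h
    · exfalso
      have h5 := dvd_trans h7 h
      revert h5
      decide
    · exfalso
      have h5 := dvd_trans h7 h
      revert h5
      decide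
  have hdN : Nat.card H ∣ Nat.card N := Subgroup.card_dvd_of_le hHN
  have h7N := dvd_trans h7 hdN
  have he : Nat.card N ∣ 14 := by
    rcases hNp with (h | h) | h
    · exact h
    · exfalso
      have h5 := dvd_trans h7N h
      revert h5
      decide
    · exfalso
      have h5 := dvd_trans h7N h
      revert h5
      decide
  by_contra hne
  have hd7 : Nat.card H = 7 ∧ Nat.card N = 7 := by
    have h1 := Nat.le_of_dvd (by norm_num) he
    have h2 := Nat.le_of_dvd (by norm_num) hd
    obtain ⟨d, hd'⟩ : ∃ d, d = Nat.card H := ⟨_, rfl⟩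
    obtain ⟨e, he'⟩ : ∃ e, e = Nat.card N := ⟨_, rfl⟩
    rw [← hd'] at h7 hd hdN h2 ⊢
    rw [← he'] at he hdN h1 h7N hne ⊢
    interval_cases e <;> interval_cases d <;> omega
  obtain ⟨P, hP⟩ := exists_sylow_eq_of_card 7 H 1 (by rw [hd7.1, pow_one])
    (by rw [hG]; decide)
  have h1 : Nat.card (Sylow 7 PSL(2, F)) =
      (Subgroup.normalizer ((P : Subgroup PSL(2, F)) : Set PSL(2, F))).index :=
    Sylow.card_eq_index_normalizer P
  have h2 := card_sylow_modEq_one 7 PSL(2, F)
  rw [h1, hP, ← hN] at h2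
  have h3 := Subgroup.index_mul_card N
  rw [hd7.2, hG] at h3
  have h4 : N.index = 156 := by omega
  rw [h4] at h2
  exact absurd h2 (by decide)

theorem p13_norm3 (hF : Fintype.card F = 13) (H : Subgroup PSL(2, F))
    (h3 : Nat.card H = 3) :
    Nat.card (Subgroup.normalizer (H : Set PSL(2, F))) = 12 := by
  haveI := p13_simple (F := F) hF
  have hG := p13_card hF
  have hHt : H ≠ ⊤ := by
    intro h
    rw [h, Subgroup.card_top, hG] at h3
    omega
  have hH1 : H ≠ ⊥ := by
    intro h
    rw [h, Subgroup.card_bot] at h3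
    omega
  have hNp := p13_norm_proper hF H hH1 hHt
  obtain ⟨N, hN⟩ : ∃ N : Subgroup PSL(2, F), N = Subgroup.normalizer (H : Set PSL(2, F)) :=
    ⟨_, rfl⟩
  rw [← hN] at hNp ⊢
  have hHN : H ≤ N := by
    rw [hN]
    exact Subgroup.le_normalizer
  have hdN : 3 ∣ Nat.card N := by
    rw [← h3]
    exact Subgroup.card_dvd_of_le hHN
  obtain ⟨P, hP⟩ := exists_sylow_eq_of_card 3 H 1 (by rw [h3, pow_one])
    (by rw [hG]; decide)
  have h1 : Nat.card (Sylow 3 PSL(2, F)) =
      (Subgroup.normalizer ((P : Subgroup PSL(2, F)) : Set PSL(2, F))).index :=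
    Sylow.card_eq_index_normalizer P
  have h2 := card_sylow_modEq_one 3 PSL(2, F)
  rw [h1, hP, ← hN] at h2
  have h4 := Subgroup.index_mul_card N
  rw [hG] at h4
  have hodd : ¬ Odd (Nat.card N) := by
    intro hodd
    apply simple_burnside 3 P ?_ (by rw [hP, h3]; norm_num) (by rw [hP, h3, hG]; norm_num)
    rw [hP, ← hN]
    intro n hn
    rw [Subgroup.mem_centralizer_iff]
    intro h hh
    by_cases hh1 : h = 1
    · rw [hh1, one_mul, mul_one]
    have hh3 : h ^ 3 = 1 := by
      have h5 := pow_card_eq_one' (G := H) (x := ⟨h, hh⟩)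
      rw [h3] at h5
      exact congrArg (fun q : H => (q : PSL(2, F))) h5
    have ho : orderOf h = 3 := orderOf_eq_prime hh3 hh1
    have hz : Subgroup.zpowers h = H := by
      apply Subgroup.eq_of_le_of_card_ge (Subgroup.zpowers_le.2 hh)
      rw [Nat.card_zpowers, ho, h3]
    have hn' : n ∈ Subgroup.normalizer (H : Set PSL(2, F)) := by
      rw [← hN]
      exact hn
    have hk : n * h * n⁻¹ ∈ H := (Subgroup.mem_normalizer_iff.1 hn' h).1 hh
    rw [← hz] at hk
    classical
    rw [mem_zpowers_iff_mem_range_orderOf, ho] at hk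
    obtain ⟨m, hm, hmk⟩ := Finset.mem_image.1 hk
    have hm3 : m < 3 := Finset.mem_range.1 hm
    have hmk' : h ^ m = n * h * n⁻¹ := hmk
    interval_cases m
    · exfalso
      apply hh1
      rw [pow_zero] at hmk'
      have e : h = n⁻¹ * (n * h * n⁻¹) * n := by group
      rw [e, ← hmk', mul_one, inv_mul_cancel]
    · rw [pow_one] at hmk'
      exact (mul_inv_eq_iff_eq_mul.1 hmk'.symm).symm
    · have e2 : n * (n * h * n⁻¹) * n⁻¹ = h := by
        rw [← hmk', ← conj_pow, ← hmk', ← pow_mul, show 2 * 2 = 3 + 1 from rfl, pow_add, hh3,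
          one_mul, pow_one]
      have e3 : Commute (n ^ 2) h := by
        show n ^ 2 * h = h * n ^ 2
        have e4 : n ^ 2 * h = (n * (n * h * n⁻¹) * n⁻¹) * n ^ 2 := by
          simp [pow_two, mul_assoc]
        rw [e4, e2]
      have hon : Odd (orderOf n) := Odd.of_dvd_nat hodd (Subgroup.orderOf_dvd_natCard N hn)
      obtain ⟨r, hr⟩ := hon
      have e4 : n = (n ^ 2) ^ (r + 1) := by
        rw [← pow_mul, show 2 * (r + 1) = (2 * r + 1) + 1 by ring, pow_add, ← hr,
          pow_orderOf_eq_one, one_mul, pow_one]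
      have e5 : Commute n h := by
        rw [e4]
        exact e3.pow_left _
      exact e5.eq.symm
  have hev : Nat.card N % 2 = 0 := by
    rcases Nat.even_or_odd (Nat.card N) with h | h
    · exact Nat.even_iff.1 h
    · exact absurd h hodd
  have h2' : N.index % 3 = 1 := h2
  obtain ⟨e, he'⟩ : ∃ e, e = Nat.card N := ⟨_, rfl⟩
  obtain ⟨i, hi⟩ : ∃ i, i = N.index := ⟨_, rfl⟩
  rw [← he'] at hNp hdN h4 hev ⊢
  rw [← hi] at h4 h2'
  have hle : e ≤ 78 := by
    rcases hNp with (h | h) | h
    · have h5 := Nat.le_of_dvd (by norm_num) h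
      omega
    · have h5 := Nat.le_of_dvd (by norm_num) h
      omega
    · exact Nat.le_of_dvd (by norm_num) h
  interval_cases e <;> omega

theorem p13_norm4 (hF : Fintype.card F = 13) (H : Subgroup PSL(2, F))
    (h4 : Nat.card H = 4) :
    Nat.card (Subgroup.normalizer (H : Set PSL(2, F))) = 12 := by
  haveI := p13_simple (F := F) hF
  have hG := p13_card hF
  have hHt : H ≠ ⊤ := by
    intro h
    rw [h, Subgroup.card_top, hG] at h4
    omega
  have hH1 : H ≠ ⊥ := by
    intro h
    rw [h, Subgroup.card_bot] at h4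
    omega
  have hNp := p13_norm_proper hF H hH1 hHt
  obtain ⟨N, hN⟩ : ∃ N : Subgroup PSL(2, F), N = Subgroup.normalizer (H : Set PSL(2, F)) :=
    ⟨_, rfl⟩
  rw [← hN] at hNp ⊢
  have hHN : H ≤ N := by
    rw [hN]
    exact Subgroup.le_normalizer
  have hdN : 4 ∣ Nat.card N := by
    rw [← h4]
    exact Subgroup.card_dvd_of_le hHN
  by_contra hne
  have hN4 : Nat.card N = 4 := by
    obtain ⟨e, he'⟩ : ∃ e, e = Nat.card N := ⟨_, rfl⟩
    rw [← he'] at hNp hdN hne ⊢
    have hle : e ≤ 78 := by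
      rcases hNp with (h | h) | h
      · have h5 := Nat.le_of_dvd (by norm_num) h
        omega
      · have h5 := Nat.le_of_dvd (by norm_num) h
        omega
      · exact Nat.le_of_dvd (by norm_num) h
    interval_cases e <;> omega
  have hNH : N = H := (Subgroup.eq_of_le_of_card_ge hHN (by rw [hN4, h4])).symm
  obtain ⟨P, hP⟩ := exists_sylow_eq_of_card 2 H 2 (by rw [h4]; norm_num) (by rw [hG]; decide)
  apply simple_burnside 2 P ?_ (by rw [hP, h4]; norm_num) (by rw [hP, h4, hG]; norm_num)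
  rw [hP, ← hN, hNH]
  intro n hn
  rw [Subgroup.mem_centralizer_iff]
  intro h hh
  have hcomm := IsPGroup.commutative_of_card_eq_prime_sq (p := 2) (G := H)
    (by rw [h4]; norm_num) ⟨h, hh⟩ ⟨n, hn⟩
  exact congrArg (fun q : H => (q : PSL(2, F))) hcomm

theorem p13_norm12 (hF : Fintype.card F = 13) (H : Subgroup PSL(2, F))
    (h12 : Nat.card H = 12) :
    Nat.card (Subgroup.normalizer (H : Set PSL(2, F))) = 12 := by
  have hG := p13_card hF
  have hHt : H ≠ ⊤ := by
    intro h
    rw [h, Subgroup.card_top, hG] at h12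
    omega
  have hH1 : H ≠ ⊥ := by
    intro h
    rw [h, Subgroup.card_bot] at h12
    omega
  have hNp := p13_norm_proper hF H hH1 hHt
  have hdN : 12 ∣ Nat.card (Subgroup.normalizer (H : Set PSL(2, F))) := by
    rw [← h12]
    exact Subgroup.card_dvd_of_le Subgroup.le_normalizer
  obtain ⟨e, he'⟩ : ∃ e, e = Nat.card (Subgroup.normalizer (H : Set PSL(2, F))) := ⟨_, rfl⟩
  rw [← he'] at hNp hdN ⊢
  have hle : e ≤ 78 := by
    rcases hNp with (h | h) | h
    · have h5 := Nat.le_of_dvd (by norm_num) h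
      omega
    · have h5 := Nat.le_of_dvd (by norm_num) h
      omega
    · exact Nat.le_of_dvd (by norm_num) h
  interval_cases e <;> omega

theorem p13_norm6 (hF : Fintype.card F = 13) (H : Subgroup PSL(2, F))
    (h6 : Nat.card H = 6) :
    Nat.card (Subgroup.normalizer (H : Set PSL(2, F))) = 12 := by
  have hG := p13_card hF
  obtain ⟨N, hN⟩ : ∃ N : Subgroup PSL(2, F), N = Subgroup.normalizer (H : Set PSL(2, F)) :=
    ⟨_, rfl⟩
  rw [← hN]
  have hHN : H ≤ N := by
    rw [hN]
    exact Subgroup.le_normalizer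
  obtain ⟨xs, hxs⟩ := exists_prime_orderOf_dvd_card' (G := H) 3 (by rw [h6]; norm_num)
  obtain ⟨x, hx⟩ : ∃ x : PSL(2, F), x = (xs : PSL(2, F)) := ⟨_, rfl⟩
  have hxH : x ∈ H := by
    rw [hx]
    exact xs.2
  have hord : orderOf x = 3 := by
    rw [hx, Subgroup.orderOf_coe]
    exact hxs
  obtain ⟨Q, hQ⟩ : ∃ Q : Subgroup PSL(2, F), Q = Subgroup.zpowers x := ⟨_, rfl⟩
  have hQc : Nat.card Q = 3 := by rw [hQ, Nat.card_zpowers, hord]
  have hQH : Q ≤ H := by
    rw [hQ]
    exact Subgroup.zpowers_le.2 hxH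
  have hNQ := p13_norm3 hF Q hQc
  obtain ⟨B, hB⟩ : ∃ B : Subgroup PSL(2, F), B = Subgroup.normalizer (Q : Set PSL(2, F)) :=
    ⟨_, rfl⟩
  rw [← hB] at hNQ
  have hN1 : N ≤ B := by
    rw [hN, hB]
    apply normalizer_le_of_unique H Q hQH
    intro Q' hQ' hc
    apply unique_sub_of_card 3 H Q' Q hQ' hQH 1 2 (by rw [hc, hQc, pow_one])
      (by rw [hQc, pow_one]) (by rw [h6]; norm_num) (by norm_num)
    intro m hm hm1
    have hle := Nat.le_of_dvd (by norm_num) hm
    interval_cases m <;> omega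
  have hHB : H ≤ B := le_trans hHN hN1
  have hidx : (H.subgroupOf B).index = 2 := by
    have h1 := Subgroup.index_mul_card (H.subgroupOf B)
    have h2 : Nat.card (H.subgroupOf B) = 6 := by
      rw [← h6]
      exact Nat.card_congr (Subgroup.subgroupOfEquivOfLe hHB).toEquiv
    rw [h2, hNQ] at h1
    omega
  have hnorm : (H.subgroupOf B).Normal := Subgroup.normal_of_index_eq_two hidx
  have hN2 : B ≤ N := by
    rw [hN]
    exact (Subgroup.normal_subgroupOf_iff_le_normalizer hHB).1 hnorm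
  have heq : N = B := le_antisymm hN1 hN2
  rw [heq]
  exact hNQ

omit [Fact (Nat.Prime 13)] in
/-- An involution commuting with an element of order 3. -/
theorem p13_exists_six : ∃ s h : PSL(2, F), s ≠ 1 ∧ s * s = 1 ∧ h ≠ 1 ∧ h ^ 3 = 1 ∧
    s * h = h * s := by
  have h2 := p13_two (F := F)
  have h13 : (13 : F) = 0 := by exact_mod_cast CharP.cast_eq_zero F 13
  obtain ⟨a, ha⟩ : ∃ a : Fˣ, (a : F) = 2 := ⟨Units.mk0 2 h2, rfl⟩
  obtain ⟨x, hx⟩ : ∃ x : PSL(2, F), x = QuotientGroup.mk (diagSL a) := ⟨_, rfl⟩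
  have hpow : ∀ n : ℕ, x ^ n = QuotientGroup.mk (diagSL (a ^ n)) := by
    intro n
    rw [hx, ← QuotientGroup.mk_pow, diagSL_pow]
  have hne : ∀ n : ℕ, ((2 : F) ^ n) * ((2 : F) ^ n) ≠ 1 → x ^ n ≠ 1 := by
    intro n hn h1
    rw [hpow, PSL2_mk_eq_one_iff] at h1
    obtain ⟨c, hc⟩ := h1
    rw [diagSL_val] at hc
    have e0 := congrFun (congrFun hc 0) 0
    have e1 := congrFun (congrFun hc 1) 1
    simp at e0 e1
    apply hn
    have e2 : (a ^ n : Fˣ) = (a ^ n)⁻¹ := by
      apply Units.ext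
      rw [Units.val_inv_eq_inv_val, Units.val_pow_eq_pow_val, e1]
      exact e0
    have e3 : (a ^ n : Fˣ) * (a ^ n) = 1 := by
      nth_rewrite 2 [e2]
      exact mul_inv_cancel _
    have e4 := congrArg Units.val e3
    rw [Units.val_mul, Units.val_pow_eq_pow_val, ha, Units.val_one] at e4
    exact e4
  have h6 : x ^ 6 = 1 := by
    rw [hpow, PSL2_mk_eq_one_iff]
    refine ⟨-1, ?_⟩
    rw [diagSL_val]
    have e6 : (2 : F) ^ 6 = -1 := by linear_combination 5 * h13
    ext i j
    fin_cases i <;> fin_cases j <;>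
      simp [Units.val_pow_eq_pow_val, ha, e6]
  refine ⟨x ^ 3, x ^ 2, ?_, ?_, ?_, ?_, ?_⟩
  · apply hne
    intro h
    have h63 : ((63 : ℕ) : F) = 0 := by
      push_cast
      linear_combination h
    rw [CharP.cast_eq_zero_iff F 13] at h63
    omega
  · rw [← pow_add]
    exact h6
  · apply hne
    intro h
    have h15 : ((15 : ℕ) : F) = 0 := by
      push_cast
      linear_combination h
    rw [CharP.cast_eq_zero_iff F 13] at h15
    omega
  · rw [← pow_mul]
    exact h6
  · rw [← pow_add, ← pow_add]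

theorem p13_norm2 (hF : Fintype.card F = 13) (H : Subgroup PSL(2, F))
    (h2c : Nat.card H = 2) :
    Nat.card (Subgroup.normalizer (H : Set PSL(2, F))) = 12 := by
  have hG := p13_card hF
  have hHt : H ≠ ⊤ := by
    intro h
    rw [h, Subgroup.card_top, hG] at h2c
    omega
  have hH1 : H ≠ ⊥ := by
    intro h
    rw [h, Subgroup.card_bot] at h2c
    omega
  have hNp := p13_norm_proper hF H hH1 hHt
  obtain ⟨N, hN⟩ : ∃ N : Subgroup PSL(2, F), N = Subgroup.normalizer (H : Set PSL(2, F)) :=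
    ⟨_, rfl⟩
  rw [← hN] at hNp ⊢
  obtain ⟨⟨t, htH⟩, ht1⟩ := Subgroup.ne_bot_iff_exists_ne_one.1 hH1
  have ht1' : t ≠ 1 := by
    intro h
    apply ht1
    exact Subtype.ext h
  have htt : t * t = 1 := by
    have h5 := pow_card_eq_one' (G := H) (x := ⟨t, htH⟩)
    rw [h2c] at h5
    have h6 : t ^ 2 = 1 := congrArg (fun q : H => (q : PSL(2, F))) h5
    rw [← pow_two]
    exact h6
  have ho : orderOf t = 2 := orderOf_eq_prime (by rw [pow_two]; exact htt) ht1'
  have hz : Subgroup.zpowers t = H := by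
    apply Subgroup.eq_of_le_of_card_ge (Subgroup.zpowers_le.2 htH)
    rw [Nat.card_zpowers, ho, h2c]
  have hHt' : ∀ y ∈ H, y = 1 ∨ y = t := by
    intro y hy
    rw [← hz] at hy
    obtain ⟨j, rfl⟩ := Subgroup.mem_zpowers_iff.1 hy
    rcases Int.even_or_odd' j with ⟨k, rfl | rfl⟩
    · left
      rw [zpow_mul, zpow_two, htt, one_zpow]
    · right
      rw [zpow_add, zpow_mul, zpow_two, htt, one_zpow, one_mul, zpow_one]
  have hCN : ∀ g : PSL(2, F), g * t = t * g → g ∈ N := by
    intro g hg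
    rw [hN]
    haveI : Finite ↥(H : Set PSL(2, F)) := inferInstanceAs (Finite H)
    apply Subgroup.mem_normalizer_fintype
    intro y hy
    rcases hHt' y hy with rfl | rfl
    · rw [mul_one, mul_inv_cancel]
      exact H.one_mem
    · rw [hg, mul_inv_cancel_right]
      exact htH
  have h4 : 4 ∣ Nat.card N := by
    have hp : IsPGroup 2 H := IsPGroup.of_card (n := 1) (by rw [h2c, pow_one])
    obtain ⟨V, hV⟩ := hp.exists_le_sylow
    have hV4 : 2 ^ 2 ∣ Nat.card (V : Subgroup PSL(2, F)) :=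
      V.pow_dvd_card_of_pow_dvd_card (by rw [hG]; decide)
    obtain ⟨b, hb⟩ := IsPGroup.iff_card.1 V.2
    have hb' : Nat.card (V : Subgroup PSL(2, F)) = 2 ^ b := hb
    have hb2 : b = 2 := by
      have hdv : 2 ^ b ∣ 1092 := by
        rw [← hb', ← hG]
        exact Subgroup.card_subgroup_dvd_card _
      have hb3 : b < 3 := by
        by_contra hb3
        push_neg at hb3
        have h5 : 2 ^ 3 ∣ 1092 := dvd_trans (pow_dvd_pow 2 hb3) hdv
        revert h5
        decide
      rw [hb'] at hV4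
      interval_cases b
      · exact absurd hV4 (by decide)
      · exact absurd hV4 (by decide)
      · rfl
    have hVc : Nat.card (V : Subgroup PSL(2, F)) = 2 ^ 2 := by rw [hb', hb2]
    have hVN : (V : Subgroup PSL(2, F)) ≤ N := by
      intro v hv
      apply hCN
      have h5 := IsPGroup.commutative_of_card_eq_prime_sq (p := 2)
        (G := (V : Subgroup PSL(2, F))) hVc ⟨v, hv⟩ ⟨t, hV htH⟩
      exact congrArg (fun q : (V : Subgroup PSL(2, F)) => (q : PSL(2, F))) h5
    have h5 := Subgroup.card_dvd_of_le hVN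
    rw [hVc] at h5
    exact h5
  have h3 : 3 ∣ Nat.card N := by
    obtain ⟨s, h, hs1, hss, hh1, hh3, hsh⟩ := p13_exists_six (F := F)
    have hconj := PSL2_involutions_isConj (p13_two (F := F)) s t hs1 hss ht1' htt
    obtain ⟨g, hg⟩ := isConj_iff.1 hconj
    have hmem : g * h * g⁻¹ ∈ N := by
      apply hCN
      rw [← hg]
      have e1 : g * h * g⁻¹ * (g * s * g⁻¹) = g * (h * s) * g⁻¹ := by
        simp [mul_assoc]
      have e2 : g * s * g⁻¹ * (g * h * g⁻¹) = g * (s * h) * g⁻¹ := by
        simp [mul_assoc]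
      rw [e1, e2, hsh]
    have ho3 : orderOf (g * h * g⁻¹) = 3 := by
      apply orderOf_eq_prime
      · rw [conj_pow, hh3, mul_one, mul_inv_cancel]
      · intro h1
        apply hh1
        have e : h = g⁻¹ * (g * h * g⁻¹) * g := by
          simp [mul_assoc]
        rw [e, h1, mul_one, inv_mul_cancel]
    rw [← ho3]
    exact Subgroup.orderOf_dvd_natCard N hmem
  obtain ⟨e, he'⟩ : ∃ e, e = Nat.card N := ⟨_, rfl⟩
  rw [← he'] at hNp h3 h4 ⊢
  have hle : e ≤ 78 := by
    rcases hNp with (h | h) | h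
    · have h5 := Nat.le_of_dvd (by norm_num) h
      omega
    · have h5 := Nat.le_of_dvd (by norm_num) h
      omega
    · exact Nat.le_of_dvd (by norm_num) h
  interval_cases e <;> omega

/-- Normalizers of proper nontrivial subgroups of `PSL₂(13)` have order 78, 14 or 12. -/
theorem p13_norm (hF : Fintype.card F = 13) (H : Subgroup PSL(2, F)) (hH1 : H ≠ ⊥)
    (hHt : H ≠ ⊤) :
    Nat.card (Subgroup.normalizer (H : Set PSL(2, F))) = 78 ∨
      Nat.card (Subgroup.normalizer (H : Set PSL(2, F))) = 14 ∨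
      Nat.card (Subgroup.normalizer (H : Set PSL(2, F))) = 12 := by
  by_cases h13 : 13 ∣ Nat.card H
  · left
    exact p13_norm13 hF H hHt h13
  by_cases h7 : 7 ∣ Nat.card H
  · right
    left
    exact p13_norm7 hF H hHt h7
  right
  right
  have hd1 : Nat.card H ≠ 1 := fun h => hH1 (Subgroup.eq_bot_of_card_eq H h)
  have hcases : Nat.card H = 2 ∨ Nat.card H = 3 ∨ Nat.card H = 4 ∨ Nat.card H = 6 ∨
      Nat.card H = 12 := by
    obtain ⟨d, hd⟩ : ∃ d, d = Nat.card H := ⟨_, rfl⟩
    rw [← hd] at h13 h7 hd1 ⊢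
    have hp : (d ∣ 14 ∨ d ∣ 12) ∨ d ∣ 78 := by
      rw [hd]
      rcases p13_proper hF H hHt with h | ⟨h, -⟩
      · exact Or.inl h
      · exact Or.inr h
    have hle : d ≤ 78 := by
      rcases hp with (h | h) | h
      · have h5 := Nat.le_of_dvd (by norm_num) h
        omega
      · have h5 := Nat.le_of_dvd (by norm_num) h
        omega
      · exact Nat.le_of_dvd (by norm_num) h
    have hpos : 0 < d := by
      rw [hd]
      exact Nat.card_pos
    interval_cases d <;> omega
  rcases hcases with h | h | h | h | h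
  · exact p13_norm2 hF H h
  · exact p13_norm3 hF H h
  · exact p13_norm4 hF H h
  · exact p13_norm6 hF H h
  · exact p13_norm12 hF H h

/-- In `PSL₂(13)` every non-normal subgroup has a maximal normalizer. -/
theorem p13_main (hF : Fintype.card F = 13) (H : Subgroup PSL(2, F)) (hH : ¬ H.Normal) :
    IsCoatom (Subgroup.normalizer (H : Set PSL(2, F))) := by
  have hH1 : H ≠ ⊥ := by
    rintro rfl
    exact hH inferInstance
  have hHt : H ≠ ⊤ := by
    rintro rfl
    exact hH inferInstance
  exact p13_coatom hF _ (p13_norm hF H hH1 hHt)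

end psl213b

section transfer213

theorem coatomNorm_of_equiv {K G : Type*} [Group K] [Group G] (e : K ≃* G)
    (hG : ∀ H : Subgroup G, ¬ H.Normal → IsCoatom (Subgroup.normalizer (H : Set G)))
    (H : Subgroup K) (hH : ¬ H.Normal) : IsCoatom (Subgroup.normalizer (H : Set K)) := by
  have h1 : ¬ (H.map e.toMonoidHom).Normal := by
    intro hn
    apply hH
    have h2 : (H.map e.toMonoidHom).comap e.toMonoidHom = H :=
      Subgroup.comap_map_eq_self_of_injective e.injective H
    rw [← h2]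
    exact hn.comap _
  have h3 := hG _ h1
  rw [← Subgroup.map_equiv_normalizer_eq H e] at h3
  exact (OrderIso.isCoatom_iff e.mapSubgroup _).1 h3

theorem isCoatom_comap_of_surjective {G G' : Type*} [Group G] [Group G'] (f : G →* G')
    (hf : Function.Surjective f) (M : Subgroup G') (hM : IsCoatom M) :
    IsCoatom (M.comap f) := by
  refine ⟨?_, ?_⟩
  · intro h
    apply hM.1
    rw [← Subgroup.map_comap_eq_self_of_surjective hf M, h]
    exact Subgroup.map_top_of_surjective f hf
  · intro L hL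
    have hker : f.ker ≤ L := le_trans (Subgroup.ker_le_comap f M) hL.le
    have h1 : M ≤ L.map f := by
      rw [← Subgroup.map_comap_eq_self_of_surjective hf M]
      exact Subgroup.map_mono hL.le
    have h2 : M ≠ L.map f := by
      intro h
      apply hL.ne
      rw [h, Subgroup.comap_map_eq_self hker]
    have h3 : L.map f = ⊤ := hM.2 _ (lt_of_le_of_ne h1 h2)
    rw [← Subgroup.comap_map_eq_self hker, h3, Subgroup.comap_top]

theorem isCoatom_prod_top {K S : Type*} [Group K] [Group S] (M : Subgroup K)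
    (hM : IsCoatom M) : IsCoatom (M.prod (⊤ : Subgroup S)) := by
  refine ⟨?_, ?_⟩
  · intro h
    apply hM.1
    rw [eq_top_iff]
    intro k _
    have h1 : (k, (1 : S)) ∈ M.prod (⊤ : Subgroup S) := by
      rw [h]
      exact Subgroup.mem_top _
    exact (Subgroup.mem_prod.1 h1).1
  · intro L hL
    obtain ⟨L₁, hL₁⟩ : ∃ L₁ : Subgroup K, L₁ = L.comap (MonoidHom.inl K S) := ⟨_, rfl⟩
    have hS : ∀ s : S, ((1 : K), s) ∈ L := fun s =>
      hL.le (Subgroup.mem_prod.2 ⟨M.one_mem, Subgroup.mem_top _⟩)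
    have hmem : ∀ k s, (k, s) ∈ L ↔ k ∈ L₁ := by
      intro k s
      rw [hL₁, Subgroup.mem_comap]
      show (k, s) ∈ L ↔ (k, (1 : S)) ∈ L
      constructor
      · intro h
        have h1 := L.mul_mem h (hS s⁻¹)
        rwa [Prod.mk_mul_mk, mul_one, mul_inv_cancel] at h1
      · intro h
        have h1 := L.mul_mem h (hS s)
        rwa [Prod.mk_mul_mk, mul_one, one_mul] at h1
    have hML : M ≤ L₁ := by
      intro k hk
      rw [← hmem k 1]
      exact hL.le (Subgroup.mem_prod.2 ⟨hk, Subgroup.mem_top _⟩)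
    have hne : M ≠ L₁ := by
      intro h
      apply hL.ne
      ext ⟨k, s⟩
      rw [Subgroup.mem_prod, hmem, h]
      simp
    have h3 : L₁ = ⊤ := hM.2 _ (lt_of_le_of_ne hML hne)
    rw [eq_top_iff]
    rintro ⟨k, s⟩ -
    rw [hmem, h3]
    exact Subgroup.mem_top _

theorem prod_coatomNorm {K S : Type*} [Group K] [CommGroup S] [Finite K] [Finite S]
    (hcop : (Nat.card K).Coprime (Nat.card S))
    (hK : ∀ H : Subgroup K, ¬ H.Normal → IsCoatom (Subgroup.normalizer (H : Set K)))
    (H : Subgroup (K × S)) (hH : ¬ H.Normal) :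
    IsCoatom (Subgroup.normalizer (H : Set (K × S))) := by
  obtain ⟨H₁, hH₁⟩ : ∃ H₁ : Subgroup K, H₁ = H.comap (MonoidHom.inl K S) := ⟨_, rfl⟩
  have hmem₁ : ∀ k : K, k ∈ H₁ ↔ (k, (1 : S)) ∈ H := by
    intro k
    rw [hH₁, Subgroup.mem_comap]
    rfl
  have hsplit : ∀ k s, (k, s) ∈ H → (k, (1 : S)) ∈ H := by
    intro k s hks
    have h1 : (k, s) ^ Nat.card S ∈ H := H.pow_mem hks _
    have h2 : (k, s) ^ Nat.card S = (k ^ Nat.card S, 1) := by
      rw [Prod.pow_mk, pow_card_eq_one']
    rw [h2] at h1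
    have h3 := H.zpow_mem h1 ((Nat.card K).gcdB (Nat.card S))
    have h4 : (k ^ Nat.card S, (1 : S)) ^ ((Nat.card K).gcdB (Nat.card S)) = (k, 1) := by
      have h5 := (powCoprime hcop).symm_apply_apply k
      simp only [powCoprime_apply, powCoprime_symm_apply] at h5
      rw [Prod.pow_mk, h5, one_zpow]
    rw [h4] at h3
    exact h3
  have hsplit2 : ∀ k s, (k, s) ∈ H → ((1 : K), s) ∈ H := by
    intro k s hks
    have h1 := H.mul_mem (H.inv_mem (hsplit k s hks)) hks
    rwa [Prod.inv_mk, Prod.mk_mul_mk, inv_mul_cancel, inv_one, one_mul] at h1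
  haveI : Finite ↥(H : Set (K × S)) := inferInstanceAs (Finite H)
  haveI : Finite ↥(H₁ : Set K) := inferInstanceAs (Finite H₁)
  have hNeq : Subgroup.normalizer (H : Set (K × S)) =
      (Subgroup.normalizer (H₁ : Set K)).prod ⊤ := by
    ext ⟨n, s⟩
    rw [Subgroup.mem_prod]
    constructor
    · intro hns
      refine ⟨?_, Subgroup.mem_top _⟩
      apply Subgroup.mem_normalizer_fintype
      intro k hk
      have hk' : k ∈ H₁ := hk
      rw [hmem₁] at hk'
      have h1 := (Subgroup.mem_normalizer_iff.1 hns (k, 1)).1 hk'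
      rw [Prod.inv_mk, Prod.mk_mul_mk, Prod.mk_mul_mk, mul_one, mul_inv_cancel] at h1
      exact (hmem₁ _).2 h1
    · rintro ⟨hn, -⟩
      apply Subgroup.mem_normalizer_fintype
      rintro ⟨k, s'⟩ hks
      have hks' : (k, s') ∈ H := hks
      have h1 := hsplit k s' hks'
      have h2 := hsplit2 k s' hks'
      have h3 : n * k * n⁻¹ ∈ H₁ := (Subgroup.mem_normalizer_iff.1 hn k).1 ((hmem₁ k).2 h1)
      rw [hmem₁] at h3
      have h4 := H.mul_mem h3 h2
      rw [Prod.mk_mul_mk, mul_one, one_mul] at h4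
      have e : (n, s) * (k, s') * (n, s)⁻¹ = (n * k * n⁻¹, s') := by
        rw [Prod.inv_mk, Prod.mk_mul_mk, Prod.mk_mul_mk, mul_comm s s', mul_inv_cancel_right]
      show (n, s) * (k, s') * (n, s)⁻¹ ∈ H
      rw [e]
      exact h4
  have hH₁n : ¬ H₁.Normal := by
    intro hn
    apply hH
    rw [← Subgroup.normalizer_eq_top_iff, hNeq, Subgroup.normalizer_eq_top_iff.2 hn,
      Subgroup.top_prod_top]
  rw [hNeq]
  exact isCoatom_prod_top _ (hK H₁ hH₁n)

end transfer213

section sl213

variable {F : Type*} [Field F] [Fintype F]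

theorem sl2_coatomNorm (h2 : (2 : F) ≠ 0)
    (hP : ∀ H : Subgroup PSL(2, F), ¬ H.Normal →
      IsCoatom (Subgroup.normalizer (H : Set PSL(2, F))))
    (H : Subgroup SL(2, F)) (hH : ¬ H.Normal) :
    IsCoatom (Subgroup.normalizer (H : Set SL(2, F))) := by
  obtain ⟨π, hπ⟩ : ∃ π : SL(2, F) →* PSL(2, F),
      π = QuotientGroup.mk' (Subgroup.center SL(2, F)) := ⟨_, rfl⟩
  have hsurj : Function.Surjective π := by
    rw [hπ]
    exact QuotientGroup.mk'_surjective _
  have hker : π.ker = Subgroup.center SL(2, F) := by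
    rw [hπ]
    exact QuotientGroup.ker_mk' _
  obtain ⟨z₀, hz₀⟩ : ∃ z₀ : SL(2, F), z₀ = signSL false := ⟨_, rfl⟩
  have hz1 : z₀ ≠ 1 := by
    rw [hz₀]
    exact signSL_false_ne_one h2
  have hzz : z₀ * z₀ = 1 := by
    rw [hz₀]
    exact signSL_false_mul_self
  have hzc : ∀ c : SL(2, F), c * z₀ = z₀ * c := by
    rw [hz₀]
    exact signSL_central false
  have hcen : ∀ z : SL(2, F), z ∈ Subgroup.center SL(2, F) → z = 1 ∨ z = z₀ := by
    intro z hz
    rw [SL2_mem_center_iff] at hz
    obtain ⟨a, ha⟩ := hz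
    have hdet := z.2
    rw [ha, Matrix.det_smul, Matrix.det_one, Fintype.card_fin, mul_one] at hdet
    have h5 : (a - 1) * (a + 1) = 0 := by linear_combination hdet
    rcases mul_eq_zero.1 h5 with h6 | h6
    · left
      apply Subtype.ext
      rw [ha, sub_eq_zero.1 h6, one_smul, Matrix.SpecialLinearGroup.coe_one]
    · right
      have ha1 : a = -1 := by linear_combination h6
      apply Subtype.ext
      rw [ha, hz₀, signSL_val, ha1]
      simp [sgnB]
  have hinv : ∀ x : SL(2, F), x * x = 1 → x = 1 ∨ x = z₀ := by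
    intro x hx
    obtain ⟨a, ha⟩ := SL2_scalar_of_mul_self_eq_one h2 x hx
    exact hcen x ((SL2_mem_center_iff x).2 ⟨a, ha⟩)
  obtain ⟨Hb, hHb⟩ : ∃ Hb : Subgroup PSL(2, F), Hb = H.map π := ⟨_, rfl⟩
  have hNeq : Subgroup.normalizer (H : Set SL(2, F)) =
      (Subgroup.normalizer (Hb : Set PSL(2, F))).comap π := by
    apply le_antisymm
    · rw [← Subgroup.map_le_iff_le_comap, hHb]
      exact Subgroup.le_normalizer_map π
    · intro g hg
      rw [Subgroup.mem_comap] at hg
      haveI : Finite ↥(H : Set SL(2, F)) := inferInstanceAs (Finite H)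
      apply Subgroup.mem_normalizer_fintype
      intro h hh
      have h1 : π (g * h * g⁻¹) ∈ Hb := by
        rw [map_mul, map_mul, map_inv]
        refine (Subgroup.mem_normalizer_iff.1 hg (π h)).1 ?_
        rw [hHb]
        exact ⟨h, hh, rfl⟩
      rw [hHb] at h1
      obtain ⟨h', hh', he⟩ := h1
      have h3 : h'⁻¹ * (g * h * g⁻¹) ∈ Subgroup.center SL(2, F) := by
        rw [← hker, MonoidHom.mem_ker, map_mul, map_inv, he, inv_mul_cancel]
      rcases hcen _ h3 with h4 | h4
      · have h5 : g * h * g⁻¹ = h' := by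
          rw [inv_mul_eq_one] at h4
          exact h4.symm
        rw [h5]
        exact hh'
      · have h5 : g * h * g⁻¹ = h' * z₀ := by
          rw [inv_mul_eq_iff_eq_mul] at h4
          exact h4
        by_cases hzH : z₀ ∈ H
        · rw [h5]
          exact H.mul_mem hh' hzH
        · exfalso
          have hoddH : Odd (Nat.card H) := by
            by_contra hev
            rw [Nat.not_odd_iff_even] at hev
            obtain ⟨xs, hxs⟩ := exists_prime_orderOf_dvd_card' (G := H) 2 hev.two_dvd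
            have hx2 : (xs : SL(2, F)) * xs = 1 := by
              have h6 := pow_orderOf_eq_one xs
              rw [hxs, pow_two] at h6
              exact congrArg (fun q : H => (q : SL(2, F))) h6
            rcases hinv _ hx2 with h6 | h6
            · have h7 : xs = 1 := Subtype.ext h6
              rw [h7, orderOf_one] at hxs
              omega
            · apply hzH
              rw [← h6]
              exact xs.2
          obtain ⟨r, hr⟩ := hoddH
          have e1 : (g * h * g⁻¹) ^ (Nat.card H) = 1 := by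
            rw [conj_pow]
            have h6 := pow_card_eq_one' (G := H) (x := ⟨h, hh⟩)
            have h7 : h ^ Nat.card H = 1 := congrArg (fun q : H => (q : SL(2, F))) h6
            rw [h7, mul_one, mul_inv_cancel]
          have e2 : (h' * z₀) ^ (Nat.card H) = z₀ := by
            have hcomm : Commute h' z₀ := hzc h'
            rw [hcomm.mul_pow]
            have h6 := pow_card_eq_one' (G := H) (x := ⟨h', hh'⟩)
            have h7 : h' ^ Nat.card H = 1 := congrArg (fun q : H => (q : SL(2, F))) h6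
            rw [h7, one_mul, hr, pow_succ, pow_mul, pow_two, hzz, one_pow, one_mul]
          rw [h5, e2] at e1
          exact hz1 e1
  rw [hNeq]
  apply isCoatom_comap_of_surjective π hsurj
  apply hP
  intro hn
  apply hH
  rw [← Subgroup.normalizer_eq_top_iff, hNeq, Subgroup.normalizer_eq_top_iff.2 hn,
    Subgroup.comap_top]

end sl213

end Cfsg.Agent.Lib.helper12
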