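import Mathlib
import Cfsg.Prelude.Def_CaseTheorems
import Cfsg.Agent.Lib.helper16.OddQuot
import Cfsg.Agent.S0016

set_option autoImplicit false

namespace Cfsg.Agent.Lib.helper12

open scoped Pointwise

universe u

/-- `PRankLE` passes to subgroups. -/
theorem prank_mono {G : Type*} [Group G] {p k : ℕ} {H K : Subgroup G} (h : H ≤ K)
    (hK : Cfsg.PRankLE p k ↥K) : Cfsg.PRankLE p k ↥H := by
  intro A hA hexp
  have hι : Function.Injective (Subgroup.inclusion h) := Subgroup.inclusion_injective h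
  have h1 := hK (A.map (Subgroup.inclusion h)) inferInstance (by
    rintro _ ⟨a, ha, rfl⟩
    rw [← map_pow, hexp a ha, map_one])
  rwa [Subgroup.card_map_of_injective hι] at h1

/-- A normal `p`-subgroup lies in every Sylow `p`-subgroup. -/
theorem normal_pgroup_le_sylow {G : Type*} [Group G] [Finite G] {p : ℕ} [Fact p.Prime]
    (N : Subgroup G) [hNn : N.Normal] (hN : IsPGroup p N) (P : Sylow p G) :
    N ≤ (P : Subgroup G) := by
  obtain ⟨R, hR⟩ := hN.exists_le_sylow
  obtain ⟨g, rfl⟩ := MulAction.exists_smul_eq G R P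
  intro n hn
  have h1 : g⁻¹ * n * g ∈ N := by
    have := hNn.conj_mem n hn g⁻¹
    simpa using this
  have h2 : g⁻¹ * n * g ∈ (R : Subgroup G) := hR h1
  rw [Sylow.coe_subgroup_smul, Subgroup.mem_pointwise_smul_iff_inv_smul_mem]
  simpa [MulAut.smul_def, mul_assoc] using h2

/-- In a finite 2-group of 2-rank at most one all involutions coincide. -/
theorem invol_unique_of_rank {X : Type*} [Group X] [Finite X] (hX : IsPGroup 2 X)
    (hr : Cfsg.PRankLE 2 1 X) (s t : X) (hs : s ≠ 1) (hs2 : s ^ 2 = 1) (ht : t ≠ 1)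
    (ht2 : t ^ 2 = 1) : s = t := by
  haveI : Fact (Nat.Prime 2) := ⟨Nat.prime_two⟩
  haveI : Nontrivial X := ⟨⟨s, 1, hs⟩⟩
  haveI := hX.center_nontrivial
  -- a central involution
  obtain ⟨z, hz⟩ : ∃ z : Subgroup.center X, orderOf z = 2 := by
    apply exists_prime_orderOf_dvd_card' 2
    have hc : IsPGroup 2 (Subgroup.center X) := hX.to_subgroup _
    obtain ⟨k, hk⟩ := IsPGroup.iff_card.mp hc
    rw [hk]
    have hk0 : k ≠ 0 := by
      rintro rfl
      have : Nat.card (Subgroup.center X) = 1 := by simpa using hk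
      have h1 := Finite.one_lt_card (α := Subgroup.center X)
      omega
    exact dvd_pow_self 2 hk0
  have hz1 : (z : X) ≠ 1 := by
    intro h
    have : z = 1 := Subtype.ext h
    rw [this, orderOf_one] at hz
    norm_num at hz
  have hz2 : (z : X) ^ 2 = 1 := by
    have := pow_orderOf_eq_one z
    rw [hz] at this
    simpa using congrArg Subtype.val this
  have hzc : ∀ x : X, x * (z : X) = (z : X) * x := fun x =>
    (Subgroup.mem_center_iff.mp z.2 x)
  have key : ∀ s : X, s ≠ 1 → s ^ 2 = 1 → s = (z : X) := by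
    intro s hs hs2
    by_contra hne
    set A : Subgroup X := Subgroup.closure {s, (z : X)} with hA
    have hcomm : IsMulCommutative A := by
      apply Subgroup.isMulCommutative_closure
      intro x hx y hy
      rcases hx with rfl | rfl <;> rcases hy with rfl | rfl
      · rfl
      · exact hzc _
      · exact (hzc _).symm
      · rfl
    have hexp : ∀ a ∈ A, a ^ 2 = 1 := by
      intro a ha
      have hcomm' := isMulCommutative_iff.mp hcomm
      induction ha using Subgroup.closure_induction with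
      | mem x hx =>
        rcases hx with rfl | rfl
        · exact hs2
        · exact hz2
      | one => simp
      | mul x y hx hy ihx ihy =>
        have := congrArg Subtype.val (hcomm' ⟨x, hx⟩ ⟨y, hy⟩)
        simp only [Subgroup.coe_mul] at this
        rw [(show Commute x y from this).mul_pow, ihx, ihy, one_mul]
      | inv x hx ih => rw [inv_pow, ih, inv_one]
    have hle := hr A hcomm hexp
    have hsA : s ∈ A := Subgroup.subset_closure (by simp)
    have hzA : (z : X) ∈ A := Subgroup.subset_closure (by simp)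
    have ho : orderOf s = 2 := orderOf_eq_prime hs2 hs
    have hzs : Subgroup.zpowers s = A := by
      apply Subgroup.eq_of_le_of_card_ge
      · rw [Subgroup.zpowers_le]; exact hsA
      · rw [Nat.card_zpowers, ho]; norm_num at hle; exact hle
    have hzm : (z : X) ∈ Subgroup.zpowers s := hzs ▸ hzA
    obtain ⟨k, hk⟩ := Subgroup.mem_zpowers_iff.mp hzm
    have h5 : s ^ (k % 2) = (z : X) := by
      rw [← hk]
      have := zpow_mod_orderOf s k
      rw [ho] at this
      exact_mod_cast this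
    rcases Int.emod_two_eq_zero_or_one k with h0 | h0
    · rw [h0, zpow_zero] at h5; exact hz1 h5.symm
    · rw [h0, zpow_one] at h5; exact hne h5
  rw [key s hs hs2, key t ht ht2]

theorem unique_of_rank {X : Type*} [Group X] [Finite X] (hX : IsPGroup 2 X)
    (hr : Cfsg.PRankLE 2 1 X) :
    ∀ H K : Subgroup X, Nat.card H = 2 → Nat.card K = 2 → H = K := by
  have aux : ∀ H : Subgroup X, Nat.card H = 2 → ∃ h : X, h ≠ 1 ∧ h ^ 2 = 1 ∧
      H = Subgroup.zpowers h := by
    intro H hH
    have hnb : H ≠ ⊥ := by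
      rintro rfl
      simp at hH
    obtain ⟨⟨h, hh⟩, hne⟩ := (Subgroup.ne_bot_iff_exists_ne_one).mp hnb
    have hh1 : h ≠ 1 := fun e => hne (Subtype.ext e)
    have h2 : h ^ 2 = 1 := by
      have := pow_card_eq_one' (G := H) (x := ⟨h, hh⟩)
      rw [hH] at this
      simpa using congrArg Subtype.val this
    refine ⟨h, hh1, h2, ?_⟩
    symm
    apply Subgroup.eq_of_le_of_card_ge
    · rw [Subgroup.zpowers_le]; exact hh
    · rw [hH, Nat.card_zpowers]
      have : orderOf h = 2 := orderOf_eq_prime h2 hh1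
      omega
  intro H K hH hK
  obtain ⟨h, h1, h2, rfl⟩ := aux H hH
  obtain ⟨k, k1, k2, rfl⟩ := aux K hK
  rw [invol_unique_of_rank hX hr h k h1 h2 k1 k2]

/-- An element of odd order normalising a cyclic 2-group `⟨x⟩` centralises it. -/
theorem pow_conj_fix {X : Type*} [Group X] (x g : X) (a m : ℕ) (hx : x ^ (2 ^ a) = 1)
    (hm : Odd m) (hg : g ^ m = 1) (h : g * x * g⁻¹ ∈ Subgroup.zpowers x) :
    g * x * g⁻¹ = x := by
  have hn0 : 0 < orderOf x := by
    apply orderOf_pos_iff.mpr
    exact isOfFinOrder_iff_pow_eq_one.mpr ⟨2 ^ a, by positivity, hx⟩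
  obtain ⟨b, hb, hnb⟩ := (Nat.dvd_prime_pow Nat.prime_two).mp (orderOf_dvd_of_pow_eq_one hx)
  obtain ⟨k, hk⟩ := Subgroup.mem_zpowers_iff.mp h
  set n := orderOf x with hn
  obtain ⟨k', hk'⟩ : ∃ k' : ℕ, x ^ k' = g * x * g⁻¹ := by
    refine ⟨(k % n).toNat, ?_⟩
    rw [← hk, ← zpow_natCast, Int.toNat_of_nonneg (Int.emod_nonneg _ (by omega)),
      zpow_mod_orderOf]
  have key : ∀ j : ℕ, g ^ j * x * (g ^ j)⁻¹ = x ^ (k' ^ j) := by
    intro j
    induction j with
    | zero => simp
    | succ j ih =>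
      have e1 : g ^ (j + 1) * x * (g ^ (j + 1))⁻¹ = g * (g ^ j * x * (g ^ j)⁻¹) * g⁻¹ := by
        rw [pow_succ']; group
      rw [e1, ih]
      have e2 : g * x ^ (k' ^ j) * g⁻¹ = (g * x * g⁻¹) ^ (k' ^ j) := by
        rw [conj_pow]
      rw [e2, ← hk', ← pow_mul, ← pow_succ']
  have h1 := key m
  rw [hg] at h1
  have h2 : x ^ (k' ^ m) = x ^ 1 := by
    rw [← h1]; simp
  rw [pow_eq_pow_iff_modEq, ← hn, hnb] at h2
  -- k'^m ≡ 1 mod 2^b
  have h3 : ((k' : ZMod (2 ^ b)) ^ m) = 1 := by
    have := (ZMod.natCast_eq_natCast_iff _ _ _).mpr h2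
    simpa using this
  have hm0 : m ≠ 0 := by
    rintro rfl
    simp at hm
  have h4 : (k' : ZMod (2 ^ b)) = 1 := by
    rcases Nat.eq_zero_or_pos b with rfl | hbpos
    · haveI : Subsingleton (ZMod (2 ^ 0)) := by simp only [pow_zero]; infer_instance
      exact Subsingleton.elim _ _
    · haveI : NeZero (2 ^ b) := ⟨by positivity⟩
      set U : (ZMod (2 ^ b))ˣ := Units.ofPowEqOne _ m h3 hm0 with hU
      have hUm : U ^ m = 1 := Units.pow_ofPowEqOne h3 hm0
      have hd1 : orderOf U ∣ m := orderOf_dvd_of_pow_eq_one hUm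
      have hd2 : orderOf U ∣ 2 ^ (b - 1) := by
        have := orderOf_dvd_card (x := U)
        rw [ZMod.card_units_eq_totient, Nat.totient_prime_pow Nat.prime_two hbpos] at this
        simpa using this
      have hcop : Nat.Coprime m (2 ^ (b - 1)) :=
        Nat.Coprime.pow_right _ hm.coprime_two_right
      have h1' : orderOf U = 1 := Nat.eq_one_of_dvd_coprimes hcop hd1 hd2
      have hU1 : U = 1 := orderOf_eq_one_iff.mp h1'
      have := congrArg Units.val hU1
      simpa [hU] using this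
  have h5 : k' ≡ 1 [MOD 2 ^ b] := by
    have : ((k' : ℕ) : ZMod (2 ^ b)) = ((1 : ℕ) : ZMod (2 ^ b)) := by simpa using h4
    exact (ZMod.natCast_eq_natCast_iff _ _ _).mp this
  rw [← hk']
  have : x ^ k' = x ^ 1 := by
    rw [pow_eq_pow_iff_modEq, ← hn, hnb]; exact h5
  simpa using this

/-- If `g` (odd order) centralises the 2-element `c` and `g y g⁻¹ = y c` then `c = 1`. -/
theorem mul_conj_fix {X : Type*} [Group X] (y c g : X) (b m : ℕ) (hc : c ^ (2 ^ b) = 1)
    (hm : Odd m) (hg : g ^ m = 1) (hgc : g * c = c * g) (h : g * y * g⁻¹ = y * c) : c = 1 := by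
  have key : ∀ j : ℕ, g ^ j * y * (g ^ j)⁻¹ = y * c ^ j := by
    intro j
    induction j with
    | zero => simp
    | succ j ih =>
      have e1 : g ^ (j + 1) * y * (g ^ (j + 1))⁻¹ = g * (g ^ j * y * (g ^ j)⁻¹) * g⁻¹ := by
        rw [pow_succ']; group
      rw [e1, ih]
      have hcj : g * c ^ j * g⁻¹ = c ^ j := by
        have hcm : Commute g (c ^ j) := (show Commute g c from hgc).pow_right j
        rw [hcm.eq]; group
      calc g * (y * c ^ j) * g⁻¹ = (g * y * g⁻¹) * (g * c ^ j * g⁻¹) := by group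
        _ = y * c * c ^ j := by rw [h, hcj]
        _ = y * c ^ (j + 1) := by rw [pow_succ', mul_assoc]
  have h1 := key m
  rw [hg] at h1
  have h2 : c ^ m = 1 := by simpa using h1
  have hd1 : orderOf c ∣ m := orderOf_dvd_of_pow_eq_one h2
  have hd2 : orderOf c ∣ 2 ^ b := orderOf_dvd_of_pow_eq_one hc
  have hcop : Nat.Coprime m (2 ^ b) := Nat.Coprime.pow_right _ hm.coprime_two_right
  exact orderOf_eq_one_iff.mp (Nat.eq_one_of_dvd_coprimes hcop hd1 hd2)

/-- Adjoining an element `t` normalising `N` with `t ^ m ∈ N` multiplies the order by at most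
`m`. -/
theorem card_sup_zpowers_le {X : Type*} [Group X] (N : Subgroup X) [Finite N] (t : X) (m : ℕ)
    (hm : 0 < m) (htm : t ^ m ∈ N) (h1 : ∀ n ∈ N, t * n * t⁻¹ ∈ N)
    (h2 : ∀ n ∈ N, t⁻¹ * n * t ∈ N) :
    Finite ↥(N ⊔ Subgroup.zpowers t) ∧ Nat.card ↥(N ⊔ Subgroup.zpowers t) ≤ m * Nat.card N := by
  classical
  let f : N × Fin m → X := fun q => (q.1 : X) * t ^ (q.2 : ℕ)
  have hsub : ((N ⊔ Subgroup.zpowers t : Subgroup X) : Set X) ⊆ Set.range f := by
    intro x hx
    have hx' : x ∈ Subgroup.closure ((N : Set X) ∪ {t}) := by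
      have : N ⊔ Subgroup.zpowers t = Subgroup.closure ((N : Set X) ∪ {t}) := by
        rw [Subgroup.closure_union, Subgroup.closure_eq, Subgroup.zpowers_eq_closure]
      rw [← this]; exact hx
    refine Subgroup.closure_induction_left (p := fun g _ => g ∈ Set.range f) ?_ ?_ ?_ hx'
    · exact ⟨(1, ⟨0, hm⟩), by simp [f]⟩
    · rintro x hx y _ ⟨⟨n, k⟩, rfl⟩
      rcases hx with hx | hx
      · exact ⟨(⟨x, hx⟩ * n, k), by simp [f, mul_assoc]⟩
      · rw [Set.mem_singleton_iff] at hx
        subst hx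
        by_cases hk : (k : ℕ) + 1 < m
        · refine ⟨(⟨x * n * x⁻¹, h1 n n.2⟩, ⟨k + 1, hk⟩), ?_⟩
          simp only [f]
          rw [pow_succ']; group
        · have hk' : (k : ℕ) + 1 = m := by have := k.2; omega
          refine ⟨(⟨x * n * x⁻¹ * x ^ m, N.mul_mem (h1 n n.2) htm⟩, ⟨0, hm⟩), ?_⟩
          simp only [f]
          have e : x ^ m = x ^ ((k : ℕ) + 1) := congrArg (x ^ ·) hk'.symm
          rw [e, pow_succ']; group
    · rintro x hx y _ ⟨⟨n, k⟩, rfl⟩
      rcases hx with hx | hx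
      · exact ⟨(⟨x, hx⟩⁻¹ * n, k), by simp [f, mul_assoc]⟩
      · rw [Set.mem_singleton_iff] at hx
        subst hx
        rcases Nat.eq_zero_or_pos (k : ℕ) with hk | hk
        · refine ⟨(⟨x⁻¹ * n * x * (x ^ m)⁻¹, N.mul_mem (h2 n n.2) (N.inv_mem htm)⟩,
            ⟨m - 1, by omega⟩), ?_⟩
          simp only [f, hk]
          have : x ^ m = x ^ (m - 1) * x := by
            rw [← pow_succ]; congr 1; omega
          rw [this]; group
        · refine ⟨(⟨x⁻¹ * n * x, h2 n n.2⟩, ⟨k - 1, by have := k.2; omega⟩), ?_⟩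
          simp only [f]
          have : x ^ (k : ℕ) = x * x ^ ((k : ℕ) - 1) := by
            rw [← pow_succ']; congr 1; omega
          rw [this]; group
  have hfin : (Set.range f).Finite := Set.finite_range f
  have hfin' : Finite ↥(N ⊔ Subgroup.zpowers t) := (hfin.subset hsub).to_subtype
  refine ⟨hfin', ?_⟩
  have e1 : Nat.card ↥(N ⊔ Subgroup.zpowers t)
      = ((N ⊔ Subgroup.zpowers t : Subgroup X) : Set X).ncard := by
    rw [← Nat.card_coe_set_eq]; rfl
  rw [e1]
  calc ((N ⊔ Subgroup.zpowers t : Subgroup X) : Set X).ncard ≤ (Set.range f).ncard :=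
        Set.ncard_le_ncard hsub hfin
    _ ≤ Nat.card (N × Fin m) := by
        rw [← Set.image_univ]
        have := Set.ncard_image_le (f := f) (s := Set.univ) Set.finite_univ
        rwa [Set.ncard_univ] at this
    _ = m * Nat.card N := by
        rw [Nat.card_prod, Nat.card_eq_fintype_card (α := Fin m), Fintype.card_fin, mul_comm]

end Cfsg.Agent.Lib.helper12
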