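import Mathlib
import Cfsg.Agent.Lib.helper12.RkA

set_option autoImplicit false

namespace Cfsg.Agent.Lib.helper12

open scoped Pointwise

universe u

/-- The rank condition on intersections of Sylow 2-subgroups passes to `G / O(G)`. -/
theorem rk_transfer {G : Type u} [Group G] [Finite G]
    (hI : ∀ S T : Sylow 2 G, S ≠ T →
      Cfsg.PRankLE 2 1 ↥((S : Subgroup G) ⊓ (T : Subgroup G))) :
    ∀ S T : Sylow 2 (G ⧸ Cfsg.oddCore G), S ≠ T →
      Cfsg.PRankLE 2 1 ↥((S : Subgroup (G ⧸ Cfsg.oddCore G)) ⊓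
        (T : Subgroup (G ⧸ Cfsg.oddCore G))) := by
  haveI : Fact (Nat.Prime 2) := ⟨Nat.prime_two⟩
  have hOc : (Nat.card (Cfsg.oddCore G)).Coprime 2 :=
    Cfsg.Agent.Lib.helper16.oddCore_card_coprime G
  set O := Cfsg.oddCore G with hO
  set π := QuotientGroup.mk' O with hπ
  have hπs : Function.Surjective π := QuotientGroup.mk'_surjective O
  intro S T hST A hA hexp
  obtain ⟨S₁, rfl⟩ := Sylow.mapSurjective_surjective hπs 2 S
  obtain ⟨T₀, rfl⟩ := Sylow.mapSurjective_surjective hπs 2 T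
  set A' : Subgroup (G ⧸ O) := A.map (Subgroup.subtype _) with hA'
  have hA'S : A' ≤ (S₁ : Subgroup G).map π := by
    rintro _ ⟨a, -, rfl⟩
    exact a.2.1
  have hA'T : A' ≤ (T₀ : Subgroup G).map π := by
    rintro _ ⟨a, -, rfl⟩
    exact a.2.2
  have hA'comm : ∀ x ∈ A', ∀ y ∈ A', x * y = y * x := by
    rintro _ ⟨a, ha, rfl⟩ _ ⟨b, hb, rfl⟩
    have := isMulCommutative_iff.mp hA ⟨a, ha⟩ ⟨b, hb⟩
    have h2 : a * b = b * a := congrArg Subtype.val this
    have h3 := congrArg Subtype.val h2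
    exact h3
  have hA'exp : ∀ x ∈ A', x ^ 2 = 1 := by
    rintro _ ⟨a, ha, rfl⟩
    rw [← map_pow, hexp a ha, map_one]
  set D : Subgroup G := (S₁ : Subgroup G) ⊓ A'.comap π with hD
  have hDO : ∀ d ∈ D, π d = 1 → d = 1 := by
    intro d hd h1
    have hdO : d ∈ O := (QuotientGroup.eq_one_iff d).mp h1
    obtain ⟨k, hk⟩ := S₁.isPGroup' ⟨d, hd.1⟩
    have hk' : d ^ 2 ^ k = 1 := by simpa using congrArg Subtype.val hk
    have hd1 : orderOf d ∣ 2 ^ k := orderOf_dvd_of_pow_eq_one hk'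
    have hd2 : orderOf d ∣ Nat.card O := by
      have := orderOf_dvd_natCard (⟨d, hdO⟩ : O)
      rwa [Subgroup.orderOf_mk] at this
    have hcop : Nat.Coprime (Nat.card O) (2 ^ k) := Nat.Coprime.pow_right _ hOc
    exact orderOf_eq_one_iff.mp (Nat.eq_one_of_dvd_coprimes hcop hd2 hd1)
  have hDcomm : IsMulCommutative D := by
    rw [isMulCommutative_iff]
    rintro ⟨x, hx⟩ ⟨y, hy⟩
    apply Subtype.ext
    show x * y = y * x
    have h1 : x * y * (y * x)⁻¹ ∈ D := D.mul_mem (D.mul_mem hx hy) (D.inv_mem (D.mul_mem hy hx))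
    have h2 : π (x * y * (y * x)⁻¹) = 1 := by
      rw [map_mul, map_inv, map_mul, map_mul, hA'comm _ hx.2 _ hy.2, mul_inv_cancel]
    have := hDO _ h1 h2
    exact mul_inv_eq_one.mp this
  have hDexp : ∀ d ∈ D, d ^ 2 = 1 := by
    intro d hd
    apply hDO _ (D.pow_mem hd 2)
    rw [map_pow]
    exact hA'exp _ hd.2
  -- a Sylow 2-subgroup above `D` with image inside the image of `T₀`
  obtain ⟨T₁, hDT₁, hT₁⟩ : ∃ T₁ : Sylow 2 G, D ≤ (T₁ : Subgroup G) ∧
      (T₁ : Subgroup G).map π ≤ (T₀ : Subgroup G).map π := by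
    set M : Subgroup G := ((T₀ : Subgroup G).map π).comap π with hM
    have hT₀M : (T₀ : Subgroup G) ≤ M := Subgroup.le_comap_map π _
    have hDM : D ≤ M := fun d hd => hA'T hd.2
    have hDp : IsPGroup 2 (D.subgroupOf M) := by
      have h1 : IsPGroup 2 D := S₁.isPGroup'.to_le inf_le_left
      exact h1.comap_subtype
    obtain ⟨R, hR⟩ := hDp.exists_le_sylow
    obtain ⟨g, hg⟩ := MulAction.exists_smul_eq ↥M (T₀.subtype hT₀M) R
    rw [Sylow.smul_subtype] at hg
    refine ⟨g • T₀, ?_, ?_⟩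
    · intro d hd
      have h1 : (⟨d, hDM hd⟩ : ↥M) ∈ (R : Subgroup ↥M) := hR (by
        rw [Subgroup.mem_subgroupOf]; exact hd)
      rw [← hg, Sylow.coe_subtype, Subgroup.mem_subgroupOf] at h1
      exact h1
    · rintro _ ⟨x, hx, rfl⟩
      have hx' : x ∈ MulAut.conj (g : G) • (T₀ : Subgroup G) := hx
      rw [Subgroup.mem_pointwise_smul_iff_inv_smul_mem] at hx'
      have hx2 : (g : G)⁻¹ * x * (g : G) ∈ (T₀ : Subgroup G) := by
        simpa [MulAut.smul_def, mul_assoc] using hx'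
      have hg' : π (g : G) ∈ (T₀ : Subgroup G).map π := g.2
      have e : π x = π (g : G) * π ((g : G)⁻¹ * x * (g : G)) * (π (g : G))⁻¹ := by
        rw [← map_inv, ← map_mul, ← map_mul]; congr 1; group
      rw [e]
      exact Subgroup.mul_mem _ (Subgroup.mul_mem _ hg' (Subgroup.mem_map_of_mem π hx2))
        (Subgroup.inv_mem _ hg')
  have hne : S₁ ≠ T₁ := by
    rintro rfl
    apply hST
    have h1 : ((S₁.mapSurjective hπs : Sylow 2 (G ⧸ O)) : Subgroup (G ⧸ O)) ≤
        ((T₀.mapSurjective hπs : Sylow 2 (G ⧸ O)) : Subgroup (G ⧸ O)) := by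
      rw [Sylow.coe_mapSurjective, Sylow.coe_mapSurjective]; exact hT₁
    have h2 := (S₁.mapSurjective hπs).is_maximal' (T₀.mapSurjective hπs).isPGroup' h1
    exact Sylow.ext h2.symm
  have hr := hI S₁ T₁ hne
  have hDle : D ≤ (S₁ : Subgroup G) ⊓ (T₁ : Subgroup G) := le_inf inf_le_left hDT₁
  have h3 := hr (D.subgroupOf _) inferInstance (by
    intro a ha
    rw [Subgroup.mem_subgroupOf] at ha
    apply Subtype.ext
    simpa using hDexp _ ha)
  have e1 : Nat.card (D.subgroupOf ((S₁ : Subgroup G) ⊓ (T₁ : Subgroup G))) = Nat.card D :=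
    Nat.card_congr (Subgroup.subgroupOfEquivOfLe hDle).toEquiv
  have e2 : Nat.card A = Nat.card A' := by
    rw [hA', Subgroup.card_map_of_injective (Subgroup.subtype_injective _)]
  have e3 : Nat.card A' ≤ Nat.card D := by
    have hsurj : Function.Surjective (fun d : D => (⟨π d, d.2.2⟩ : A')) := by
      rintro ⟨x, hx⟩
      obtain ⟨s, hs, rfl⟩ := hA'S hx
      exact ⟨⟨s, hs, hx⟩, rfl⟩
    exact Nat.card_le_card_of_surjective _ hsurj
  omega

end Cfsg.Agent.Lib.helper12
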