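import Mathlib
import Cfsg.Agent.Lib.helper12.RkB

set_option autoImplicit false

namespace Cfsg.Agent.Lib.helper12

open scoped Pointwise

universe u

/-- Elements of odd order centralise a normal cyclic 2-subgroup. -/
theorem odd_centralizes_cyclic {Q : Type*} [Group Q] (F : Subgroup Q) [hFn : F.Normal]
    (hF : IsPGroup 2 F) (hc : IsCyclic F) (g : Q) (hg : Odd (orderOf g)) :
    ∀ f ∈ F, g * f = f * g := by
  obtain ⟨x, hx⟩ := hc.exists_generator
  obtain ⟨a, ha⟩ := hF x
  have ha' : (x : Q) ^ 2 ^ a = 1 := by simpa using congrArg Subtype.val ha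
  have hmem : ∀ f ∈ F, f ∈ Subgroup.zpowers (x : Q) := by
    intro f hf
    obtain ⟨k, hk⟩ := Subgroup.mem_zpowers_iff.mp (hx ⟨f, hf⟩)
    refine Subgroup.mem_zpowers_iff.mpr ⟨k, ?_⟩
    simpa using congrArg Subtype.val hk
  have h1 : g * (x : Q) * g⁻¹ = x :=
    pow_conj_fix (x : Q) g a (orderOf g) ha' hg (pow_orderOf_eq_one g)
      (hmem _ (hFn.conj_mem _ x.2 g))
  have hcomm : Commute g (x : Q) := by
    show g * (x : Q) = x * g
    calc g * (x : Q) = g * x * g⁻¹ * g := by group
      _ = x * g := by rw [h1]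
  intro f hf
  obtain ⟨k, rfl⟩ := Subgroup.mem_zpowers_iff.mp (hmem f hf)
  exact (hcomm.zpow_right k).eq

/-- Elements of odd order centralise a normal generalised quaternion subgroup of order at
least 16. -/
theorem odd_centralizes_quat {Q : Type*} [Group Q] (F : Subgroup Q) [hFn : F.Normal]
    (n : ℕ) (hn : 2 ≤ n) (e : F ≃* QuaternionGroup (2 ^ n)) (g : Q) (hg : Odd (orderOf g)) :
    ∀ f ∈ F, g * f = f * g := by
  haveI : NeZero (2 ^ n) := ⟨by positivity⟩
  haveI : NeZero (2 * 2 ^ n) := ⟨by positivity⟩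
  have hN : 4 ≤ 2 ^ n := by
    calc 4 = 2 ^ 2 := by norm_num
      _ ≤ 2 ^ n := Nat.pow_le_pow_right (by norm_num) hn
  set x : F := e.symm (QuaternionGroup.a 1) with hx
  set y : F := e.symm (QuaternionGroup.xa 0) with hy
  have hxo : orderOf (x : Q) = 2 * 2 ^ n := by
    rw [Subgroup.orderOf_coe, hx, MulEquiv.orderOf_eq, QuaternionGroup.orderOf_a_one]
  have hx2 : (x : Q) ^ 2 ^ (n + 1) = 1 := by
    have := pow_orderOf_eq_one (x : Q)
    rw [hxo] at this
    rw [pow_succ', this]
  -- elements `e.symm (a k)` are powers of `x`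
  have hpow : ∀ k : ZMod (2 * 2 ^ n), ((e.symm (QuaternionGroup.a k) : F) : Q) = (x : Q) ^ k.val := by
    intro k
    have : (QuaternionGroup.a k : QuaternionGroup (2 ^ n)) = QuaternionGroup.a 1 ^ k.val := by
      rw [QuaternionGroup.a_one_pow, ZMod.natCast_zmod_val]
    rw [this, map_pow, ← hx]
    simp
  have hm := pow_orderOf_eq_one g
  -- g fixes x
  have h1 : g * (x : Q) * g⁻¹ = x := by
    apply pow_conj_fix (x : Q) g (n + 1) (orderOf g) hx2 hg hm
    have hmem : g * (x : Q) * g⁻¹ ∈ F := hFn.conj_mem _ x.2 g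
    have ho : orderOf (e ⟨g * (x : Q) * g⁻¹, hmem⟩) = 2 * 2 ^ n := by
      rw [MulEquiv.orderOf_eq, ← Subgroup.orderOf_coe]
      show orderOf (g * (x : Q) * g⁻¹) = _
      rw [← hxo]
      have := MulEquiv.orderOf_eq (MulAut.conj g) (x : Q)
      simpa [MulAut.conj_apply] using this
    rcases hw : e ⟨g * (x : Q) * g⁻¹, hmem⟩ with k | k
    · have h2 : (⟨g * (x : Q) * g⁻¹, hmem⟩ : F) = e.symm (QuaternionGroup.a k) := by
        rw [← hw]; simp
      have h3 : g * (x : Q) * g⁻¹ = (x : Q) ^ k.val := (congrArg Subtype.val h2).trans (hpow k)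
      rw [h3]
      exact Subgroup.pow_mem _ (Subgroup.mem_zpowers _) _
    · rw [hw, QuaternionGroup.orderOf_xa] at ho
      omega
  have hcx : Commute g (x : Q) := by
    show g * (x : Q) = x * g
    calc g * (x : Q) = g * x * g⁻¹ * g := by group
      _ = x * g := by rw [h1]
  -- g fixes y
  have h2 : g * (y : Q) * g⁻¹ = y := by
    have hmem : g * (y : Q) * g⁻¹ ∈ F := hFn.conj_mem _ y.2 g
    rcases hw : e ⟨g * (y : Q) * g⁻¹, hmem⟩ with k | k
    · exfalso
      have h2 : (⟨g * (y : Q) * g⁻¹, hmem⟩ : F) = e.symm (QuaternionGroup.a k) := by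
        rw [← hw]; simp
      have h4 : g * (y : Q) * g⁻¹ = (x : Q) ^ k.val := (congrArg Subtype.val h2).trans (hpow k)
      have h5 : (y : Q) = (x : Q) ^ k.val := by
        have hc := (hcx.pow_right k.val)
        calc (y : Q) = g⁻¹ * (g * (y : Q) * g⁻¹) * g := by group
          _ = g⁻¹ * ((x : Q) ^ k.val * g) := by rw [h4]; group
          _ = g⁻¹ * (g * (x : Q) ^ k.val) := by rw [hc.eq]
          _ = (x : Q) ^ k.val := by group
      have h6 : y = x ^ k.val := Subtype.ext (by simpa using h5)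
      have h7 := congrArg e h6
      rw [hy, hx, map_pow] at h7
      simp only [MulEquiv.apply_symm_apply, QuaternionGroup.a_one_pow] at h7
      cases h7
    · have h2 : (⟨g * (y : Q) * g⁻¹, hmem⟩ : F) = y * e.symm (QuaternionGroup.a k) := by
        apply e.injective
        rw [hw, map_mul, hy]
        simp [QuaternionGroup.xa_mul_a]
      have h3 := congrArg Subtype.val h2
      have h4 : g * (y : Q) * g⁻¹ = (y : Q) * (x : Q) ^ k.val := by
        rw [← hpow k]; exact h3
      have hc1 : ((x : Q) ^ k.val) ^ 2 ^ (n + 1) = 1 := by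
        rw [← pow_mul, mul_comm, pow_mul, hx2, one_pow]
      have h5 := mul_conj_fix (y : Q) ((x : Q) ^ k.val) g (n + 1) (orderOf g) hc1 hg hm
        (hcx.pow_right k.val).eq h4
      rw [h4, h5, mul_one]
  have hcy : Commute g (y : Q) := by
    show g * (y : Q) = y * g
    calc g * (y : Q) = g * y * g⁻¹ * g := by group
      _ = y * g := by rw [h2]
  intro f hf
  rcases hw : e ⟨f, hf⟩ with k | k
  · have h2 : (⟨f, hf⟩ : F) = e.symm (QuaternionGroup.a k) := by
      rw [← hw]; simp
    have h3 : f = (x : Q) ^ k.val := (congrArg Subtype.val h2).trans (hpow k)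
    rw [h3]
    exact (hcx.pow_right _).eq
  · have h2 : (⟨f, hf⟩ : F) = y * e.symm (QuaternionGroup.a k) := by
      apply e.injective
      rw [hw, map_mul, hy]
      simp [QuaternionGroup.xa_mul_a]
    have h3 := congrArg Subtype.val h2
    have h4 : f = (y : Q) * (x : Q) ^ k.val := by
      rw [← hpow k]; exact h3
    rw [h4]
    exact (hcy.mul_right (hcx.pow_right _)).eq

/-- Reduction to the case where the Fitting subgroup is quaternion of order 8. -/
theorem rk_reduce {Q : Type u} [Group Q] [Finite Q] (hs : Group.IsSolvable Q)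
    (hO : Cfsg.oddCore Q = ⊥)
    (hI : ∀ S T : Sylow 2 Q, S ≠ T → Cfsg.PRankLE 2 1 ↥((S : Subgroup Q) ⊓ (T : Subgroup Q)))
    (hnn : ¬ ∃ P : Sylow 2 Q, (P : Subgroup Q).Normal) :
    Nonempty (↥(Cfsg.fittingSubgroup Q) ≃* QuaternionGroup 2) := by
  haveI : Fact (Nat.Prime 2) := ⟨Nat.prime_two⟩
  have hF2 : IsPGroup 2 (Cfsg.fittingSubgroup Q) :=
    Cfsg.Agent.Lib.helper16.fitting_isPGroup_of_oddCore_eq_bot Q hO
  haveI hFn : (Cfsg.fittingSubgroup Q).Normal := Cfsg.Agent.Lib.helper7.fitting_normal Q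
  set F := Cfsg.fittingSubgroup Q with hF
  have hn2 : ¬ IsPGroup 2 Q := by
    intro h2
    apply hnn
    let P : Sylow 2 Q := default
    refine ⟨P, ?_⟩
    have : (⊤ : Subgroup Q) = (P : Subgroup Q) := P.is_maximal' (h2.to_subgroup ⊤) le_top
    rw [← this]; infer_instance
  have hcontra : (∀ g : Q, Odd (orderOf g) → ∀ f ∈ F, g * f = f * g) → False := fun h =>
    hn2 (Cfsg.Agent.Lib.helper16.isPGroup_two_of_odd_centralize Q hs hO h)
  let P : Sylow 2 Q := default
  obtain ⟨g, hg⟩ : ∃ g : Q, g • P ≠ P := by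
    by_contra hcon
    push Not at hcon
    apply hnn
    refine ⟨P, ?_⟩
    rw [← Subgroup.normalizer_eq_top_iff, eq_top_iff]
    intro x _
    exact Sylow.smul_eq_iff_mem_normalizer.mp (hcon x)
  have hr := hI (g • P) P hg
  have hFle : F ≤ ((g • P : Sylow 2 Q) : Subgroup Q) ⊓ (P : Subgroup Q) :=
    le_inf (normal_pgroup_le_sylow F hF2 _) (normal_pgroup_le_sylow F hF2 _)
  have hrF : Cfsg.PRankLE 2 1 ↥F := prank_mono hFle hr
  have huniq := unique_of_rank hF2 hrF
  rcases Cfsg.Agent.S0016.result 2 hF2 huniq with hc | ⟨-, n, ⟨e⟩⟩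
  · exact (hcontra (fun g hg => odd_centralizes_cyclic F hF2 hc g hg)).elim
  · rcases Nat.lt_or_ge n 2 with hlt | hge
    · interval_cases n
      · exfalso
        have hc : IsCyclic F := by
          haveI : IsCyclic (QuaternionGroup (2 ^ 0)) :=
            QuaternionGroup.quaternionGroup_one_isCyclic
          exact isCyclic_of_surjective e.symm e.symm.surjective
        exact hcontra (fun g hg => odd_centralizes_cyclic F hF2 hc g hg)
      · exact ⟨e⟩
    · exact (hcontra (fun g hg => odd_centralizes_quat F n hge e g hg)).elim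

end Cfsg.Agent.Lib.helper12
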