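import Mathlib
import Cfsg.Agent.Lib.helper12.RkC

set_option autoImplicit false

namespace Cfsg.Agent.Lib.helper12

open scoped Pointwise

universe u

theorem h8_inv : ∀ w : QuaternionGroup 2, w ^ 2 = 1 → w = 1 ∨ w = QuaternionGroup.a 2 := by
  decide +kernel

theorem h8_sq : ∀ w : QuaternionGroup 2, w ^ 2 ≠ 1 → w ^ 2 = QuaternionGroup.a 2 := by
  decide +kernel

theorem h8_zc : ∀ v : QuaternionGroup 2, QuaternionGroup.a 2 * v = v * QuaternionGroup.a 2 := by
  decide +kernel

set_option maxRecDepth 100000 in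
set_option synthInstance.maxHeartbeats 2000000 in
set_option synthInstance.maxSize 4096 in
theorem h8_gen : ∀ u v : QuaternionGroup 2, u ^ 2 ≠ 1 → v ^ 2 ≠ 1 → v ≠ u → v ≠ u⁻¹ →
    v * u * v⁻¹ = u⁻¹ ∧ (u * v) ^ 2 ≠ 1 ∧ ∀ w : QuaternionGroup 2, w = 1 ∨
      w = QuaternionGroup.a 2 ∨ w = u ∨ w = u⁻¹ ∨ w = v ∨ w = v⁻¹ ∨ w = u * v ∨
      w = (u * v)⁻¹ := by
  decide +kernel

theorem h8_ex : ∀ u : QuaternionGroup 2, u ^ 2 ≠ 1 →
    ∃ v : QuaternionGroup 2, v ^ 2 ≠ 1 ∧ v ≠ u ∧ v ≠ u⁻¹ := by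
  decide +kernel

set_option maxRecDepth 100000 in
theorem h8_card24 : Fintype.card {p : QuaternionGroup 2 × QuaternionGroup 2 //
    p.1 ^ 2 ≠ 1 ∧ p.2 ^ 2 ≠ 1 ∧ p.2 ≠ p.1 ∧ p.2 ≠ p.1⁻¹} = 24 := by
  decide +kernel

/-- `F` is a quaternion group of order 8 with central involution `z` (element-wise form). -/
structure Q8In {Q : Type*} [Group Q] (F : Subgroup Q) (z : Q) : Prop where
  zmem : z ∈ F
  zne : z ≠ 1
  zsq : z ^ 2 = 1
  zc : ∀ v ∈ F, z * v = v * z
  inv : ∀ w ∈ F, w ^ 2 = 1 → w = 1 ∨ w = z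
  sq : ∀ w ∈ F, w ^ 2 ≠ 1 → w ^ 2 = z
  gen : ∀ u ∈ F, ∀ v ∈ F, u ^ 2 ≠ 1 → v ^ 2 ≠ 1 → v ≠ u → v ≠ u⁻¹ →
    v * u * v⁻¹ = u⁻¹ ∧ (u * v) ^ 2 ≠ 1 ∧
    ∀ w ∈ F, w = 1 ∨ w = z ∨ w = u ∨ w = u⁻¹ ∨ w = v ∨ w = v⁻¹ ∨ w = u * v ∨ w = (u * v)⁻¹
  ex : ∀ u ∈ F, u ^ 2 ≠ 1 → ∃ v ∈ F, v ^ 2 ≠ 1 ∧ v ≠ u ∧ v ≠ u⁻¹
  ex0 : ∃ u ∈ F, u ^ 2 ≠ 1
  card : Nat.card F = 8

theorem q8in_of_equiv {Q : Type*} [Group Q] (F : Subgroup Q) (e : F ≃* QuaternionGroup 2) :
    Q8In F ((e.symm (QuaternionGroup.a 2) : F) : Q) := by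
  set zF : F := e.symm (QuaternionGroup.a 2) with hzF
  have ez : e zF = QuaternionGroup.a 2 := by simp [hzF]
  have hpow2 : ∀ (w : Q) (hw : w ∈ F), (e ⟨w, hw⟩) ^ 2 = 1 ↔ w ^ 2 = 1 := by
    intro w hw
    rw [← map_pow, e.map_eq_one_iff]
    constructor
    · intro h; simpa using congrArg Subtype.val h
    · intro h; exact Subtype.ext (by simpa using h)
  have ha2 : (QuaternionGroup.a 2 : QuaternionGroup 2) ≠ 1 := by decide +kernel
  have ha2sq : (QuaternionGroup.a 2 : QuaternionGroup 2) ^ 2 = 1 := by decide +kernel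
  refine { zmem := zF.2, zne := ?_, zsq := ?_, zc := ?_, inv := ?_, sq := ?_, gen := ?_,
           ex := ?_, ex0 := ?_, card := ?_ }
  · intro h
    have : zF = 1 := Subtype.ext h
    rw [this, map_one] at ez
    exact ha2 ez.symm
  · have : zF ^ 2 = 1 := by
      apply e.injective
      rw [map_pow, ez, ha2sq, map_one]
    simpa using congrArg Subtype.val this
  · intro v hv
    have : zF * ⟨v, hv⟩ = ⟨v, hv⟩ * zF := by
      apply e.injective
      rw [map_mul, map_mul, ez]
      exact h8_zc _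
    exact congrArg Subtype.val this
  · intro w hw hw2
    rcases h8_inv (e ⟨w, hw⟩) ((hpow2 w hw).mpr hw2) with h | h
    · left
      have : (⟨w, hw⟩ : F) = 1 := e.injective (by rw [h, map_one])
      exact congrArg Subtype.val this
    · right
      have : (⟨w, hw⟩ : F) = zF := e.injective (by rw [h, ez])
      exact congrArg Subtype.val this
  · intro w hw hw2
    have h := h8_sq (e ⟨w, hw⟩) (fun h => hw2 ((hpow2 w hw).mp h))
    have : (⟨w, hw⟩ : F) ^ 2 = zF := e.injective (by rw [map_pow, h, ez])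
    simpa using congrArg Subtype.val this
  · intro u hu v hv hu2 hv2 hvu hvu'
    obtain ⟨h1, h2, h3⟩ := h8_gen (e ⟨u, hu⟩) (e ⟨v, hv⟩)
      (fun h => hu2 ((hpow2 u hu).mp h)) (fun h => hv2 ((hpow2 v hv).mp h))
      (fun h => hvu (by simpa using e.injective h))
      (fun h => hvu' (by
        have : (⟨v, hv⟩ : F) = (⟨u, hu⟩ : F)⁻¹ := e.injective (by rw [h, map_inv])
        simpa using congrArg Subtype.val this))
    refine ⟨?_, ?_, ?_⟩
    · have : (⟨v, hv⟩ : F) * ⟨u, hu⟩ * (⟨v, hv⟩ : F)⁻¹ = (⟨u, hu⟩ : F)⁻¹ :=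
        e.injective (by rw [map_mul, map_mul, map_inv, map_inv, h1])
      simpa using congrArg Subtype.val this
    · intro h
      apply h2
      rw [← map_mul]
      exact (hpow2 (u * v) (F.mul_mem hu hv)).mpr h
    · intro w hw
      rcases h3 (e ⟨w, hw⟩) with h | h | h | h | h | h | h | h
      · left
        have : (⟨w, hw⟩ : F) = 1 := e.injective (by rw [h, map_one])
        exact congrArg Subtype.val this
      · right; left
        have : (⟨w, hw⟩ : F) = zF := e.injective (by rw [h, ez])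
        exact congrArg Subtype.val this
      · right; right; left
        exact congrArg Subtype.val (e.injective h)
      · right; right; right; left
        have : (⟨w, hw⟩ : F) = (⟨u, hu⟩ : F)⁻¹ := e.injective (by rw [h, map_inv])
        simpa using congrArg Subtype.val this
      · right; right; right; right; left
        exact congrArg Subtype.val (e.injective h)
      · right; right; right; right; right; left
        have : (⟨w, hw⟩ : F) = (⟨v, hv⟩ : F)⁻¹ := e.injective (by rw [h, map_inv])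
        simpa using congrArg Subtype.val this
      · right; right; right; right; right; right; left
        have : (⟨w, hw⟩ : F) = ⟨u, hu⟩ * ⟨v, hv⟩ := e.injective (by rw [h, map_mul])
        simpa using congrArg Subtype.val this
      · right; right; right; right; right; right; right
        have : (⟨w, hw⟩ : F) = (⟨u, hu⟩ * ⟨v, hv⟩)⁻¹ :=
          e.injective (by rw [h, map_inv, map_mul])
        simpa using congrArg Subtype.val this
  · intro u hu hu2
    obtain ⟨v, hv2, hvu, hvu'⟩ := h8_ex (e ⟨u, hu⟩) (fun h => hu2 ((hpow2 u hu).mp h))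
    refine ⟨(e.symm v : F), (e.symm v).2, ?_, ?_, ?_⟩
    · intro h
      apply hv2
      have := (hpow2 _ (e.symm v).2).mpr h
      simpa using this
    · intro h
      apply hvu
      have : e.symm v = ⟨u, hu⟩ := Subtype.ext h
      rw [← this]; simp
    · intro h
      apply hvu'
      have : e.symm v = (⟨u, hu⟩ : F)⁻¹ := Subtype.ext (by simpa using h)
      rw [← map_inv, ← this]; simp
  · refine ⟨(e.symm (QuaternionGroup.a 1) : F), (e.symm (QuaternionGroup.a 1)).2, ?_⟩
    intro h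
    have := (hpow2 _ (e.symm (QuaternionGroup.a 1)).2).mpr h
    have h2 : (QuaternionGroup.a 1 : QuaternionGroup 2) ^ 2 ≠ 1 := by decide +kernel
    apply h2
    simpa using this
  · rw [Nat.card_congr e.toEquiv, Nat.card_eq_fintype_card, QuaternionGroup.card]

namespace Q8In

variable {Q : Type*} [Group Q] {F : Subgroup Q} {z : Q}

theorem pow4 (hq : Q8In F z) (w : Q) (hw : w ∈ F) : w ^ 4 = 1 := by
  have : w ^ 4 = (w ^ 2) ^ 2 := by rw [← pow_mul]
  rw [this]
  by_cases h : w ^ 2 = 1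
  · rw [h, one_pow]
  · rw [hq.sq w hw h, hq.zsq]

theorem z_central (hq : Q8In F z) [hFn : F.Normal] (g : Q) : g * z = z * g := by
  have h1 : g * z * g⁻¹ ∈ F := hFn.conj_mem z hq.zmem g
  have h2 : (g * z * g⁻¹) ^ 2 = 1 := by rw [conj_pow, hq.zsq]; group
  rcases hq.inv _ h1 h2 with h | h
  · exfalso
    apply hq.zne
    have : z = g⁻¹ * (g * z * g⁻¹) * g := by group
    rw [this, h]; group
  · calc g * z = g * z * g⁻¹ * g := by group
      _ = z * g := by rw [h]

theorem std_symm (hq : Q8In F z) {u v : Q} (hu : u ∈ F) (hv : v ∈ F) (hu2 : u ^ 2 ≠ 1)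
    (hv2 : v ^ 2 ≠ 1) (hvu : v ≠ u) (hvu' : v ≠ u⁻¹) :
    u * v * u⁻¹ = v⁻¹ :=
  (hq.gen v hv u hu hv2 hu2 (fun h => hvu h.symm)
    (fun h => hvu' (by rw [h, inv_inv]))).1

theorem mul_rev (hq : Q8In F z) {u v : Q} (hu : u ∈ F) (hv : v ∈ F) (hu2 : u ^ 2 ≠ 1)
    (hv2 : v ^ 2 ≠ 1) : v * u = (u * v)⁻¹ := by
  have huz := hq.sq u hu hu2
  have hvz := hq.sq v hv hv2
  have : (u * v) * (v * u) = 1 := by
    calc (u * v) * (v * u) = u * v ^ 2 * u := by rw [pow_two]; group
      _ = u * z * u := by rw [hvz]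
      _ = z * u * u := by rw [← hq.zc u hu]
      _ = z * u ^ 2 := by rw [pow_two]; group
      _ = 1 := by rw [huz, ← pow_two, hq.zsq]
  exact eq_inv_of_mul_eq_one_right this

theorem inv_sq_ne (hq : Q8In F z) {u : Q} (hu2 : u ^ 2 ≠ 1) : (u⁻¹) ^ 2 ≠ 1 := by
  intro h
  apply hu2
  rw [inv_pow, inv_eq_one] at h
  exact h

/-- `v⁻¹ u v = u⁻¹` for a standard pair. -/
theorem std_inv (hq : Q8In F z) {u v : Q} (hu : u ∈ F) (hv : v ∈ F) (hu2 : u ^ 2 ≠ 1)
    (hv2 : v ^ 2 ≠ 1) (hvu : v ≠ u) (hvu' : v ≠ u⁻¹) :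
    v⁻¹ * u * v = u⁻¹ := by
  have := (hq.gen u hu v⁻¹ (F.inv_mem hv) hu2 (hq.inv_sq_ne hv2)
    (fun h => hvu' (by rw [← h, inv_inv])) (fun h => hvu (inv_injective h))).1
  simpa using this

theorem comm_all (hq : Q8In F z) {u v : Q} (hu : u ∈ F) (hv : v ∈ F) (hu2 : u ^ 2 ≠ 1)
    (hv2 : v ^ 2 ≠ 1) (hvu : v ≠ u) (hvu' : v ≠ u⁻¹) (g : Q) (h1 : Commute g u)
    (h2 : Commute g v) : ∀ w ∈ F, Commute g w := by
  intro w hw
  have hz : Commute g z := by
    rw [← hq.sq u hu hu2]; exact h1.pow_right 2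
  rcases (hq.gen u hu v hv hu2 hv2 hvu hvu').2.2 w hw with h | h | h | h | h | h | h | h
  · rw [h]; exact Commute.one_right g
  · rw [h]; exact hz
  · rw [h]; exact h1
  · rw [h]; exact h1.inv_right
  · rw [h]; exact h2
  · rw [h]; exact h2.inv_right
  · rw [h]; exact h1.mul_right h2
  · rw [h]; exact (h1.mul_right h2).inv_right

theorem cent (hq : Q8In F z) (hC : Subgroup.centralizer (F : Set Q) ≤ F) (g : Q)
    (hg : ∀ f ∈ F, g * f = f * g) : g = 1 ∨ g = z := by
  have hgF : g ∈ F := hC (by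
    rw [Subgroup.mem_centralizer_iff]
    intro f hf
    exact (hg f hf).symm)
  by_cases h2 : g ^ 2 = 1
  · exact hq.inv g hgF h2
  · exfalso
    obtain ⟨v, hv, hv2, hvg, hvg'⟩ := hq.ex g hgF h2
    have h1 := (hq.gen g hgF v hv h2 hv2 hvg hvg').1
    have h3 : v * g * v⁻¹ = g := by
      rw [← hg v hv]; group
    rw [h3] at h1
    apply h2
    calc g ^ 2 = g * g := pow_two g
      _ = g * g⁻¹ := by rw [← h1]
      _ = 1 := mul_inv_cancel g

theorem commute_of_conj {g u : Q} (h : g * u * g⁻¹ = u) : Commute g u := by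
  show g * u = u * g
  calc g * u = g * u * g⁻¹ * g := by group
    _ = u * g := by rw [h]

/-- An element of order 3 moves every cyclic subgroup of order 4 of `F`. -/
theorem ord3 (hq : Q8In F z) [hFn : F.Normal] (hC : Subgroup.centralizer (F : Set Q) ≤ F)
    (g : Q) (hg3 : g ^ 3 = 1) (hg1 : g ≠ 1) (u : Q) (hu : u ∈ F) (hu2 : u ^ 2 ≠ 1) :
    g * u * g⁻¹ ≠ u ∧ g * u * g⁻¹ ≠ u⁻¹ := by
  have hodd : Odd 3 := by decide
  have hne : g * u * g⁻¹ ≠ u := by
    intro hfix
    obtain ⟨v, hv, hv2, hvu, hvu'⟩ := hq.ex u hu hu2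
    obtain ⟨hI1, huv2, henum⟩ := hq.gen u hu v hv hu2 hv2 hvu hvu'
    have hcu : Commute g u := commute_of_conj hfix
    have hgv : g * v * g⁻¹ ∈ F := hFn.conj_mem v hv g
    have hgv2 : (g * v * g⁻¹) ^ 2 ≠ 1 := by
      rw [conj_pow, Ne, conj_eq_one_iff]
      exact hv2
    have hfixv : g * v * g⁻¹ = v := by
      rcases henum _ hgv with h | h | h | h | h | h | h | h
      · exfalso; rw [h] at hgv2; simp at hgv2
      · exfalso; apply hgv2; rw [h]; exact hq.zsq
      · exfalso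
        apply hvu
        have : g * v * g⁻¹ = g * u * g⁻¹ := by rw [h, hfix]
        simpa using this
      · exfalso
        apply hvu'
        have : g * v * g⁻¹ = g * u⁻¹ * g⁻¹ := by
          rw [h]
          have : g * u⁻¹ * g⁻¹ = (g * u * g⁻¹)⁻¹ := by group
          rw [this, hfix]
        simpa using this
      · exact h
      · exact pow_conj_fix v g 2 3 (hq.pow4 v hv) hodd hg3
          (by rw [h]; exact Subgroup.inv_mem _ (Subgroup.mem_zpowers v))
      · exfalso
        have hc : g * v * g⁻¹ = v * u⁻¹ := by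
          rw [h]
          have := hq.std_inv hu hv hu2 hv2 hvu hvu'
          calc u * v = v * (v⁻¹ * u * v) := by group
            _ = v * u⁻¹ := by rw [this]
        have := mul_conj_fix v u⁻¹ g 2 3
          (by show u⁻¹ ^ 4 = 1; rw [inv_pow, hq.pow4 u hu, inv_one]) hodd hg3 hcu.inv_right.eq hc
        apply hu2
        rw [inv_eq_one] at this
        rw [this, one_pow]
      · exfalso
        have hc : g * v * g⁻¹ = v * u := by
          rw [h, hq.mul_rev hu hv hu2 hv2]
        have := mul_conj_fix v u g 2 3 (hq.pow4 u hu) hodd hg3 hcu.eq hc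
        apply hu2
        rw [this, one_pow]
    have hcv : Commute g v := commute_of_conj hfixv
    have hall := hq.comm_all hu hv hu2 hv2 hvu hvu' g hcu hcv
    rcases hq.cent hC g (fun f hf => (hall f hf).eq) with h | h
    · exact hg1 h
    · rw [h] at hg3
      apply hq.zne
      have h3 : z ^ 3 = z ^ 2 * z := pow_succ z 2
      rw [hq.zsq, one_mul] at h3
      rw [← h3]; exact hg3
  refine ⟨hne, ?_⟩
  intro hinv
  apply hne
  exact pow_conj_fix u g 2 3 (hq.pow4 u hu) hodd hg3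
    (by rw [hinv]; exact Subgroup.inv_mem _ (Subgroup.mem_zpowers u))

/-- Elements of `F` commuting with an element of order 3 are central. -/
theorem cent3 (hq : Q8In F z) [hFn : F.Normal] (hC : Subgroup.centralizer (F : Set Q) ≤ F)
    (g : Q) (hg3 : g ^ 3 = 1) (hg1 : g ≠ 1) (f : Q) (hf : f ∈ F) (hcomm : g * f = f * g) :
    f = 1 ∨ f = z := by
  by_cases h2 : f ^ 2 = 1
  · exact hq.inv f hf h2
  · exfalso
    apply (hq.ord3 hC g hg3 hg1 f hf h2).1
    rw [hcomm]; group

/-- No element `f b` (`f ∈ F`, `b` an involution outside `F`) squares to `z`. -/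
theorem invol_coset (hq : Q8In F z) [hFn : F.Normal] (hC : Subgroup.centralizer (F : Set Q) ≤ F)
    (f b : Q) (hf : f ∈ F) (hb2 : b ^ 2 = 1) (hbF : b ∉ F) (h : (f * b) ^ 2 = z) : False := by
  have hbinv : b⁻¹ = b := by
    rw [inv_eq_iff_mul_eq_one, ← pow_two, hb2]
  have hconj : b * f * b⁻¹ = f⁻¹ * z := by
    have : (f * b) ^ 2 = f * (b * f * b⁻¹) := by rw [hbinv, pow_two]; group
    rw [this] at h
    rw [← h]; group
  by_cases hf2 : f ^ 2 = 1
  · rcases hq.inv f hf hf2 with h1 | h1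
    · rw [h1, one_mul, hb2] at h
      exact hq.zne h.symm
    · rw [h1] at h
      have hzb : Commute z b := (hq.z_central b).symm
      rw [hzb.mul_pow, hq.zsq, hb2, one_mul] at h
      exact hq.zne h.symm
  · have hfz := hq.sq f hf hf2
    have hfix : b * f * b⁻¹ = f := by
      rw [hconj, ← hfz]; group
    obtain ⟨v, hv, hv2, hvu, hvu'⟩ := hq.ex f hf hf2
    obtain ⟨hI1, huv2, henum⟩ := hq.gen f hf v hv hf2 hv2 hvu hvu'
    have hcu : Commute b f := commute_of_conj hfix
    have hgv : b * v * b⁻¹ ∈ F := hFn.conj_mem v hv b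
    have hgv2 : (b * v * b⁻¹) ^ 2 ≠ 1 := by
      rw [conj_pow, Ne, conj_eq_one_iff]
      exact hv2
    have hbb : b * (b * v * b⁻¹) * b⁻¹ = v := by
      rw [hbinv]
      calc b * (b * v * b) * b = b ^ 2 * v * b ^ 2 := by simp only [pow_two]; group
        _ = v := by rw [hb2]; group
    rcases henum _ hgv with h | h | h | h | h | h | h | h
    · rw [h] at hgv2; simp at hgv2
    · apply hgv2; rw [h]; exact hq.zsq
    · apply hvu
      have : b * v * b⁻¹ = b * f * b⁻¹ := by rw [h, hfix]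
      simpa using this
    · apply hvu'
      have : b * v * b⁻¹ = b * f⁻¹ * b⁻¹ := by
        rw [h]
        have : b * f⁻¹ * b⁻¹ = (b * f * b⁻¹)⁻¹ := by group
        rw [this, hfix]
      simpa using this
    · have hcv : Commute b v := commute_of_conj h
      have hall := hq.comm_all hf hv hf2 hv2 hvu hvu' b hcu hcv
      rcases hq.cent hC b (fun x hx => (hall x hx).eq) with h' | h'
      · exact hbF (h' ▸ F.one_mem)
      · exact hbF (h' ▸ hq.zmem)
    · -- b acts like conjugation by f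
      have h1 : Commute (f⁻¹ * b) f := (Commute.refl f).inv_left.mul_left hcu
      have h2 : Commute (f⁻¹ * b) v := by
        apply commute_of_conj
        have h3 : f⁻¹ * v * f = v⁻¹ := by
          have := (hq.gen v hv f⁻¹ (F.inv_mem hf) hv2 (hq.inv_sq_ne hf2)
            (fun h => hvu' (by rw [← h]))
            (fun h => hvu (by rw [← inv_inv f, h, inv_inv]) )).1
          simpa using this
        calc f⁻¹ * b * v * (f⁻¹ * b)⁻¹ = f⁻¹ * (b * v * b⁻¹) * f := by group
          _ = f⁻¹ * v⁻¹ * f := by rw [h]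
          _ = (f⁻¹ * v * f)⁻¹ := by group
          _ = v := by rw [h3, inv_inv]
      have hall := hq.comm_all hf hv hf2 hv2 hvu hvu' (f⁻¹ * b) h1 h2
      have hbmem : ∀ x ∈ F, f * x ∈ F := fun x hx => F.mul_mem hf hx
      rcases hq.cent hC (f⁻¹ * b) (fun x hx => (hall x hx).eq) with h' | h'
      · apply hbF
        have : b = f * (f⁻¹ * b) := by group
        rw [this, h']; exact hbmem 1 F.one_mem
      · apply hbF
        have : b = f * (f⁻¹ * b) := by group
        rw [this, h']; exact hbmem z hq.zmem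
    · -- b v b⁻¹ = f v
      have h1 : b * (f * v) * b⁻¹ = (b * f * b⁻¹) * (b * v * b⁻¹) := by group
      rw [h, h1, hfix, h] at hbb
      -- f * (f * v) = v
      apply hq.zne
      have : z * v = v := by
        rw [← hfz]
        calc f ^ 2 * v = f * (f * v) := by rw [pow_two]; group
          _ = v := hbb
      calc z = z * v * v⁻¹ := by group
        _ = 1 := by rw [this]; group
    · -- b v b⁻¹ = (f v)⁻¹
      have h1 : b * (f * v)⁻¹ * b⁻¹ = ((b * f * b⁻¹) * (b * v * b⁻¹))⁻¹ := by group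
      rw [h, h1, hfix, h] at hbb
      -- (f * (f * v)⁻¹)⁻¹ = v
      have h2 : (f * (f * v)⁻¹)⁻¹ = f * v * f⁻¹ := by group
      rw [h2, hq.std_symm hf hv hf2 hv2 hvu hvu'] at hbb
      apply hv2
      calc v ^ 2 = v * v := pow_two v
        _ = v * v⁻¹ := by rw [hbb]
        _ = 1 := mul_inv_cancel v

end Q8In

end Cfsg.Agent.Lib.helper12
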