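import Mathlib
import Cfsg.Agent.Lib.helper12.RkD

set_option autoImplicit false

namespace Cfsg.Agent.Lib.helper12

open scoped Pointwise

universe u

theorem card_le_48 {Q : Type*} [Group Q] [Finite Q] (F : Subgroup Q) [hFn : F.Normal]
    (e : F ≃* QuaternionGroup 2) (hC : Subgroup.centralizer (F : Set Q) ≤ F) :
    Nat.card Q ≤ 48 := by
  have hq : Q8In F ((e.symm (QuaternionGroup.a 2) : F) : Q) := q8in_of_equiv F e
  set z : Q := ((e.symm (QuaternionGroup.a 2) : F) : Q) with hz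
  obtain ⟨u, hu, hu2⟩ := hq.ex0
  obtain ⟨v, hv, hv2, hvu, hvu'⟩ := hq.ex u hu hu2
  have hcj : ∀ (g w : Q), w ∈ F → g * w * g⁻¹ ∈ F := fun g w hw => hFn.conj_mem w hw g
  have hpow2 : ∀ (w : Q) (hw : w ∈ F), (e ⟨w, hw⟩) ^ 2 = 1 ↔ w ^ 2 = 1 := by
    intro w hw
    rw [← map_pow, e.map_eq_one_iff]
    constructor
    · intro h; simpa using congrArg Subtype.val h
    · intro h; exact Subtype.ext (by simpa using h)
  let Φ : Q → {p : QuaternionGroup 2 × QuaternionGroup 2 //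
      p.1 ^ 2 ≠ 1 ∧ p.2 ^ 2 ≠ 1 ∧ p.2 ≠ p.1 ∧ p.2 ≠ p.1⁻¹} := fun g =>
    ⟨(e ⟨g * u * g⁻¹, hcj g u hu⟩, e ⟨g * v * g⁻¹, hcj g v hv⟩), by
      refine ⟨?_, ?_, ?_, ?_⟩
      · intro h
        have := (hpow2 _ _).mp h
        rw [conj_pow, conj_eq_one_iff] at this
        exact hu2 this
      · intro h
        have := (hpow2 _ _).mp h
        rw [conj_pow, conj_eq_one_iff] at this
        exact hv2 this
      · intro h
        have h1 := congrArg Subtype.val (e.injective h)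
        have h2 : g * v * g⁻¹ = g * u * g⁻¹ := h1
        apply hvu
        simpa using h2
      · intro h
        have h0 : (⟨g * v * g⁻¹, hcj g v hv⟩ : F) = (⟨g * u * g⁻¹, hcj g u hu⟩ : F)⁻¹ :=
          e.injective (by rw [map_inv]; exact h)
        have h1 := congrArg Subtype.val h0
        have h2 : g * v * g⁻¹ = (g * u * g⁻¹)⁻¹ := h1
        apply hvu'
        have h3 : (g * u * g⁻¹)⁻¹ = g * u⁻¹ * g⁻¹ := by group
        rw [h3] at h2
        simpa using h2⟩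
  have hfib : ∀ g g' : Q, Φ g = Φ g' → g⁻¹ * g' ∈ Subgroup.zpowers z := by
    intro g g' h
    have h1 := congrArg (fun p => p.1.1) h
    have h2 := congrArg (fun p => p.1.2) h
    simp only [Φ] at h1 h2
    have h1' : g * u * g⁻¹ = g' * u * g'⁻¹ := congrArg Subtype.val (e.injective h1)
    have h2' : g * v * g⁻¹ = g' * v * g'⁻¹ := congrArg Subtype.val (e.injective h2)
    have c1 : Commute (g⁻¹ * g') u := by
      apply Q8In.commute_of_conj
      calc g⁻¹ * g' * u * (g⁻¹ * g')⁻¹ = g⁻¹ * (g' * u * g'⁻¹) * g := by group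
        _ = g⁻¹ * (g * u * g⁻¹) * g := by rw [h1']
        _ = u := by group
    have c2 : Commute (g⁻¹ * g') v := by
      apply Q8In.commute_of_conj
      calc g⁻¹ * g' * v * (g⁻¹ * g')⁻¹ = g⁻¹ * (g' * v * g'⁻¹) * g := by group
        _ = g⁻¹ * (g * v * g⁻¹) * g := by rw [h2']
        _ = v := by group
    have hall := hq.comm_all hu hv hu2 hv2 hvu hvu' _ c1 c2
    rcases hq.cent hC _ (fun x hx => (hall x hx).eq) with h' | h'
    · rw [h']; exact Subgroup.one_mem _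
    · rw [h']; exact Subgroup.mem_zpowers z
  have hidx : (Subgroup.zpowers z).index ≤ 24 := by
    have hinj : Function.Injective (fun q : Q ⧸ Subgroup.zpowers z => Φ q.out) := by
      intro q q' h
      have := hfib _ _ h
      rw [← QuotientGroup.out_eq' q, ← QuotientGroup.out_eq' q']
      exact QuotientGroup.eq.mpr this
    have := Nat.card_le_card_of_injective _ hinj
    rw [Nat.card_eq_fintype_card (α := {p : QuaternionGroup 2 × QuaternionGroup 2 //
      p.1 ^ 2 ≠ 1 ∧ p.2 ^ 2 ≠ 1 ∧ p.2 ≠ p.1 ∧ p.2 ≠ p.1⁻¹}), h8_card24] at this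
    exact this
  have hzo : orderOf z = 2 := orderOf_eq_prime hq.zsq hq.zne
  have := Subgroup.card_mul_index (Subgroup.zpowers z)
  rw [Nat.card_zpowers, hzo] at this
  omega

theorem card_eq_48 {Q : Type*} [Group Q] [Finite Q] (F : Subgroup Q) [hFn : F.Normal]
    (e : F ≃* QuaternionGroup 2) (hC : Subgroup.centralizer (F : Set Q) ≤ F)
    (hnn : ¬ ∃ P : Sylow 2 Q, (P : Subgroup Q).Normal) : Nat.card Q = 48 := by
  haveI : Fact (Nat.Prime 2) := ⟨Nat.prime_two⟩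
  have h48 := card_le_48 F e hC
  have hF8 : Nat.card F = 8 := (q8in_of_equiv F e).card
  have hFp : IsPGroup 2 F := IsPGroup.of_card (n := 3) (by rw [hF8]; norm_num)
  have hmul := Subgroup.card_mul_index F
  rw [hF8] at hmul
  have hidx0 : F.index ≠ 0 := Subgroup.index_ne_zero_of_finite
  have hodd : 2 ∣ F.index := by
    by_contra h
    exact hnn ⟨hFp.toSylow h, hFn⟩
  have hn2 : ¬ IsPGroup 2 Q := by
    intro h2
    apply hnn
    let P : Sylow 2 Q := default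
    refine ⟨P, ?_⟩
    have : (⊤ : Subgroup Q) = (P : Subgroup Q) := P.is_maximal' (h2.to_subgroup ⊤) le_top
    rw [← this]; infer_instance
  have hle : F.index ≤ 6 := by omega
  obtain ⟨k, hk⟩ := hodd
  have hk3 : k = 1 ∨ k = 2 ∨ k = 3 := by omega
  rcases hk3 with rfl | rfl | rfl
  · exfalso; apply hn2
    exact IsPGroup.of_card (n := 4) (by rw [← hmul, hk]; norm_num)
  · exfalso; apply hn2
    exact IsPGroup.of_card (n := 5) (by rw [← hmul, hk]; norm_num)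
  · rw [← hmul, hk]

/-- Elements of order 3 of `F ⟨c⟩` are `F`-conjugate into `⟨c⟩`. -/
theorem conj_into_zpowers {Q : Type*} [Group Q] [Finite Q] (F : Subgroup Q) [hFn : F.Normal]
    (hF8 : Nat.card F = 8) (c c' : Q) (hc : orderOf c = 3) (hc' : c' ^ 3 = 1)
    (hc'T : c' ∈ F ⊔ Subgroup.zpowers c) :
    Nat.card ↥(F ⊔ Subgroup.zpowers c) = 24 ∧
    ∃ f ∈ F, ∃ d ∈ Subgroup.zpowers c, c' = f * d * f⁻¹ := by
  haveI : Fact (Nat.Prime 3) := ⟨Nat.prime_three⟩
  have hc3 : c ^ 3 = 1 := by rw [← hc]; exact pow_orderOf_eq_one c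
  have hcT : Subgroup.zpowers c ≤ F ⊔ Subgroup.zpowers c := le_sup_right
  have hT24 : Nat.card ↥(F ⊔ Subgroup.zpowers c) = 24 := by
    obtain ⟨-, hle⟩ := card_sup_zpowers_le F c 3 (by norm_num) (by rw [hc3]; exact F.one_mem)
      (fun n hn => hFn.conj_mem n hn c) (fun n hn => by
        have := hFn.conj_mem n hn c⁻¹
        simpa using this)
    rw [hF8] at hle
    have h8 : 8 ∣ Nat.card ↥(F ⊔ Subgroup.zpowers c) := by
      rw [← hF8]; exact Subgroup.card_dvd_of_le le_sup_left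
    have h3 : 3 ∣ Nat.card ↥(F ⊔ Subgroup.zpowers c) := by
      have := Subgroup.card_dvd_of_le hcT
      rwa [Nat.card_zpowers, hc] at this
    have h24 : 24 ∣ Nat.card ↥(F ⊔ Subgroup.zpowers c) :=
      Nat.Coprime.mul_dvd_of_dvd_of_dvd (by norm_num : Nat.Coprime 8 3) h8 h3
    have hpos : 0 < Nat.card ↥(F ⊔ Subgroup.zpowers c) := Nat.card_pos
    obtain ⟨k, hk⟩ := h24
    have : k = 1 := by omega
    rw [hk, this]
  refine ⟨hT24, ?_⟩
  set T := F ⊔ Subgroup.zpowers c with hT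
  have hp1 : IsPGroup 3 ((Subgroup.zpowers c).subgroupOf T) := by
    apply IsPGroup.of_card (n := 1)
    rw [Nat.card_congr (Subgroup.subgroupOfEquivOfLe hcT).toEquiv, Nat.card_zpowers, hc]
    norm_num
  have hidx : ¬ 3 ∣ ((Subgroup.zpowers c).subgroupOf T).index := by
    have h1 := Subgroup.card_mul_index ((Subgroup.zpowers c).subgroupOf T)
    rw [Nat.card_congr (Subgroup.subgroupOfEquivOfLe hcT).toEquiv, Nat.card_zpowers, hc,
      hT24] at h1
    omega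
  let P₁ : Sylow 3 ↥T := hp1.toSylow hidx
  have hp2 : IsPGroup 3 ((Subgroup.zpowers c').subgroupOf T) := by
    rintro ⟨⟨x, hxT⟩, hx⟩
    refine ⟨1, ?_⟩
    rw [Subgroup.mem_subgroupOf] at hx
    obtain ⟨m, hm⟩ := Subgroup.mem_zpowers_iff.mp hx
    apply Subtype.ext
    apply Subtype.ext
    show x ^ 3 ^ 1 = 1
    have hm' : x = c' ^ m := hm.symm
    rw [hm', pow_one, ← zpow_natCast, ← zpow_mul, mul_comm, zpow_mul, zpow_natCast, hc',
      one_zpow]
  obtain ⟨R, hR⟩ := hp2.exists_le_sylow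
  obtain ⟨t, ht⟩ := MulAction.exists_smul_eq ↥T P₁ R
  have hmem : (⟨c', hc'T⟩ : ↥T) ∈ (R : Subgroup ↥T) := hR (by
    rw [Subgroup.mem_subgroupOf]; exact Subgroup.mem_zpowers c')
  rw [← ht, Sylow.coe_subgroup_smul, Subgroup.mem_pointwise_smul_iff_inv_smul_mem] at hmem
  have h2 : (t⁻¹ * ⟨c', hc'T⟩ * t : ↥T) ∈ (Subgroup.zpowers c).subgroupOf T := by
    have h0 : (t⁻¹ * ⟨c', hc'T⟩ * t : ↥T) ∈ (P₁ : Subgroup ↥T) := by
      simpa [MulAut.smul_def, mul_assoc] using hmem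
    exact h0
  rw [Subgroup.mem_subgroupOf] at h2
  have h3 : (t : Q)⁻¹ * c' * (t : Q) ∈ Subgroup.zpowers c := by simpa using h2
  have ht' : (t : Q) ∈ ((F ⊔ Subgroup.zpowers c : Subgroup Q) : Set Q) := t.2
  rw [Subgroup.normal_mul] at ht'
  obtain ⟨f, hf, y, hy, hfy⟩ := Set.mem_mul.mp ht'
  refine ⟨f, hf, y * ((t : Q)⁻¹ * c' * t) * y⁻¹, ?_, ?_⟩
  · exact Subgroup.mul_mem _ (Subgroup.mul_mem _ hy h3) (Subgroup.inv_mem _ hy)
  · rw [← hfy]; group

/-- The defining relations of `GL₂(3)` on generators `i, j, c, b`. -/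
def R48 {X : Type*} [Group X] (i j c b : X) : Prop :=
  i ^ 4 = 1 ∧ j ^ 2 = i ^ 2 ∧ j * i * j⁻¹ = i⁻¹ ∧ c ^ 3 = 1 ∧ b ^ 2 = 1 ∧
  c * i * c⁻¹ = j ∧ c * j * c⁻¹ = i * j ∧ b * i * b⁻¹ = i⁻¹ ∧ b * j * b⁻¹ = (i * j)⁻¹ ∧
  b * c * b⁻¹ = c⁻¹

end Cfsg.Agent.Lib.helper12
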