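import Mathlib
import Cfsg.Agent.Lib.helper12.RkE

set_option autoImplicit false

namespace Cfsg.Agent.Lib.helper12

open scoped Pointwise

universe u

set_option maxHeartbeats 1000000 in
theorem exists_R48 {Q : Type*} [Group Q] [Finite Q] (F : Subgroup Q) [hFn : F.Normal] {z : Q}
    (hq : Q8In F z) (hC : Subgroup.centralizer (F : Set Q) ≤ F) (hcard : Nat.card Q = 48)
    (b₀ : Q) (hb₀ : b₀ ^ 2 = 1) (hb₀F : b₀ ∉ F) :
    ∃ i j c b : Q, R48 i j c b ∧ i ∈ F ∧ j ∈ F ∧ i ^ 2 = z ∧ c ≠ 1 ∧ b ∉ F := by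
  haveI : Fact (Nat.Prime 3) := ⟨Nat.prime_three⟩
  obtain ⟨c, hc⟩ := exists_prime_orderOf_dvd_card' 3 (by rw [hcard]; norm_num : 3 ∣ Nat.card Q)
  have hc3 : c ^ 3 = 1 := by rw [← hc]; exact pow_orderOf_eq_one c
  have hc1 : c ≠ 1 := by
    rintro rfl
    rw [orderOf_one] at hc
    norm_num at hc
  have hcT : c ∈ F ⊔ Subgroup.zpowers c :=
    (le_sup_right : Subgroup.zpowers c ≤ _) (Subgroup.mem_zpowers c)
  obtain ⟨hT24, -⟩ := conj_into_zpowers F hq.card c c hc hc3 hcT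
  have hTidx : (F ⊔ Subgroup.zpowers c).index = 2 := by
    have := Subgroup.card_mul_index (F ⊔ Subgroup.zpowers c)
    rw [hT24, hcard] at this
    omega
  haveI hTn : (F ⊔ Subgroup.zpowers c).Normal := Subgroup.normal_of_index_eq_two hTidx
  have hc'3 : (b₀ * c * b₀⁻¹) ^ 3 = 1 := by rw [conj_pow, hc3]; group
  obtain ⟨-, f, hf, d, hd, hfd⟩ :=
    conj_into_zpowers F hq.card c (b₀ * c * b₀⁻¹) hc hc'3 (hTn.conj_mem c hcT b₀)
  have hb₀inv : b₀⁻¹ = b₀ := by rw [inv_eq_iff_mul_eq_one, ← pow_two, hb₀]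
  obtain ⟨b, hb⟩ : ∃ b : Q, b = f⁻¹ * b₀ := ⟨_, rfl⟩
  have hbF : b ∉ F := by
    intro h
    apply hb₀F
    have : b₀ = f * b := by rw [hb]; group
    rw [this]; exact F.mul_mem hf h
  have hbc : b * c * b⁻¹ = d := by
    rw [hb]
    calc f⁻¹ * b₀ * c * (f⁻¹ * b₀)⁻¹ = f⁻¹ * (b₀ * c * b₀⁻¹) * f := by group
      _ = d := by rw [hfd]; group
  have hd1 : d ≠ 1 := by
    intro h
    rw [h] at hbc
    exact hc1 (conj_eq_one_iff.mp hbc)
  have hdc : d = c ∨ d = c⁻¹ := by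
    obtain ⟨k, hk⟩ := Subgroup.mem_zpowers_iff.mp hd
    have h5 : c ^ (k % 3) = d := by
      rw [← hk]
      have := zpow_mod_orderOf c k
      rw [hc] at this
      exact_mod_cast this
    have h6 : k % 3 = 0 ∨ k % 3 = 1 ∨ k % 3 = 2 := by omega
    rcases h6 with h | h | h
    · rw [h, zpow_zero] at h5; exact absurd h5.symm hd1
    · rw [h, zpow_one] at h5; exact Or.inl h5.symm
    · right
      rw [h] at h5
      rw [← h5]
      have h7 : c ^ (2 : ℤ) * c = 1 := by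
        have : c ^ (2 : ℤ) * c = c ^ 3 := by
          rw [zpow_ofNat]; exact (pow_succ c 2).symm
        rw [this, hc3]
      exact eq_inv_of_mul_eq_one_left h7
  have hb2F : b ^ 2 ∈ F := by
    have : b ^ 2 = f⁻¹ * (b₀ * f⁻¹ * b₀⁻¹) := by rw [hb, pow_two, hb₀inv]; group
    rw [this]
    exact F.mul_mem (F.inv_mem hf) (hFn.conj_mem _ (F.inv_mem hf) b₀)
  have hb2c : c * b ^ 2 = b ^ 2 * c := by
    have h1 : b * d * b⁻¹ = c := by
      rcases hdc with h | h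
      · rw [h]; rw [h] at hbc; exact hbc
      · rw [h]
        calc b * c⁻¹ * b⁻¹ = (b * c * b⁻¹)⁻¹ := by group
          _ = c := by rw [hbc, h, inv_inv]
    have h2 : b ^ 2 * c * (b ^ 2)⁻¹ = c := by
      calc b ^ 2 * c * (b ^ 2)⁻¹ = b * (b * c * b⁻¹) * b⁻¹ := by rw [pow_two]; group
        _ = c := by rw [hbc, h1]
    calc c * b ^ 2 = b ^ 2 * c * (b ^ 2)⁻¹ * b ^ 2 := by rw [h2]
      _ = b ^ 2 * c := inv_mul_cancel_right _ _
  have hb2 : b ^ 2 = 1 := by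
    rcases hq.cent3 hC c hc3 hc1 (b ^ 2) hb2F hb2c with h | h
    · exact h
    · exfalso
      rw [hb] at h
      exact hq.invol_coset hC f⁻¹ b₀ (F.inv_mem hf) hb₀ hb₀F h
  have hbinv : b⁻¹ = b := by rw [inv_eq_iff_mul_eq_one, ← pow_two, hb2]
  have hbb : ∀ x : Q, b * (b * x * b⁻¹) * b⁻¹ = x := by
    intro x
    rw [hbinv]
    calc b * (b * x * b) * b = b ^ 2 * x * b ^ 2 := by simp only [pow_two]; group
      _ = x := by rw [hb2]; group
  obtain ⟨i, hi, hi2, hbi⟩ : ∃ i ∈ F, i ^ 2 ≠ 1 ∧ (b * i * b⁻¹ = i ∨ b * i * b⁻¹ = i⁻¹) := by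
    obtain ⟨u, hu, hu2⟩ := hq.ex0
    have hw : b * u * b⁻¹ ∈ F := hFn.conj_mem u hu b
    have hw2 : (b * u * b⁻¹) ^ 2 ≠ 1 := by rw [conj_pow, Ne, conj_eq_one_iff]; exact hu2
    by_cases h1 : b * u * b⁻¹ = u
    · exact ⟨u, hu, hu2, Or.inl h1⟩
    by_cases h2 : b * u * b⁻¹ = u⁻¹
    · exact ⟨u, hu, hu2, Or.inr h2⟩
    refine ⟨u * (b * u * b⁻¹), F.mul_mem hu hw, (hq.gen u hu _ hw hu2 hw2 h1 h2).2.1,
      Or.inr ?_⟩
    calc b * (u * (b * u * b⁻¹)) * b⁻¹ = (b * u * b⁻¹) * (b * (b * u * b⁻¹) * b⁻¹) := by group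
      _ = (b * u * b⁻¹) * u := by rw [hbb u]
      _ = (u * (b * u * b⁻¹))⁻¹ := hq.mul_rev hu hw hu2 hw2
  obtain ⟨j, hj⟩ : ∃ j : Q, j = c * i * c⁻¹ := ⟨_, rfl⟩
  obtain ⟨k, hk⟩ : ∃ k : Q, k = c * j * c⁻¹ := ⟨_, rfl⟩
  have hjF : j ∈ F := by rw [hj]; exact hFn.conj_mem i hi c
  have hkF : k ∈ F := by rw [hk]; exact hFn.conj_mem j hjF c
  have hj2 : j ^ 2 ≠ 1 := by rw [hj, conj_pow, Ne, conj_eq_one_iff]; exact hi2
  have hk2 : k ^ 2 ≠ 1 := by rw [hk, conj_pow, Ne, conj_eq_one_iff]; exact hj2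
  have hck : c * k * c⁻¹ = i := by
    rw [hk, hj]
    calc c * (c * (c * i * c⁻¹) * c⁻¹) * c⁻¹ = c ^ 3 * i * (c ^ 3)⁻¹ := by
          simp only [pow_succ, pow_zero, one_mul]; group
      _ = i := by rw [hc3]; group
  obtain ⟨hji, hji'⟩ := hq.ord3 hC c hc3 hc1 i hi hi2
  rw [← hj] at hji hji'
  obtain ⟨hkj, hkj'⟩ := hq.ord3 hC c hc3 hc1 j hjF hj2
  rw [← hk] at hkj hkj'
  obtain ⟨hik, hik'⟩ := hq.ord3 hC c hc3 hc1 k hkF hk2
  rw [hck] at hik hik'
  have hki : k ≠ i := fun h => hik h.symm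
  have hki' : k ≠ i⁻¹ := fun h => hik' (by rw [h, inv_inv])
  obtain ⟨hI1, hij2, henum⟩ := hq.gen i hi j hjF hi2 hj2 hji hji'
  have hkij : k = i * j ∨ k = (i * j)⁻¹ := by
    rcases henum k hkF with h | h | h | h | h | h | h | h
    · exfalso; apply hk2; rw [h, one_pow]
    · exfalso; apply hk2; rw [h]; exact hq.zsq
    · exact absurd h hki
    · exact absurd h hki'
    · exact absurd h hkj
    · exact absurd h hkj'
    · exact Or.inl h
    · exact Or.inr h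
  have hci : c⁻¹ * i * c = k := by rw [← hck]; group
  have hcj : c⁻¹ * k * c = j := by rw [hk]; group
  have hiz : i ^ 2 = z := hq.sq i hi hi2
  have hjz : j ^ 2 = z := hq.sq j hjF hj2
  have hkz : k ^ 2 = z := hq.sq k hkF hk2
  have hbc' : b * c * b⁻¹ = c⁻¹ := by
    rcases hdc with h | h
    · exfalso
      rw [h] at hbc
      have hcb : Commute b c := Q8In.commute_of_conj hbc
      have hbj : b * j * b⁻¹ = c * (b * i * b⁻¹) * c⁻¹ := by
        rw [hj]
        calc b * (c * i * c⁻¹) * b⁻¹ = (b * c) * i * (b * c)⁻¹ := by group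
          _ = (c * b) * i * (c * b)⁻¹ := by rw [hcb.eq]
          _ = c * (b * i * b⁻¹) * c⁻¹ := by group
      rcases hbi with h1 | h1
      · rw [h1, ← hj] at hbj
        have hall := hq.comm_all hi hjF hi2 hj2 hji hji' b (Q8In.commute_of_conj h1)
          (Q8In.commute_of_conj hbj)
        rcases hq.cent hC b (fun x hx => (hall x hx).eq) with h' | h'
        · exact hbF (h' ▸ F.one_mem)
        · exact hbF (h' ▸ hq.zmem)
      · rw [h1] at hbj
        have hbj' : b * j * b⁻¹ = j⁻¹ := by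
          rw [hbj, hj]; group
        have c1 : Commute ((i * j)⁻¹ * b) i := by
          apply Q8In.commute_of_conj
          have h3 := hq.std_inv hi hjF hi2 hj2 hji hji'
          calc (i * j)⁻¹ * b * i * ((i * j)⁻¹ * b)⁻¹
              = (i * j)⁻¹ * (b * i * b⁻¹) * (i * j) := by group
            _ = (i * j)⁻¹ * i⁻¹ * (i * j) := by rw [h1]
            _ = (j⁻¹ * i * j)⁻¹ := by group
            _ = i := by rw [h3, inv_inv]
        have c2 : Commute ((i * j)⁻¹ * b) j := by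
          apply Q8In.commute_of_conj
          have h3 : i⁻¹ * j * i = j⁻¹ := hq.std_inv hjF hi hj2 hi2 (fun h => hji h.symm)
            (fun h => hji' (by rw [h, inv_inv]))
          calc (i * j)⁻¹ * b * j * ((i * j)⁻¹ * b)⁻¹
              = (i * j)⁻¹ * (b * j * b⁻¹) * (i * j) := by group
            _ = (i * j)⁻¹ * j⁻¹ * (i * j) := by rw [hbj']
            _ = j⁻¹ * (i⁻¹ * j * i)⁻¹ * j := by group
            _ = j := by rw [h3]; group
        have hall := hq.comm_all hi hjF hi2 hj2 hji hji' _ c1 c2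
        have hb' : b = (i * j) * ((i * j)⁻¹ * b) := by group
        rcases hq.cent hC _ (fun x hx => (hall x hx).eq) with h' | h'
        · apply hbF; rw [hb', h']; exact F.mul_mem (F.mul_mem hi hjF) F.one_mem
        · apply hbF; rw [hb', h']; exact F.mul_mem (F.mul_mem hi hjF) hq.zmem
    · rw [← h]; exact hbc
  have hbcinv : b * c⁻¹ * b⁻¹ = c := by
    calc b * c⁻¹ * b⁻¹ = (b * c * b⁻¹)⁻¹ := by group
      _ = c := by rw [hbc', inv_inv]
  have hbj : b * j * b⁻¹ = c⁻¹ * (b * i * b⁻¹) * c := by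
    rw [hj]
    calc b * (c * i * c⁻¹) * b⁻¹ = (b * c * b⁻¹) * (b * i * b⁻¹) * (b * c⁻¹ * b⁻¹) := by group
      _ = c⁻¹ * (b * i * b⁻¹) * c := by rw [hbc', hbcinv]
  have hik_j : k = (i * j)⁻¹ → i * k = j := by
    intro h
    rw [h]
    have h4 := hq.std_symm hi hjF hi2 hj2 hji hji'
    calc i * (i * j)⁻¹ = (i * j * i⁻¹)⁻¹ := by group
      _ = j := by rw [h4, inv_inv]
  have hbi' : b * i * b⁻¹ = i⁻¹ := by
    rcases hbi with h1 | h1
    · exfalso
      rw [h1, hci] at hbj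
      have hbk : b * k * b⁻¹ = j := by rw [← hbj]; exact hbb j
      rcases hkij with h | h
      · have h8 : b * k * b⁻¹ = (b * i * b⁻¹) * (b * j * b⁻¹) := by rw [h]; group
        rw [hbk, h1, hbj, h] at h8
        apply hq.zne
        have h5 : z * j = j := by
          rw [← hiz]
          calc i ^ 2 * j = i * (i * j) := by rw [pow_two]; group
            _ = j := h8.symm
        calc z = z * j * j⁻¹ := by group
          _ = 1 := by rw [h5]; group
      · have h8 : b * k * b⁻¹ = ((b * i * b⁻¹) * (b * j * b⁻¹))⁻¹ := by rw [h]; group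
        rw [hbk, h1, hbj, hik_j h] at h8
        apply hj2
        calc j ^ 2 = j * j := pow_two j
          _ = j * j⁻¹ := by rw [← h8]
          _ = 1 := mul_inv_cancel j
    · exact h1
  rw [hbi'] at hbj
  have hbj' : b * j * b⁻¹ = k⁻¹ := by
    rw [hbj, ← hci]; group
  have hbk : b * k * b⁻¹ = j⁻¹ := by
    have h9 : b * k⁻¹ * b⁻¹ = j := by rw [← hbj']; exact hbb j
    calc b * k * b⁻¹ = (b * k⁻¹ * b⁻¹)⁻¹ := by group
      _ = j⁻¹ := by rw [h9]
  rcases hkij with h | h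
  · refine ⟨i, j, c, b, ?_, hi, hjF, hiz, hc1, hbF⟩
    unfold R48
    refine ⟨hq.pow4 i hi, by rw [hjz, hiz], hI1, hc3, hb2, hj.symm, ?_, hbi', ?_, hbc'⟩
    · rw [← hk, h]
    · rw [hbj', h]
  · have hc3' : (c⁻¹) ^ 3 = 1 := by rw [inv_pow, hc3, inv_one]
    refine ⟨i, k, c⁻¹, b, ?_, hi, hkF, hiz, ?_, hbF⟩
    · unfold R48
      refine ⟨hq.pow4 i hi, by rw [hkz, hiz], (hq.gen i hi k hkF hi2 hk2 hki hki').1, hc3', hb2,
        ?_, ?_, hbi', ?_, ?_⟩
      · rw [inv_inv]; exact hci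
      · rw [inv_inv, hcj, hik_j h]
      · rw [hbk, hik_j h]
      · rw [hbcinv, inv_inv]
    · intro h'
      apply hc1
      rw [inv_eq_one] at h'
      exact h'

end Cfsg.Agent.Lib.helper12
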