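import Mathlib
import Cfsg.Agent.Lib.helper12.RkF
import Cfsg.Agent.Lib.helper28.AutGL

set_option autoImplicit false

namespace Cfsg.Agent.Lib.helper12

open scoped Pointwise

universe u

theorem conj_closure {X : Type*} [Group X] (S : Set X) (t : X)
    (h : ∀ s ∈ S, t * s * t⁻¹ ∈ Subgroup.closure S) :
    ∀ n ∈ Subgroup.closure S, t * n * t⁻¹ ∈ Subgroup.closure S := by
  intro n hn
  induction hn using Subgroup.closure_induction with
  | mem x hx => exact h x hx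
  | one => simp
  | mul x y _ _ ihx ihy =>
    have : t * (x * y) * t⁻¹ = (t * x * t⁻¹) * (t * y * t⁻¹) := by group
    rw [this]; exact Subgroup.mul_mem _ ihx ihy
  | inv x _ ih =>
    have : t * x⁻¹ * t⁻¹ = (t * x * t⁻¹)⁻¹ := by group
    rw [this]; exact Subgroup.inv_mem _ ih

theorem conj_inv_of_pow {X : Type*} [Group X] (N : Subgroup X) (t : X) (m : ℕ) (hm : 0 < m)
    (htm : t ^ m = 1) (h : ∀ n ∈ N, t * n * t⁻¹ ∈ N) : ∀ n ∈ N, t⁻¹ * n * t ∈ N := by
  have key : ∀ k : ℕ, ∀ n ∈ N, t ^ k * n * (t ^ k)⁻¹ ∈ N := by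
    intro k
    induction k with
    | zero => intro n hn; simpa using hn
    | succ k ih =>
      intro n hn
      have : t ^ (k + 1) * n * (t ^ (k + 1))⁻¹ = t * (t ^ k * n * (t ^ k)⁻¹) * t⁻¹ := by
        rw [pow_succ']; group
      rw [this]
      exact h _ (ih n hn)
  have hinv : t ^ (m - 1) = t⁻¹ := by
    apply eq_inv_of_mul_eq_one_left
    rw [← pow_succ]
    have : m - 1 + 1 = m := by omega
    rw [this, htm]
  intro n hn
  have := key (m - 1) n hn
  rw [hinv, inv_inv] at this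
  exact this

theorem R48.card_le {X : Type*} [Group X] {i j c b : X} (h : R48 i j c b) :
    Finite ↥(Subgroup.closure ((({i} ∪ {j}) ∪ {c}) ∪ {b} : Set X)) ∧
      Nat.card ↥(Subgroup.closure ((({i} ∪ {j}) ∪ {c}) ∪ {b} : Set X)) ≤ 48 := by
  obtain ⟨hi4, hji, hjc, hc3, hb2, hci, hcj, hbi, hbj, hbc⟩ := h
  have hj4 : j ^ 4 = 1 := by
    have : j ^ 4 = (j ^ 2) ^ 2 := by rw [← pow_mul]
    rw [this, hji, ← pow_mul]; exact hi4
  -- step 1
  have e1 : Subgroup.closure ({i} : Set X) = ⊥ ⊔ Subgroup.zpowers i := by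
    rw [bot_sup_eq, Subgroup.zpowers_eq_closure]
  obtain ⟨f1, c1⟩ := card_sup_zpowers_le (⊥ : Subgroup X) i 4 (by norm_num)
    (by rw [hi4]; exact Subgroup.one_mem _)
    (fun n hn => by rw [Subgroup.mem_bot] at hn; rw [hn]; simp)
    (fun n hn => by rw [Subgroup.mem_bot] at hn; rw [hn]; simp)
  rw [← e1, Subgroup.card_bot] at c1
  rw [← e1] at f1
  haveI := f1
  -- step 2
  have e2 : Subgroup.closure (({i} ∪ {j}) : Set X) = Subgroup.closure ({i} : Set X) ⊔
      Subgroup.zpowers j := by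
    rw [Subgroup.closure_union, Subgroup.zpowers_eq_closure]
  have hiS1 : i ∈ Subgroup.closure ({i} : Set X) := Subgroup.subset_closure rfl
  have hcj1 : ∀ n ∈ Subgroup.closure ({i} : Set X), j * n * j⁻¹ ∈ Subgroup.closure ({i} : Set X) :=
    conj_closure _ j (by
      rintro s rfl
      rw [hjc]; exact Subgroup.inv_mem _ hiS1)
  obtain ⟨f2, c2⟩ := card_sup_zpowers_le (Subgroup.closure ({i} : Set X)) j 2 (by norm_num)
    (by rw [hji]; exact Subgroup.pow_mem _ hiS1 2) hcj1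
    (conj_inv_of_pow _ j 4 (by norm_num) hj4 hcj1)
  rw [← e2] at c2 f2
  haveI := f2
  -- step 3
  have e3 : Subgroup.closure ((({i} ∪ {j}) ∪ {c}) : Set X) =
      Subgroup.closure (({i} ∪ {j}) : Set X) ⊔ Subgroup.zpowers c := by
    rw [Subgroup.closure_union, Subgroup.zpowers_eq_closure]
  have hiS2 : i ∈ Subgroup.closure (({i} ∪ {j}) : Set X) := Subgroup.subset_closure (Or.inl rfl)
  have hjS2 : j ∈ Subgroup.closure (({i} ∪ {j}) : Set X) := Subgroup.subset_closure (Or.inr rfl)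
  have hcc2 : ∀ n ∈ Subgroup.closure (({i} ∪ {j}) : Set X),
      c * n * c⁻¹ ∈ Subgroup.closure (({i} ∪ {j}) : Set X) :=
    conj_closure _ c (by
      rintro s (rfl | rfl)
      · rw [hci]; exact hjS2
      · rw [hcj]; exact Subgroup.mul_mem _ hiS2 hjS2)
  obtain ⟨f3, c3⟩ := card_sup_zpowers_le (Subgroup.closure (({i} ∪ {j}) : Set X)) c 3
    (by norm_num) (by rw [hc3]; exact Subgroup.one_mem _) hcc2
    (conj_inv_of_pow _ c 3 (by norm_num) hc3 hcc2)
  rw [← e3] at c3 f3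
  haveI := f3
  -- step 4
  have e4 : Subgroup.closure (((({i} ∪ {j}) ∪ {c}) ∪ {b}) : Set X) =
      Subgroup.closure ((({i} ∪ {j}) ∪ {c}) : Set X) ⊔ Subgroup.zpowers b := by
    rw [Subgroup.closure_union, Subgroup.zpowers_eq_closure]
  have hiS3 : i ∈ Subgroup.closure ((({i} ∪ {j}) ∪ {c}) : Set X) :=
    Subgroup.subset_closure (Or.inl (Or.inl rfl))
  have hjS3 : j ∈ Subgroup.closure ((({i} ∪ {j}) ∪ {c}) : Set X) :=
    Subgroup.subset_closure (Or.inl (Or.inr rfl))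
  have hcS3 : c ∈ Subgroup.closure ((({i} ∪ {j}) ∪ {c}) : Set X) :=
    Subgroup.subset_closure (Or.inr rfl)
  have hcb3 : ∀ n ∈ Subgroup.closure ((({i} ∪ {j}) ∪ {c}) : Set X),
      b * n * b⁻¹ ∈ Subgroup.closure ((({i} ∪ {j}) ∪ {c}) : Set X) :=
    conj_closure _ b (by
      rintro s ((rfl | rfl) | rfl)
      · rw [hbi]; exact Subgroup.inv_mem _ hiS3
      · rw [hbj]; exact Subgroup.inv_mem _ (Subgroup.mul_mem _ hiS3 hjS3)
      · rw [hbc]; exact Subgroup.inv_mem _ hcS3)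
  obtain ⟨f4, c4⟩ := card_sup_zpowers_le (Subgroup.closure ((({i} ∪ {j}) ∪ {c}) : Set X)) b 2
    (by norm_num) (by rw [hb2]; exact Subgroup.one_mem _) hcb3
    (conj_inv_of_pow _ b 2 (by norm_num) hb2 hcb3)
  rw [← e4] at c4 f4
  exact ⟨f4, by omega⟩

/-- The relators of the presentation. -/
def rels48 : Set (FreeGroup (Fin 4)) :=
  {FreeGroup.of 0 ^ 4,
   FreeGroup.of 1 ^ 2 * (FreeGroup.of 0 ^ 2)⁻¹,
   FreeGroup.of 1 * FreeGroup.of 0 * (FreeGroup.of 1)⁻¹ * FreeGroup.of 0,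
   FreeGroup.of 2 ^ 3,
   FreeGroup.of 3 ^ 2,
   FreeGroup.of 2 * FreeGroup.of 0 * (FreeGroup.of 2)⁻¹ * (FreeGroup.of 1)⁻¹,
   FreeGroup.of 2 * FreeGroup.of 1 * (FreeGroup.of 2)⁻¹ * (FreeGroup.of 0 * FreeGroup.of 1)⁻¹,
   FreeGroup.of 3 * FreeGroup.of 0 * (FreeGroup.of 3)⁻¹ * FreeGroup.of 0,
   FreeGroup.of 3 * FreeGroup.of 1 * (FreeGroup.of 3)⁻¹ * (FreeGroup.of 0 * FreeGroup.of 1),
   FreeGroup.of 3 * FreeGroup.of 2 * (FreeGroup.of 3)⁻¹ * FreeGroup.of 2}

theorem pres_R48 : R48 (PresentedGroup.of (rels := rels48) 0) (PresentedGroup.of 1)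
    (PresentedGroup.of 2) (PresentedGroup.of 3) := by
  unfold R48
  refine ⟨?_, ?_, ?_, ?_, ?_, ?_, ?_, ?_, ?_, ?_⟩
  · have hm : (FreeGroup.of 0 ^ 4 : FreeGroup (Fin 4)) ∈ rels48 := Or.inl rfl
    have h1 := PresentedGroup.one_of_mem hm
    rw [map_pow] at h1
    exact h1
  · have hm : (FreeGroup.of 1 ^ 2 * (FreeGroup.of 0 ^ 2)⁻¹ : FreeGroup (Fin 4)) ∈ rels48 :=
      Or.inr (Or.inl rfl)
    have h1 := PresentedGroup.one_of_mem hm
    rw [map_mul, map_inv, map_pow, map_pow] at h1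
    exact mul_inv_eq_one.mp h1
  · have hm : (FreeGroup.of 1 * FreeGroup.of 0 * (FreeGroup.of 1)⁻¹ * FreeGroup.of 0 :
        FreeGroup (Fin 4)) ∈ rels48 := Or.inr (Or.inr (Or.inl rfl))
    have h1 := PresentedGroup.one_of_mem hm
    rw [map_mul, map_mul, map_mul, map_inv] at h1
    exact eq_inv_of_mul_eq_one_left h1
  · have hm : (FreeGroup.of 2 ^ 3 : FreeGroup (Fin 4)) ∈ rels48 :=
      Or.inr (Or.inr (Or.inr (Or.inl rfl)))
    have h1 := PresentedGroup.one_of_mem hm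
    rw [map_pow] at h1
    exact h1
  · have hm : (FreeGroup.of 3 ^ 2 : FreeGroup (Fin 4)) ∈ rels48 :=
      Or.inr (Or.inr (Or.inr (Or.inr (Or.inl rfl))))
    have h1 := PresentedGroup.one_of_mem hm
    rw [map_pow] at h1
    exact h1
  · have hm : (FreeGroup.of 2 * FreeGroup.of 0 * (FreeGroup.of 2)⁻¹ * (FreeGroup.of 1)⁻¹ :
        FreeGroup (Fin 4)) ∈ rels48 := Or.inr (Or.inr (Or.inr (Or.inr (Or.inr (Or.inl rfl)))))
    have h1 := PresentedGroup.one_of_mem hm
    rw [map_mul, map_mul, map_mul, map_inv, map_inv] at h1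
    exact mul_inv_eq_one.mp h1
  · have hm : (FreeGroup.of 2 * FreeGroup.of 1 * (FreeGroup.of 2)⁻¹ *
        (FreeGroup.of 0 * FreeGroup.of 1)⁻¹ : FreeGroup (Fin 4)) ∈ rels48 :=
      Or.inr (Or.inr (Or.inr (Or.inr (Or.inr (Or.inr (Or.inl rfl))))))
    have h1 := PresentedGroup.one_of_mem hm
    rw [map_mul, map_mul, map_mul, map_inv, map_inv, map_mul] at h1
    exact mul_inv_eq_one.mp h1
  · have hm : (FreeGroup.of 3 * FreeGroup.of 0 * (FreeGroup.of 3)⁻¹ * FreeGroup.of 0 :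
        FreeGroup (Fin 4)) ∈ rels48 :=
      Or.inr (Or.inr (Or.inr (Or.inr (Or.inr (Or.inr (Or.inr (Or.inl rfl)))))))
    have h1 := PresentedGroup.one_of_mem hm
    rw [map_mul, map_mul, map_mul, map_inv] at h1
    exact eq_inv_of_mul_eq_one_left h1
  · have hm : (FreeGroup.of 3 * FreeGroup.of 1 * (FreeGroup.of 3)⁻¹ *
        (FreeGroup.of 0 * FreeGroup.of 1) : FreeGroup (Fin 4)) ∈ rels48 :=
      Or.inr (Or.inr (Or.inr (Or.inr (Or.inr (Or.inr (Or.inr (Or.inr (Or.inl rfl))))))))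
    have h1 := PresentedGroup.one_of_mem hm
    rw [map_mul, map_mul, map_mul, map_inv, map_mul] at h1
    exact eq_inv_of_mul_eq_one_left h1
  · have hm : (FreeGroup.of 3 * FreeGroup.of 2 * (FreeGroup.of 3)⁻¹ * FreeGroup.of 2 :
        FreeGroup (Fin 4)) ∈ rels48 :=
      Or.inr (Or.inr (Or.inr (Or.inr (Or.inr (Or.inr (Or.inr (Or.inr (Or.inr rfl))))))))
    have h1 := PresentedGroup.one_of_mem hm
    rw [map_mul, map_mul, map_mul, map_inv] at h1
    exact eq_inv_of_mul_eq_one_left h1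

theorem pres_card : Finite (PresentedGroup rels48) ∧ Nat.card (PresentedGroup rels48) ≤ 48 := by
  obtain ⟨hf, hc⟩ := pres_R48.card_le
  have htop : Subgroup.closure (((({PresentedGroup.of (rels := rels48) 0} ∪ {PresentedGroup.of 1}) ∪
      {PresentedGroup.of 2}) ∪ {PresentedGroup.of 3}) : Set (PresentedGroup rels48)) = ⊤ := by
    rw [eq_top_iff, ← PresentedGroup.closure_range_of]
    apply Subgroup.closure_mono
    rintro _ ⟨k, rfl⟩
    fin_cases k
    · exact Or.inl (Or.inl (Or.inl rfl))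
    · exact Or.inl (Or.inl (Or.inr rfl))
    · exact Or.inl (Or.inr rfl)
    · exact Or.inr rfl
  rw [htop] at hf hc
  haveI := hf
  refine ⟨Finite.of_equiv _ Subgroup.topEquiv.toEquiv, ?_⟩
  rwa [Subgroup.card_top] at hc

theorem R48.lift_rels {X : Type*} [Group X] {i j c b : X} (h : R48 i j c b) :
    ∀ r ∈ rels48, FreeGroup.lift ![i, j, c, b] r = 1 := by
  obtain ⟨hi4, hji, hjc, hc3, hb2, hci, hcj, hbi, hbj, hbc⟩ := h
  rintro r (rfl | rfl | rfl | rfl | rfl | rfl | rfl | rfl | rfl | rfl)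
  · simp only [map_mul, map_inv, map_pow, FreeGroup.lift_apply_of]
    exact hi4
  · simp only [map_mul, map_inv, map_pow, FreeGroup.lift_apply_of]
    show j ^ 2 * (i ^ 2)⁻¹ = 1
    rw [hji, mul_inv_cancel]
  · simp only [map_mul, map_inv, map_pow, FreeGroup.lift_apply_of]
    show j * i * j⁻¹ * i = 1
    rw [hjc, inv_mul_cancel]
  · simp only [map_mul, map_inv, map_pow, FreeGroup.lift_apply_of]
    exact hc3
  · simp only [map_mul, map_inv, map_pow, FreeGroup.lift_apply_of]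
    exact hb2
  · simp only [map_mul, map_inv, map_pow, FreeGroup.lift_apply_of]
    show c * i * c⁻¹ * j⁻¹ = 1
    rw [hci, mul_inv_cancel]
  · simp only [map_mul, map_inv, map_pow, FreeGroup.lift_apply_of]
    show c * j * c⁻¹ * (i * j)⁻¹ = 1
    rw [hcj, mul_inv_cancel]
  · simp only [map_mul, map_inv, map_pow, FreeGroup.lift_apply_of]
    show b * i * b⁻¹ * i = 1
    rw [hbi, inv_mul_cancel]
  · simp only [map_mul, map_inv, map_pow, FreeGroup.lift_apply_of]
    show b * j * b⁻¹ * (i * j) = 1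
    rw [hbj, inv_mul_cancel]
  · simp only [map_mul, map_inv, map_pow, FreeGroup.lift_apply_of]
    show b * c * b⁻¹ * c = 1
    rw [hbc, inv_mul_cancel]

/-- A group of order 48 generated by elements satisfying the relations is presented by
them. -/
theorem R48.equiv {X : Type*} [Group X] [Finite X] (hX : Nat.card X = 48) {i j c b : X}
    (h : R48 i j c b)
    (hgen : Subgroup.closure ((({i} ∪ {j}) ∪ {c}) ∪ {b} : Set X) = ⊤) :
    ∃ φ : PresentedGroup rels48 ≃* X, φ (PresentedGroup.of 0) = i ∧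
      φ (PresentedGroup.of 1) = j ∧ φ (PresentedGroup.of 2) = c ∧ φ (PresentedGroup.of 3) = b := by
  obtain ⟨hfin, hcard⟩ := pres_card
  haveI := hfin
  obtain ⟨π, hπ⟩ : ∃ π : PresentedGroup rels48 →* X, π = PresentedGroup.toGroup h.lift_rels :=
    ⟨_, rfl⟩
  have h0 : π (PresentedGroup.of 0) = i := by rw [hπ, PresentedGroup.toGroup.of]; rfl
  have h1 : π (PresentedGroup.of 1) = j := by rw [hπ, PresentedGroup.toGroup.of]; rfl
  have h2 : π (PresentedGroup.of 2) = c := by rw [hπ, PresentedGroup.toGroup.of]; rfl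
  have h3 : π (PresentedGroup.of 3) = b := by rw [hπ, PresentedGroup.toGroup.of]; rfl
  have hsurj : Function.Surjective π := by
    rw [← MonoidHom.range_eq_top, eq_top_iff, ← hgen, Subgroup.closure_le]
    rintro x (((rfl | rfl) | rfl) | rfl)
    · exact ⟨_, h0⟩
    · exact ⟨_, h1⟩
    · exact ⟨_, h2⟩
    · exact ⟨_, h3⟩
  have hbij : Function.Bijective π :=
    hsurj.bijective_of_nat_card_le (by rw [hX]; exact hcard)
  exact ⟨MulEquiv.ofBijective π hbij, h0, h1, h2, h3⟩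

def mI : GL (Fin 2) (ZMod 3) := ⟨!![0, 1; 2, 0], !![0, 2; 1, 0], by decide, by decide⟩
def mJ : GL (Fin 2) (ZMod 3) := ⟨!![1, 2; 2, 2], !![2, 1; 1, 1], by decide, by decide⟩
def mC : GL (Fin 2) (ZMod 3) := ⟨!![1, 2; 0, 1], !![1, 1; 0, 1], by decide, by decide⟩
def mB : GL (Fin 2) (ZMod 3) := ⟨!![1, 0; 0, 2], !![1, 0; 0, 2], by decide, by decide⟩

theorem gl_R48 : R48 mI mJ mC mB := by
  unfold R48
  refine ⟨?_, ?_, ?_, ?_, ?_, ?_, ?_, ?_, ?_, ?_⟩ <;> (apply Units.ext; decide +kernel)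

theorem mI_sq_ne : mI ^ 2 ≠ 1 := by
  intro h
  have := congrArg Units.val h
  revert this
  decide +kernel

end Cfsg.Agent.Lib.helper12
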