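import Mathlib
import Cfsg.Agent.Lib.helper12.RkG

set_option autoImplicit false

namespace Cfsg.Agent.Lib.helper12

open scoped Pointwise

universe u

theorem unique_of_invol {X : Type*} [Group X] [Finite X]
    (h : ∀ s t : X, s ≠ 1 → s ^ 2 = 1 → t ≠ 1 → t ^ 2 = 1 → s = t) :
    ∀ H K : Subgroup X, Nat.card H = 2 → Nat.card K = 2 → H = K := by
  have aux : ∀ H : Subgroup X, Nat.card H = 2 → ∃ h : X, h ≠ 1 ∧ h ^ 2 = 1 ∧
      H = Subgroup.zpowers h := by
    intro H hH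
    have hnb : H ≠ ⊥ := by
      rintro rfl
      simp at hH
    obtain ⟨⟨h, hh⟩, hne⟩ := (Subgroup.ne_bot_iff_exists_ne_one).mp hnb
    have hh1 : h ≠ 1 := fun e => hne (Subtype.ext e)
    have h2 : h ^ 2 = 1 := by
      have := pow_card_eq_one' (G := H) (x := ⟨h, hh⟩)
      rw [hH] at this
      simpa using congrArg Subtype.val this
    refine ⟨h, hh1, h2, ?_⟩
    symm
    apply Subgroup.eq_of_le_of_card_ge
    · rw [Subgroup.zpowers_le]; exact hh
    · rw [hH, Nat.card_zpowers]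
      have : orderOf h = 2 := orderOf_eq_prime h2 hh1
      omega
  intro H K hH hK
  obtain ⟨a, a1, a2, rfl⟩ := aux H hH
  obtain ⟨k, k1, k2, rfl⟩ := aux K hK
  rw [h a k a1 a2 k1 k2]

theorem R48.gen_top {Q : Type*} [Group Q] [Finite Q] (F : Subgroup Q) [hFn : F.Normal] {z : Q}
    (hq : Q8In F z) (hcard : Nat.card Q = 48) {i j c b : Q} (h : R48 i j c b) (hi : i ∈ F)
    (hj : j ∈ F) (hiz : i ^ 2 = z) (hc1 : c ≠ 1) (hbF : b ∉ F) :
    Subgroup.closure ((({i} ∪ {j}) ∪ {c}) ∪ {b} : Set Q) = ⊤ := by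
  haveI : Fact (Nat.Prime 2) := ⟨Nat.prime_two⟩
  obtain ⟨hi4, hji, hjc, hc3, hb2, hci, hcj, hbi, hbj, hbc⟩ := h
  have hiH : i ∈ Subgroup.closure ((({i} ∪ {j}) ∪ {c}) ∪ {b} : Set Q) :=
    Subgroup.subset_closure (Or.inl (Or.inl (Or.inl rfl)))
  have hjH : j ∈ Subgroup.closure ((({i} ∪ {j}) ∪ {c}) ∪ {b} : Set Q) :=
    Subgroup.subset_closure (Or.inl (Or.inl (Or.inr rfl)))
  have hcH : c ∈ Subgroup.closure ((({i} ∪ {j}) ∪ {c}) ∪ {b} : Set Q) :=
    Subgroup.subset_closure (Or.inl (Or.inr rfl))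
  have hbH : b ∈ Subgroup.closure ((({i} ∪ {j}) ∪ {c}) ∪ {b} : Set Q) :=
    Subgroup.subset_closure (Or.inr rfl)
  set H := Subgroup.closure ((({i} ∪ {j}) ∪ {c}) ∪ {b} : Set Q) with hH
  have hi2 : i ^ 2 ≠ 1 := by rw [hiz]; exact hq.zne
  have hj2 : j ^ 2 ≠ 1 := by rw [hji]; exact hi2
  have hii : i ≠ i⁻¹ := by
    intro h
    apply hi2
    calc i ^ 2 = i * i := pow_two i
      _ = i * i⁻¹ := by rw [← h]
      _ = 1 := mul_inv_cancel i
  have hji1 : j ≠ i := by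
    intro hEq
    rw [hEq] at hjc
    apply hii
    simpa using hjc
  have hji1' : j ≠ i⁻¹ := by
    intro hEq
    rw [hEq] at hjc
    apply hii
    simpa using hjc
  have hFH : F ≤ H := by
    intro w hw
    rcases (hq.gen i hi j hj hi2 hj2 hji1 hji1').2.2 w hw with h | h | h | h | h | h | h | h
    · rw [h]; exact H.one_mem
    · rw [h, ← hiz]; exact H.pow_mem hiH 2
    · rw [h]; exact hiH
    · rw [h]; exact H.inv_mem hiH
    · rw [h]; exact hjH
    · rw [h]; exact H.inv_mem hjH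
    · rw [h]; exact H.mul_mem hiH hjH
    · rw [h]; exact H.inv_mem (H.mul_mem hiH hjH)
  have hF2 : IsPGroup 2 F := IsPGroup.of_card (n := 3) (by rw [hq.card]; norm_num)
  have hb1 : b ≠ 1 := fun h => hbF (h ▸ F.one_mem)
  have hbo : orderOf b = 2 := orderOf_eq_prime hb2 hb1
  have hB2 : IsPGroup 2 (Subgroup.zpowers b) :=
    IsPGroup.of_card (n := 1) (by rw [Nat.card_zpowers, hbo]; norm_num)
  have hFB : IsPGroup 2 ↥(F ⊔ Subgroup.zpowers b) := IsPGroup.to_sup_of_normal_left hF2 hB2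
  obtain ⟨k, hk⟩ := IsPGroup.iff_card.mp hFB
  have h8 : 2 ^ 3 ∣ 2 ^ k := by
    rw [← hk]
    have := Subgroup.card_dvd_of_le (le_sup_left : F ≤ F ⊔ Subgroup.zpowers b)
    rwa [hq.card] at this
  have hk3 : 3 ≤ k := (Nat.pow_dvd_pow_iff_le_right (by norm_num)).mp h8
  have hk4 : 4 ≤ k := by
    by_contra hlt
    have hk' : k = 3 := by omega
    have : F = F ⊔ Subgroup.zpowers b := by
      apply Subgroup.eq_of_le_of_card_ge le_sup_left
      rw [hk, hk', hq.card]; norm_num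
    apply hbF
    rw [this]
    exact (le_sup_right : Subgroup.zpowers b ≤ _) (Subgroup.mem_zpowers b)
  have h16 : 16 ∣ Nat.card H := by
    have h1 : F ⊔ Subgroup.zpowers b ≤ H := sup_le hFH (by rw [Subgroup.zpowers_le]; exact hbH)
    have h2 := Subgroup.card_dvd_of_le h1
    rw [hk] at h2
    exact (pow_dvd_pow 2 hk4 : 2 ^ 4 ∣ 2 ^ k).trans h2
  have h3 : 3 ∣ Nat.card H := by
    have hco : orderOf c = 3 := orderOf_eq_prime hc3 hc1
    have := Subgroup.orderOf_dvd_natCard H hcH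
    rwa [hco] at this
  have h48 : 48 ∣ Nat.card H :=
    Nat.Coprime.mul_dvd_of_dvd_of_dvd (by norm_num : Nat.Coprime 16 3) h16 h3
  have hle : Nat.card H ≤ 48 := by
    rw [← hcard]; exact Subgroup.card_le_card_group H
  have hpos : 0 < Nat.card H := Nat.card_pos
  apply Subgroup.eq_top_of_card_eq
  obtain ⟨m, hm⟩ := h48
  have : m = 1 := by omega
  rw [hm, this, hcard]

/-- Every nontrivial normal subgroup contains `z`. -/
theorem Q8In.normal_contains {Q : Type*} [Group Q] (F : Subgroup Q) [hFn : F.Normal] {z : Q}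
    (hq : Q8In F z) (hC : Subgroup.centralizer (F : Set Q) ≤ F) (N : Subgroup Q) (hN : N.Normal)
    (hne : N ≠ ⊥) : z ∈ N := by
  by_cases hcomm : ∀ n ∈ N, ∀ f ∈ F, n * f = f * n
  · obtain ⟨n, hn, hn1⟩ := (Subgroup.ne_bot_iff_exists_ne_one).mp hne |> fun ⟨x, hx⟩ =>
      (⟨(x : Q), x.2, fun h => hx (Subtype.ext h)⟩ : ∃ n : Q, n ∈ N ∧ n ≠ 1)
    rcases hq.cent hC n (hcomm n hn) with h | h
    · exact absurd h hn1
    · rw [← h]; exact hn
  · push Not at hcomm
    obtain ⟨n, hn, f, hf, hnf⟩ := hcomm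
    have hxN : n * (f * n⁻¹ * f⁻¹) ∈ N := N.mul_mem hn (hN.conj_mem _ (N.inv_mem hn) f)
    have hxF : n * f * n⁻¹ * f⁻¹ ∈ F := F.mul_mem (hFn.conj_mem f hf n) (F.inv_mem hf)
    have hx : n * (f * n⁻¹ * f⁻¹) = n * f * n⁻¹ * f⁻¹ := by group
    rw [hx] at hxN
    have hx1 : n * f * n⁻¹ * f⁻¹ ≠ 1 := by
      intro h
      apply hnf
      have : n * f = (n * f * n⁻¹ * f⁻¹) * (f * n) := by group
      rw [this, h, one_mul]
    by_cases h2 : (n * f * n⁻¹ * f⁻¹) ^ 2 = 1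
    · rcases hq.inv _ hxF h2 with h | h
      · exact absurd h hx1
      · rw [← h]; exact hxN
    · rw [← hq.sq _ hxF h2]; exact N.pow_mem hxN 2

theorem iso_GL23 {Q : Type u} [Group Q] [Finite Q] (F : Subgroup Q) [hFn : F.Normal] {z : Q}
    (hq : Q8In F z) (hC : Subgroup.centralizer (F : Set Q) ≤ F) (hcard : Nat.card Q = 48)
    (b₀ : Q) (hb₀ : b₀ ^ 2 = 1) (hb₀F : b₀ ∉ F) :
    Nonempty (Q ≃* GL (Fin 2) (ZMod 3)) := by
  obtain ⟨i, j, c, b, hR, hi, hj, hiz, hc1, hbF⟩ := exists_R48 F hq hC hcard b₀ hb₀ hb₀F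
  have hgen := hR.gen_top F hq hcard hi hj hiz hc1 hbF
  obtain ⟨φ, h0, h1, h2, h3⟩ := hR.equiv hcard hgen
  obtain ⟨ψ, hψ⟩ : ∃ ψ : PresentedGroup rels48 →* GL (Fin 2) (ZMod 3),
      ψ = PresentedGroup.toGroup gl_R48.lift_rels := ⟨_, rfl⟩
  have hψ0 : ψ (PresentedGroup.of 0) = mI := by rw [hψ, PresentedGroup.toGroup.of]; rfl
  obtain ⟨Ψ, hΨ⟩ : ∃ Ψ : Q →* GL (Fin 2) (ZMod 3), Ψ = ψ.comp φ.symm.toMonoidHom := ⟨_, rfl⟩
  have hΨi : Ψ i = mI := by
    rw [hΨ, MonoidHom.comp_apply]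
    have : φ.symm i = PresentedGroup.of 0 := by rw [← h0]; simp
    show ψ (φ.symm i) = mI
    rw [this, hψ0]
  have hinj : Function.Injective Ψ := by
    rw [← MonoidHom.ker_eq_bot_iff]
    by_contra hne
    have hz := hq.normal_contains F hC Ψ.ker (MonoidHom.normal_ker Ψ) hne
    rw [MonoidHom.mem_ker, ← hiz, map_pow, hΨi] at hz
    exact mI_sq_ne hz
  have hbij : Function.Bijective Ψ :=
    hinj.bijective_of_nat_card_le (by
      rw [Cfsg.Agent.Lib.helper28.Crit.card_GL23, hcard])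
  exact ⟨MulEquiv.ofBijective Ψ hbij⟩

theorem sylow_quat {Q : Type u} [Group Q] [Finite Q] (F : Subgroup Q) [hFn : F.Normal] {z : Q}
    (hq : Q8In F z) (hcard : Nat.card Q = 48) (hinv : ∀ t : Q, t ^ 2 = 1 → t = 1 ∨ t = z) :
    ∀ P : Sylow 2 Q, Nonempty (↥(P : Subgroup Q) ≃* QuaternionGroup 4) := by
  haveI : Fact (Nat.Prime 2) := ⟨Nat.prime_two⟩
  intro P
  have hP16 : Nat.card (P : Subgroup Q) = 16 := by
    obtain ⟨k, hk⟩ := IsPGroup.iff_card.mp P.isPGroup'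
    have h1 := Subgroup.card_mul_index (P : Subgroup Q)
    have h2 := P.not_dvd_index
    rw [hk, hcard] at h1
    have hk6 : k ≤ 5 := by
      by_contra hh
      push Not at hh
      have h3 : 2 ^ 6 ≤ 2 ^ k := Nat.pow_le_pow_right (by norm_num) hh
      have hpos : 0 < (P : Subgroup Q).index :=
        Nat.pos_of_ne_zero Subgroup.index_ne_zero_of_finite
      nlinarith
    rw [hk]
    interval_cases k
    · exfalso; apply h2; norm_num at h1; omega
    · exfalso; apply h2; norm_num at h1; omega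
    · exfalso; apply h2; norm_num at h1; omega
    · exfalso; apply h2; norm_num at h1; omega
    · norm_num
    · exfalso; norm_num at h1; omega
  have huniq : ∀ H K : Subgroup ↥(P : Subgroup Q), Nat.card H = 2 → Nat.card K = 2 → H = K := by
    apply unique_of_invol
    intro s t hs hs2 ht ht2
    have h1 : (s : Q) = z := by
      rcases hinv (s : Q) (by simpa using congrArg Subtype.val hs2) with h | h
      · exact absurd (Subtype.ext h) hs
      · exact h
    have h2 : (t : Q) = z := by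
      rcases hinv (t : Q) (by simpa using congrArg Subtype.val ht2) with h | h
      · exact absurd (Subtype.ext h) ht
      · exact h
    exact Subtype.ext (h1.trans h2.symm)
  rcases Cfsg.Agent.S0016.result 2 P.isPGroup' huniq with hc | ⟨-, n, ⟨e⟩⟩
  · exfalso
    have hFP : F ≤ (P : Subgroup Q) :=
      normal_pgroup_le_sylow F (IsPGroup.of_card (n := 3) (by rw [hq.card]; norm_num)) P
    obtain ⟨u, hu, hu2⟩ := hq.ex0
    obtain ⟨v, hv, hv2, hvu, hvu'⟩ := hq.ex u hu hu2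
    have h1 := (hq.gen u hu v hv hu2 hv2 hvu hvu').1
    obtain ⟨g, hg⟩ := hc.exists_generator
    obtain ⟨a, ha⟩ := Subgroup.mem_zpowers_iff.mp (hg ⟨u, hFP hu⟩)
    obtain ⟨b, hb⟩ := Subgroup.mem_zpowers_iff.mp (hg ⟨v, hFP hv⟩)
    have hcomm : (⟨v, hFP hv⟩ : (P : Subgroup Q)) * ⟨u, hFP hu⟩ = ⟨u, hFP hu⟩ * ⟨v, hFP hv⟩ := by
      rw [← ha, ← hb, ← zpow_add, ← zpow_add, add_comm]
    have hcomm' : v * u = u * v := congrArg Subtype.val hcomm
    apply hu2
    have h3 : u = u⁻¹ := by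
      rw [← h1, hcomm']; group
    calc u ^ 2 = u * u := pow_two u
      _ = u * u⁻¹ := by rw [← h3]
      _ = 1 := mul_inv_cancel u
  · haveI : NeZero (2 ^ n) := ⟨by positivity⟩
    have hc := Nat.card_congr e.toEquiv
    rw [hP16, Nat.card_eq_fintype_card, QuaternionGroup.card] at hc
    have hn : n = 2 := by
      have : 2 ^ n = 2 ^ 2 := by omega
      exact Nat.pow_right_injective (le_refl 2) this
    subst hn
    exact ⟨e⟩

end Cfsg.Agent.Lib.helper12
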