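import Mathlib
import Cfsg.Agent.Lib.helper12.RkH

set_option autoImplicit false

namespace Cfsg.Agent.Lib.helper12

open scoped Pointwise

universe u

set_option maxHeartbeats 1000000 in
theorem quot_S4 {Q : Type u} [Group Q] [Finite Q] (F : Subgroup Q) [hFn : F.Normal] {z : Q}
    (hq : Q8In F z) (hC : Subgroup.centralizer (F : Set Q) ≤ F) (hcard : Nat.card Q = 48)
    (hmax : ∀ N : Subgroup Q, N.Normal → IsPGroup 2 N → N ≤ F) :
    Nat.card (Subgroup.center Q) = 2 ∧
      Nonempty (Q ⧸ Subgroup.center Q ≃* Equiv.Perm (Fin 4)) := by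
  haveI : Fact (Nat.Prime 3) := ⟨Nat.prime_three⟩
  have hzo : orderOf z = 2 := orderOf_eq_prime hq.zsq hq.zne
  have hzc : Subgroup.center Q = Subgroup.zpowers z := by
    apply le_antisymm
    · intro g hg
      rcases hq.cent hC g (fun f _ => ((Subgroup.mem_center_iff.mp hg) f).symm) with h | h
      · rw [h]; exact Subgroup.one_mem _
      · rw [h]; exact Subgroup.mem_zpowers z
    · rw [Subgroup.zpowers_le, Subgroup.mem_center_iff]
      intro g
      exact hq.z_central g
  have hcc : Nat.card (Subgroup.center Q) = 2 := by rw [hzc, Nat.card_zpowers, hzo]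
  refine ⟨hcc, ?_⟩
  -- Sylow 3-subgroups have order 3
  have hS3 : ∀ R : Sylow 3 Q, Nat.card (R : Subgroup Q) = 3 ∧ (R : Subgroup Q).index = 16 := by
    intro R
    obtain ⟨k, hk⟩ := IsPGroup.iff_card.mp R.isPGroup'
    have h1 := Subgroup.card_mul_index (R : Subgroup Q)
    have h2 := R.not_dvd_index
    rw [hk, hcard] at h1
    have hk3 : k ≤ 3 := by
      by_contra hh
      push Not at hh
      have h3 : 3 ^ 4 ≤ 3 ^ k := Nat.pow_le_pow_right (by norm_num) hh
      have hpos : 0 < (R : Subgroup Q).index :=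
        Nat.pos_of_ne_zero Subgroup.index_ne_zero_of_finite
      nlinarith
    rw [hk]
    interval_cases k
    · exfalso; apply h2; norm_num at h1; omega
    · norm_num at h1 ⊢; omega
    · exfalso; norm_num at h1; omega
    · exfalso; norm_num at h1; omega
  let P : Sylow 3 Q := default
  obtain ⟨hP3, hPidx⟩ := hS3 P
  -- an element of order 3 generating P
  obtain ⟨c', hc'⟩ := exists_prime_orderOf_dvd_card' (G := (P : Subgroup Q)) 3 (by rw [hP3])
  obtain ⟨c, hcP, hco⟩ : ∃ c : Q, c ∈ (P : Subgroup Q) ∧ orderOf c = 3 :=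
    ⟨(c' : Q), c'.2, by rw [Subgroup.orderOf_coe]; exact hc'⟩
  have hc3 : c ^ 3 = 1 := by rw [← hco]; exact pow_orderOf_eq_one c
  have hc1 : c ≠ 1 := by
    rintro rfl
    rw [orderOf_one] at hco
    norm_num at hco
  -- elements of F ∩ P are trivial
  have hFP : ∀ x : Q, x ∈ F → x ∈ (P : Subgroup Q) → x = 1 := by
    intro x hxF hxP
    have h4 := hq.pow4 x hxF
    have h3 : x ^ 3 = 1 := by
      have := pow_card_eq_one' (G := (P : Subgroup Q)) (x := ⟨x, hxP⟩)
      rw [hP3] at this
      simpa using congrArg Subtype.val this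
    have : x ^ 4 = x ^ 3 * x := pow_succ x 3
    rw [h4, h3, one_mul] at this
    exact this.symm
  -- number of Sylow 3-subgroups
  have hn4 : Nat.card (Sylow 3 Q) = 4 := by
    have hmod : Nat.card (Sylow 3 Q) % 3 = 1 := by
      have := card_sylow_modEq_one 3 Q
      simpa [Nat.ModEq] using this
    have hdvd : Nat.card (Sylow 3 Q) ∣ 16 := by
      have := P.card_dvd_index
      rwa [hPidx] at this
    have hidxN := P.card_eq_index_normalizer
    have hle : Nat.card (Sylow 3 Q) ≤ 16 := Nat.le_of_dvd (by norm_num) hdvd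
    have hcases : Nat.card (Sylow 3 Q) = 1 ∨ Nat.card (Sylow 3 Q) = 4 ∨
        Nat.card (Sylow 3 Q) = 16 := by
      generalize Nat.card (Sylow 3 Q) = n at hmod hdvd hle
      interval_cases n <;> omega
    rcases hcases with h | h | h
    · exfalso
      rw [h] at hidxN
      have hNtop : Subgroup.normalizer ((P : Subgroup Q) : Set Q) = ⊤ :=
        Subgroup.index_eq_one.mp hidxN.symm
      have hPn : (P : Subgroup Q).Normal := Subgroup.normalizer_eq_top_iff.mp hNtop
      obtain ⟨u, hu, hu2⟩ := hq.ex0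
      have hxF : c * u * c⁻¹ * u⁻¹ ∈ F := F.mul_mem (hFn.conj_mem u hu c) (F.inv_mem hu)
      have hxP : c * (u * c⁻¹ * u⁻¹) ∈ (P : Subgroup Q) :=
        Subgroup.mul_mem _ hcP (hPn.conj_mem _ (Subgroup.inv_mem _ hcP) u)
      have hx : c * (u * c⁻¹ * u⁻¹) = c * u * c⁻¹ * u⁻¹ := by group
      rw [hx] at hxP
      have h1 := hFP _ hxF hxP
      apply (hq.ord3 hC c hc3 hc1 u hu hu2).1
      exact mul_inv_eq_one.mp h1
    · exact h
    · exfalso
      rw [h] at hidxN
      have h1 := Subgroup.card_mul_index (Subgroup.normalizer ((P : Subgroup Q) : Set Q))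
      have hidx' : (Subgroup.normalizer ((P : Subgroup Q) : Set Q)).index = 16 := hidxN.symm
      rw [hidx', hcard] at h1
      have hN3 : Nat.card (Subgroup.normalizer ((P : Subgroup Q) : Set Q)) = 3 := by omega
      have hzN : z ∈ Subgroup.normalizer ((P : Subgroup Q) : Set Q) :=
        Subgroup.center_le_normalizer _ (by rw [hzc]; exact Subgroup.mem_zpowers z)
      have := Subgroup.orderOf_dvd_natCard _ hzN
      rw [hzo, hN3] at this
      omega
  -- the action on Sylow 3-subgroups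
  obtain ⟨φ, hφ⟩ : ∃ φ : Q →* Equiv.Perm (Sylow 3 Q), φ = MulAction.toPermHom Q (Sylow 3 Q) :=
    ⟨_, rfl⟩
  have hφapp : ∀ (g : Q) (R : Sylow 3 Q), φ g R = g • R := by
    intro g R; rw [hφ]; rfl
  have hfixK : ∀ g ∈ φ.ker, ∀ R : Sylow 3 Q, g ∈ Subgroup.normalizer ((R : Subgroup Q) : Set Q) := by
    intro g hg R
    rw [MonoidHom.mem_ker] at hg
    have := congrArg (fun σ => σ R) hg
    simp only [hφapp, Equiv.Perm.coe_one, id_eq] at this
    exact Sylow.smul_eq_iff_mem_normalizer.mp this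
  -- the kernel is a 2-group
  have hK2 : IsPGroup 2 φ.ker := by
    have hdvd : Nat.card φ.ker ∣ 48 := by
      rw [← hcard]; exact Subgroup.card_subgroup_dvd_card _
    have h3 : ¬ 3 ∣ Nat.card φ.ker := by
      intro h3
      obtain ⟨k', hk'⟩ := exists_prime_orderOf_dvd_card' (G := φ.ker) 3 h3
      have hko : orderOf (k' : Q) = 3 := by rw [Subgroup.orderOf_coe]; exact hk'
      have hkp : IsPGroup 3 (Subgroup.zpowers (k' : Q)) :=
        IsPGroup.of_card (n := 1) (by rw [Nat.card_zpowers, hko]; norm_num)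
      have hall : ∀ R : Sylow 3 Q, (R : Subgroup Q) = Subgroup.zpowers (k' : Q) := by
        intro R
        have h1 := hkp.inf_normalizer_sylow R
        have hkR : (k' : Q) ∈ (R : Subgroup Q) := by
          have h0 : (k' : Q) ∈ Subgroup.zpowers (k' : Q) ⊓
              Subgroup.normalizer ((R : Subgroup Q) : Set Q) :=
            ⟨Subgroup.mem_zpowers _, hfixK _ k'.2 R⟩
          have h0' : (k' : Q) ∈ Subgroup.zpowers (k' : Q) ⊓ (R : Subgroup Q) := h1 ▸ h0
          exact h0'.2
        symm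
        apply Subgroup.eq_of_le_of_card_ge
        · rw [Subgroup.zpowers_le]; exact hkR
        · rw [(hS3 R).1, Nat.card_zpowers, hko]
      have hsub : Subsingleton (Sylow 3 Q) :=
        ⟨fun R₁ R₂ => Sylow.ext ((hall R₁).trans (hall R₂).symm)⟩
      have := @Nat.card_of_subsingleton (Sylow 3 Q) P hsub
      omega
    have h16 : Nat.card φ.ker ∣ 16 := by
      have hcop : Nat.Coprime (Nat.card φ.ker) 3 :=
        (Nat.Coprime.symm ((Nat.Prime.coprime_iff_not_dvd Nat.prime_three).mpr h3))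
      exact hcop.dvd_of_dvd_mul_right (by norm_num; exact hdvd)
    obtain ⟨m, -, hm⟩ := (Nat.dvd_prime_pow Nat.prime_two (m := 4)).mp (by norm_num; exact h16)
    exact IsPGroup.of_card hm
  have hKF : φ.ker ≤ F := hmax _ (MonoidHom.normal_ker φ) hK2
  have hker : φ.ker = Subgroup.center Q := by
    apply le_antisymm
    · intro g hg
      have hgF : g ∈ F := hKF hg
      have hgN := hfixK g hg P
      have h1 : g * c * g⁻¹ ∈ (P : Subgroup Q) := (Subgroup.mem_normalizer_iff.mp hgN c).mp hcP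
      have hxP : g * c * g⁻¹ * c⁻¹ ∈ (P : Subgroup Q) :=
        Subgroup.mul_mem _ h1 (Subgroup.inv_mem _ hcP)
      have hxF : g * (c * g⁻¹ * c⁻¹) ∈ F := F.mul_mem hgF (hFn.conj_mem _ (F.inv_mem hgF) c)
      have hx : g * (c * g⁻¹ * c⁻¹) = g * c * g⁻¹ * c⁻¹ := by group
      rw [hx] at hxF
      have h2 := hFP _ hxF hxP
      have h3 : c * g = g * c := by
        have : g * c = (g * c * g⁻¹ * c⁻¹) * (c * g) := by group
        rw [this, h2, one_mul]
      rcases hq.cent3 hC c hc3 hc1 g hgF h3 with h | h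
      · rw [h]; exact Subgroup.one_mem _
      · rw [h, hzc]; exact Subgroup.mem_zpowers z
    · intro g hg
      rw [MonoidHom.mem_ker]
      ext R : 1
      rw [hφapp]
      show g • R = R
      exact Sylow.smul_eq_iff_mem_normalizer.mpr (Subgroup.center_le_normalizer _ hg)
  have hinj := QuotientGroup.kerLift_injective φ
  have hbij : Function.Bijective (QuotientGroup.kerLift φ) :=
    hinj.bijective_of_nat_card_le (by
      rw [Nat.card_perm, hn4]
      have h1 := Subgroup.card_mul_index φ.ker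
      rw [hker, hcc, hcard] at h1
      have h2 : Nat.card (Q ⧸ φ.ker) = φ.ker.index := rfl
      rw [h2, hker]
      have : (Subgroup.center Q).index = 24 := by omega
      rw [this]
      decide)
  exact ⟨(QuotientGroup.quotientMulEquivOfEq hker.symm).trans
    ((MulEquiv.ofBijective _ hbij).trans (Equiv.permCongrHom (Finite.equivFinOfCardEq hn4)))⟩

/-- Solvable groups with `O(Q) = 1` in which distinct Sylow 2-subgroups meet in rank at most 1. -/
theorem rk_main {Q : Type u} [Group Q] [Finite Q] (hs : Group.IsSolvable Q)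
    (hO : Cfsg.oddCore Q = ⊥)
    (hI : ∀ S T : Sylow 2 Q, S ≠ T →
      Cfsg.PRankLE 2 1 ↥((S : Subgroup Q) ⊓ (T : Subgroup Q))) :
    (∃ P : Sylow 2 Q, (P : Subgroup Q).Normal) ∨ Nonempty (Q ≃* GL (Fin 2) (ZMod 3)) ∨
    (Nat.card Q = 48 ∧ Nat.card ↥(Subgroup.center Q) = 2 ∧
      Nonempty (Q ⧸ Subgroup.center Q ≃* Equiv.Perm (Fin 4)) ∧
      ∀ P : Sylow 2 Q, Nonempty (↥(P : Subgroup Q) ≃* QuaternionGroup 4)) := by
  haveI : Fact (Nat.Prime 2) := ⟨Nat.prime_two⟩
  by_cases hnn : ∃ P : Sylow 2 Q, (P : Subgroup Q).Normal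
  · exact Or.inl hnn
  right
  obtain ⟨e⟩ := rk_reduce hs hO hI hnn
  haveI hFn : (Cfsg.fittingSubgroup Q).Normal := Cfsg.Agent.Lib.helper7.fitting_normal Q
  have hC := Cfsg.Agent.Lib.helper7.centralizer_fitting_le_of_solvable Q hs
  have hq := q8in_of_equiv _ e
  have hcard := card_eq_48 _ e hC hnn
  have hmax : ∀ N : Subgroup Q, N.Normal → IsPGroup 2 N → N ≤ Cfsg.fittingSubgroup Q := by
    intro N hN hN2
    exact Cfsg.Agent.Lib.helper7.le_fitting hN hN2.isNilpotent
  by_cases hinv : ∀ t : Q, t ^ 2 = 1 →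
      t = 1 ∨ t = ((e.symm (QuaternionGroup.a 2) : ↥(Cfsg.fittingSubgroup Q)) : Q)
  · right
    obtain ⟨h1, h2⟩ := quot_S4 _ hq hC hcard hmax
    exact ⟨hcard, h1, h2, sylow_quat _ hq hcard hinv⟩
  · left
    push Not at hinv
    obtain ⟨b₀, hb₀, hb1, hbz⟩ := hinv
    have hb₀F : b₀ ∉ Cfsg.fittingSubgroup Q := by
      intro h
      rcases hq.inv b₀ h hb₀ with h' | h'
      · exact hb1 h'
      · exact hbz h'
    exact iso_GL23 _ hq hC hcard b₀ hb₀ hb₀F

end Cfsg.Agent.Lib.helper12
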