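import Mathlib
import Cfsg.Agent.Lib.helper15.S1454E
import Cfsg.Agent.Lib.helper26.S1454F
import Cfsg.Agent.Lib.helper12.S1456M2
import Cfsg.Agent.Lib.helper12.S1455Q1

/-!
Piece (X3r) of the S1454 split (relative form): a `p'`-element `a` of order prime to `p - 1`
normalizing `R` and the extraspecial subgroup `D` of order `p ^ 3` centralizes `C_R(D)`,
when `R` has no elementary abelian subgroup of order `p ^ 3`.
-/

namespace Cfsg.Agent.Lib.helper12.S1454X3r

open scoped commutatorElement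
open Cfsg.Agent.Lib.helper12.S1456M2

/-- exponent `p` passes to `X ⊔ ⟨e⟩` when `e` commutes with `X`. -/
theorem sup_zpowers_exp {G : Type*} [Group G] (p : ℕ) (X : Subgroup G) (e : G)
    (hX : ∀ a ∈ X, a ^ p = 1) (he : e ^ p = 1) (hXe : ∀ a ∈ X, a * e = e * a) :
    ∀ b ∈ X ⊔ Subgroup.zpowers e, b ^ p = 1 := by
  intro b hb
  have hc : ∀ a ∈ X, ∀ c ∈ Subgroup.zpowers e, a * c = c * a := by
    intro a ha c hc
    obtain ⟨k, rfl⟩ := Subgroup.mem_zpowers_iff.mp hc
    exact ((show Commute a e from hXe a ha).zpow_right k).eq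
  obtain ⟨a, ha, c, hc', rfl⟩ :=
    Cfsg.Agent.Lib.helper12.S1455Q1.mem_sup_comm X (Subgroup.zpowers e) hc b hb
  obtain ⟨k, rfl⟩ := Subgroup.mem_zpowers_iff.mp hc'
  rw [(show Commute a (e ^ k) from hc a ha _ hc').mul_pow, hX a ha, one_mul, ← zpow_natCast,
    ← zpow_mul, mul_comm, zpow_mul, zpow_natCast, he, one_zpow]

theorem conj_mem_centralizer {G : Type*} [Group G] (D : Subgroup G) (a h : G)
    (haD : a ∈ Subgroup.normalizer (D : Set G)) (hh : h ∈ Subgroup.centralizer (D : Set G)) :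
    a * h * a⁻¹ ∈ Subgroup.centralizer (D : Set G) := by
  rw [Subgroup.mem_centralizer_iff] at hh ⊢
  intro d hd
  have hd' : a⁻¹ * d * a ∈ D := by
    have h1 := (Subgroup.mem_normalizer_iff.mp haD (a⁻¹ * d * a))
    apply h1.mpr
    have e : a * (a⁻¹ * d * a) * a⁻¹ = d := by group
    rw [e]; exact hd
  have h2 := hh _ (SetLike.mem_coe.mpr hd')
  calc d * (a * h * a⁻¹) = a * ((a⁻¹ * d * a) * h) * a⁻¹ := by group
    _ = a * (h * (a⁻¹ * d * a)) * a⁻¹ := by rw [h2]
    _ = a * h * a⁻¹ * d := by group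

theorem cent_centralizer_rel {G : Type*} [Group G] [Finite G] (p : ℕ) [Fact p.Prime] (hp : p ≠ 2)
    (R D : Subgroup G) (hR : IsPGroup p R) (hDR : D ≤ R)
    (hr : ∀ B : Subgroup G, B ≤ R → (∀ x ∈ B, ∀ y ∈ B, x * y = y * x) → (∀ x ∈ B, x ^ p = 1) →
      Nat.card B ≤ p ^ 2)
    (hexp : ∀ d ∈ D, d ^ p = 1) (hD3 : Nat.card D = p ^ 3)
    (hZ : Nat.card ↥(D ⊓ Subgroup.centralizer (D : Set G)) = p) (a : G)
    (haR : a ∈ Subgroup.normalizer (R : Set G)) (haD : a ∈ Subgroup.normalizer (D : Set G))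
    (ha : (orderOf a).Coprime (p * (p - 1))) :
    ∀ c ∈ R ⊓ Subgroup.centralizer (D : Set G), a * c = c * a := by
  classical
  have hpp : p.Prime := Fact.out
  have hap : (orderOf a).Coprime p := Nat.Coprime.coprime_mul_right_right ha
  have hap1 : (orderOf a).Coprime (p - 1) := Nat.Coprime.coprime_mul_left_right ha
  set C : Subgroup G := R ⊓ Subgroup.centralizer (D : Set G) with hCdef
  set Z : Subgroup G := D ⊓ Subgroup.centralizer (D : Set G) with hZdef
  have hCp : IsPGroup p C := hR.to_le inf_le_left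
  have hZD : Z ≤ D := inf_le_left
  have hZp : IsPGroup p Z := hR.to_le (hZD.trans hDR)
  have hai : a⁻¹ ∈ Subgroup.normalizer (D : Set G) := inv_mem haD
  -- a normalizes the centralizer of D
  have haCD : ∀ h, h ∈ Subgroup.centralizer (D : Set G) ↔
      a * h * a⁻¹ ∈ Subgroup.centralizer (D : Set G) := by
    intro h
    constructor
    · exact conj_mem_centralizer D a h haD
    · intro hh
      have h1 := conj_mem_centralizer D a⁻¹ _ hai hh
      have e : a⁻¹ * (a * h * a⁻¹) * a⁻¹⁻¹ = h := by group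
      rwa [e] at h1
  have haC : a ∈ Subgroup.normalizer (C : Set G) := by
    rw [Subgroup.mem_normalizer_iff]
    intro h
    have h1 := Subgroup.mem_normalizer_iff.mp haR h
    have h2 := haCD h
    constructor
    · rintro ⟨hh1, hh2⟩
      exact ⟨h1.mp hh1, h2.mp hh2⟩
    · rintro ⟨hh1, hh2⟩
      exact ⟨h1.mpr hh1, h2.mpr hh2⟩
  have haZ : a ∈ Subgroup.normalizer (Z : Set G) := by
    rw [Subgroup.mem_normalizer_iff]
    intro h
    have h1 := Subgroup.mem_normalizer_iff.mp haD h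
    have h2 := haCD h
    constructor
    · rintro ⟨hh1, hh2⟩
      exact ⟨h1.mp hh1, h2.mp hh2⟩
    · rintro ⟨hh1, hh2⟩
      exact ⟨h1.mpr hh1, h2.mpr hh2⟩
  -- Z commutes with D
  have hZc : ∀ z ∈ Z, ∀ x ∈ D, z * x = x * z := by
    intro z hz x hx
    exact (Subgroup.mem_centralizer_iff.mp hz.2 x hx).symm
  have hZab : ∀ x ∈ Z, ∀ y ∈ Z, x * y = y * x := fun x hx y hy => hZc x hx y (hZD hy)
  -- an element d of D outside Z
  obtain ⟨d, hd, hdZ⟩ : ∃ d ∈ D, d ∉ Z := by
    by_contra hcon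
    push_neg at hcon
    have hle : D ≤ Z := fun x hx => hcon x hx
    have heq : Z = D := le_antisymm hZD hle
    have h1 : Nat.card Z = Nat.card D := by rw [heq]
    rw [hZ, hD3] at h1
    have h2 : p ^ 1 = p ^ 3 := by rw [pow_one]; exact h1
    have h3 := Nat.pow_right_injective hpp.two_le h2
    omega
  -- critical subgroup of C
  obtain ⟨E, hEC, hEexp, -, -, hcrit, -⟩ :=
    Cfsg.Agent.Lib.helper15.S1454E.exists_critical_plus p hp C hCp
  -- E ≤ Z
  have hEZ : E ≤ Z := by
    intro x hx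
    by_contra hxZ
    have hxC : x ∈ C := hEC hx
    have hxR : x ∈ R := hxC.1
    have hxD : ∀ y ∈ D, y * x = x * y := fun y hy => Subgroup.mem_centralizer_iff.mp hxC.2 y hy
    have hKD : Z ⊔ Subgroup.zpowers d ≤ D := sup_le hZD (by rw [Subgroup.zpowers_le]; exact hd)
    have hKab := sup_zpowers_comm Z d hZab (fun z hz => hZc z hz d hd)
    have hZK : Z < Z ⊔ Subgroup.zpowers d := by
      refine lt_of_le_of_ne le_sup_left ?_
      intro h
      apply hdZ
      rw [h]
      exact Subgroup.mem_sup_right (Subgroup.mem_zpowers d)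
    have h1 := card_mul_le_of_lt p Z _ hZK (fun y hy => hexp y (hKD hy))
    rw [hZ] at h1
    have hxK : x ∉ Z ⊔ Subgroup.zpowers d := by
      intro h
      exact hxZ ⟨hKD h, hxC.2⟩
    have hKx : ∀ k ∈ Z ⊔ Subgroup.zpowers d, k * x = x * k := fun k hk => hxD k (hKD hk)
    have hK'ab := sup_zpowers_comm (Z ⊔ Subgroup.zpowers d) x hKab hKx
    have hK'exp := sup_zpowers_exp p (Z ⊔ Subgroup.zpowers d) x (fun y hy => hexp y (hKD hy))
      (hEexp x hx) hKx
    have hK'R : Z ⊔ Subgroup.zpowers d ⊔ Subgroup.zpowers x ≤ R :=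
      sup_le (hKD.trans hDR) (by rw [Subgroup.zpowers_le]; exact hxR)
    have hKK' : Z ⊔ Subgroup.zpowers d < Z ⊔ Subgroup.zpowers d ⊔ Subgroup.zpowers x := by
      refine lt_of_le_of_ne le_sup_left ?_
      intro h
      apply hxK
      rw [h]
      exact Subgroup.mem_sup_right (Subgroup.mem_zpowers x)
    have h2 := card_mul_le_of_lt p _ _ hKK' hK'exp
    have h3 := hr _ hK'R hK'ab hK'exp
    have h4 : p * (p * p) ≤ p ^ 2 := by
      calc p * (p * p) ≤ p * Nat.card ↥(Z ⊔ Subgroup.zpowers d) := Nat.mul_le_mul_left _ h1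
        _ ≤ _ := h2
        _ ≤ p ^ 2 := h3
    have h5 := hpp.one_lt
    have h6 := pow_pos hpp.pos 2
    nlinarith
  -- a centralizes Z
  have hbot : Subgroup.normalizer (((⊥ : Subgroup G) : Subgroup G) : Set G) = ⊤ :=
    Subgroup.normalizer_eq_top _
  have haZc : ∀ z ∈ Z, a * z = z * a := by
    intro z hz
    have h1 := Cfsg.Agent.Lib.helper26.S1454F.rel_coprime_acts_trivially p Z ⊥ bot_le hZp
      (by rw [hbot]; exact le_top) (by rw [Subgroup.card_bot, mul_one, hZ]) a haZ
      (by rw [hbot]; exact Subgroup.mem_top a) hap1 z hz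
    rw [Subgroup.mem_bot] at h1
    have h2 : a * z * a⁻¹ = z := by
      have := congrArg (fun t => t * z) h1
      simpa using this
    calc a * z = a * z * a⁻¹ * a := by group
      _ = z * a := by rw [h2]
  have haE : a ∈ Subgroup.centralizer (E : Set G) := by
    rw [Subgroup.mem_centralizer_iff]
    intro x hx
    exact (haZc x (hEZ hx)).symm
  have haCc := hcrit a haC hap haE
  intro c hc
  exact (Subgroup.mem_centralizer_iff.mp haCc c hc).symm

end Cfsg.Agent.Lib.helper12.S1454X3r
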